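import Cfsg.Agent.Lib.Grp.Fstar
import Cfsg.Agent.Lib.Grp.PRes
import Cfsg.Agent.Lib.Char.CharBurn

/-! Groups in which every nontrivial biprimary subgroup has a maximal normalizer: generalities. -/

set_option autoImplicit false

namespace CA.BpN1

open Subgroup Cfsg CA.Rad

variable {X : Type*} [Group X]

/-- at most two primes divide the order -/
def BP (H : Subgroup X) : Prop :=
  ∃ p q : ℕ, p.Prime ∧ q.Prime ∧ ∀ r : ℕ, r.Prime → r ∣ Nat.card H → r = p ∨ r = q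

variable (X) in
/-- nontrivial biprimary subgroups have maximal normalizers -/
def HM : Prop := ∀ H : Subgroup X, H ≠ ⊥ → BP H → IsCoatom (normalizer (H : Set X))

theorem eq_of_pgroup [Finite X] {A : Subgroup X} {r s : ℕ} (hr : r.Prime) (hA : IsPGroup r A)
    (hs : s.Prime) (h : s ∣ Nat.card A) : s = r := by
  have := Fact.mk hr
  obtain ⟨k, hk⟩ := IsPGroup.iff_card.1 hA
  rw [hk] at h
  exact (Nat.prime_dvd_prime_iff_eq hs hr).1 (hs.dvd_of_dvd_pow h)

theorem bp_of_pgroup [Finite X] {A : Subgroup X} {r : ℕ} (hr : r.Prime) (hA : IsPGroup r A) : BP A :=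
  ⟨r, r, hr, hr, fun _ hs h => Or.inl (eq_of_pgroup hr hA hs h)⟩

theorem bp_sup [Finite X] {A T : Subgroup X} {r s : ℕ} (hr : r.Prime) (hs : s.Prime)
    (hA : IsPGroup r A) (hT : IsPGroup s T) (hn : T ≤ normalizer (A : Set X)) : BP (A ⊔ T) :=
  ⟨r, s, hr, hs, fun _ hl h => ((Nat.Prime.dvd_mul hl).1 (h.trans (card_sup_dvd' hn))).imp
    (eq_of_pgroup hr hA hl) (eq_of_pgroup hs hT hl)⟩

theorem HM.eqN (h : HM X) {A B : Subgroup X} (hA : A ≠ ⊥) (hA' : BP A) (hB : B ≠ ⊥) (hB' : BP B)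
    (hle : normalizer (A : Set X) ≤ normalizer (B : Set X)) :
    normalizer (A : Set X) = normalizer (B : Set X) := by
  by_contra hne
  exact (h B hB hB').1 ((h A hA hA').2 _ (lt_of_le_of_ne hle hne))

theorem mul_pow_mem {A : Subgroup X} {a t : X} (ha : a ∈ A) (ht : t ∈ normalizer (A : Set X))
    (n : ℕ) : ∃ a' ∈ A, (a * t) ^ n = a' * t ^ n := by
  induction n with
  | zero => exact ⟨1, A.one_mem, by simp⟩
  | succ n ih =>
    obtain ⟨a', h1, h2⟩ := ih
    refine ⟨a' * (t ^ n * a * (t ^ n)⁻¹),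
      A.mul_mem h1 ((mem_normalizer_iff.1 (Subgroup.pow_mem _ ht n) a).1 ha), ?_⟩
    rw [pow_succ, h2, pow_succ]; group

theorem pow_eq_one_of_pgroup {A : Subgroup X} {r : ℕ} (hA : IsPGroup r A) {a : X} (ha : a ∈ A) :
    ∃ k : ℕ, a ^ r ^ k = 1 := by
  obtain ⟨k, hk⟩ := hA ⟨a, ha⟩
  exact ⟨k, by simpa using congrArg Subtype.val hk⟩

theorem eq_one_of_coprime {t : X} {m n : ℕ} (h : m.Coprime n) (h1 : t ^ m = 1) (h2 : t ^ n = 1) :
    t = 1 := by
  have := pow_gcd_eq_one.2 ⟨h1, h2⟩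
  rwa [h.gcd_eq_one, pow_one] at this

theorem mem_of_pow {A T : Subgroup X} {r s : ℕ} (hrs : r.Coprime s) (hA : IsPGroup r A)
    (hT : IsPGroup s T) (hn : T ≤ normalizer (A : Set X)) {b : X} (hb : b ∈ A ⊔ T) {k : ℕ}
    (h1 : b ^ r ^ k = 1) : b ∈ A := by
  obtain ⟨a, ha, t, ht, rfl⟩ := (mem_sup_iff_of_le_normalizer' hn).1 hb
  obtain ⟨a', h2, h3⟩ := mul_pow_mem ha (hn ht) (r ^ k)
  have h4 : t ^ r ^ k ∈ A := by
    rw [h3] at h1
    rw [eq_inv_of_mul_eq_one_right h1]; exact A.inv_mem h2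
  obtain ⟨j, hj⟩ := pow_eq_one_of_pgroup hA h4
  obtain ⟨l, hl⟩ := pow_eq_one_of_pgroup hT ht
  rw [← pow_mul, ← pow_add] at hj
  rw [eq_one_of_coprime (Nat.Coprime.pow _ _ hrs) hj hl, mul_one]; exact ha

variable [Finite X]

theorem HM.q1 (h : HM X) {A T : Subgroup X} {r s : ℕ} (hr : r.Prime) (hs : s.Prime) (hrs : r ≠ s)
    (hA0 : A ≠ ⊥) (hA : IsPGroup r A) (hT : IsPGroup s T) (hn : T ≤ normalizer (A : Set X)) :
    normalizer ((A ⊔ T : Subgroup X) : Set X) = normalizer (A : Set X) := by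
  refine h.eqN (fun e => hA0 (le_bot_iff.1 (e ▸ le_sup_left))) (bp_sup hr hs hA hT hn) hA0
    (bp_of_pgroup hr hA) fun g hg => mem_normalizer_of_conj_mem fun a ha => ?_
  obtain ⟨k, hk⟩ := pow_eq_one_of_pgroup hA ha
  refine mem_of_pow ((Nat.coprime_primes hr hs).2 hrs) hA hT hn
    ((mem_normalizer_iff.1 hg a).1 (mem_sup_left ha)) (k := k) ?_
  rw [conj_pow, hk]; group

theorem HM.nn (h : HM X) {A T : Subgroup X} {r s : ℕ} (hr : r.Prime) (hs : s.Prime) (hrs : r ≠ s)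
    (hA0 : A ≠ ⊥) (hT0 : T ≠ ⊥) (hA : IsPGroup r A) (hT : IsPGroup s T)
    (hn : T ≤ normalizer (A : Set X)) (hn' : A ≤ normalizer (T : Set X)) :
    normalizer (A : Set X) = normalizer (T : Set X) := by
  rw [← h.q1 hr hs hrs hA0 hA hT hn, sup_comm, h.q1 hs hr hrs.symm hT0 hT hA hn']

omit [Finite X] in
theorem pgroup_zpowers {x : X} {r k : ℕ} (h : x ^ r ^ k = 1) : IsPGroup r (zpowers x) := by
  rintro ⟨_, n, rfl⟩
  refine ⟨k, Subtype.ext ?_⟩
  show (x ^ n) ^ r ^ k = 1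
  rw [← zpow_natCast, ← zpow_mul, mul_comm, zpow_mul, zpow_natCast, h, one_zpow]

omit [Finite X] in
theorem mem_norm_zpowers_of_comm {x g : X} (h : g * x = x * g) :
    g ∈ normalizer (zpowers x : Set X) :=
  centralizer_le_normalizer _ (by
    rw [mem_centralizer_iff]; rintro _ ⟨n, rfl⟩; exact ((show Commute g x from h).zpow_right n).eq.symm)

theorem mem_norm_zpowers {x g : X} (h : g * x * g⁻¹ ∈ zpowers x) :
    g ∈ normalizer (zpowers x : Set X) :=
  mem_normalizer_of_conj_mem (by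
    rintro _ ⟨n, rfl⟩
    simp only []
    rw [← conj_zpow]; exact zpow_mem h n)

omit [Finite X] in
theorem conj_mem_zpowers {x g : X} (h : g ∈ normalizer (zpowers x : Set X)) :
    g * x * g⁻¹ ∈ zpowers x := (mem_normalizer_iff.1 h x).1 (mem_zpowers x)

theorem HM.nn' (h : HM X) {x y : X} {r s i j : ℕ} (hr : r.Prime) (hs : s.Prime) (hrs : r ≠ s)
    (hx0 : x ≠ 1) (hy0 : y ≠ 1) (hx : x ^ r ^ i = 1) (hy : y ^ s ^ j = 1) (hc : x * y = y * x) :
    normalizer (zpowers x : Set X) = normalizer (zpowers y : Set X) :=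
  h.nn hr hs hrs (by simpa) (by simpa) (pgroup_zpowers hx) (pgroup_zpowers hy)
    (zpowers_le.2 (mem_norm_zpowers_of_comm hc.symm)) (zpowers_le.2 (mem_norm_zpowers_of_comm hc))

omit [Finite X] in
theorem comm_of_norm_inv {z g : X} (hz : z * z = 1) (h : g ∈ normalizer (zpowers z : Set X)) :
    g * z = z * g := by
  obtain ⟨n, hn⟩ := conj_mem_zpowers h
  simp only [] at hn
  have h2 : z ^ (2 : ℤ) = 1 := by rw [zpow_two, hz]
  rcases Int.even_or_odd' n with ⟨k, rfl | rfl⟩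
  · rw [zpow_mul, h2, one_zpow] at hn
    have : z = 1 := by simpa [mul_inv_eq_one] using hn.symm
    simp [this]
  · rw [zpow_add, zpow_mul, h2, one_zpow, one_mul, zpow_one] at hn
    exact mul_inv_eq_iff_eq_mul.1 hn.symm

/-- element form of `q1` through an embedding -/
theorem HM.q1e (h : HM X) {L : Type*} [Group L] (ι : L →* X) (hι : Function.Injective ι)
    {A : Subgroup L} {r s k : ℕ} (hr : r.Prime) (hs : s.Prime) (hrs : r ≠ s)
    (hA0 : A ≠ ⊥) (hA : IsPGroup r A) {t u : L} (ht : t ^ s ^ k = 1)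
    (htn : ∀ a ∈ A, t * a * t⁻¹ ∈ A) (hun : ∀ a ∈ A, u * a * u⁻¹ ∈ A) :
    ∃ a ∈ A, ∃ i : ℤ, u * t * u⁻¹ = a * t ^ i := by
  have key : ∀ v : L, (∀ a ∈ A, v * a * v⁻¹ ∈ A) → ι v ∈ normalizer ((A.map ι : Subgroup X) : Set X) :=
    fun v hv => mem_normalizer_of_conj_mem (by
      rintro _ ⟨a, ha, rfl⟩
      exact ⟨_, hv a ha, by simp⟩)
  have hn : zpowers (ι t) ≤ normalizer ((A.map ι : Subgroup X) : Set X) := zpowers_le.2 (key t htn)
  have h1 := h.q1 hr hs hrs (by rwa [Ne, map_eq_bot_iff_of_injective _ hι]) (hA.map ι)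
    (pgroup_zpowers (x := ι t) (k := k) (by rw [← map_pow, ht, map_one])) hn
  have h2 := key u hun
  rw [← h1] at h2
  obtain ⟨_, ⟨a, ha, rfl⟩, _, ⟨i, rfl⟩, e⟩ := (mem_sup_iff_of_le_normalizer' hn).1
    ((mem_normalizer_iff.1 h2 _).1 (mem_sup_right (mem_zpowers (ι t))))
  exact ⟨a, ha, i, hι (by simpa using e.symm)⟩

/-- the centralizer trick -/
theorem HM.q3 (h : HM X) {L : Type*} [Group L] [Finite L] (ι : L →* X) (hι : Function.Injective ι)
    (hn : ι.range.Normal) {u g : L} {r : ℕ} (hr : r.Prime) (hu : u ≠ 1)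
    (hC : IsPGroup r (centralizer ({u} : Set L)))
    (hg : g ∈ normalizer ((centralizer ({u} : Set L) : Subgroup L) : Set L)) :
    g * u * g⁻¹ ∈ zpowers u := by
  have hu' : u ∈ centralizer ({u} : Set L) := mem_centralizer_singleton_iff.2 rfl
  obtain ⟨k, hk⟩ := pow_eq_one_of_pgroup hC hu'
  have h1 := h.eqN (A := zpowers (ι u)) (B := (centralizer ({u} : Set L)).map ι)
    (by simpa [map_eq_one_iff ι hι]) (bp_of_pgroup hr (pgroup_zpowers (k := k)
      (by rw [← map_pow, hk, map_one])))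
    (by rw [Ne, map_eq_bot_iff_of_injective _ hι]; exact fun e => hu (by simpa [e] using hu'))
    (bp_of_pgroup hr (hC.map ι)) fun x hx => mem_normalizer_of_conj_mem (by
      rintro _ ⟨c, hc, rfl⟩
      obtain ⟨c', hc'⟩ := hn.conj_mem _ ⟨c, rfl⟩ x
      refine ⟨c', mem_centralizer_singleton_iff.2 (hι ?_), hc'⟩
      obtain ⟨n, hn⟩ := conj_mem_zpowers (inv_mem hx)
      simp only [inv_inv] at hn
      have h3 : ι c * (x⁻¹ * ι u * x) = (x⁻¹ * ι u * x) * ι c := by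
        rw [← hn, ← map_zpow, ← map_mul, ← map_mul,
          ((show Commute c u from mem_centralizer_singleton_iff.1 hc).zpow_right n).eq]
      rw [map_mul, map_mul, hc']
      calc x * ι c * x⁻¹ * ι u = x * (ι c * (x⁻¹ * ι u * x)) * x⁻¹ := by group
        _ = _ := by rw [h3]; group)
  have h2 : ι g ∈ normalizer (((centralizer ({u} : Set L)).map ι : Subgroup X) : Set X) :=
    mem_normalizer_of_conj_mem (by
      rintro _ ⟨a, ha, rfl⟩
      exact ⟨_, (mem_normalizer_iff.1 hg a).1 ha, by simp⟩)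
  rw [← h1] at h2
  obtain ⟨n, hn⟩ := conj_mem_zpowers h2
  exact ⟨n, hι (by simpa using hn)⟩

theorem exists_prime_pow {g : X} (hg : g ≠ 1) :
    ∃ (n r : ℕ), r.Prime ∧ g ^ n ≠ 1 ∧ (g ^ n) ^ r ^ 1 = 1 := by
  have h0 := orderOf_pos g
  have h1 : orderOf g ≠ 1 := by simpa
  obtain ⟨r, hr, m, hm⟩ := Nat.exists_prime_and_dvd h1
  refine ⟨m, r, hr, fun e => ?_, by rw [pow_one, ← pow_mul, mul_comm, ← hm, pow_orderOf_eq_one]⟩
  have h2 := orderOf_dvd_of_pow_eq_one e
  have hm0 : 0 < m := Nat.pos_of_ne_zero (by rintro rfl; omega)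
  have := Nat.le_of_dvd hm0 h2
  nlinarith [hr.two_le]

/-- centralizers of involutions have normal 2-complements -/
theorem HM.npc (h : HM X) (L : Subgroup X) (t : L) (ht : orderOf t = 2) :
    HasNormalPComplement 2 (centralizer ({t} : Set L)) := by
  have := Fact.mk Nat.prime_two
  set H := centralizer ({t} : Set L)
  refine CA.PRes.hasNPC_of_normal (pPrimeCore 2 H) CA.Fitting.not_dvd_card_pPrimeCore ?_
  rw [IsPGroup.iff_card]
  refine ⟨_, Nat.eq_prime_pow_of_unique_prime_dvd Nat.card_pos.ne' fun {s} hs hd => ?_⟩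
  by_contra h2
  have := Fact.mk hs
  obtain ⟨P⟩ : Nonempty (Sylow s H) := inferInstance
  let ι : H →* X := L.subtype.comp H.subtype
  have hι : Function.Injective ι := L.subtype_injective.comp H.subtype_injective
  have hc : ∀ x : H, ι x * t = t * ι x := fun x =>
    congrArg Subtype.val (mem_centralizer_singleton_iff.1 x.2)
  have hN : P.1.Normal := by
    by_cases h0 : P.1 = ⊥
    · rw [h0]; infer_instance
    have h1 := h.nn (A := zpowers (t : X)) (T := P.1.map ι) Nat.prime_two hs (Ne.symm h2)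
      (by rw [Ne, zpowers_eq_bot, OneMemClass.coe_eq_one]; rintro rfl; simp at ht)
      (by rwa [Ne, map_eq_bot_iff_of_injective _ hι])
      (pgroup_zpowers (k := 1) (by
        rw [pow_one, ← ht, ← Subgroup.coe_pow, pow_orderOf_eq_one, coe_one])) (P.2.map ι)
      (by rintro _ ⟨x, -, rfl⟩; exact mem_norm_zpowers_of_comm (hc x))
      (zpowers_le.2 (centralizer_le_normalizer _ (mem_centralizer_iff.2 (by
        rintro _ ⟨x, -, rfl⟩; exact hc x))))
    refine ⟨fun a ha g => ?_⟩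
    have h3 := mem_norm_zpowers_of_comm (hc g)
    rw [h1] at h3
    obtain ⟨b, hb, e⟩ := (mem_normalizer_iff.1 h3 _).1 ⟨a, ha, rfl⟩
    rwa [show g * a * g⁻¹ = b from hι (by simpa using e.symm)]
  have hle : P.1 ≤ pPrimeCore 2 H := CA.Core.le_pPrimeCore (by
    obtain ⟨k, hk⟩ := IsPGroup.iff_card.1 P.2
    rw [hk]; exact Nat.Coprime.pow_left _ ((Nat.coprime_primes hs Nat.prime_two).2 h2))
  exact P.not_dvd_index (hd.trans (index_dvd_of_le hle))

/-- a simple normal subgroup -/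
theorem HM.exists_simple (h : HM X) [Nontrivial X] (hR : solvableRadical X = ⊥) :
    ∃ L : Subgroup X, L.Normal ∧ IsSimpleGroup L ∧ ¬ IsMulCommutative L := by
  have hF : fittingSubgroup X = ⊥ := by
    rw [← CA.Fstar.solvRad_inf_fstar, hR, bot_inf_eq]
  obtain ⟨K, hK⟩ := CA.Comp.exists_comp_of_layer_ne_bot (G := X)
    (CA.Fstar.fstar_eq_layer_of_fitting_eq_bot hF ▸ CA.Fstar.fstar_ne_bot)
  have hZ : center K = ⊥ := by
    rw [← map_eq_bot_iff_of_injective _ K.subtype_injective, map_subtype_center, eq_bot_iff, ← hF]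
    exact CA.Comp.comp_inf_centralizer_le_fitting hK
  have hS := CA.Quasi.simple_of_qs_of_center_eq_bot hK.2 hZ
  have hns := CA.Quasi.qs_not_isSolvable hK.2
  have hnc : ¬ IsMulCommutative K := fun hc => hns (Group.isSolvable_of_comm fun a b => hc.1.1 a b)
  refine ⟨K, ⟨fun a ha g => ?_⟩, hS, hnc⟩
  by_cases e : K = K.map (MulAut.conj g).toMonoidHom
  · rw [e]; exact ⟨a, ha, rfl⟩
  exfalso
  have hK' := CA.Comp.comp_map_conj hK g
  have hc := CA.Comp.comp_le_centralizer_of_ne hK hK' e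
  obtain ⟨⟨y0, hy0⟩, hy1⟩ := ne_bot_iff_exists_ne_one.1 (CA.Comp.comp_ne_bot hK')
  obtain ⟨n, r, hr, hy2, hy3⟩ := exists_prime_pow (g := y0) fun e => hy1 (Subtype.ext e)
  have hy4 := Subgroup.pow_mem _ hy0 n
  generalize y0 ^ n = y at *
  obtain ⟨s, hs, hd, hsr⟩ : ∃ s : ℕ, s.Prime ∧ s ∣ Nat.card K ∧ s ≠ r := by
    by_contra hh
    push Not at hh
    exact hns (CChar.CharBurn.isSolvable_of_primes (p := r) (q := r) fun s hs hd => Or.inl (hh s hs hd))
  have := Fact.mk hs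
  obtain ⟨t, ht⟩ := exists_prime_orderOf_dvd_card' s hd
  have ht1 : t ≠ 1 := by rintro rfl; exact hs.one_lt.ne (by simpa using ht)
  have hcy : ∀ k : K, (k : X) * y = y * k := fun k => (mem_centralizer_iff.1 (hc k.2) y hy4).symm
  have h1 := h.nn' (x := (t : X)) (y := y) (i := 1) hs hr hsr (by simpa) hy2
    (by rw [pow_one, ← ht, ← Subgroup.coe_pow, pow_orderOf_eq_one, coe_one]) hy3 (hcy t)
  have hN : (zpowers t).Normal := by
    rw [← normalizer_eq_top_iff, eq_top_iff]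
    intro k _
    have h3 := mem_norm_zpowers_of_comm (hcy k)
    rw [← h1] at h3
    obtain ⟨m, hm⟩ := conj_mem_zpowers h3
    exact mem_norm_zpowers ⟨m, Subtype.ext (by simpa using hm)⟩
  rcases hN.eq_bot_or_eq_top with e | e
  · exact ht1 (by simpa using e)
  · refine hnc ⟨⟨fun a b => ?_⟩⟩
    obtain ⟨i, rfl⟩ : a ∈ zpowers t := e ▸ mem_top a
    obtain ⟨j, rfl⟩ : b ∈ zpowers t := e ▸ mem_top b
    exact zpow_mul_comm t i j

end CA.BpN1
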