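import Cfsg.Agent.Lib.Grp.BpN1
import Cfsg.Agent.Lib.Lie.SzModel

/-! Maximal normalizers: excluding `A₇`, `L₃(4)`, `Sz(q)`; two criteria for `X = L`. -/

set_option autoImplicit false

namespace CA.BpN2

open Subgroup Cfsg CA.Rad CA.BpN1

variable {X : Type*} [Group X] [Finite X]

theorem comm_inv (h : HM X) {z x g : X} {r : ℕ} (hr : r.Prime) (h2 : r ≠ 2) (hz : z * z = 1)
    (hz1 : z ≠ 1) (hx1 : x ≠ 1) (hx : x ^ r = 1) (hc : x * z = z * x)
    (hg : g * x * g⁻¹ ∈ zpowers x) : g * z = z * g := by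
  have h1 := h.nn' (i := 1) (j := 1) hr Nat.prime_two h2 hx1 hz1 (by rwa [pow_one])
    (by rwa [pow_one, pow_two]) hc
  exact comm_of_norm_inv hz (h1 ▸ mem_norm_zpowers hg)

theorem norm_of_comm (h : HM X) {z x g : X} {r : ℕ} (hr : r.Prime) (h2 : r ≠ 2) (hz : z * z = 1)
    (hz1 : z ≠ 1) (hx1 : x ≠ 1) (hx : x ^ r = 1) (hc : x * z = z * x)
    (hg : g * z = z * g) : g * x * g⁻¹ ∈ zpowers x := by
  have h1 := h.nn' (i := 1) (j := 1) hr Nat.prime_two h2 hx1 hz1 (by rwa [pow_one])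
    (by rwa [pow_one, pow_two]) hc
  exact conj_mem_zpowers (h1 ▸ mem_norm_zpowers_of_comm hg)

theorem not_A7 (h : HM X) (ι : alternatingGroup (Fin 7) →* X) (hι : Function.Injective ι) :
    False := by
  obtain ⟨x, y, z, h1, h2, h3, h4, h5, h6, h7⟩ : ∃ x y z : alternatingGroup (Fin 7),
      x ≠ 1 ∧ x ^ 3 = 1 ∧ z ≠ 1 ∧ z * z = 1 ∧ x * z = z * x ∧ y * x * y⁻¹ = x ∧ y * z ≠ z * y :=
    ⟨⟨Equiv.swap 0 1 * Equiv.swap 1 2, by simp [Equiv.Perm.mem_alternatingGroup]⟩,
      ⟨Equiv.swap 3 4 * Equiv.swap 4 5, by simp [Equiv.Perm.mem_alternatingGroup]⟩,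
      ⟨Equiv.swap 3 4 * Equiv.swap 5 6, by simp [Equiv.Perm.mem_alternatingGroup]⟩,
      by simp only [ne_eq, Subtype.ext_iff]; decide +kernel⟩
  refine h7 (hι ?_)
  rw [map_mul, map_mul]
  exact comm_inv h (x := ι x) Nat.prime_three (by decide) (by rw [← map_mul, h4, map_one])
    (by rwa [Ne, map_eq_one_iff ι hι]) (by rwa [Ne, map_eq_one_iff ι hι])
    (by rw [← map_pow, h2, map_one]) (by rw [← map_mul, h5, map_mul])
    (by rw [← map_inv, ← map_mul, ← map_mul, h6]; exact mem_zpowers _)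

open CA.SzBasic CA.SzGroup in
theorem not_Sz (h : HM X) {F : Type} [Field F] [Fintype F] {m : ℕ} [hy : Hyp F m]
    (ι : SzBasic.G F →* X) (hι : Function.Injective ι) : False := by
  obtain ⟨μ0, h0⟩ := exists_unit_ne_one (F := F)
  obtain ⟨n, r, hr, h1, h2⟩ := exists_prime_pow h0
  generalize μ0 ^ n = μ at h1 h2
  have hr2 : 2 ≠ r := by
    rintro rfl
    exact h1 (Units.ext (sq_eq_one' (by simpa using congrArg Units.val h2)))
  obtain ⟨_, ⟨b, rfl⟩, i, e⟩ := h.q1e ι hι (A := Z F) (t := D μ) (u := T 1 0) (k := 1)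
    Nat.prime_two hr hr2
    (fun e => by simpa [e, T_eq_one] using T_mem_Z (1 : F)) (isPGroup_U.to_le Z_le_U)
    (by rw [show D μ = Dh F μ from rfl, ← map_pow, h2, map_one])
    (by rintro _ ⟨b, rfl⟩; exact ⟨_, by rw [D_conj_T, mul_zero]⟩)
    (by
      rintro _ ⟨b, rfl⟩
      exact ⟨b, by rw [mul_inv_eq_iff_eq_mul, T_comm]; simp⟩)
  have e2 : D μ ^ i = D (μ ^ i) := (map_zpow (Dh F) μ i).symm
  rw [e2] at e
  have e3 := congrArg (· • (pt 0 0 : Ov F)) e
  simp only [T_inv, mul_smul, T_pt, D_pt, pt_inj] at e3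
  refine h1 (Units.ext (eq_one_of_th_eq_one ?_))
  have := add_self (1 : F)
  linear_combination e3.1 - this

open Matrix in
theorem not_L34 (h : HM X) {F : Type} [Field F] [Fintype F] (hF : Fintype.card F = 4)
    (ι : ProjectiveSpecialLinearGroup (Fin 3) F →* X) (hι : Function.Injective ι) : False := by
  classical
  have h2 : (2 : F) = 0 := by
    have := FiniteField.cast_card_eq_zero F
    rw [hF] at this
    exact pow_eq_zero_iff (n := 2) two_ne_zero |>.1 (by rw [← this]; norm_num)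
  obtain ⟨ω, hω0, hω1⟩ : ∃ ω : F, ω ≠ 0 ∧ ω ≠ 1 := by
    obtain ⟨ω, h⟩ := Finset.exists_mem_notMem_of_card_lt_card (s := {0, 1}) (t := (Finset.univ : Finset F))
      (lt_of_le_of_lt Finset.card_le_two (by rw [Finset.card_univ, hF]; decide))
    exact ⟨ω, by simpa using h⟩
  have h3 : ω ^ 3 = 1 := by simpa [hF] using FiniteField.pow_card_sub_one_eq_one ω hω0
  let π : Matrix.SpecialLinearGroup (Fin 3) F →* ProjectiveSpecialLinearGroup (Fin 3) F :=
    QuotientGroup.mk' _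
  obtain ⟨mt, hmt, hex, hZ⟩ : ∃ mt : Matrix.SpecialLinearGroup (Fin 3) F →* Matrix (Fin 3) (Fin 3) F,
      Function.Injective mt ∧ (∀ A : Matrix (Fin 3) (Fin 3) F, A.det = 1 → ∃ g, mt g = A) ∧
      ∀ c ∈ center (Matrix.SpecialLinearGroup (Fin 3) F), ∃ r : F, mt c = scalar (Fin 3) r :=
    ⟨⟨⟨Subtype.val, rfl⟩, fun _ _ => rfl⟩, Subtype.val_injective, fun A h => ⟨⟨A, h⟩, rfl⟩,
      fun c hc => let ⟨r, _, h⟩ := Matrix.SpecialLinearGroup.mem_center_iff.1 hc; ⟨r, h.symm⟩⟩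
  choose e0 he0 using fun a : Multiplicative F =>
    hex !![1, 0, a.toAdd; 0, 1, 0; 0, 0, 1] (by simp [det_fin_three])
  let e : Multiplicative F →* Matrix.SpecialLinearGroup (Fin 3) F := MonoidHom.mk' e0
    fun a b => hmt (by
      rw [map_mul, he0, he0, he0]
      ext i j; fin_cases i <;> fin_cases j <;> simp [Matrix.mul_apply, Fin.sum_univ_three, add_comm])
  have he : ∀ a, mt (e a) = !![1, 0, a.toAdd; 0, 1, 0; 0, 0, 1] := he0
  obtain ⟨t, ht⟩ := hex !![ω, 0, 0; 0, 1, 0; 0, 0, ω ^ 2] (by simp [det_fin_three]; grind)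
  obtain ⟨u, hu⟩ := hex !![1, 1, 0; 0, 1, 0; 0, 0, 1] (by simp [det_fin_three])
  let d : Matrix (Fin 3) (Fin 3) F := !![1, 0, 0; 0, 0, 0; 0, 0, 1]
  let M : Subgroup (Matrix.SpecialLinearGroup (Fin 3) F) :=
    { carrier := {g | mt g * d = d * mt g}
      one_mem' := by simp
      mul_mem' := fun {a b} (ha : _ = _) (hb : _ = _) => show _ = _ by
        rw [map_mul, mul_assoc, hb, ← mul_assoc, ha, mul_assoc]
      inv_mem' := fun {a} (ha : _ = _) => show _ = _ by
        calc mt a⁻¹ * d = mt a⁻¹ * (d * mt a) * mt a⁻¹ := by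
              rw [mul_assoc, mul_assoc, ← map_mul, mul_inv_cancel, map_one, mul_one]
          _ = _ := by rw [← ha, ← mul_assoc, ← map_mul, inv_mul_cancel, map_one, one_mul] }
  obtain ⟨_, ⟨a, rfl⟩, i, e1⟩ := h.q1e ι hι (A := (π.comp e).range) (t := π t) (u := π u) (k := 1)
    Nat.prime_two Nat.prime_three (by decide)
    (fun e0 => by
      have h4 : π (e (Multiplicative.ofAdd 1)) = 1 := mem_bot.1 (e0 ▸ ⟨_, rfl⟩)
      obtain ⟨r, hr⟩ := hZ _ ((QuotientGroup.eq_one_iff _).1 h4)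
      simpa [he] using congrFun (congrFun hr 0) 2)
    (by
      rintro ⟨_, a, rfl⟩
      refine ⟨1, Subtype.ext ?_⟩
      show (π.comp e a) ^ 2 ^ 1 = 1
      rw [← map_pow, show a ^ 2 ^ 1 = 1 from Multiplicative.toAdd.injective (by simp [h2]), map_one])
    (by
      rw [← map_pow, show t ^ 3 ^ 1 = 1 from hmt ?_, map_one]
      rw [pow_one, pow_succ, pow_two, map_mul, map_mul, map_one]
      ext i j; fin_cases i <;> fin_cases j <;>
        simp [ht, Matrix.mul_apply, Fin.sum_univ_three] <;> grind)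
    (by
      rintro _ ⟨a, rfl⟩
      refine ⟨Multiplicative.ofAdd (ω ^ 2 * a.toAdd), ?_⟩
      show π (e _) = π t * π (e a) * (π t)⁻¹
      rw [← map_inv, ← map_mul, ← map_mul]
      refine congrArg π (eq_mul_inv_iff_mul_eq.2 (hmt ?_))
      rw [map_mul mt, map_mul mt]
      ext i j; fin_cases i <;> fin_cases j <;>
        simp [ht, he, Matrix.mul_apply, Fin.sum_univ_three] <;> grind)
    (by
      rintro _ ⟨a, rfl⟩
      refine ⟨a, ?_⟩
      simp only [MonoidHom.comp_apply, ← map_inv, ← map_mul]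
      refine congrArg π (eq_mul_inv_iff_mul_eq.2 (hmt ?_))
      rw [map_mul mt, map_mul mt]
      ext i j; fin_cases i <;> fin_cases j <;>
        simp [hu, he, Matrix.mul_apply, Fin.sum_univ_three])
  simp only [MonoidHom.comp_apply, ← map_inv, ← map_mul, ← map_zpow] at e1
  have h5 := QuotientGroup.eq.1 e1.symm
  have hM : u * t * u⁻¹ ∈ M := by
    have h6 : e a * t ^ i ∈ M := M.mul_mem (by
      show _ * d = d * _
      ext i j; fin_cases i <;> fin_cases j <;> simp [d, he, Matrix.mul_apply, Fin.sum_univ_three])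
      (M.zpow_mem (by
        show _ * d = d * _
        ext i j; fin_cases i <;> fin_cases j <;> simp [d, ht, Matrix.mul_apply, Fin.sum_univ_three]) i)
    refine (M.mul_mem_cancel_left (M.inv_mem h6)).1 ?_
    obtain ⟨r, hr⟩ := hZ _ h5
    show _ * d = d * _
    rw [hr]; exact (scalar_commute r (fun _ => .all _ _) d).eq
  have hu' : u⁻¹ = u := inv_eq_of_mul_eq_one_right (hmt (by
    rw [map_mul, map_one]
    ext i j; fin_cases i <;> fin_cases j <;> simp [hu, Matrix.mul_apply, Fin.sum_univ_three]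
    grind))
  have h7 : mt (u * t * u⁻¹) * d = d * mt (u * t * u⁻¹) := hM
  rw [hu', map_mul, map_mul, hu, ht] at h7
  have h8 := congrFun (congrFun h7 0) 1
  simp [d, Matrix.mul_apply, Fin.sum_univ_three] at h8
  exact hω1 (by grind)

end CA.BpN2
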