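import Cfsg.Agent.Lib.Grp.BpN2

/-! Maximal normalizers: two criteria for a normal subgroup to be everything. -/

set_option autoImplicit false

namespace CA.BpN3

open Subgroup Cfsg CA.Rad CA.BpN1 CA.BpN2

variable {X : Type*} [Group X]

theorem zpow_cases2 {w : X} (hw : w * w = 1) (i : ℤ) : w ^ i = 1 ∨ w ^ i = w := by
  have h2 : w ^ (2 : ℤ) = 1 := by rw [zpow_two, hw]
  rcases Int.even_or_odd' i with ⟨k, rfl | rfl⟩
  · left; rw [zpow_mul, h2, one_zpow]
  · right; rw [zpow_add, zpow_mul, h2, one_zpow, one_mul, zpow_one]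

theorem zpow_cases3 {y : X} (hy : y ^ 3 = 1) (i : ℤ) : y ^ i = 1 ∨ y ^ i = y ∨ y ^ i = y * y := by
  have h3 : y ^ (3 : ℤ) = 1 := by exact_mod_cast hy
  rw [← Int.mul_ediv_add_emod i 3, zpow_add, zpow_mul, h3, one_zpow, one_mul]
  have : i % 3 = 0 ∨ i % 3 = 1 ∨ i % 3 = 2 := by omega
  rcases this with h | h | h <;> rw [h]
  exacts [Or.inl (zpow_zero y), Or.inr (Or.inl (zpow_one y)), Or.inr (Or.inr (zpow_two y))]

theorem eq_one23 {a : X} (h2 : a * a = 1) (h3 : a ^ 3 = 1) : a = 1 := by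
  rwa [pow_succ, pow_two, h2, one_mul] at h3

theorem conj3 {x g : X} (hx : x ^ 3 = 1) (hx1 : x ≠ 1) (h : g * x * g⁻¹ ∈ zpowers x) :
    g * x = x * g ∨ g * x * g⁻¹ = x⁻¹ := by
  obtain ⟨i, hi⟩ := h
  simp only [] at hi
  rcases zpow_cases3 hx i with e | e | e <;> rw [e] at hi
  · exact absurd (by simpa [mul_inv_eq_one] using hi.symm) hx1
  · exact Or.inl (mul_inv_eq_iff_eq_mul.1 hi.symm)
  · right; rw [← hi, eq_inv_iff_mul_eq_one, ← hx, pow_succ, pow_two]

theorem comm_pow {g x : X} (h : g * x = x * g) (n : ℕ) : g ^ n * x = x * g ^ n :=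
  ((show Commute g x from h).pow_left n).eq

variable [Finite X]

theorem top_of_D12 (h : HM X) (L : Subgroup X) [hL : L.Normal]
    (hconj : ∀ a ∈ L, ∀ b ∈ L, a ≠ 1 → a * a = 1 → b ≠ 1 → b * b = 1 → ∃ l ∈ L, l * a * l⁻¹ = b)
    (h3 : ∀ z ∈ L, z ≠ 1 → z * z = 1 → ∃ x, x ≠ 1 ∧ x ^ 3 = 1 ∧ x * z = z * x)
    {z w x : X} (hzL : z ∈ L) (hwL : w ∈ L) (hxL : x ∈ L) (hz1 : z ≠ 1) (hz : z * z = 1)
    (hw1 : w ≠ 1) (hw : w * w = 1) (hx1 : x ≠ 1) (hx : x ^ 3 = 1) (hxz : x * z = z * x)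
    (hwx : w * x * w⁻¹ = x⁻¹) : L = ⊤ := by
  obtain ⟨x', hx1', hx', hxw'⟩ := h3 w hwL hw1 hw
  have n3 : (3 : ℕ) ≠ 2 := by decide
  have hwz : w * z = z * w :=
    comm_inv h Nat.prime_three n3 hz hz1 hx1 hx hxz (hwx ▸ inv_mem (mem_zpowers x))
  have hxw : x * w ≠ w * x := fun e => hx1 (eq_one23 (by
    rw [← e, mul_inv_cancel_right] at hwx; exact eq_inv_iff_mul_eq_one.1 hwx) hx)
  have hzx' : z * x' * z⁻¹ = x'⁻¹ :=
    (conj3 hx' hx1' (norm_of_comm h Nat.prime_three n3 hw hw1 hx1' hx' hxw' hwz.symm)).resolve_left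
      fun e => hxw (comm_inv h Nat.prime_three n3 hw hw1 hx1' hx' hxw'
        (norm_of_comm h Nat.prime_three n3 hz hz1 hx1' hx' e.symm hxz))
  have core : ∀ g, g * z = z * g → g * w = w * g → g * x = x * g → g * x' = x' * g → g = 1 := by
    intro g h1 h2 h4 h5
    by_contra hg
    obtain ⟨n, r, hr, h6, h7⟩ := exists_prime_pow hg
    by_cases e : r = 3
    · subst e
      exact hxw (comm_inv h hr n3 hw hw1 h6 (by simpa using h7) (comm_pow h2 n)
        (norm_of_comm h hr n3 hz hz1 h6 (by simpa using h7) (comm_pow h1 n) hxz))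
    · have e1 := h.nn' (j := 1) hr Nat.prime_three e h6 hx1 h7 (by simpa) (comm_pow h4 n)
      have e2 := h.nn' (j := 1) hr Nat.prime_three e h6 hx1' h7 (by simpa) (comm_pow h5 n)
      exact hxw (comm_inv h Nat.prime_three n3 hw hw1 hx1' hx' hxw'
        (conj_mem_zpowers (e2 ▸ e1 ▸ mem_norm_zpowers_of_comm rfl)))
  have stA : ∀ g, g * z = z * g → g * w = w * g → g * x = x * g → g ∈ L := by
    intro g h1 h2 h4
    rcases conj3 hx' hx1' (norm_of_comm h Nat.prime_three n3 hw hw1 hx1' hx' hxw' h2) with e | e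
    · rw [core g h1 h2 h4 e]; exact L.one_mem
    · refine (L.mul_mem_cancel_right hzL).1 (core (g * z) ?_ ?_ ?_ ?_ ▸ L.one_mem)
      · rw [h1, mul_assoc, h1]
      · rw [mul_assoc, ← hwz, ← mul_assoc, h2, mul_assoc]
      · rw [mul_assoc, ← hxz, ← mul_assoc, h4, mul_assoc]
      · rw [← mul_inv_eq_iff_eq_mul]
        calc g * z * x' * (g * z)⁻¹ = (g * (z * x' * z⁻¹)⁻¹ * g⁻¹)⁻¹ := by group
          _ = x' := by rw [hzx', inv_inv, e, inv_inv]
  have stB : ∀ g, g * z = z * g → g * w = w * g → g ∈ L := by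
    intro g h1 h2
    rcases conj3 hx hx1 (norm_of_comm h Nat.prime_three n3 hz hz1 hx1 hx hxz h1) with e | e
    · exact stA g h1 h2 e
    · refine (L.mul_mem_cancel_right hwL).1 (stA (g * w) ?_ ?_ ?_)
      · rw [mul_assoc, hwz, ← mul_assoc, h1, mul_assoc]
      · rw [h2, mul_assoc, h2]
      · rw [← mul_inv_eq_iff_eq_mul]
        calc g * w * x * (g * w)⁻¹ = (g * (w * x * w⁻¹)⁻¹ * g⁻¹)⁻¹ := by group
          _ = x := by rw [hwx, inv_inv, e, inv_inv]
  have stC : ∀ g, g * z = z * g → g ∈ L := by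
    intro g h1
    have hn : ∀ v, v * x * v⁻¹ ∈ zpowers x → ∀ a ∈ zpowers x, v * a * v⁻¹ ∈ zpowers x :=
      fun v hv a ha => (mem_normalizer_iff.1 (mem_norm_zpowers hv) a).1 ha
    obtain ⟨a, ha, i, e⟩ := h.q1e (MonoidHom.id X) Function.injective_id (A := zpowers x) (t := w)
      (u := g) (k := 1) Nat.prime_three Nat.prime_two n3 (by simpa)
      (pgroup_zpowers (k := 1) (by simpa)) (by rwa [pow_one, pow_two])
      (hn w (hwx ▸ inv_mem (mem_zpowers x)))
      (hn g (norm_of_comm h Nat.prime_three n3 hz hz1 hx1 hx hxz h1))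
    obtain ⟨j, rfl⟩ := ha
    simp only [] at e
    have ha3 : (x ^ j) ^ 3 = 1 := by
      rw [← zpow_natCast, ← zpow_mul, mul_comm, zpow_mul, zpow_natCast, hx, one_zpow]
    have haw : w * x ^ j * w⁻¹ = (x ^ j)⁻¹ := by rw [← conj_zpow, hwx, inv_zpow]
    have haz : x ^ j * z = z * x ^ j := ((show Commute x z from hxz).zpow_left j).eq
    have haL := L.zpow_mem hxL j
    generalize x ^ j = a at *
    rcases zpow_cases2 hw i with e' | e' <;> rw [e'] at e
    · rw [mul_one] at e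
      have : a = 1 := eq_one23 (by
        rw [← e]
        calc g * w * g⁻¹ * (g * w * g⁻¹) = g * (w * w) * g⁻¹ := by group
          _ = 1 := by rw [hw]; group) ha3
      exact absurd (by simpa [mul_inv_eq_one, this] using e) hw1
    · refine (L.mul_mem_cancel_left haL).1 (stB (a * g) ?_ ?_)
      · rw [mul_assoc, h1, ← mul_assoc, haz, mul_assoc]
      · rw [← mul_inv_eq_iff_eq_mul]
        calc a * g * w * (a * g)⁻¹ = a * (g * w * g⁻¹) * a⁻¹ := by group
          _ = a * a * (w * a * w⁻¹)⁻¹ * w := by rw [e]; group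
          _ = w := by rw [haw, inv_inv, ← pow_two, ← pow_succ, ha3, one_mul]
  rw [eq_top_iff]
  intro g _
  obtain ⟨l, hl, e⟩ := hconj z hzL _ (hL.conj_mem z hzL g) hz1 hz
    (by simpa [mul_inv_eq_one] using hz1)
    (by calc g * z * g⁻¹ * (g * z * g⁻¹) = g * (z * z) * g⁻¹ := by group
          _ = 1 := by rw [hz]; group)
  refine (L.mul_mem_cancel_left (L.inv_mem hl)).1 (stC _ ?_)
  calc l⁻¹ * g * z = l⁻¹ * (g * z * g⁻¹) * g := by group
    _ = _ := by rw [← e]; group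

theorem top_of_S4 (h : HM X) (L : Subgroup X) [hL : L.Normal] [IsSimpleGroup L]
    {z w y s : X} (hzL : z ∈ L) (hwL : w ∈ L) (hyL : y ∈ L) (hsL : s ∈ L) (hz1 : z ≠ 1)
    (hz : z * z = 1) (hw1 : w ≠ 1) (hw : w * w = 1) (hzw : z ≠ w) (hc : w * z = z * w)
    (hy : y ^ 3 = 1) (hyz : y * z * y⁻¹ = w) (hyw : y * w * y⁻¹ = z * w) (hsz : s * z * s⁻¹ = z)
    (hsw : s * w * s⁻¹ = z * w) : L = ⊤ := by
  have a1 : z * (z * w) = w := by rw [← mul_assoc, hz, one_mul]
  have a2 : w * (z * w) = z := by rw [← hc, ← mul_assoc, hw, one_mul]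
  have a3 : z * w * z = w := by rw [← hc, mul_assoc, hz, mul_one]
  have a4 : z * w * w = z := by rw [mul_assoc, hw, mul_one]
  have a5 : z * w * (z * w) = 1 := by rw [mul_assoc, a2, hz]
  have iz : z⁻¹ = z := inv_eq_of_mul_eq_one_right hz
  have iw : w⁻¹ = w := inv_eq_of_mul_eq_one_right hw
  have izw : (z * w)⁻¹ = z * w := inv_eq_of_mul_eq_one_right a5
  have hzw1 : z * w ≠ 1 := fun e => hzw (by rw [eq_inv_of_mul_eq_one_left e, iw])
  have hy1 : y ≠ 1 := by rintro rfl; exact hzw (by simpa using hyz)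
  have hyzw : y * (z * w) * y⁻¹ = z := by
    calc y * (z * w) * y⁻¹ = y * z * y⁻¹ * (y * w * y⁻¹) := by group
      _ = z := by rw [hyz, hyw, a2]
  obtain ⟨V, hV⟩ : ∃ V : Subgroup X, ∀ g, g ∈ V ↔ g = 1 ∨ g = z ∨ g = w ∨ g = z * w :=
    ⟨{ carrier := {g | g = 1 ∨ g = z ∨ g = w ∨ g = z * w}
       one_mem' := Or.inl rfl
       mul_mem' := by
         rintro a b (e | e | e | e) (e' | e' | e' | e') <;>
           simp [e, e', a1, a2, a3, a4, a5, hz, hw, hc]
       inv_mem' := by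
         rintro a (e | e | e | e) <;> simp only [e, iz, iw, izw, inv_one] <;> simp }, fun _ => Iff.rfl⟩
  have hV2 : ∀ a ∈ V, a * a = 1 := fun a ha => by
    rcases (hV a).1 ha with e | e | e | e <;> simp [e, hz, hw, a5]
  have hVc : ∀ a ∈ V, a * z = z * a ∧ a * w = w * a := fun a ha => by
    rcases (hV a).1 ha with e | e | e | e <;> simp [e, hc, a1, a2, a3, a4]
  have hVL : V ≤ L := fun a ha => by
    rcases (hV a).1 ha with e | e | e | e <;> rw [e]
    exacts [L.one_mem, hzL, hwL, L.mul_mem hzL hwL]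
  have hzV : z ∈ V := (hV _).2 (by simp)
  have hwV : w ∈ V := (hV _).2 (by simp)
  have hV0 : V ≠ ⊥ := fun e => hz1 (mem_bot.1 (e ▸ hzV))
  have hVp : IsPGroup 2 V := fun a => ⟨1, Subtype.ext (by simpa [pow_two] using hV2 a a.2)⟩
  have hn : ∀ g, g * z * g⁻¹ ∈ V → g * w * g⁻¹ ∈ V → ∀ a ∈ V, g * a * g⁻¹ ∈ V := by
    intro g h1 h2 a ha
    rcases (hV a).1 ha with e | e | e | e <;> rw [e]
    exacts [by simp, h1, h2, by simpa [mul_assoc] using V.mul_mem h1 h2]
  have hny := hn y (hyz ▸ hwV) (hyw ▸ V.mul_mem hzV hwV)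
  have core : ∀ g, g * z = z * g → g * y = y * g → g = 1 := by
    intro g h1 h4
    by_contra hg
    obtain ⟨n, r, hr, h6, h7⟩ := exists_prime_pow hg
    by_cases e : r = 3
    · subst e
      have := comm_inv h hr (by decide) hz hz1 h6 (by simpa using h7) (comm_pow h1 n) (g := y)
        (by rw [← comm_pow h4 n, mul_inv_cancel_right]; exact mem_zpowers _)
      exact hzw (by rw [← hyz, this, mul_inv_cancel_right])
    · have e1 := h.nn' (j := 1) hr Nat.prime_three e h6 hy1 h7 (by simpa) (comm_pow h4 n)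
      have e2 := conj_mem_zpowers (e1 ▸ mem_norm_zpowers_of_comm (comm_pow h1 n).symm)
      obtain ⟨i, hi⟩ := mul_mem e2 (inv_mem (mem_zpowers y))
      simp only [] at hi
      have e3 : y ^ i = z * w := by rw [hi, iz, ← hyz]; group
      refine hzw1 (eq_one23 a5 ?_)
      rw [← e3, ← zpow_natCast, ← zpow_mul, mul_comm, zpow_mul, zpow_natCast, hy, one_zpow]
  have stA : ∀ g, g * z = z * g → g * w = w * g → g ∈ L := by
    intro g h1 h2
    obtain ⟨a, ha, i, e⟩ := h.q1e (MonoidHom.id X) Function.injective_id (A := V) (t := y)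
      (u := g) (k := 1) Nat.prime_two Nat.prime_three (by decide) hV0 hVp (by simpa) hny
      (hn g (by rwa [h1, mul_inv_cancel_right]) (by rwa [h2, mul_inv_cancel_right]))
    have e1 : a * (y ^ i * z * (y ^ i)⁻¹) * a⁻¹ = w := by
      calc a * (y ^ i * z * (y ^ i)⁻¹) * a⁻¹ = (a * y ^ i) * z * (a * y ^ i)⁻¹ := by group
        _ = g * (y * (g⁻¹ * (z * g)) * y⁻¹) * g⁻¹ := by rw [← e]; group
        _ = w := by rw [← h1, inv_mul_cancel_left, hyz, h2, mul_inv_cancel_right]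
    obtain ⟨c1, c2⟩ := hVc a ha
    have e2 : y ^ i = y := by
      rcases zpow_cases3 hy i with e' | e' | e'
      · rw [e'] at e1
        exact absurd (by simpa [c1] using e1) hzw
      · exact e'
      · rw [e', show y * y * z * (y * y)⁻¹ = y * (y * z * y⁻¹) * y⁻¹ by group, hyz, hyw,
          ← mul_assoc, c1, mul_assoc z, c2, ← mul_assoc, mul_inv_cancel_right] at e1
        exact absurd (by simpa using e1) hz1
    rw [e2] at e
    obtain ⟨v, hv, e3⟩ : ∃ v ∈ V, v * y * v⁻¹ = a * y := by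
      rcases (hV a).1 ha with e' | e' | e' | e' <;> rw [e']
      · exact ⟨1, V.one_mem, by simp⟩
      · refine ⟨w, hwV, ?_⟩
        calc w * y * w⁻¹ = w * (y * w * y⁻¹) * y := by rw [iw]; group
          _ = _ := by rw [hyw, a2]
      · refine ⟨z * w, V.mul_mem hzV hwV, ?_⟩
        calc z * w * y * (z * w)⁻¹ = z * w * (y * (z * w) * y⁻¹) * y := by rw [izw]; group
          _ = _ := by rw [hyzw, a3]
      · refine ⟨z, hzV, ?_⟩
        calc z * y * z⁻¹ = z * (y * z * y⁻¹) * y := by rw [iz]; group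
          _ = _ := by rw [hyz]
    refine (L.mul_mem_cancel_left (L.inv_mem (hVL hv))).1 (core (v⁻¹ * g) ?_ ?_ ▸ L.one_mem)
    · rw [mul_assoc, h1, ← mul_assoc, (hVc _ (V.inv_mem hv)).1, mul_assoc]
    · calc v⁻¹ * g * y = v⁻¹ * (g * y * g⁻¹) * g := by group
        _ = _ := by rw [e, ← e3]; group
  have stB : ∀ g, g * z = z * g → g * w * g⁻¹ ∈ V → g ∈ L := by
    intro g h1 h2
    rcases (hV _).1 h2 with e | e | e | e
    · exact absurd (by simpa [mul_inv_eq_one] using e) hw1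
    · rw [mul_inv_eq_iff_eq_mul, ← h1, mul_right_inj] at e; exact absurd e.symm hzw
    · exact stA g h1 (mul_inv_eq_iff_eq_mul.1 e)
    · refine (L.mul_mem_cancel_left (L.inv_mem hsL)).1 (stA _ ?_ ?_)
      · calc s⁻¹ * g * z = s⁻¹ * (s * z * s⁻¹) * g := by rw [mul_assoc, h1, hsz, mul_assoc]
          _ = _ := by group
      · calc s⁻¹ * g * w = s⁻¹ * (g * w * g⁻¹) * g := by group
          _ = _ := by rw [e, ← hsw]; group
  have stC : normalizer (V : Set X) ≤ L := by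
    intro g hg
    have h1 := (mem_normalizer_iff.1 hg z).1 hzV
    have h2 := (mem_normalizer_iff.1 hg w).1 hwV
    rcases (hV _).1 h1 with e | e | e | e
    · exact absurd (by simpa [mul_inv_eq_one] using e) hz1
    · exact stB g (mul_inv_eq_iff_eq_mul.1 e) h2
    · refine (L.mul_mem_cancel_left (L.mul_mem hyL hyL)).1 (stB _ ?_ ?_)
      · rw [← mul_inv_eq_iff_eq_mul]
        calc y * y * g * z * (y * y * g)⁻¹ = y * (y * (g * z * g⁻¹) * y⁻¹) * y⁻¹ := by group
          _ = z := by rw [e, hyw, hyzw]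
      · have := hny _ (hny _ h2)
        convert this using 1; group
    · refine (L.mul_mem_cancel_left hyL).1 (stB _ ?_ ?_)
      · rw [← mul_inv_eq_iff_eq_mul]
        calc y * g * z * (y * g)⁻¹ = y * (g * z * g⁻¹) * y⁻¹ := by group
          _ = z := by rw [e, hyzw]
      · have := hny _ h2
        convert this using 1; group
  refine (h V hV0 (bp_of_pgroup Nat.prime_two hVp)).2 L (lt_of_le_of_ne stC fun e => ?_)
  have hN : (V.subgroupOf L).Normal := (normal_subgroupOf_iff_le_normalizer hVL).2 e.ge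
  rcases hN.eq_bot_or_eq_top with e' | e'
  · have : (⟨z, hzL⟩ : L) ∈ V.subgroupOf L := hzV
    rw [e', mem_bot] at this
    exact hz1 (congrArg Subtype.val this)
  · have : (⟨y, hyL⟩ : L) ∈ V.subgroupOf L := by rw [e']; trivial
    exact hy1 (eq_one23 (hV2 y this) hy)

end CA.BpN3
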