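import Cfsg.Agent.Lib.Grp.BpN3
import Cfsg.Agent.Lib.Block.H12PPart
import Cfsg.Agent.S4211

/-! Maximal normalizers: the extension over the solvable radical. -/

set_option autoImplicit false

namespace CA.BpN5

open Subgroup Cfsg CA.Rad CA.BpN1 CA.BpN2 CA.BpN3

variable {G Y : Type*} [Group G] [Finite G] [Group Y] [Finite Y] {π : G →* Y}

omit [Finite Y] in
theorem exists_min (hπ : Function.Surjective π) (B : Subgroup Y) :
    ∃ H : Subgroup G, H.map π = B ∧ (∀ H' ≤ H, H'.map π = B → H' = H) ∧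
      ∀ r : ℕ, r.Prime → r ∣ Nat.card H → r ∣ Nat.card B := by
  obtain ⟨H, h1, h2⟩ := (wellFounded_lt (α := Subgroup G)).has_min {H | H.map π = B}
    ⟨_, map_comap_eq_self_of_surjective hπ B⟩
  have h3 : ∀ H' ≤ H, H'.map π = B → H' = H := fun H' a b => by
    by_contra c; exact h2 H' b (lt_of_le_of_ne a c)
  refine ⟨H, h1, h3, fun r hr hd => ?_⟩
  have := CA.Fitting.prime_dvd_index_of_le_frattini hr hd (π.comp H.subtype).ker
    (le_iInf₂ fun M (hM : IsCoatom M) => by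
      by_contra hc
      have h4 := congrArg (map (π.comp H.subtype)) (hM.2 _ (left_lt_sup.2 hc))
      rw [Subgroup.map_sup, (Subgroup.map_eq_bot_iff _).2 le_rfl, sup_bot_eq, ← map_map, ← map_map,
        ← MonoidHom.range_eq_map, range_subtype] at h4
      have h5 := h3 _ (map_subtype_le M) (h4.trans h1)
      exact hM.1 (by rw [← map_subtype_subgroupOf M, h5, subgroupOf_self]))
  rwa [index_ker, MonoidHom.range_comp, range_subtype, h1] at this

variable (π) in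
/-- biprimary subgroups outside the kernel have maximal normalizers -/
def HK : Prop := ∀ H : Subgroup G, ¬ H ≤ π.ker → BP H → IsCoatom (normalizer (H : Set G))

omit [Finite Y] [Finite G] in
theorem norm_le (H : Subgroup G) :
    normalizer (H : Set G) ≤ (normalizer ((H.map π : Subgroup Y) : Set Y)).comap π :=
  map_le_iff_le_comap.1 (le_normalizer_map π)

theorem exists_lift {K : Subgroup G} (hK : K.map π = ⊤) {y : Y}
    {r : ℕ} (hr : r.Prime) (hy : y ^ r = 1) : ∃ x ∈ K, π x = y ∧ ∃ k : ℕ, x ^ r ^ k = 1 := by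
  obtain ⟨g, hg, rfl⟩ : y ∈ K.map π := hK ▸ mem_top y
  obtain ⟨k, hk⟩ := CA.H12PPart.orderOf_pPart hr g
  refine ⟨_, CA.H12PPart.pPart_mem hr hg, ?_, k, hk ▸ pow_orderOf_eq_one _⟩
  rw [CA.H12PPart.map_pPart hr, ← CA.H12PPart.isPPart_iff hr]
  refine CA.H12PPart.isPPart_self hr ?_
  rcases (Nat.dvd_prime hr).1 (orderOf_dvd_of_pow_eq_one hy) with e | e
  exacts [⟨0, e⟩, ⟨1, by rw [e, pow_one]⟩]

omit [Finite G] [Finite Y] in
theorem HK.norm_eq (h : HK π) (hπ : Function.Surjective π) (hY : HM Y) {H : Subgroup G}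
    (h0 : ¬ H ≤ π.ker) (hb : BP H) :
    normalizer (H : Set G) = (normalizer ((H.map π : Subgroup Y) : Set Y)).comap π := by
  by_contra hne
  have h1 := (h H h0 hb).2 _ (lt_of_le_of_ne (norm_le H) hne)
  obtain ⟨p, q, hp, hq, h2⟩ := hb
  refine (hY (H.map π) (by rwa [Ne, Subgroup.map_eq_bot_iff])
    ⟨p, q, hp, hq, fun r hr hd => h2 r hr (hd.trans (card_map_dvd H π))⟩).1 ?_
  rw [← map_comap_eq_self_of_surjective hπ (normalizer _), h1, map_top_of_surjective _ hπ]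

omit [Finite G] [Finite Y] in
theorem HK.ker_le (h : HK π) (hπ : Function.Surjective π) (hY : HM Y) {H : Subgroup G}
    (h0 : ¬ H ≤ π.ker) (hb : BP H) : π.ker ≤ normalizer (H : Set G) :=
  h.norm_eq hπ hY h0 hb ▸ ker_le_comap _ _

theorem HK.cent (h : HK π) (hπ : Function.Surjective π) (hY : HM Y) [IsSimpleGroup Y]
    {K : Subgroup G} (hK : K.map π = ⊤) (hm : ∀ H' ≤ K, H'.map π = ⊤ → H' = K)
    (h2 : 2 ∣ Nat.card Y) (h3 : 3 ∣ Nat.card Y) {a k : G} (ha : a ∈ π.ker) (hk : k ∈ K) :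
    a * k = k * a := by
  have key : ∀ r : ℕ, r.Prime → r ∣ Nat.card Y → ∃ j : ℕ, (a * k * a⁻¹ * k⁻¹) ^ r ^ j = 1 := by
    intro r hr hd
    have := Fact.mk hr
    obtain ⟨y, hy⟩ := exists_prime_orderOf_dvd_card' r hd
    have hy1 : y ≠ 1 := by rintro rfl; exact hr.one_lt.ne (by simpa using hy)
    obtain ⟨x, hx, rfl, j, hj⟩ := exists_lift hK hr (hy ▸ pow_orderOf_eq_one y)
    let ρ := QuotientGroup.mk' (pCore r G)
    let C := (centralizer ((π.ker.map ρ : Subgroup _) : Set (G ⧸ pCore r G))).comap ρ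
    have : (π.ker.map ρ).Normal := Normal.map inferInstance _ (QuotientGroup.mk'_surjective _)
    have hC : ∀ g, g ∈ C ↔ ∀ b ∈ π.ker, b * g * b⁻¹ * g⁻¹ ∈ pCore r G := fun g => by
      simp only [C, mem_comap, mem_centralizer_iff]
      refine ⟨fun h b hb => (QuotientGroup.eq_one_iff _).1 ?_, ?_⟩
      · have := h _ ⟨b, hb, rfl⟩
        show ρ _ = 1
        simp only [map_mul, map_inv, this]; group
      · rintro h _ ⟨b, hb, rfl⟩
        have h1 : ρ _ = 1 := (QuotientGroup.eq_one_iff _).2 (h b hb)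
        simp only [map_mul, map_inv, one_mul, mul_inv_eq_iff_eq_mul] at h1
        exact h1
    have hn := h.ker_le hπ hY (H := zpowers x) (by rwa [zpowers_le])
      (bp_of_pgroup hr (pgroup_zpowers hj))
    have hxC : x ∈ C := (hC x).2 fun b hb => by
      refine CA.Core.le_pCore_of_subnormal (H := zpowers x ⊓ π.ker)
        (.step _ π.ker inf_le_right (Normal.isSubnormal inferInstance) ?_) ((pgroup_zpowers hj).to_le inf_le_left)
        (mem_inf.2 ⟨mul_mem (conj_mem_zpowers (hn hb)) (inv_mem (mem_zpowers x)), ?_⟩)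
      · exact (normal_subgroupOf_iff_le_normalizer inf_le_right).2
          (le_normalizer_inf hn le_normalizer)
      · have : π b = 1 := hb
        simp [this]
    have hN : ((K ⊓ C).map π).Normal := ⟨by
      rintro _ ⟨u, hu, rfl⟩ v
      obtain ⟨g, hg, rfl⟩ : v ∈ K.map π := hK ▸ mem_top v
      exact ⟨g * u * g⁻¹, ⟨K.mul_mem (K.mul_mem hg hu.1) (K.inv_mem hg),
        Normal.conj_mem inferInstance _ hu.2 g⟩, by simp⟩⟩
    have h4 := hm _ inf_le_left (hN.eq_bot_or_eq_top.resolve_left fun e =>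
      hy1 (mem_bot.1 (e ▸ ⟨x, ⟨hx, hxC⟩, rfl⟩)))
    exact pow_eq_one_of_pgroup CA.Core.isPGroup_pCore ((hC k).1 (inf_eq_left.1 h4 hk) a ha)
  obtain ⟨i, hi⟩ := key 2 Nat.prime_two h2
  obtain ⟨j, hj⟩ := key 3 Nat.prime_three h3
  have := eq_one_of_coprime (Nat.Coprime.pow _ _ (by decide)) hi hj
  rwa [mul_inv_eq_one, mul_inv_eq_iff_eq_mul] at this

omit [Finite G] in
theorem eq_one_of_zpow {b : G} {r : ℕ} (hr : r.Prime) (h1 : b ^ r = 1) {m : ℤ} (h2 : b ^ m = 1)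
    (h3 : ¬ (r : ℤ) ∣ m) : b = 1 := by
  rcases (Nat.dvd_prime hr).1 (orderOf_dvd_of_pow_eq_one h1) with e | e
  · simpa using e
  · exact absurd (e ▸ orderOf_dvd_iff_zpow_eq_one.2 h2) h3

theorem HK.not_dvd (h : HK π) (hπ : Function.Surjective π) (hY : HM Y)
    {K : Subgroup G} (hK : K.map π = ⊤) (hc : ∀ a ∈ π.ker, ∀ k ∈ K, a * k = k * a) {r : ℕ}
    (hr : r.Prime) {y v : Y} (hy : y ^ r = 1) (hv : v * y * v⁻¹ ∈ zpowers y)
    (hv' : v * y * v⁻¹ ≠ y) : ¬ r ∣ Nat.card π.ker := by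
  intro hd
  have := Fact.mk hr
  obtain ⟨⟨a, ha⟩, h0⟩ := exists_prime_orderOf_dvd_card' r hd
  rw [← orderOf_coe] at h0
  simp only [] at h0
  have ha1 : a ^ r = 1 := h0 ▸ pow_orderOf_eq_one a
  have hy1 : y ≠ 1 := by rintro rfl; simp at hv'
  obtain ⟨x, hx, rfl, k, hk⟩ := exists_lift hK hr hy
  obtain ⟨g, hg, rfl⟩ : v ∈ K.map π := hK ▸ mem_top v
  have hax : Commute a x := hc a ha x hx
  have hag : Commute a g := hc a ha g hg
  have hπa : π a = 1 := ha
  have key : ∀ u : G, π u = π x → u ^ r ^ (k + 1) = 1 →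
      ∃ i : ℤ, u ^ i = g * u * g⁻¹ ∧ ¬ (r : ℤ) ∣ i - 1 := by
    intro u hu hu'
    have h1 := h.norm_eq hπ hY (H := zpowers u) (by rwa [zpowers_le, MonoidHom.mem_ker, hu])
      (bp_of_pgroup hr (pgroup_zpowers hu'))
    rw [MonoidHom.map_zpowers, hu] at h1
    obtain ⟨i, hi⟩ := conj_mem_zpowers (x := u) (g := g) (h1 ▸ mem_norm_zpowers hv)
    refine ⟨i, hi, fun ⟨m, hm⟩ => hv' ?_⟩
    have h2 := congrArg π hi
    simp only [map_zpow, map_mul, map_inv, hu] at h2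
    rw [← h2, show i = r * m + 1 by omega, zpow_add, zpow_mul, zpow_natCast, hy, one_zpow, one_mul,
      zpow_one]
  obtain ⟨i, hi, hi'⟩ := key x rfl (by rw [pow_succ, pow_mul, hk, one_pow])
  obtain ⟨j, hj, hj'⟩ := key (a * x) (by simp [hπa])
    (by rw [hax.mul_pow, pow_succ', pow_mul, ha1, one_pow, one_mul, ← pow_succ', pow_succ, pow_mul,
      hk, one_pow])
  have e1 : a ^ (j - 1) = x ^ (i - j) := by
    rw [hax.mul_zpow, ← mul_assoc, ← hag.eq, mul_assoc a, mul_assoc a, ← hi] at hj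
    calc a ^ (j - 1) = a⁻¹ * (a ^ j * x ^ j) * (x ^ j)⁻¹ := by group
      _ = _ := by rw [hj]; group
  have e2 : (a ^ (j - 1)) ^ (i - 1) = 1 := by
    rw [zpow_sub_one, mul_inv_eq_one]
    conv_lhs => rw [e1, ← zpow_mul, mul_comm, zpow_mul, hi, conj_zpow, ← e1, ← (hag.zpow_left _).eq,
      mul_inv_cancel_right]
  have e3 := eq_one_of_zpow hr (b := a ^ (j - 1))
    (by rw [← zpow_natCast, ← zpow_mul, mul_comm, zpow_mul, zpow_natCast, ha1, one_zpow]) e2 hi'
  rw [eq_one_of_zpow hr ha1 e3 hj', orderOf_one] at h0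
  exact hr.one_lt.ne h0

omit [Finite G] in
theorem mem_closure2 {z w g : G} (hz : z * z = 1) (hw : w * w = 1) (hc : w * z = z * w)
    (h : g ∈ zpowers z ⊔ zpowers w) : g = 1 ∨ g = z ∨ g = w ∨ g = z * w := by
  obtain ⟨_, ⟨i, rfl⟩, _, ⟨j, rfl⟩, rfl⟩ := (mem_sup_iff_of_le_normalizer'
    (zpowers_le.2 (mem_norm_zpowers_of_comm hc))).1 h
  rcases zpow_cases2 hz i with e | e <;> rcases zpow_cases2 hw j with e' | e' <;> simp [e, e']

theorem HK.two_mem (h : HK π) (hπ : Function.Surjective π) (hY : HM Y)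
    {K : Subgroup G} [K.Normal] (hK : K.map π = ⊤) (hc : ∀ a ∈ π.ker, ∀ k ∈ K, a * k = k * a)
    (h2 : IsPGroup 2 (K ⊓ π.ker : Subgroup G)) {z w y : Y} (hz1 : z ≠ 1) (hz : z * z = 1)
    (hw : w * w = 1) (hzw : z ≠ w) (hc' : w * z = z * w) (hyz : y * z * y⁻¹ = w)
    (hyw : y * w * y⁻¹ = z * w) (n : ℕ) : ∀ a ∈ π.ker, a ^ 2 ^ n = 1 → a ∈ K := by
  induction n with
  | zero => intro a _ h; rw [show a = 1 by simpa using h]; exact K.one_mem
  | succ n ih =>
  intro a ha h1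
  have ha2 : a * a ∈ K := ih _ (mul_mem ha ha) (by rw [← pow_two, ← pow_mul, ← pow_succ', h1])
  by_contra haK
  obtain ⟨z', hz', rfl⟩ : z ∈ K.map π := hK ▸ mem_top z
  obtain ⟨w', hw', rfl⟩ : w ∈ K.map π := hK ▸ mem_top w
  obtain ⟨y', hy', rfl⟩ : y ∈ K.map π := hK ▸ mem_top y
  have hπa : π a = 1 := ha
  have := Fact.mk Nat.prime_two
  have hV : IsPGroup 2 (zpowers (π z') ⊔ zpowers (π w') : Subgroup Y) := fun g => ⟨1, Subtype.ext (by
    show (g : Y) ^ 2 ^ 1 = 1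
    rcases mem_closure2 hz hw hc' g.2 with e | e | e | e <;> rw [e, pow_one, pow_two]
    exacts [mul_one 1, hz, hw, by rw [mul_assoc, ← mul_assoc (π w'), hc', mul_assoc, hw, mul_one, hz]])⟩
  have hQ : IsPGroup 2 (K ⊓ (zpowers (π z') ⊔ zpowers (π w')).comap π : Subgroup G) := by
    rintro ⟨g, hg1, hg2⟩
    obtain ⟨i, hi⟩ := pow_eq_one_of_pgroup hV hg2
    obtain ⟨j, hj⟩ := pow_eq_one_of_pgroup h2 (a := g ^ 2 ^ i)
      ⟨K.pow_mem hg1 _, by rwa [← map_pow] at hi⟩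
    exact ⟨i + j, Subtype.ext (by rw [← pow_mul, ← pow_add] at hj; exact hj)⟩
  have hH : IsPGroup 2 (zpowers (a * z') ⊔ zpowers w' : Subgroup G) := by
    refine (IsPGroup.to_sup_of_normal_right' hQ (pgroup_zpowers h1) fun g hg =>
      mem_norm_zpowers_of_comm (hc a ha g hg.1).symm).to_le (sup_le ?_ ?_) <;> rw [zpowers_le]
    · exact mul_mem (mem_sup_right (mem_zpowers a))
        (mem_sup_left ⟨hz', mem_sup_left (mem_zpowers (π z'))⟩)
    · exact mem_sup_left ⟨hw', mem_sup_right (mem_zpowers (π w'))⟩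
  have h3 := h.norm_eq hπ hY (H := zpowers (a * z') ⊔ zpowers w')
    (fun e => hz1 (by simpa [hπa] using e (mem_sup_left (mem_zpowers _))))
    (bp_of_pgroup Nat.prime_two hH)
  rw [Subgroup.map_sup, MonoidHom.map_zpowers, MonoidHom.map_zpowers, map_mul, hπa, one_mul] at h3
  have h4 : y' ∈ normalizer ((zpowers (a * z') ⊔ zpowers w' : Subgroup G) : Set G) := by
    rw [h3]
    refine mem_normalizer_of_conj_mem fun g hg => ?_
    have m1 : π z' ∈ zpowers (π z') ⊔ zpowers (π w') := mem_sup_left (mem_zpowers _)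
    have m2 : π w' ∈ zpowers (π z') ⊔ zpowers (π w') := mem_sup_right (mem_zpowers _)
    rcases mem_closure2 hz hw hc' hg with e | e | e | e <;> rw [e]
    · simp
    · rwa [hyz]
    · rw [hyw]; exact mul_mem m1 m2
    · rw [show π y' * (π z' * π w') * (π y')⁻¹ = π y' * π z' * (π y')⁻¹ * (π y' * π w' * (π y')⁻¹)
        by group, hyz, hyw]
      exact mul_mem m2 (mul_mem m1 m2)
  let ψ := (QuotientGroup.mk' K).prod π
  have h5 := mem_map_of_mem ψ ((mem_normalizer_iff.1 h4 w').1 (mem_sup_right (mem_zpowers w')))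
  have q1 : ∀ k ∈ K, QuotientGroup.mk' K k = 1 := fun k hk => (QuotientGroup.eq_one_iff k).2 hk
  have qa : QuotientGroup.mk' K a ≠ 1 := fun e => haK ((QuotientGroup.eq_one_iff a).1 e)
  have e1 : ψ (a * z') = (QuotientGroup.mk' K a, π z') := by
    rw [MonoidHom.prod_apply, map_mul, map_mul, q1 z' hz', hπa, mul_one, one_mul]
  have e2 : ψ w' = (1, π w') := by simp only [ψ, MonoidHom.prod_apply, q1 w' hw']
  have e3 : ψ (y' * w' * y'⁻¹) = (1, π z' * π w') := by
    rw [MonoidHom.prod_apply, q1 _ (K.mul_mem (K.mul_mem hy' hw') (K.inv_mem hy')), map_mul, map_mul,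
      map_inv, hyw]
  rw [Subgroup.map_sup, MonoidHom.map_zpowers, MonoidHom.map_zpowers, e1, e2, e3] at h5
  rcases mem_closure2 (Prod.ext (by simpa using q1 _ ha2) hz) (Prod.ext (mul_one 1) hw)
    (Prod.ext (by simp) hc') h5 with e | e | e | e
  · exact hzw (by
      rw [eq_inv_of_mul_eq_one_left (congrArg Prod.snd e), inv_eq_of_mul_eq_one_right hw])
  · exact qa (congrArg Prod.fst e).symm
  · exact hz1 (by simpa using congrArg Prod.snd e)
  · exact qa (by simpa using (congrArg Prod.fst e).symm)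

theorem eq_top_of_ppow (H : Subgroup G) (h : ∀ (x : G) (r k : ℕ), r.Prime → x ^ r ^ k = 1 → x ∈ H) :
    H = ⊤ := by
  rw [← index_eq_one]
  by_contra h1
  obtain ⟨r, hr, hd⟩ := Nat.exists_prime_and_dvd h1
  have := Fact.mk hr
  obtain ⟨P⟩ : Nonempty (Sylow r G) := inferInstance
  exact P.not_dvd_index (hd.trans (index_dvd_of_le fun x hx =>
    let ⟨k, hk⟩ := pow_eq_one_of_pgroup P.2 hx; h x r k hr hk))

theorem comm_of_dedekind (ho : ¬ 2 ∣ Nat.card G)
    (h : ∀ (x g : G) (r k : ℕ), r.Prime → x ^ r ^ k = 1 → g * x * g⁻¹ ∈ zpowers x) :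
    IsMulCommutative G := by
  by_contra hc
  obtain ⟨Q, -, -, ⟨e⟩, -⟩ := Cfsg.Agent.S4211.result hc fun H => ⟨fun a ha g => by
    have := eq_top_of_ppow (H.comap ((MulAut.conj g).toMonoidHom.comp H.subtype))
      fun x r k hr hx => zpowers_le.2 x.2 (h x g r k hr (by simpa using congrArg Subtype.val hx))
    exact (show (⟨a, ha⟩ : H) ∈ H.comap ((MulAut.conj g).toMonoidHom.comp H.subtype) from
      this ▸ mem_top _)⟩
  refine ho (Dvd.dvd.trans ?_ (card_subgroup_dvd_card Q))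
  rw [Nat.card_congr e.toEquiv, Nat.card_eq_fintype_card, QuaternionGroup.card]
  decide

theorem HK.dedekind (h : HK π) (hπ : Function.Surjective π) (hY : HM Y)
    {K : Subgroup G} (hK : K.map π = ⊤) (hc : ∀ a ∈ π.ker, ∀ k ∈ K, a * k = k * a) {s : ℕ}
    (hs : s.Prime) (hd : s ∣ Nat.card Y) {a g : G} (ha : a ∈ π.ker) (hg : g ∈ π.ker) {r k : ℕ}
    (hr : r.Prime) (hrs : r ≠ s) (h1 : a ^ r ^ k = 1) : g * a * g⁻¹ ∈ zpowers a := by
  have := Fact.mk hs
  obtain ⟨y, hy⟩ := exists_prime_orderOf_dvd_card' s hd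
  have hy1 : y ≠ 1 := by rintro rfl; exact hs.one_lt.ne (by simpa using hy)
  obtain ⟨x, hx, rfl, j, hj⟩ := exists_lift hK hs (hy ▸ pow_orderOf_eq_one y)
  have hn : zpowers x ≤ normalizer (zpowers a : Set G) :=
    zpowers_le.2 (mem_norm_zpowers_of_comm (hc a ha x hx).symm)
  have h2 := h.ker_le hπ hY (H := zpowers a ⊔ zpowers x)
    (fun e => hy1 (e (mem_sup_right (mem_zpowers x))))
    (bp_sup hr hs (pgroup_zpowers h1) (pgroup_zpowers hj) hn) hg
  refine mem_of_pow ((Nat.coprime_primes hr hs).2 hrs) (pgroup_zpowers h1) (pgroup_zpowers hj) hn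
    ((mem_normalizer_iff.1 h2 a).1 (mem_sup_left (mem_zpowers a))) (k := k) ?_
  rw [conj_pow, h1]; group

end CA.BpN5
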