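import Cfsg.Agent.Lib.Grp.Coprime2
import Cfsg.Agent.Lib.Grp.H12PSolv

/-! Fixed points of a `p`-group acting coprimely: the product of the orders of the centralizers. -/

set_option autoImplicit false

namespace CA.Gheri

open Subgroup CA.SylIn Finset
open scoped commutatorElement Pointwise

section ab
variable {V : Type*} [CommGroup V] [Finite V] {p : ℕ} [hp : Fact p.Prime]

/-- fixed points of an automorphism -/
def fx (Y : MulAut V) : Subgroup V := Y.toMonoidHom.eqLocus (MonoidHom.id V)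

omit [Finite V] in
theorem mem_fx {Y : MulAut V} {v : V} : v ∈ fx Y ↔ Y v = v := Iff.rfl

theorem eq_one_of_pow (hV : (Nat.card V).Coprime p) {v : V} {k : ℕ} (h : v ^ p ^ k = 1) : v = 1 :=
  orderOf_eq_one_iff.1 (Nat.eq_one_of_dvd_coprimes (hV.pow_right k) (orderOf_dvd_natCard v) (orderOf_dvd_of_pow_eq_one h))

theorem indep (hV : (Nat.card V).Coprime p) {X Z : MulAut V} (hc : Commute X Z) (hZ : Z ^ p = 1) {m : ℕ} (hX : X ^ p ^ m = 1)
    (c : Fin p → V) (h : ∀ i : Fin p, (X * Z ^ (i : ℕ)) (c i) = c i) (h1 : Z (∏ i, c i) = ∏ i, c i) (j : Fin p) : Z (c j) = c j := by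
  classical
  have ha : ∀ t, Z (t⁻¹ * Z t) = t⁻¹ * Z t → t⁻¹ * Z t = 1 := fun t ht => by
    have : ∀ k, (Z ^ k) t = t * (t⁻¹ * Z t) ^ k := fun k => by
      induction k with
      | zero => simp
      | succ k ih => rw [pow_succ', MulAut.mul_apply, ih, map_mul, map_pow, ht, pow_succ', mul_assoc, mul_inv_cancel_left]
    exact eq_one_of_pow hV (k := 1) (by simpa [hZ] using (this p).symm)
  let Y := X * Z ^ (j : ℕ)
  have hY : Y ^ p ^ (m + 1) = 1 := by
    rw [(hc.pow_right _).mul_pow, pow_succ, pow_mul, hX, one_pow, ← pow_mul, ← mul_assoc, pow_mul', hZ, one_pow, mul_one]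
  let E : V → V := fun v => ∏ k ∈ range (p ^ (m + 1)), (Y ^ k) v
  have hE : ∀ W : MulAut V, Commute W Y → ∀ v, W (E v) = E (W v) := fun W hW v => by
    simp only [E, map_prod, ← MulAut.mul_apply, (hW.pow_right _).eq]
  have hE' : ∀ v, Y (E v) = E v := fun v => by
    have := (prod_range_succ (fun k => (Y ^ k) v) _).symm.trans (prod_range_succ' (fun k => (Y ^ k) v) (p ^ (m + 1)))
    rw [hY, pow_zero] at this
    simp only [E, map_prod, ← MulAut.mul_apply, ← pow_succ']
    exact (mul_right_cancel this).symm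
  have hm : ∀ a b, E (a⁻¹ * b) = (E a)⁻¹ * E b := fun a b => by simp [E, prod_mul_distrib]
  have hZY : Commute Z Y := hc.symm.mul_right ((Commute.refl Z).pow_right _)
  have hw : ∀ i : Fin p, (X * Z ^ (i : ℕ)) ((c i)⁻¹ * Z (c i)) = (c i)⁻¹ * Z (c i) := fun i => by
    rw [map_mul, map_inv, h, ← MulAut.mul_apply, ← (hc.symm.mul_right ((Commute.refl Z).pow_right _)).eq, MulAut.mul_apply, h]
  have h2 : ∏ i, E ((c i)⁻¹ * Z (c i)) = 1 := by
    simp only [E]
    rw [prod_comm]
    simp only [← map_prod, prod_mul_distrib, prod_inv_distrib, h1, inv_mul_cancel, map_one, prod_const_one]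
  rw [prod_eq_single j (fun i _ hi => ?_) (by simp)] at h2
  · have : ∀ k, (Y ^ k) ((c j)⁻¹ * Z (c j)) = (c j)⁻¹ * Z (c j) := fun k =>
      pow_mem (show Y ∈ MulAction.stabilizer (MulAut V) _ from hw j) k
    simp only [E, this, prod_const, card_range] at h2
    exact (inv_mul_eq_one.1 (eq_one_of_pow hV h2)).symm
  · have h3 : Y ∈ MulAction.stabilizer (MulAut V) (E ((c i)⁻¹ * Z (c i))) := hE' _
    have h4 : X * Z ^ (i : ℕ) ∈ MulAction.stabilizer (MulAut V) (E ((c i)⁻¹ * Z (c i))) :=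
      (hE _ (((Commute.refl X).mul_right (hc.pow_right _)).mul_left (hZY.pow_left _)) _).trans (by rw [hw])
    have h5 := mul_mem (inv_mem h3) h4
    rw [show Y⁻¹ * (X * Z ^ (i : ℕ)) = Z ^ ((i : ℤ) - j) by simp only [Y]; group] at h5
    have h6 : IsCoprime ((i : ℤ) - j) p := by
      refine ((Nat.prime_iff_prime_int.1 hp.out).irreducible.coprime_iff_not_dvd.2 fun h => hi (Fin.ext ?_)).symm
      have := Int.eq_zero_of_abs_lt_dvd h (by have := i.2; have := j.2; rw [abs_lt]; constructor <;> omega)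
      omega
    obtain ⟨a, b, e⟩ := h6
    have h7 := zpow_mem h5 a
    rw [← zpow_mul, show ((i : ℤ) - j) * a = 1 - p * b by linear_combination e, zpow_sub, zpow_mul, zpow_natCast, hZ,
      one_zpow, inv_one, mul_one, zpow_one, hm, ← hE Z hZY] at h7
    rw [hm, ← hE Z hZY]
    exact ha _ h7

theorem ab_ineq (hV : (Nat.card V).Coprime p) {X Z : MulAut V} (hc : Commute X Z) (hZ : Z ^ p = 1) {m : ℕ}
    (hX : X ^ p ^ m = 1) : (∏ i ∈ range p, Nat.card (fx (X * Z ^ i))) * Nat.card (fx Z) ≤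
      Nat.card V * Nat.card (fx X ⊓ fx Z : Subgroup V) ^ p := by
  let Φ : (∀ i : Fin p, fx (X * Z ^ (i : ℕ))) →* V ⧸ fx Z := (QuotientGroup.mk' _).comp
    (MonoidHom.mk' (fun c => ∏ i, (c i : V)) fun a b => by simp [prod_mul_distrib])
  have h1 : ∀ c : Φ.ker, ∀ i : Fin p, (c.1 i : V) ∈ fx X ⊓ fx Z := fun c i => by
    have h2 := indep hV hc hZ hX (fun i => c.1 i) (fun i => (c.1 i).2) ((QuotientGroup.eq_one_iff _).1 c.2) i
    have h3 : (Z ^ (i : ℕ)) (c.1 i) = c.1 i := pow_mem (show Z ∈ MulAction.stabilizer (MulAut V) _ from h2) i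
    exact ⟨(congrArg X h3).symm.trans (c.1 i).2, h2⟩
  have h2 : Nat.card Φ.ker ≤ Nat.card (Fin p → (fx X ⊓ fx Z : Subgroup V)) := Nat.card_le_card_of_injective
    (fun c i => ⟨_, h1 c i⟩) fun c d e => Subtype.ext (funext fun i => Subtype.ext
      (congrArg (fun f : Fin p → (fx X ⊓ fx Z : Subgroup V) => (f i : V)) e))
  rw [Nat.card_fun, Nat.card_fin] at h2
  rw [prod_range, ← Nat.card_pi, ← Φ.ker.card_mul_index, index_ker, card_eq_card_quotient_mul_card_subgroup (fx Z), mul_assoc,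
    mul_comm]
  exact Nat.mul_le_mul (Nat.mul_le_mul_right _ (card_le_card_group _)) h2

end ab

variable {G : Type*} [Group G] [Finite G] {p : ℕ} [hp : Fact p.Prime]

/-- the basic inequality for a function on subgroups -/
def Ineq (p : ℕ) (x z : G) (f : Subgroup G → ℕ) : Prop :=
  (∏ i ∈ range p, f (zpowers (x * z ^ i))) * f (zpowers z) ≤ f ⊥ * f (zpowers x ⊔ zpowers z) ^ p

/-- order of the centralizer -/
noncomputable def c (N B : Subgroup G) : ℕ := Nat.card (N ⊓ centralizer (B : Set G) : Subgroup G)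

theorem c_pos (N B : Subgroup G) : 0 < c N B := Nat.card_pos

theorem solvP {P : Subgroup G} (hP : IsPGroup p P) : Group.IsSolvable P := by
  have := hP.isNilpotent
  infer_instance

theorem cop {P N : Subgroup G} (hP : IsPGroup p P) (hN : (Nat.card N).Coprime p) : (Nat.card P).Coprime (Nat.card N) := by
  obtain ⟨k, hk⟩ := IsPGroup.iff_card.1 hP
  rw [hk]; exact (hN.pow_right k).symm

theorem ineq {P : Subgroup G} (hP : IsPGroup p P) {x z : G} (hx : x ∈ P) (hz : z ∈ P) (n : ℕ) : ∀ N : Subgroup G, Nat.card N = n →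
    (Nat.card N).Coprime p → P ≤ normalizer (N : Set G) → z ^ p ∈ centralizer (N : Set G) →
    ⁅x, z⁆ ∈ centralizer (N : Set G) → Ineq p x z (c N) := by
  induction n using Nat.strong_induction_on with
  | _ n ih =>
  rintro N rfl hN hPN h1 h2
  have hi : ∀ i : ℕ, zpowers (x * z ^ i) ≤ P := fun i => zpowers_le_of_mem (mul_mem hx (pow_mem hz i))
  have hz' := zpowers_le_of_mem hz
  have hs : zpowers x ⊔ zpowers z ≤ P := sup_le (zpowers_le_of_mem hx) hz'
  have IH : ∀ M : Subgroup G, M < N → P ≤ normalizer (M : Set G) → Ineq p x z (c M) := fun M h hM =>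
    ih _ (card_lt_of_lt h) M rfl (hN.coprime_dvd_left (card_dvd_of_le h.le)) hM (centralizer_le h.le h1) (centralizer_le h.le h2)
  by_cases h0 : N = ⊥
  · simp [Ineq, c, h0]
  by_cases hD : ⁅N, N⁆ = N
  · have k1 : ∏ i ∈ range p, c N (zpowers (x * z ^ i)) ≠ 0 := prod_ne_zero_iff.2 fun i _ => (c_pos _ _).ne'
    have k2 : c N (zpowers x ⊔ zpowers z) ^ p ≠ 0 := pow_ne_zero _ (c_pos _ _).ne'
    refine Nat.le_of_dvd (Nat.pos_of_ne_zero (mul_ne_zero (c_pos _ _).ne' k2)) ((Nat.factorization_prime_le_iff_dvd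
      (mul_ne_zero k1 (c_pos _ _).ne') (mul_ne_zero (c_pos _ _).ne' k2)).1 fun q hq => ?_)
    have := Fact.mk hq
    obtain ⟨T, hT, hPT⟩ := CA.Coprime2.exists_isSylowIn hPN (cop hP hN) (.inl (solvP hP)) q
    have h3 : ∀ B ≤ P, c T B = q ^ (c N B).factorization q := fun B hB => by
      have := CA.Coprime2.isSylowIn_inf_centralizer (hB.trans hPN) (cop (hP.to_le hB) hN) (.inl (solvP (hP.to_le hB))) hT
        (hB.trans hPT)
      rw [c, c, ← Nat.card_congr (subgroupOfEquivOfLe this.1).toEquiv, ← this.coe_toSylow, Sylow.card_eq_multiplicity]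
    have h4 := IH T (lt_of_le_of_ne hT.1 fun e => by
      have := solvP (e ▸ hT.2.1 : IsPGroup q N)
      have : Nontrivial N := (nontrivial_iff_ne_bot N).2 h0
      have h := Group.IsSolvable.commutator_lt_top_of_nontrivial N
      rw [_root_.commutator_def, ← map_subtype_lt_map_subtype, map_commutator, ← MonoidHom.range_eq_map, range_subtype] at h
      exact h.ne hD) hPT
    rw [Ineq, h3 _ hz', h3 _ bot_le, h3 _ hs, prod_congr rfl fun i _ => h3 _ (hi i), prod_pow_eq_pow_sum, ← pow_add, ← pow_mul,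
      ← pow_add, Nat.pow_le_pow_iff_right hq.one_lt] at h4
    rw [Nat.factorization_mul k1 (c_pos _ _).ne', Nat.factorization_mul (c_pos _ _).ne' k2, Nat.factorization_prod fun i _ => (c_pos _ _).ne', Nat.factorization_pow]
    simpa [mul_comm] using h4
  have hR : ⁅N, N⁆ ≤ N := CA.Coprime.commutator_le_left le_normalizer
  have h3 := IH _ (lt_of_le_of_ne hR hD) (CA.Coprime.le_normalizer_commutator hPN hPN)
  let α : P →* MulAut (Abelianization N) := MonoidHom.mk' (fun y => (N.normalizerMonoidHom ⟨y, hPN y.2⟩).abelianizationCongr)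
    fun a b => MulEquiv.toMonoidHom_injective (Abelianization.hom_ext _ _ (MonoidHom.ext fun v => by
      refine congrArg Abelianization.of (Subtype.ext ?_)
      simp [mul_assoc]))
  have hα : ∀ (y : P) (v : N), α y (Abelianization.of v) = Abelianization.of ⟨y * v * y⁻¹, CA.Coprime.conj_mem hPN y.2 v.2⟩ :=
    fun y v => rfl
  have hα1 : ∀ y : P, (y : G) ∈ centralizer (N : Set G) → α y = 1 := fun y hy => MulEquiv.ext fun v => by
    obtain ⟨v, rfl⟩ := QuotientGroup.mk_surjective v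
    exact (hα y v).trans (congrArg Abelianization.of (Subtype.ext (mul_inv_eq_iff_eq_mul.2 (hy v v.2).symm)))
  have hker : ∀ v : N, Abelianization.of v = 1 ↔ (v : G) ∈ ⁅N, N⁆ := fun v => by
    rw [← MonoidHom.mem_ker, Abelianization.ker_of, ← mem_map_iff_mem N.subtype_injective, _root_.commutator_def, map_commutator,
      ← MonoidHom.range_eq_map, range_subtype, coe_subtype]
  have h4 : ∀ B ≤ P, ∀ W : Subgroup (Abelianization N), (∀ v, v ∈ W ↔ ∀ y : P, (y : G) ∈ B → α y v = v) →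
      c N B = c ⁅N, N⁆ B * Nat.card W := fun B hB W hW => by
    let ψ : (N ⊓ centralizer (B : Set G) : Subgroup G) →* Abelianization N := Abelianization.of.comp (inclusion inf_le_left)
    rw [c, ← ψ.ker.card_mul_index, index_ker]
    congr 1
    · rw [c, ← Nat.card_congr (subgroupOfEquivOfLe (inf_le_inf_right _ hR)).toEquiv]
      congr 2
      ext v
      exact (hker _).trans ⟨fun h => ⟨h, v.2.2⟩, fun h => h.1⟩
    · congr 2
      ext v
      rw [hW]
      refine ⟨?_, fun h => ?_⟩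
      · rintro ⟨v, rfl⟩ y hy
        exact (hα y _).trans (congrArg Abelianization.of (Subtype.ext (mul_inv_eq_iff_eq_mul.2 (v.2.2 y hy))))
      · obtain ⟨v, rfl⟩ := QuotientGroup.mk_surjective v
        obtain ⟨n, hn, h5⟩ := CA.Coprime.exists_mul_mem_centralizer' (k := v)
          (hB.trans (CA.Coprime.le_normalizer_commutator hPN hPN))
          (cop (hP.to_le hB) (hN.coprime_dvd_left (card_dvd_of_le hR))) (.inl (solvP (hP.to_le hB))) fun a ha => by
            have := (hα ⟨a, hB ha⟩ v).symm.trans (h ⟨a, hB ha⟩ ha)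
            exact (hker (v⁻¹ * ⟨_, CA.Coprime.conj_mem hPN (hB ha) v.2⟩)).1 (by rw [map_mul, map_inv]; exact inv_mul_eq_one.2 this.symm)
        exact ⟨⟨v * n, mul_mem v.2 (hR hn), h5⟩, (map_mul Abelianization.of v ⟨n, hR hn⟩).trans (by
          rw [(hker ⟨n, hR hn⟩).2 hn, mul_one]; rfl)⟩
  have h5 : ∀ (y : P) v, v ∈ fx (α y) ↔ ∀ w : P, (w : G) ∈ zpowers (y : G) → α w v = v := fun y v => by
    refine ⟨?_, fun h => h y (mem_zpowers _)⟩
    rintro h w ⟨k, hk⟩
    obtain rfl : y ^ k = w := Subtype.ext hk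
    rw [map_zpow]
    exact zpow_mem (show α y ∈ MulAction.stabilizer (MulAut _) v from h) k
  obtain ⟨m, hm⟩ := hP ⟨x, hx⟩
  have h6 := ab_ineq (V := Abelianization N) (p := p) (hN.coprime_dvd_left (card_quotient_dvd_card _)) (X := α ⟨x, hx⟩) (Z := α ⟨z, hz⟩)
    (commutatorElement_eq_one_iff_commute.1 (by rw [← map_commutatorElement]; exact hα1 _ h2))
    (by rw [← map_pow]; exact hα1 _ h1) (m := m) (by rw [← map_pow, hm, map_one])
  rw [Ineq, h4 _ hz' _ (h5 ⟨z, hz⟩), h4 _ bot_le ⊤ (fun v => iff_of_true trivial fun y hy => by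
      rw [show y = 1 from Subtype.ext hy, map_one, MulAut.one_apply]),
    h4 _ hs (fx (α ⟨x, hx⟩) ⊓ fx (α ⟨z, hz⟩)) (fun v => ⟨fun h y hy => ?_, fun h =>
      ⟨h _ (mem_sup_left (mem_zpowers x)), h _ (mem_sup_right (mem_zpowers z))⟩⟩),
    prod_congr rfl fun i _ => h4 _ (hi i) (fx (α ⟨x, hx⟩ * α ⟨z, hz⟩ ^ i)) (by
      rw [← map_pow, ← map_mul]; exact h5 _), prod_mul_distrib, mul_mul_mul_comm, mul_pow, mul_mul_mul_comm (c _ ⊥), card_top]
  · exact Nat.mul_le_mul h3 h6
  · have : zpowers x ⊔ zpowers z ≤ ((MulAction.stabilizer (MulAut _) v).comap α).map P.subtype :=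
      sup_le (zpowers_le_of_mem ⟨⟨x, hx⟩, h.1, rfl⟩) (zpowers_le_of_mem ⟨⟨z, hz⟩, h.2, rfl⟩)
    obtain ⟨w, hw, e⟩ := this hy
    obtain rfl : w = y := Subtype.ext e
    exact hw

theorem prod_le {P : Subgroup G} [Fintype P] (hP : IsPGroup p P) (n : ℕ) : ∀ N : Subgroup G, Nat.card N = n →
    (Nat.card N).Coprime p → P ≤ normalizer (N : Set G) →
    ∏ x : P, c N (zpowers (x : G)) ^ p ≤ (Nat.card N * c N P ^ (p - 1)) ^ Nat.card P := by
  induction n using Nat.strong_induction_on with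
  | _ n ih =>
  rintro N rfl hN hPN
  by_cases h0 : P ≤ centralizer (N : Set G)
  · have : ∀ B ≤ P, c N B = Nat.card N := fun B hB => by
      rw [c, inf_eq_left.2 (le_centralizer_iff.1 (hB.trans h0))]
    rw [prod_congr rfl fun x _ => by rw [this _ (zpowers_le_of_mem x.2)], this _ le_rfl, prod_const, card_univ,
      ← Nat.card_eq_fintype_card, ← pow_succ', Nat.sub_add_cancel hp.out.pos]
  have hn : ((centralizer (N : Set G)).subgroupOf P).Normal :=
    (normal_subgroupOf_iff_le_normalizer_inf).2 (CA.Coprime.inf_le_normalizer_inf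
      (CA.Coprime.le_normalizer_centralizer hPN) le_normalizer)
  have : Nontrivial (P ⧸ (centralizer (N : Set G)).subgroupOf P) :=
    QuotientGroup.nontrivial_iff.2 fun h => h0 (subgroupOf_eq_top.1 h)
  have h1 := hP.to_quotient ((centralizer (N : Set G)).subgroupOf P)
  have := h1.center_nontrivial
  obtain ⟨⟨z, hz⟩, h2⟩ := exists_prime_orderOf_dvd_card' (G := center (P ⧸ (centralizer (N : Set G)).subgroupOf P)) p
    (((h1.to_subgroup _).card_eq_or_dvd).resolve_left Finite.one_lt_card.ne')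
  obtain ⟨z, rfl⟩ := QuotientGroup.mk_surjective z
  rw [orderOf_mk] at h2
  have h3 : (z : G) ^ p ∈ centralizer (N : Set G) := (QuotientGroup.eq_one_iff (z ^ p)).1 (by
    rw [QuotientGroup.mk_pow ((centralizer (N : Set G)).subgroupOf P), ← h2, pow_orderOf_eq_one])
  have h4 : ∀ x : P, ⁅(x : G), (z : G)⁆ ∈ centralizer (N : Set G) := fun x => (QuotientGroup.eq_one_iff ⁅x, z⁆).1 (by
    rw [← QuotientGroup.mk'_apply ((centralizer (N : Set G)).subgroupOf P), map_commutatorElement,
      commutatorElement_eq_one_iff_mul_comm]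
    exact mem_center_iff.1 hz x)
  have h5 : (z : G) ∉ centralizer (N : Set G) := fun h => by
    rw [(QuotientGroup.eq_one_iff z).2 h, orderOf_one] at h2
    exact hp.out.one_lt.ne h2
  let M := N ⊓ centralizer (zpowers (z : G) : Set G)
  have hM : ∀ v, v ∈ M ↔ v ∈ N ∧ z * v = v * z := fun v => by
    simp only [M, Subgroup.mem_inf, zpowers_eq_closure, centralizer_closure,
      mem_centralizer_singleton_iff, eq_comm]
  have h6 := ih _ (card_lt_of_lt (lt_of_le_of_ne inf_le_left fun e => h5 fun v hv => ((hM v).1 (e.ge hv)).2.symm)) M rfl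
    (hN.coprime_dvd_left (card_dvd_of_le inf_le_left)) fun y hy => mem_normalizer_fintype fun v hv => by
      obtain ⟨h7, h8⟩ := (hM v).1 hv
      refine (hM _).2 ⟨CA.Coprime.conj_mem hPN hy h7, ?_⟩
      have := h4 ⟨y⁻¹, inv_mem hy⟩ v h7
      calc _ = y * (⁅y⁻¹, (z : G)⁆ * (z * v)) * y⁻¹ := by group
        _ = y * (⁅y⁻¹, (z : G)⁆ * v * z) * y⁻¹ := by rw [h8, mul_assoc _ v]
        _ = _ := by rw [← this]; group
  have h7 : c M P = c N P := by
    rw [c, c, inf_assoc, inf_eq_right.2 (centralizer_le (zpowers_le_of_mem z.2))]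
  have h8 : ∀ x : G, c N (zpowers x ⊔ zpowers (z : G)) = c M (zpowers x) := fun x => by
    rw [c, c, inf_assoc, inf_comm (centralizer _), zpowers_eq_closure, zpowers_eq_closure, ← Subgroup.closure_union,
      centralizer_closure, centralizer_closure, centralizer_closure]
    congr 3
    ext v
    simp [mem_centralizer_iff, and_comm]
  have h9 : ∏ x : P, c N (zpowers (x : G)) ^ p = ∏ x : P, ∏ i ∈ range p, c N (zpowers ((x : G) * z ^ i)) := by
    rw [prod_comm, prod_pow, ← card_range p, ← prod_const, card_range]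
    exact prod_congr rfl fun i _ => (Equiv.prod_comp (Equiv.mulRight (z ^ i)) fun x : P => c N (zpowers (x : G))).symm
  refine Nat.le_of_mul_le_mul_right ?_ (pow_pos (Nat.card_pos (α := M)) (Nat.card P))
  calc _ = ∏ x : P, ((∏ i ∈ range p, c N (zpowers ((x : G) * z ^ i))) * c N (zpowers (z : G))) := by
        rw [h9, prod_mul_distrib, prod_const, card_univ, Nat.card_eq_fintype_card (α := P)]; rfl
    _ ≤ ∏ x : P, (Nat.card N * c M (zpowers (x : G)) ^ p) := prod_le_prod' fun x _ => by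
        have := ineq hP x.2 z.2 _ N rfl hN hPN h3 (h4 x)
        rwa [Ineq, h8, show c N ⊥ = Nat.card N by rw [c, inf_eq_left.2 (le_centralizer_iff.1 bot_le)]] at this
    _ ≤ _ := by
        rw [prod_mul_distrib, prod_const, card_univ, ← Nat.card_eq_fintype_card, mul_pow, mul_assoc]
        refine Nat.mul_le_mul_left _ (h6.trans_eq ?_)
        rw [h7, mul_pow, mul_comm]

end CA.Gheri
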