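import Cfsg.Agent.Lib.Grp.Gheri

/-! The number of Sylow subgroups containing an element, in a `p`-solvable group. -/

set_option autoImplicit false

namespace CA.Gheri

open Subgroup CA.SylIn Finset Cfsg
open scoped commutatorElement Pointwise

universe u
variable {G : Type u} [Group G] [Finite G] {p : ℕ} [hp : Fact p.Prime]

/-- the number of Sylow subgroups containing `x` -/
noncomputable def lam (p : ℕ) (x : G) : ℕ := Nat.card {Q : Sylow p G // x ∈ Q}

omit [Finite G] hp in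
theorem lam_one : lam p (1 : G) = Nat.card (Sylow p G) := Nat.card_congr (Equiv.subtypeUnivEquiv fun Q => one_mem Q)

theorem fib {H : Type*} [Group H] [Finite H] {f : G →* H} (hf : Function.Surjective f) (x : G) {a b : ℕ}
    (h : ∀ R : Sylow p H, f x ∈ R → Nat.card {Q : Sylow p G // x ∈ Q ∧ Q.mapSurjective hf = R} * a = b) :
    lam p x * a = lam p (f x) * b := by
  let φ : {Q : Sylow p G // x ∈ Q} → {R : Sylow p H // f x ∈ R} := fun Q => ⟨Q.1.mapSurjective hf, mem_map_of_mem f Q.2⟩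
  have := Fintype.ofFinite {R : Sylow p H // f x ∈ R}
  rw [lam, lam, ← Nat.card_congr (Equiv.sigmaFiberEquiv φ), Nat.card_sigma, sum_mul, Nat.card_eq_fintype_card, ← card_univ,
    ← smul_eq_mul, ← sum_const]
  refine sum_congr rfl fun R _ => ?_
  rw [← h R.1 R.2]
  congr 1
  exact Nat.card_congr ⟨fun Q => ⟨Q.1.1, Q.1.2, congrArg Subtype.val Q.2⟩, fun Q => ⟨⟨Q.1, Q.2.1⟩, Subtype.ext Q.2.2⟩,
    fun _ => rfl, fun _ => rfl⟩

theorem exists_fib {H : Type*} [Group H] [Finite H] {f : G →* H} (hf : Function.Surjective f) {x : G} (hx : IsPGroup p (zpowers x))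
    (R : Sylow p H) (h : f x ∈ R) : ∃ Q : Sylow p G, x ∈ Q ∧ Q.mapSurjective hf = R := by
  obtain ⟨Q, rfl⟩ := Sylow.mapSurjective_surjective hf p R
  obtain ⟨g, hg, h1⟩ := (isSylowIn_of_le Q (le_comap_map f Q)).exists_conj_le hx (zpowers_le_of_mem h)
  refine ⟨g⁻¹ • Q, mem_smul_sylow.2 (by rw [inv_inv]; exact conj_le_iff.1 h1 x (mem_zpowers x)), Sylow.ext ?_⟩
  refine eq_of_le_of_card_ge ?_ (by rw [Sylow.card_eq_multiplicity, Sylow.card_eq_multiplicity])
  rintro _ ⟨y, hy, rfl⟩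
  have h2 : f (g⁻¹⁻¹ * y * g⁻¹) ∈ (Q : Subgroup G).map f := mem_map_of_mem f (mem_smul_sylow.1 hy)
  have := mul_mem (mul_mem (inv_mem hg) h2) hg
  simpa [mul_assoc] using this

theorem lam_p (N : Subgroup G) [N.Normal] (hN : IsPGroup p N) {x : G} (hx : IsPGroup p (zpowers x)) :
    lam p x * 1 = lam p (QuotientGroup.mk' N x) * 1 := by
  refine fib (QuotientGroup.mk'_surjective N) x fun R hR => ?_
  rw [mul_one, Nat.card_eq_one_iff_exists]
  obtain ⟨Q, h⟩ := exists_fib (QuotientGroup.mk'_surjective N) hx R hR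
  refine ⟨⟨Q, h⟩, fun Q' => Subtype.ext (Sylow.ext ?_)⟩
  have := congrArg (fun R : Sylow p (G ⧸ N) => (R : Subgroup (G ⧸ N)).comap (QuotientGroup.mk' N)) (Q'.2.2.trans h.2.symm)
  simpa only [Sylow.coe_mapSurjective, comap_map_eq, QuotientGroup.ker_mk', sup_eq_left.2 (hN.le_sylow_of_normal _)] using this

theorem lam_p' (N : Subgroup G) [hn : N.Normal] (hN : (Nat.card N).Coprime p) (P : Sylow p G) {x : G} (hx : IsPGroup p (zpowers x)) :
    lam p x * c N P = lam p (QuotientGroup.mk' N x) * c N (zpowers x) := by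
  refine fib (QuotientGroup.mk'_surjective N) x fun R hR => ?_
  obtain ⟨Q, h1, rfl⟩ := exists_fib (QuotientGroup.mk'_surjective N) hx R hR
  have hd : ∀ y ∈ Q, ∀ n ∈ N, n⁻¹ * y * n ∈ Q → y * n = n * y := fun y hy n hn' h => by
    have : y⁻¹ * (n⁻¹ * y * n) ∈ (Q : Subgroup G) ⊓ N :=
      ⟨(Q : Subgroup G).mul_mem ((Q : Subgroup G).inv_mem hy) h, by simpa [mul_assoc] using N.mul_mem (hn.conj_mem _ (N.inv_mem hn') y⁻¹) hn'⟩
    rw [(disjoint_of_coprime_natCard (cop Q.isPGroup' hN)).eq_bot, mem_bot, inv_mul_eq_one, mul_assoc, eq_inv_mul_iff_mul_eq] at this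
    exact this.symm
  let C := N ⊓ centralizer (zpowers x : Set G)
  have hC : ∀ v, v ∈ C ↔ v ∈ N ∧ x * v = v * x := fun v => by
    simp only [C, Subgroup.mem_inf, zpowers_eq_closure, centralizer_closure, mem_centralizer_singleton_iff, eq_comm]
  have h2 : MulAction.orbit C Q = {Q' | x ∈ Q' ∧ Q'.mapSurjective (QuotientGroup.mk'_surjective N) =
      Q.mapSurjective (QuotientGroup.mk'_surjective N)} := by
    ext Q'
    refine ⟨?_, fun ⟨h3, h4⟩ => ?_⟩
    · rintro ⟨⟨n, hn'⟩, rfl⟩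
      obtain ⟨h3, h4⟩ := (hC n).1 hn'
      refine ⟨mem_smul_sylow.2 (by rwa [mul_assoc, h4, inv_mul_cancel_left]), Sylow.ext ?_⟩
      refine eq_of_le_of_card_ge ?_ (by rw [Sylow.card_eq_multiplicity, Sylow.card_eq_multiplicity])
      rintro _ ⟨y, hy, rfl⟩
      have h2 : QuotientGroup.mk' N (n⁻¹ * y * n) ∈ (Q : Subgroup G).map _ := mem_map_of_mem _ (mem_smul_sylow.1 hy)
      rwa [map_mul, map_mul, map_inv, QuotientGroup.mk'_apply N n, (QuotientGroup.eq_one_iff n).2 h3, inv_one, one_mul, mul_one] at h2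
    · have h5 : (Q' : Subgroup G) ≤ (Q : Subgroup G) ⊔ N := by
        have := congrArg (fun R : Sylow p (G ⧸ N) => (R : Subgroup (G ⧸ N)).comap (QuotientGroup.mk' N)) h4
        simp only [Sylow.coe_mapSurjective, comap_map_eq, QuotientGroup.ker_mk'] at this
        exact le_sup_left.trans this.le
      obtain ⟨g, hg, e⟩ := (isSylowIn_of_le Q le_sup_left).exists_conj_eq (isSylowIn_of_le Q' h5)
      rw [sup_comm, ← SetLike.mem_coe, normal_mul] at hg
      obtain ⟨n, hn', q, hq, rfl⟩ := hg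
      rw [← conj_conj, conj_eq_of_mem hq, ← coe_smul_sylow] at e
      obtain rfl := Sylow.ext e
      exact ⟨⟨n, (hC n).2 ⟨hn', hd x h1 n hn' (mem_smul_sylow.1 h3)⟩⟩, rfl⟩
  have h3 : MulAction.stabilizer C Q = (N ⊓ centralizer ((Q : Subgroup G) : Set G)).subgroupOf C := by
    ext ⟨n, hn'⟩
    rw [MulAction.mem_stabilizer_iff, mem_subgroupOf]
    refine ⟨fun h => ⟨hn'.1, fun y hy => hd y hy n hn'.1 (mem_smul_sylow.1 (by rwa [← h] at hy))⟩, fun h => ?_⟩
    exact Sylow.smul_eq_iff_mem_normalizer.2 (centralizer_le_normalizer _ h.2)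
  have h4 : c N P = Nat.card (MulAction.stabilizer C Q) := by
    obtain ⟨g, rfl⟩ := MulAction.exists_smul_eq G Q P
    rw [h3, Nat.card_congr (subgroupOfEquivOfLe (inf_le_inf_left _ (centralizer_le (zpowers_le_of_mem h1)))).toEquiv,
      ← card_conj g, conj_inf, conj_eq_of_normal, c, coe_smul_sylow, ← conj_centralizer]
  rw [h4, c, ← (MulAction.stabilizer C Q).index_mul_card, MulAction.index_stabilizer, h2]
  rfl

theorem prod_lam_le (n : ℕ) : ∀ {G : Type u} [Group G] [Finite G], Nat.card G = n → IsPSolvable p G → ∀ (P : Sylow p G) [Fintype P],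
    ∏ x : P, lam p (x : G) ^ p ≤ Nat.card (Sylow p G) ^ Nat.card P := by
  induction n using Nat.strong_induction_on with
  | _ n ih =>
  rintro G _ _ rfl hG P _
  have hz : ∀ x : P, IsPGroup p (zpowers (x : G)) := fun x => P.isPGroup'.to_le (zpowers_le_of_mem x.2)
  have key : ∀ (N : Subgroup G) [N.Normal], N ≠ ⊥ → ∀ (a : ℕ) (b : G → ℕ), 0 < a →
      (∀ x : P, lam p (x : G) * a = lam p (QuotientGroup.mk' N x) * b x) →
      ∏ x : P, b x ^ p ≤ (b 1 * a ^ (p - 1)) ^ Nat.card P → ∏ x : P, lam p (x : G) ^ p ≤ Nat.card (Sylow p G) ^ Nat.card P := by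
    intro N _ h0 a b ha h1 h2
    classical
    let R := P.mapSurjective (QuotientGroup.mk'_surjective N)
    have := Fintype.ofFinite (R : Subgroup (G ⧸ N))
    have h3 := ih _ (by
      rw [← index_eq_card, ← N.index_mul_card]
      exact lt_mul_of_one_lt_right (Nat.pos_of_ne_zero index_ne_zero_of_finite) (N.one_lt_card_iff_ne_bot.2 h0))
      rfl (CA.H12PSolv.psolv_quotient hG N) R
    let φ : (P : Subgroup G) →* (R : Subgroup (G ⧸ N)) := (QuotientGroup.mk' N).subgroupMap P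
    have hφ : Function.Surjective φ := (QuotientGroup.mk' N).subgroupMap_surjective P
    have h4 : ∀ y : R, #{x | φ x = y} = #{x | φ x = 1} := fun y => MonoidHom.card_fiber_eq_of_mem_range φ (hφ y) (hφ 1)
    have h5 : ∀ g : R → ℕ, ∏ x : P, g (φ x) = (∏ y, g y) ^ #{x | φ x = 1} := fun g => by
      rw [← prod_fiberwise' univ φ g, ← prod_pow]
      exact prod_congr rfl fun y _ => by rw [prod_const, h4]
    have h6 : Nat.card P = Nat.card R * #{x | φ x = 1} := by
      rw [Nat.card_eq_fintype_card, Nat.card_eq_fintype_card, ← card_univ, card_eq_sum_card_fiberwise (f := φ) (t := univ) (by simp)]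
      exact (sum_congr rfl fun y _ => h4 y).trans (by rw [sum_const, smul_eq_mul, card_univ]; rfl)
    have h7 := h1 1
    rw [OneMemClass.coe_one, map_one, lam_one, lam_one] at h7
    refine Nat.le_of_mul_le_mul_right ?_ (pow_pos (pow_pos ha p) (Nat.card P))
    calc _ = (∏ x : P, lam p (φ x : G ⧸ N) ^ p) * ∏ x : P, b x ^ p := by
          rw [Nat.card_eq_fintype_card, ← card_univ, ← prod_const, ← prod_mul_distrib, ← prod_mul_distrib]
          exact prod_congr rfl fun x _ => by rw [← mul_pow, ← mul_pow, h1]; rfl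
      _ ≤ (Nat.card (Sylow p (G ⧸ N))) ^ Nat.card P * (b 1 * a ^ (p - 1)) ^ Nat.card P := by
          refine Nat.mul_le_mul ?_ h2
          rw [h5 fun y => lam p (y : G ⧸ N) ^ p, h6, pow_mul]
          exact Nat.pow_le_pow_left h3 _
      _ = _ := by rw [← mul_pow, ← mul_pow, ← mul_assoc, ← h7, mul_assoc, ← pow_succ', Nat.sub_add_cancel hp.out.pos]
  by_cases h0 : (⊤ : Subgroup G) = ⊥
  · have : Subsingleton G := ⟨fun a b => by rw [mem_bot.1 (h0.le (mem_top a)), mem_bot.1 (h0.le (mem_top b))]⟩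
    have h1 : Nat.card (Sylow p G) = 1 := Nat.card_eq_one_iff_exists.2 ⟨P, fun Q => Sylow.ext (Subsingleton.elim _ _)⟩
    rw [prod_congr rfl fun x _ => by rw [Subsingleton.elim (x : G) 1, lam_one, h1], h1]
    simp
  obtain h | h := CA.H12PSolv.core_ne_bot hG h0
  · rw [top_inf_eq] at h
    exact key _ h 1 (fun _ => 1) one_pos (fun x => lam_p _ (CA.Core.isPGroup_pCore) (hz x)) (by simp)
  · rw [top_inf_eq] at h
    have h1 : (Nat.card (pPrimeCore p G)).Coprime p := CA.Core.coprime_pPrimeCore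
    refine key _ h _ (fun x => c _ (zpowers x)) (c_pos _ _) (fun x => lam_p' _ h1 P (hz x)) ?_
    rw [zpowers_one_eq_bot, c, inf_eq_left.2 (le_centralizer_iff.1 bot_le)]
    exact prod_le P.isPGroup' _ _ rfl h1 (by rw [normalizer_eq_top]; exact le_top)

end CA.Gheri
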