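import Cfsg.Prelude.Def_HallClasses
import Cfsg.Agent.Lib.Grp.SylIn

/-!
Pronormality of overgroups of Sylow subgroups.
-/

set_option autoImplicit false
set_option linter.unusedSectionVars false

namespace CA.H10Pron

open Cfsg Subgroup CA.SylIn

variable {G : Type*} [Group G]

theorem pron_iff {H : Subgroup G} : IsPronormal H ↔ ∀ g : G, ∃ x ∈ H ⊔ g •ᶜ H, g •ᶜ H = x •ᶜ H :=
  Iff.rfl

theorem map_conj {G' : Type*} [Group G'] (f : G →* G') (g : G) (H : Subgroup G) :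
    (g •ᶜ H).map f = f g •ᶜ H.map f := by
  rw [map_map, map_map]
  congr 1
  ext x
  simp

theorem pron_map {G' : Type*} [Group G'] {f : G →* G'} (hf : Function.Surjective f)
    {H : Subgroup G} (h : IsPronormal H) : IsPronormal (H.map f) := fun g' => by
  obtain ⟨g, rfl⟩ := hf g'
  obtain ⟨x, hx, e⟩ := h g
  refine ⟨f x, ?_, ?_⟩
  · have := mem_map_of_mem f hx
    rwa [Subgroup.map_sup, map_conj] at this
  · have := congrArg (Subgroup.map f) e
    rwa [map_conj, map_conj] at this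

variable (G) in
/-- every subgroup of index prime to `p` is pronormal -/
def AllP (p : ℕ) : Prop := ∀ H : Subgroup G, ¬ p ∣ H.index → IsPronormal H

variable {p : ℕ}

theorem AllP.of_surj {G' : Type*} [Group G'] (h : AllP G p) {f : G →* G'}
    (hf : Function.Surjective f) : AllP G' p := fun H hH => by
  have := pron_map hf (h (H.comap f) (by rwa [index_comap_of_surjective _ hf]))
  rwa [map_comap_eq_self_of_surjective hf] at this

variable [Fact p.Prime] [Finite G]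

theorem exists_conj_le (S : Sylow p G) {H : Subgroup G} (hH : ¬ p ∣ H.index) :
    ∃ x : G, (S : Subgroup G) ≤ x •ᶜ H := by
  obtain ⟨T, hT⟩ := exists_isSylowIn p H
  have hT' : IsSylowIn p T ⊤ := ⟨le_top, hT.isPGroup, by
    rw [relIndex_top_right, ← relIndex_mul_index hT.le]
    exact fun h => ((Fact.out : p.Prime).dvd_mul.1 h).elim hT.not_dvd hH⟩
  obtain ⟨x, -, hx⟩ := hT'.exists_conj_eq (isSylowIn_top S)
  exact ⟨x, hx ▸ conj_mono x hT.le⟩

theorem allP_of (S : Sylow p G)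
    (h : ∀ H : Subgroup G, (S : Subgroup G) ≤ H → ∀ g ∈ normalizer ((S : Subgroup G) : Set G),
      ∃ x ∈ H ⊔ g •ᶜ H, g •ᶜ H = x •ᶜ H) : AllP G p := fun H hH => by
  obtain ⟨y, hy⟩ := exists_conj_le S hH
  have key : IsPronormal (y •ᶜ H) := fun g => by
    set H' := y •ᶜ H
    have h1 : IsSylowIn p (S : Subgroup G) (H' ⊔ g •ᶜ H') := isSylowIn_of_le S (hy.trans le_sup_left)
    have h2 : IsSylowIn p (g •ᶜ (S : Subgroup G)) (H' ⊔ g •ᶜ H') :=
      isSylowIn_of_le (g • S) ((conj_mono g hy).trans le_sup_right)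
    obtain ⟨k, hk, e⟩ := h2.exists_conj_eq h1
    rw [conj_conj] at e
    obtain ⟨x, hx, e2⟩ := h H' hy (k * g) (mem_normalizer_iff_conj_eq.2 e)
    have hle : H' ⊔ (k * g) •ᶜ H' ≤ H' ⊔ g •ᶜ H' := sup_le le_sup_left (by
      rw [← conj_conj]
      exact (conj_mono k le_sup_right).trans (conj_eq_of_mem hk).le)
    refine ⟨k⁻¹ * x, mul_mem (inv_mem hk) (hle hx), ?_⟩
    change g •ᶜ H' = (k⁻¹ * x) •ᶜ H'
    rw [← conj_conj, ← e2, ← conj_conj, inv_conj_conj]
  have := pron_map (f := (MulAut.conj y⁻¹).toMonoidHom) (MulAut.conj y⁻¹).surjective key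
  rwa [inv_conj_conj] at this

theorem allP_of_norm (S : Sylow p G)
    (h : ∀ H : Subgroup G, (S : Subgroup G) ≤ H →
      normalizer ((S : Subgroup G) : Set G) ≤ normalizer (H : Set G)) : AllP G p :=
  allP_of S fun H hH g hg => ⟨1, one_mem _, by rw [one_conj, conj_eq_of_mem_normalizer (h H hH hg)]⟩

theorem allP_of_center (S : Sylow p G)
    (h : ∀ g ∈ normalizer ((S : Subgroup G) : Set G), ∃ s ∈ (S : Subgroup G), ∃ z ∈ center G,
      g = s * z) : AllP G p :=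
  allP_of_norm S fun H hH g hg => by
    obtain ⟨s, hs, z, hz, rfl⟩ := h g hg
    exact mul_mem (le_normalizer (hH hs)) (center_le_normalizer _ hz)

/-- The case of a split group with abelian torus. -/
theorem allP_split {U B : Subgroup G} (hU : IsPGroup p U) (hUB : U ≤ B)
    (hn : ∀ b ∈ B, ∀ u ∈ U, b * u * b⁻¹ ∈ U) (hc : ∀ a ∈ B, ∀ b ∈ B, a * b * a⁻¹ * b⁻¹ ∈ U)
    (hp : ∀ b ∈ B, ∀ k : ℕ, b ^ p ^ k = 1 → b ∈ U)
    (hN : ∀ g : G, (∀ x ∈ U, g⁻¹ * x * g ∈ B) → g ∈ B)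
    (hD : ∀ g : G, ∀ b ∈ B, ∃ u ∈ U, g⁻¹ * (u * b) * g ∈ B) : AllP G p := by
  have hNB : normalizer (U : Set G) ≤ B := fun g hg =>
    hN g fun x hx => hUB (inv_conj_mem_of_mem_normalizer hg hx)
  have hBN : B ≤ normalizer (U : Set G) := fun b hb => mem_normalizer_of_forall (hn b hb)
  have hS : IsSylowIn p U ⊤ := isSylowIn_of_maximal hU le_top fun Q hQ hUQ _ => by
    by_contra hne
    refine (lt_inf_normalizer hQ (lt_of_le_of_ne hUQ (Ne.symm hne))).not_ge fun x hx => ?_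
    obtain ⟨k, hk⟩ := hQ ⟨x, hx.1⟩
    exact hp x (hNB hx.2) k (congrArg Subtype.val hk)
  obtain ⟨S, rfl⟩ := hS.exists_sylow_eq
  refine allP_of_norm S fun H hH b hb => mem_normalizer_of_forall fun h hh => ?_
  obtain ⟨u, hu, hd⟩ := hD h b (hNB hb)
  have hdB : u * b ∈ B := mul_mem (hUB hu) (hNB hb)
  have h1 : IsSylowIn p (S : Subgroup G) (S ⊔ h •ᶜ (S : Subgroup G)) := isSylowIn_of_le S le_sup_left
  have h2 : IsSylowIn p (h •ᶜ (S : Subgroup G)) (S ⊔ h •ᶜ (S : Subgroup G)) :=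
    isSylowIn_of_le (h • S) le_sup_right
  obtain ⟨k, hk, e⟩ := h2.exists_conj_eq h1
  rw [conj_conj] at e
  have hb' : k * h ∈ B := hNB (mem_normalizer_iff_conj_eq.2 e)
  have hKH : (S : Subgroup G) ⊔ h •ᶜ (S : Subgroup G) ≤ H :=
    sup_le hH ((conj_mono h hH).trans (conj_eq_of_mem hh).le)
  have hdK : u * b ∈ normalizer (((S : Subgroup G) ⊔ h •ᶜ (S : Subgroup G) : Subgroup G) : Set G) :=
    inf_normalizer_le_normalizer_sup _ _ ⟨hBN hdB, by
      rw [← conj_normalizer]; exact mem_conj.2 (hBN hd)⟩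
  have e1 : (u * b) * k * (u * b)⁻¹ ∈ H := hKH (conj_mem_of_mem_normalizer hdK hk)
  have e2 := hH (hc _ hdB _ hb')
  have e3 : k * h ∈ H := mul_mem (hKH hk) hh
  have : b * h * b⁻¹ = u⁻¹ * (((u * b) * k * (u * b)⁻¹)⁻¹ *
      ((u * b) * (k * h) * (u * b)⁻¹ * (k * h)⁻¹) * (k * h)) * u := by group
  rw [this]
  exact mul_mem (mul_mem (inv_mem (hH hu)) (mul_mem (mul_mem (inv_mem e1) e2) e3)) (hH hu)

end CA.H10Pron
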