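import Cfsg.Agent.Lib.Grp.H28Q48
import Cfsg.Agent.Lib.Grp.SL23
import Cfsg.Agent.Lib.Grp.Two3
import Cfsg.Agent.Lib.Grp.Rad
import Cfsg.Agent.Lib.Lin.TriPres
import Cfsg.Agent.Lib.Block.H13BS
import Cfsg.Agent.S1012

/-!
Groups with a self-centralizing normal quaternion subgroup of order eight and index six:
`GL(2,3)` and the binary octahedral group.
-/

set_option autoImplicit false

namespace CA.H13G48

open Subgroup Cfsg CA.TriPres CA.H28Q48 CA.SylIn CA.Two CA.H13Q8 CA.H13QBig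

def A0 : Q := ⟨(0, 1, 1, 0), by decide⟩
def B0 : Q := ⟨(1, 0, 1, 1), by decide⟩

def W48 : List (List ℕ) :=
  [[], [0], [1], [0, 1], [1, 0], [1, 1], [0, 1, 0], [0, 1, 1], [1, 0, 1], [1, 1, 0], [0, 1, 0, 1], [0, 1, 1, 0],
  [1, 0, 1, 0], [1, 0, 1, 1], [1, 1, 0, 1], [0, 1, 0, 1, 0], [0, 1, 0, 1, 1], [0, 1, 1, 0, 1], [1, 0, 1, 0, 1],
  [1, 0, 1, 1, 0], [1, 1, 0, 1, 0], [1, 1, 0, 1, 1], [0, 1, 0, 1, 0, 1], [0, 1, 0, 1, 1, 0], [0, 1, 1, 0, 1, 0],
  [0, 1, 1, 0, 1, 1], [1, 0, 1, 0, 1, 0], [1, 0, 1, 0, 1, 1], [1, 0, 1, 1, 0, 1], [1, 1, 0, 1, 0, 1],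
  [1, 1, 0, 1, 1, 0], [0, 1, 0, 1, 0, 1, 0], [0, 1, 0, 1, 0, 1, 1], [0, 1, 0, 1, 1, 0, 1], [0, 1, 1, 0, 1, 0, 1],
  [0, 1, 1, 0, 1, 1, 0], [1, 0, 1, 0, 1, 0, 1], [1, 0, 1, 0, 1, 1, 0], [1, 0, 1, 1, 0, 1, 0],
  [1, 0, 1, 1, 0, 1, 1], [1, 1, 0, 1, 0, 1, 0], [1, 1, 0, 1, 0, 1, 1], [1, 1, 0, 1, 1, 0, 1],
  [0, 1, 0, 1, 0, 1, 0, 1], [1, 0, 1, 0, 1, 0, 1, 1], [1, 1, 0, 1, 0, 1, 0, 1], [1, 1, 0, 1, 1, 0, 1, 1],
  [0, 1, 0, 1, 0, 1, 0, 1, 1]]

theorem top_of_two {Γ : Type*} [Group Γ] {x y : Γ} (h : closure (two x y '' {i | i < 2}) = ⊤)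
    {K : Subgroup Γ} (hx : x ∈ K) (hy : y ∈ K) : K = ⊤ := by
  rw [eq_top_iff, ← h, closure_le]
  rintro _ ⟨i, -, rfl⟩
  unfold two
  split_ifs
  exacts [hx, hy]

theorem gen_Q {K : Subgroup Q} (hx : A0 ∈ K) (hy : B0 ∈ K) : K = ⊤ :=
  top_of_two (closure_eq_top_of_nodup _ 2 W48 (by decide) (by decide +kernel) (by rw [card_Q]; rfl)) hx hy

theorem card_S4 : Nat.card (Equiv.Perm (Fin 4)) = 24 := by rw [Nat.card_perm, Nat.card_fin]; rfl

theorem gen_S4 {K : Subgroup (Equiv.Perm (Fin 4))} (hx : s4 ∈ K) (hy : t4 ∈ K) : K = ⊤ :=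
  top_of_two (closure_eq_top_of_nodup _ 2 RS4W (by decide) (by decide +kernel) (by rw [card_S4]; rfl)) hx hy

theorem relQ : A0 ^ 2 = 1 ∧ B0 ^ 3 = 1 ∧ ((A0 * B0) ^ 4) ^ 2 = 1 ∧
    ∀ g : Q, g * (A0 * B0) ^ 4 = (A0 * B0) ^ 4 * g := by decide +kernel

theorem invS4 : ∀ σ : Equiv.Perm (Fin 4), σ * σ = 1 → σ = 1 ∨ ∃ g, σ = g * s4 * g⁻¹ ∨
    σ = g * (s4 * t4) ^ 2 * g⁻¹ := by decide +kernel

theorem relS4 : s4 ^ 2 = 1 ∧ t4 ^ 3 = 1 ∧ t4 ^ 4 = t4 ∧ (s4 * t4) ^ 4 = 1 ∧ (s4 * t4) ^ 2 ≠ 1 := by decide +kernel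

variable {H : Type*} [Group H] [Finite H]

theorem gl23 (hc : Nat.card H = 48) {a b : H} (ha : a ^ 2 = 1) (hb : b ^ 3 = 1)
    (hu : ∀ g, g * (a * b) ^ 4 = (a * b) ^ 4 * g) (hu2 : ((a * b) ^ 4) ^ 2 = 1)
    (hgen : ∀ K : Subgroup H, a ∈ K → b ∈ K → K = ⊤) : Nonempty (H ≃* GL (Fin 2) (ZMod 3)) := by
  obtain ⟨q1, q2, q3, q4⟩ := relQ
  let x : H × Q := (a, A0)
  let y : H × Q := (b, B0)
  have hz : ∀ g, g * (x * y) ^ 4 = (x * y) ^ 4 * g := fun g => Prod.ext (hu g.1) (q4 g.2)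
  have hz2 : ((x * y) ^ 4) ^ 2 = 1 := Prod.ext hu2 q3
  haveI : (zpowers ((x * y) ^ 4)).Normal := ⟨fun n hn g => by
    obtain ⟨k, rfl⟩ := hn
    have : g * ((x * y) ^ 4) ^ k = ((x * y) ^ 4) ^ k * g := (Commute.zpow_right (hz g) k).eq
    rw [this, mul_inv_cancel_right]
    exact ⟨k, rfl⟩⟩
  let π := QuotientGroup.mk' (zpowers ((x * y) ^ 4))
  obtain ⟨φ, h1, h2⟩ := exists_hom_S4 (x := π x) (y := π y)
    (by rw [← map_pow, show x ^ 2 = 1 from Prod.ext ha q1, map_one])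
    (by rw [← map_pow, show y ^ 3 = 1 from Prod.ext hb q2, map_one])
    (by rw [← map_mul, ← map_pow]; exact (QuotientGroup.eq_one_iff _).2 (mem_zpowers _))
  have hx : x ∈ φ.range.comap π := ⟨_, h1⟩
  have hy : y ∈ φ.range.comap π := ⟨_, h2⟩
  have hΓ : Nat.card (φ.range.comap π) ≤ 48 := by
    rw [CA.Rad.card_comap_of_surjective (QuotientGroup.mk'_surjective _), QuotientGroup.ker_mk', Nat.card_zpowers]
    have e1 : Nat.card φ.range ≤ 24 := card_S4 ▸ Nat.card_le_card_of_surjective _ φ.rangeRestrict_surjective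
    have e2 : orderOf ((x * y) ^ 4) ≤ 2 := orderOf_le_of_pow_eq_one (by norm_num) hz2
    exact Nat.mul_le_mul e1 e2
  obtain ⟨e⟩ := CA.SL23.nonempty_equiv_of_card_le (φ.range.comap π)
    (hgen _ ⟨x, hx, rfl⟩ ⟨y, hy, rfl⟩) (gen_Q ⟨x, hx, rfl⟩ ⟨y, hy, rfl⟩) (hc ▸ hΓ) (card_Q ▸ hΓ)
  exact ⟨e.trans toGL⟩

section
variable {D : Subgroup H} [D.Normal] {u : H} (h : IsQ8 D u) (hC : centralizer (D : Set H) ≤ D)
include h

omit [Finite H] in
theorem u_cent (g : H) : g * u = u * g := by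
  have := h.eq_u (Normal.conj_mem inferInstance u h.u_mem g) (by
    rw [← h.ord_u]; exact (MulAut.conj g).orderOf_eq u)
  rw [mul_inv_eq_iff_eq_mul] at this
  exact this

include hC

theorem center_eq : center H = zpowers u := by
  refine le_antisymm (fun x hx => ?_) (zpowers_le.2 (mem_center_iff.2 (u_cent h)))
  have hxD : x ∈ D := hC (mem_centralizer_iff.2 fun g _ => mem_center_iff.1 hx g)
  rcases h.tri x hxD with rfl | rfl | e
  · exact one_mem _
  · exact mem_zpowers _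
  · obtain ⟨y, -, hy⟩ := h.exists_inv hxD e
    rw [mem_center_iff.1 hx y, mul_inv_cancel_right] at hy
    have h4 := h.ord_of_sq e
    have : x ^ 2 = 1 := by rw [pow_two]; nth_rewrite 1 [hy]; exact inv_mul_cancel x
    have := orderOf_dvd_of_pow_eq_one this
    rw [h4] at this
    norm_num at this

theorem mem_center {x : H} : x ∈ center H ↔ x = 1 ∨ x = u := by
  rw [center_eq h hC]
  exact mem_zpowers_two (h.ord_u ▸ pow_orderOf_eq_one u)

theorem sq_center {x : H} (hx : x ∈ center H) : x ^ 2 = 1 := by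
  rcases (mem_center h hC).1 hx with rfl | rfl
  · exact one_pow 2
  · exact h.ord_u ▸ pow_orderOf_eq_one x

theorem iso_S4 (hc : Nat.card H = 48) (hD : ∀ E : Subgroup H, E.Normal → IsPGroup 2 E → E ≤ D) :
    Nonempty (H ⧸ center H ≃* Equiv.Perm (Fin 4)) := by
  have hZ : Nat.card (center H) = 2 := by rw [center_eq h hC, Nat.card_zpowers, h.ord_u]
  have h24 : Nat.card (H ⧸ center H) = 24 := by
    have := card_eq_card_quotient_mul_card_subgroup (center H)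
    rw [hc, hZ] at this
    omega
  refine Cfsg.Agent.S1012.result h24 fun g' h6 => ?_
  obtain ⟨g, rfl⟩ := QuotientGroup.mk'_surjective (center H) g'
  have nz : ∀ k, g ^ k ∈ center H → 6 ∣ k := fun k hk => by
    rw [← h6, orderOf_dvd_iff_pow_eq_one, ← map_pow]
    exact (QuotientGroup.eq_one_iff _).2 hk
  have g6 : g ^ 6 ∈ center H := by
    have := pow_orderOf_eq_one (QuotientGroup.mk' (center H) g)
    rw [h6, ← map_pow] at this
    exact (QuotientGroup.eq_one_iff _).1 this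
  have g12 : g ^ 12 = 1 := by rw [show 12 = 6 * 2 from rfl, pow_mul]; exact sq_center h hC g6
  have s3 : orderOf (g ^ 4) = 3 := by
    haveI := Fact.mk Nat.prime_three
    refine orderOf_eq_prime (by rw [← pow_mul]; exact g12) fun e => ?_
    have := nz 4 (e ▸ one_mem _)
    norm_num at this
  have sD : g ^ 4 ∉ D := fun e => by
    have := orderOf_dvd_natCard (⟨_, e⟩ : D)
    rw [orderOf_mk, s3, h.card] at this
    norm_num at this
  have tD : g ^ 3 ∈ D := by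
    by_contra tD
    have hE : IsPGroup 2 ↥(D ⊔ zpowers (g ^ 3)) := h.isPGroup.to_sup_of_normal_left
      (IsPGroup.of_card_dvd_pow (n := 2) (by
        rw [Nat.card_zpowers]; exact orderOf_dvd_of_pow_eq_one (by rw [← pow_mul]; exact g12)))
    have hg : g ∈ normalizer ((D ⊔ zpowers (g ^ 3) : Subgroup H) : Set H) :=
      inf_normalizer_le_normalizer_sup _ _ ⟨by rw [normalizer_eq_top]; trivial,
        mem_normalizer_iff_conj_eq.2 (by rw [conj_zpowers]; congr 1; group)⟩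
    have hlt : D < D ⊔ zpowers (g ^ 3) := lt_of_le_of_ne le_sup_left fun e =>
      tD (e ▸ mem_sup_right (mem_zpowers _))
    have c1 := card_lt_of_lt hlt
    obtain ⟨k, hk⟩ := IsPGroup.iff_card.1 hE
    have c2 : 16 ∣ Nat.card ↥(D ⊔ zpowers (g ^ 3)) := by
      rw [hk]; rw [hk, h.card] at c1
      have : 3 < k := (Nat.pow_lt_pow_iff_right (by norm_num : 1 < 2)).1 c1
      exact pow_dvd_pow 2 (show 4 ≤ k from this)
    have c3 := c2.trans (card_dvd_of_le (le_normalizer (H := D ⊔ zpowers (g ^ 3))))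
    have c4 := orderOf_dvd_natCard (⟨_, pow_mem hg 4⟩ : normalizer ((D ⊔ zpowers (g ^ 3) : Subgroup H) : Set H))
    rw [orderOf_mk, s3] at c4
    have c5 := Nat.Coprime.mul_dvd_of_dvd_of_dvd (by norm_num) c3 c4
    have c6 : normalizer ((D ⊔ zpowers (g ^ 3) : Subgroup H) : Set H) = ⊤ :=
      eq_top_of_le_card _ (hc ▸ Nat.le_of_dvd Nat.card_pos c5)
    exact tD (hD _ (normalizer_eq_top_iff.1 c6) hE (mem_sup_right (mem_zpowers _)))
  have t2 : (g ^ 3) ^ 2 = u := by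
    rcases h.tri _ tD with e | e | e
    · have := nz 3 (e ▸ one_mem _); norm_num at this
    · have := nz 3 ((mem_center h hC).2 (Or.inr e)); norm_num at this
    · exact e
  refine sD (hC (h.centralizes (by rw [s3]; decide) (by rw [normalizer_eq_top]; trivial) tD t2 ?_))
  rw [show g ^ 4 * g ^ 3 * (g ^ 4)⁻¹ = g ^ 3 by group]
  exact mem_zpowers _

theorem recog (hc : Nat.card H = 48) (hD : ∀ E : Subgroup H, E.Normal → IsPGroup 2 E → E ≤ D) :
    Nonempty (H ≃* GL (Fin 2) (ZMod 3)) ∨ ∀ P : Sylow 2 H, Nonempty ((P : Subgroup H) ≃* QuaternionGroup 4) := by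
  obtain ⟨e⟩ := iso_S4 h hC hc hD
  obtain ⟨r1, r2, r3, r4, r5⟩ := relS4
  let f : H →* Equiv.Perm (Fin 4) := e.toMonoidHom.comp (QuotientGroup.mk' _)
  have fs : Function.Surjective f := e.surjective.comp (QuotientGroup.mk'_surjective _)
  have fk : ∀ x, f x = 1 ↔ x ∈ center H := fun x => by
    rw [← QuotientGroup.eq_one_iff x]; exact map_eq_one_iff e e.injective
  obtain ⟨a, ha⟩ := fs s4
  obtain ⟨b', hb'⟩ := fs t4
  have hb : f (b' ^ 4) = t4 := by rw [map_pow, hb', r3]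
  have b3 : (b' ^ 4) ^ 3 = 1 := by
    have := sq_center h hC ((fk (b' ^ 3)).1 (by rw [map_pow, hb', r2]))
    rw [show (b' ^ 4) ^ 3 = ((b' ^ 3) ^ 2) ^ 2 by group, this, one_pow]
  generalize b' ^ 4 = b at hb b3
  have w4 : (a * b) ^ 4 ∈ center H := (fk _).1 (by rw [map_pow, map_mul, ha, hb, r4])
  have w8 := sq_center h hC w4
  have hi : D.index = 6 := by
    have := D.card_mul_index
    rw [hc, h.card] at this
    omega
  have w2 : (a * b) ^ 2 ∈ D := by
    have h6 := D.pow_index_mem (a * b)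
    rw [hi] at h6
    have : (a * b) ^ 2 = ((a * b) ^ 6)⁻¹ * ((a * b) ^ 4) ^ 2 := by group
    rw [this, w8, mul_one]
    exact inv_mem h6
  have w2' : (a * b) ^ 2 ∉ center H := fun e => r5 (by rw [← ha, ← hb, ← map_mul, ← map_pow]; exact (fk _).2 e)
  have wu : (a * b) ^ 4 = u := by
    rcases h.tri _ w2 with e | e | e
    · exact absurd (e ▸ one_mem _) w2'
    · exact absurd ((mem_center h hC).2 (Or.inr e)) w2'
    · rw [← e, ← pow_mul]
  rcases (mem_center h hC).1 ((fk (a ^ 2)).1 (by rw [map_pow, ha, r1])) with a2 | a2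
  · refine Or.inl (gl23 hc a2 b3 (fun g => by rw [wu]; exact u_cent h g) w8 fun K h1 h2 => ?_)
    have h3 : K.map f = ⊤ := gen_S4 ⟨a, h1, ha⟩ ⟨b, h2, hb⟩
    refine eq_top_iff.2 fun g _ => ?_
    obtain ⟨k, hk, e⟩ : f g ∈ K.map f := h3 ▸ mem_top _
    have h4 : k⁻¹ * g ∈ K := by
      rcases (mem_center h hC).1 ((fk (k⁻¹ * g)).1 (by rw [map_mul, map_inv, e, inv_mul_cancel])) with e | e
      · exact e ▸ one_mem _
      · rw [e, ← wu]; exact pow_mem (mul_mem h1 h2) 4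
    simpa using mul_mem hk h4
  · right
    have key : ∀ t c g : H, c ^ 2 = u → f t = f g * f c * (f g)⁻¹ → t ^ 2 = u := fun t c g hc' e => by
      have h1 : (g * c * g⁻¹)⁻¹ * t ∈ center H := (fk _).1 (by
        rw [map_mul, map_inv, map_mul, map_mul, map_inv, e, inv_mul_cancel])
      have h2 : t = (g * c * g⁻¹) * ((g * c * g⁻¹)⁻¹ * t) := by group
      rw [h2, Commute.mul_pow (mem_center_iff.1 h1 _), sq_center h hC h1, mul_one, conj_pow, hc', u_cent h,
        mul_inv_cancel_right]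
    have un : ∀ t : H, orderOf t = 2 → t = u := fun t ht => by
      have t2 : t ^ 2 = 1 := ht ▸ pow_orderOf_eq_one t
      have u1 : u ≠ 1 := fun e => by have := h.ord_u; rw [e, orderOf_one] at this; norm_num at this
      rcases invS4 (f t) (by rw [← map_mul, ← pow_two, t2, map_one]) with e | ⟨σ, e | e⟩
      · rcases (mem_center h hC).1 ((fk t).1 e) with e | e
        · rw [e, orderOf_one] at ht; norm_num at ht
        · exact e
      · obtain ⟨g, rfl⟩ := fs σ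
        exact absurd (t2.symm.trans (key t a g a2 (by rw [e, ha]))).symm u1
      · obtain ⟨g, rfl⟩ := fs σ
        exact absurd (t2.symm.trans (key t ((a * b) ^ 2) g (by rw [← pow_mul]; exact wu)
          (by rw [e, map_pow, map_mul, ha, hb]))).symm u1
    have hU : Uniq H := fun x y hx hy _ => (un x hx).trans (un y hy).symm
    intro P
    have c16 : Nat.card (P : Subgroup H) = 2 ^ 4 := CA.H28Simp.card_sylow_of (m := 3) hc (by norm_num) P
    rcases CA.H13BS.cyclic_or_quaternion (hU.subgroup P) P.isPGroup' with hcy | ⟨n, ⟨e⟩⟩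
    · exfalso
      obtain ⟨x, hx, y, hy, e⟩ := h.comm
      have hP : D ≤ P := h.isPGroup.le_sylow_of_normal P
      have := hcy.commGroup.mul_comm (⟨x, hP hx⟩ : (P : Subgroup H)) ⟨y, hP hy⟩
      have h1 : x * y = y * x := congrArg Subtype.val this
      rw [h1, mul_inv_cancel_right, mul_inv_cancel] at e
      have := h.ord_u
      rw [← e, orderOf_one] at this
      norm_num at this
    · have := Nat.card_congr e.toEquiv
      rw [c16, Nat.card_eq_fintype_card, QuaternionGroup.card] at this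
      have h1 : 2 ^ (n + 1) = 2 ^ 2 := by omega
      obtain rfl : n = 1 := by have := Nat.pow_right_injective le_rfl h1; omega
      exact ⟨e⟩

end

/-- A group with self-centralizing `O₂` containing no four-group. -/
theorem main (hC : centralizer (pCore 2 H : Set H) ≤ pCore 2 H) (hU : Uniq (pCore 2 H)) :
    (∃ P : Sylow 2 H, (P : Subgroup H).Normal) ∨ Nonempty (H ≃* GL (Fin 2) (ZMod 3)) ∨
    (Nat.card H = 48 ∧ Nat.card (center H) = 2 ∧ Nonempty (H ⧸ center H ≃* Equiv.Perm (Fin 4)) ∧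
      ∀ P : Sylow 2 H, Nonempty ((P : Subgroup H) ≃* QuaternionGroup 4)) := by
  by_cases hN : ∃ P : Sylow 2 H, (P : Subgroup H).Normal
  · exact Or.inl hN
  right
  have hD : IsPGroup 2 (pCore 2 H) := CA.Core.isPGroup_pCore
  obtain ⟨P⟩ := Sylow.nonempty (p := 2) (G := H)
  have hA : Act 2 (pCore 2 H) := (CA.Two3.isPGroup_or_act hC).resolve_left fun h2 =>
    hN ⟨P, by rw [P.3 (h2.to_subgroup ⊤) le_top |>.symm]; infer_instance⟩
  rcases CA.H13BS.cyclic_or_quaternion hU hD with hcy | ⟨n, ⟨e⟩⟩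
  · exact absurd hA (not_act_of_isCyclic hcy hD)
  obtain ⟨a, y, hm, hS⟩ := CA.MC3.exists_of_quaternion e
  rcases n with _ | n
  swap
  · exact absurd (hS ▸ hA) (CA.Two3.not_act_top hm (by omega) fun _ => by omega)
  obtain ⟨u, h⟩ := isQ8_of_equiv (P := pCore 2 H) e
  have h6 := CA.MC3.q8_relIndex_dvd' hm odd_one
  rw [hS, sup_eq_left.2 hC, normalizer_eq_top, relIndex_top_right] at h6
  have h8 := (pCore 2 H).card_mul_index
  rw [h.card] at h8
  have h3 : 3 ∣ (pCore 2 H).index := by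
    by_contra h'
    obtain ⟨n, -, ho, hn⟩ := hA
    have h2 : (pCore 2 H).index ∣ 2 :=
      (Nat.Coprime.symm ((Nat.Prime.coprime_iff_not_dvd Nat.prime_three).2 h')).dvd_of_dvd_mul_right
        (show (pCore 2 H).index ∣ 2 * 3 from h6)
    have h8 : orderOf n ∣ 2 ^ 4 := (orderOf_dvd_natCard n).trans (h8 ▸ Nat.mul_dvd_mul_left 8 h2)
    rw [orderOf_eq_one_iff.1 (Nat.eq_one_of_dvd_coprimes (ho.pow_right 4) dvd_rfl h8)] at hn
    exact hn (one_mem _)
  have h2 : 2 ∣ (pCore 2 H).index := by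
    by_contra h'
    exact hN ⟨hD.toSylow h', inferInstanceAs (pCore 2 H).Normal⟩
  have hc : Nat.card H = 48 := by
    rw [← h8, Nat.dvd_antisymm h6 (Nat.Coprime.mul_dvd_of_dvd_of_dvd (by norm_num) h2 h3)]
  have hE : ∀ E : Subgroup H, E.Normal → IsPGroup 2 E → E ≤ pCore 2 H := fun E _ hE => CA.Core.le_pCore hE
  exact (recog h hC hc hE).imp_right fun hq =>
    ⟨hc, by rw [center_eq h hC, Nat.card_zpowers, h.ord_u], iso_S4 h hC hc hE, hq⟩

end CA.H13G48
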