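import Cfsg.Agent.Lib.Block.H13BS
import Cfsg.Agent.Lib.Loc.AmbCore

/-! Central extensions of generalized quaternion groups. -/

set_option autoImplicit false

namespace CA.H13Qz

open Subgroup

theorem gens {S : Type*} [Group S] [Finite S] (hS : IsPGroup 2 S) (D : Subgroup S) [D.Normal]
    (hn : ¬ IsMulCommutative (S ⧸ D)) (hu : ∃! x : S ⧸ D, orderOf x = 2) :
    ∃ x y : S, (y * x * y⁻¹ * x ∈ D) ∧
      ∀ s : S, ∃ k : ℕ, ∃ d ∈ D, s = x ^ k * d ∨ s = y * x ^ k * d := by
  obtain ⟨u, -, hu⟩ := hu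
  rcases CA.H13BS.cyclic_or_quaternion (G := S ⧸ D)
    (fun a b ha hb _ => (hu a ha).trans (hu b hb).symm) (hS.to_quotient D) with h | ⟨n, ⟨e⟩⟩
  · exact absurd h.isMulCommutative hn
  let π := e.toMonoidHom.comp (QuotientGroup.mk' D)
  have hs : Function.Surjective π := e.surjective.comp (QuotientGroup.mk'_surjective D)
  have hk : ∀ s, π s = 1 → s ∈ D := fun s h =>
    (QuotientGroup.eq_one_iff s).1 (e.map_eq_one_iff.1 h)
  obtain ⟨x, hx⟩ := hs (.a 1)
  obtain ⟨y, hy⟩ := hs (.xa 0)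
  refine ⟨x, y, hk _ ?_, fun s => ?_⟩
  · rw [map_mul, map_mul, map_mul, map_inv, hx, hy, mul_eq_one_iff_eq_inv, mul_inv_eq_iff_eq_mul,
      eq_inv_mul_iff_mul_eq]
    simp
  · rcases h : π s with i | i
    · refine ⟨i.val, (x ^ i.val)⁻¹ * s, hk _ ?_, Or.inl (by group)⟩
      rw [map_mul, map_inv, map_pow, hx, h, QuaternionGroup.a_one_pow, ZMod.natCast_zmod_val,
        inv_mul_cancel]
    · refine ⟨i.val, (y * x ^ i.val)⁻¹ * s, hk _ ?_, Or.inr (by group)⟩
      rw [map_mul, map_inv, map_mul, map_pow, hx, hy, h, QuaternionGroup.a_one_pow,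
        ZMod.natCast_zmod_val, QuaternionGroup.xa_mul_a, zero_add, inv_mul_cancel]

theorem comm_of {S : Type*} [Group S] {D : Subgroup S} (hD : D ≤ center S) {x y : S}
    (h : ∀ s : S, ∃ k : ℕ, ∃ d ∈ D, s = x ^ k * d ∨ s = y * x ^ k * d) {T : Type*} [Group T]
    (π : S →* T) {c : S} (hx : Commute (π c) (π x)) (hy : Commute (π c) (π y)) (s : S) :
    Commute (π c) (π s) := by
  obtain ⟨k, d, hd, e⟩ := h s
  have hd' : Commute (π c) (π d) := (show Commute c d from mem_center_iff.1 (hD hd) c).map π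
  rcases e with rfl | rfl <;> simp only [map_mul, map_pow]
  · exact (hx.pow_right k).mul_right hd'
  · exact (hy.mul_right (hx.pow_right k)).mul_right hd'

theorem comm_all {S : Type*} [Group S] {D : Subgroup S} (hD : D ≤ center S) {x y : S}
    (h : ∀ s : S, ∃ k : ℕ, ∃ d ∈ D, s = x ^ k * d ∨ s = y * x ^ k * d) {T : Type*} [Group T]
    (π : S →* T) (hxy : Commute (π x) (π y)) (s t : S) : Commute (π s) (π t) :=
  comm_of hD h π (comm_of hD h π (Commute.refl _) hxy s).symm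
    (comm_of hD h π hxy.symm (Commute.refl _) s).symm t

end CA.H13Qz
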