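import Cfsg.Agent.Lib.Grp.CoprimeAct
import Cfsg.Agent.Lib.Grp.Core

/-! Coprime operators fixing an involution centralizer: basic facts and the index inequality. -/

set_option autoImplicit false
open Cfsg Subgroup

namespace CA.H19Aut

section Dih
variable {X : Type*} [Group X]

theorem inv_pow_of {u z : X} (h : u * z * u⁻¹ = z⁻¹) (k : ℕ) : u * z ^ k * u⁻¹ = (z ^ k)⁻¹ := by
  rw [← conj_pow, h, inv_pow]

theorem mul_sq {u z : X} (h : u * z * u⁻¹ = z⁻¹) : u * (z * z) = z⁻¹ * u * z := by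
  rw [← h]; group

theorem inverts {x y : X} (hx : x * x = 1) (hy : y * y = 1) : x * (x * y) * x⁻¹ = (x * y)⁻¹ := by
  have h1 : x⁻¹ = x := inv_eq_of_mul_eq_one_right hx
  have h2 : y⁻¹ = y := inv_eq_of_mul_eq_one_right hy
  rw [mul_inv_rev, h2, ← mul_assoc, hx, one_mul]

/-- `x (x y)^m` is conjugate to `y` for odd `m` -/
theorem odd_conj {x y : X} (hx : x * x = 1) (hy : y * y = 1) (k : ℕ) :
    x * (x * y) ^ (2 * k + 1) = ((x * y) ^ k)⁻¹ * y * (x * y) ^ k := by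
  have h := inv_pow_of (inverts hx hy) k
  have e : (x * y) ^ (2 * k + 1) = (x * y) ^ k * (x * y) * (x * y) ^ k := by
    rw [← pow_succ, ← pow_add]; congr 1; ring
  have h2 : x * (x * y) ^ k = ((x * y) ^ k)⁻¹ * x := by rw [← h]; group
  rw [e, ← mul_assoc, ← mul_assoc, h2]
  have : ((x * y) ^ k)⁻¹ * x * (x * y) = ((x * y) ^ k)⁻¹ * (x * x) * y := by group
  rw [this, hx, mul_one]

/-- if `(x y)^m = 1` with `m` odd then `y` is conjugate to `x` by a power of `x y` -/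
theorem conj_of_odd {x y : X} (hx : x * x = 1) (hy : y * y = 1) {k : ℕ}
    (h : (x * y) ^ (2 * k + 1) = 1) : (x * y) ^ k * x * ((x * y) ^ k)⁻¹ = y := by
  have := odd_conj hx hy k
  rw [h, mul_one] at this
  calc (x * y) ^ k * x * ((x * y) ^ k)⁻¹
      = (x * y) ^ k * (((x * y) ^ k)⁻¹ * y * (x * y) ^ k) * ((x * y) ^ k)⁻¹ := by rw [← this]
    _ = y := by group

theorem exists_invol {w : X} {a : ℕ} (hw : w ^ 2 ^ a = 1) (h1 : w ≠ 1) :
    ∃ i, w ^ 2 ^ i ≠ 1 ∧ w ^ 2 ^ i * w ^ 2 ^ i = 1 := by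
  induction a with
  | zero => simp at hw; exact absurd hw h1
  | succ a ih =>
    by_cases h : w ^ 2 ^ a = 1
    · exact ih h
    · exact ⟨a, h, by rw [← pow_add, ← two_mul, ← pow_succ', hw]⟩

theorem eq_one_of_odd {o : X} {m a : ℕ} (hm : Odd m) (h1 : o ^ m = 1) (h2 : o ^ 2 ^ a = 1) : o = 1 := by
  have := pow_gcd_eq_one.2 ⟨h1, h2⟩
  rwa [(Nat.Coprime.pow_right a hm.coprime_two_right).gcd_eq_one, pow_one] at this

theorem mem_of_sq {K : Subgroup X} {o : X} {m : ℕ} (hm : Odd m) (h1 : o ^ m = 1) (h2 : o * o ∈ K) :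
    o ∈ K := by
  obtain ⟨k, rfl⟩ := hm
  have : o = ((o * o) ^ k)⁻¹ := by
    rw [eq_inv_iff_mul_eq_one, ← pow_two, ← pow_mul, ← pow_succ', h1]
  rw [this]; exact K.inv_mem (K.pow_mem h2 k)

theorem ord_two {x : X} (h1 : x ≠ 1) (h2 : x * x = 1) : orderOf x = 2 :=
  orderOf_eq_prime (by rw [pow_two, h2]) h1

/-- centralizer of an element -/
abbrev CC (g : X) : Subgroup X := centralizer {g}

theorem mem_CC {g c : X} : c ∈ CC g ↔ c * g = g * c := by
  rw [mem_centralizer_singleton_iff]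

/-- extended centralizer -/
def CS (w : X) : Subgroup X where
  carrier := {g | g * w * g⁻¹ = w ∨ g * w * g⁻¹ = w⁻¹}
  one_mem' := by simp
  mul_mem' := by
    intro a b ha hb
    have e : a * b * w * (a * b)⁻¹ = a * (b * w * b⁻¹) * a⁻¹ := by group
    have e2 : a * w⁻¹ * a⁻¹ = (a * w * a⁻¹)⁻¹ := by group
    change _ ∨ _
    rw [e]
    rcases hb with hb | hb <;> rw [hb]
    · exact ha
    · rw [e2]; rcases ha with ha | ha <;> rw [ha] <;> simp
  inv_mem' := by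
    intro a ha
    change _ ∨ _
    rcases ha with ha | ha
    · left; conv_lhs => rw [← ha]
      group
    · right
      have : w = a * w⁻¹ * a⁻¹ := by
        rw [show a * w⁻¹ * a⁻¹ = (a * w * a⁻¹)⁻¹ by group, ha, inv_inv]
      conv_lhs => rw [this]
      group

theorem mem_CS {w g : X} : g ∈ CS w ↔ g * w * g⁻¹ = w ∨ g * w * g⁻¹ = w⁻¹ := Iff.rfl

theorem sq_mem_CC {w g : X} (h : g ∈ CS w) : g * g ∈ CC w := by
  rw [mem_CC]
  have e : g * g * w = g * (g * w * g⁻¹) * g⁻¹ * (g * g) := by group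
  have e2 : g * w⁻¹ * g⁻¹ = (g * w * g⁻¹)⁻¹ := by group
  rcases h with h | h
  · rw [e, h, h]
  · rw [e, h, e2, h, inv_inv]

/-- class of `s` under `K` -/
theorem ncard_cl (K : Subgroup X) (s : X) :
    {y | ∃ k ∈ K, k * s * k⁻¹ = y}.ncard = (CC s).relIndex K := by
  letI : MulAction K X := MulAction.compHom X ((MulAut.conj (G := X)).comp K.subtype)
  have h := MulAction.index_stabilizer K s
  have h1 : MulAction.stabilizer K s = (CC s).subgroupOf K := by
    ext k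
    rw [MulAction.mem_stabilizer_iff, mem_subgroupOf, mem_CC]
    change (k : X) * s * (k : X)⁻¹ = s ↔ _
    rw [mul_inv_eq_iff_eq_mul]
  have h2 : MulAction.orbit K s = {y | ∃ k ∈ K, k * s * k⁻¹ = y} := by
    ext y
    constructor
    · rintro ⟨k, rfl⟩; exact ⟨k, k.2, rfl⟩
    · rintro ⟨k, hk, rfl⟩; exact ⟨⟨k, hk⟩, rfl⟩
  rw [relIndex, ← h1, h, h2]

end Dih

variable {A X : Type*} [Group A] [Group X] [MulDistribMulAction A X]

/-- fixed points -/
abbrev HH (A X : Type*) [Group A] [Group X] [MulDistribMulAction A X] : Subgroup X :=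
  FixedPoints.subgroup A X

theorem mem_HH {g : X} : g ∈ HH A X ↔ ∀ a : A, a • g = g := FixedPoints.mem_subgroup A X g

/-- invariance -/
def Iv (A : Type*) [Group A] [MulDistribMulAction A X] (K : Subgroup X) : Prop :=
  ∀ a : A, ∀ x ∈ K, a • x ∈ K

theorem iv_CC {w : X} (hw : w ∈ HH A X) : Iv A (CC w) := fun a x hx => by
  rw [mem_CC] at hx ⊢
  conv_lhs => rw [← mem_HH.1 hw a]
  conv_rhs => rw [← mem_HH.1 hw a]
  rw [← smul_mul', ← smul_mul', hx]

theorem iv_CS {w : X} (hw : w ∈ HH A X) : Iv A (CS w) := fun a x hx => by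
  have e : a • x * w * (a • x)⁻¹ = a • (x * w * x⁻¹) := by
    rw [smul_mul', smul_mul', smul_inv', mem_HH.1 hw a]
  rw [mem_CS, e]
  rcases hx with h | h <;> rw [h]
  · exact .inl (mem_HH.1 hw a)
  · exact .inr (mem_HH.1 ((HH A X).inv_mem hw) a)

/-- the hypothesis -/
structure Hy (A : Type*) [Group A] [MulDistribMulAction A X] (x : X) : Prop where
  cop : (Nat.card A).Coprime (Nat.card X)
  sol : Group.IsSolvable A
  ne : x ≠ 1
  sq : x * x = 1
  cen : CC x ≤ HH A X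

variable [Finite A] [Finite X] {x : X}

namespace Hy

omit [Finite A] [Finite X] in
theorem mem (h : Hy A x) : x ∈ HH A X := h.cen (mem_CC.2 rfl)

omit [Finite A] [Finite X] in
theorem inv (h : Hy A x) : x⁻¹ = x := inv_eq_of_mul_eq_one_right h.sq

theorem fus (h : Hy A x) {s g : X} (hs : s ∈ HH A X) (hg : g * s * g⁻¹ ∈ HH A X) :
    ∃ c ∈ HH A X, c * s * c⁻¹ = g * s * g⁻¹ := by
  obtain ⟨c, hc, e⟩ := CoprimeAct.exists_fixed_conj_elem h.cop (.inl h.sol) (mem_HH.1 hs) (mem_HH.1 hg)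
  exact ⟨c, mem_HH.2 hc, e⟩

theorem uniq (h : Hy A x) {g : X} (hg : g * x * g⁻¹ ∈ HH A X) : g ∈ HH A X := by
  obtain ⟨c, hc, e⟩ := h.fus h.mem hg
  have : c⁻¹ * g ∈ CC x := by
    rw [mem_CC]
    calc c⁻¹ * g * x = c⁻¹ * (g * x * g⁻¹) * g := by group
      _ = x * (c⁻¹ * g) := by rw [← e]; group
  have := (HH A X).mul_mem hc (h.cen this)
  simpa using this

theorem uniq' (h : Hy A x) {g : X} (hg : g⁻¹ * x * g ∈ HH A X) : g ∈ HH A X := by
  have := h.uniq (g := g⁻¹) (by simpa using hg)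
  simpa using this

theorem conj (h : Hy A x) {y : X} (hc : IsConj x y) (hy : y ∈ HH A X) : Hy A y := by
  obtain ⟨g, rfl⟩ := isConj_iff.1 hc
  have hg := h.uniq hy
  refine ⟨h.cop, h.sol, fun e => h.ne (by simpa using e), ?_, fun c hc => ?_⟩
  · calc g * x * g⁻¹ * (g * x * g⁻¹) = g * (x * x) * g⁻¹ := by group
      _ = 1 := by rw [h.sq]; group
  · have : g⁻¹ * c * g ∈ CC x := by
      rw [mem_CC] at hc ⊢
      calc g⁻¹ * c * g * x = g⁻¹ * (c * (g * x * g⁻¹)) * g := by group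
        _ = x * (g⁻¹ * c * g) := by rw [hc]; group
    have := (HH A X).mul_mem ((HH A X).mul_mem hg (h.cen this)) ((HH A X).inv_mem hg)
    simpa [mul_assoc] using this

theorem two_le (h : Hy A x) {T : Subgroup X} (hT : IsPGroup 2 T) (hx : x ∈ T) : T ≤ HH A X := by
  haveI := hT.isNilpotent
  have hn := normalizerCondition_of_isNilpotent (G := T)
  rw [normalizerCondition_iff_only_full_group_self_normalizing] at hn
  have := hn ((HH A X).subgroupOf T) (le_antisymm (fun g hg => ?_) le_normalizer)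
  · exact subgroupOf_eq_top.1 this
  · rw [mem_normalizer_iff] at hg
    have := (hg ⟨x, hx⟩).1 h.mem
    exact h.uniq this

theorem isP (h : Hy A x) : IsPGroup 2 (zpowers x) :=
  IsPGroup.of_card (n := 1) (by rw [Nat.card_zpowers, ord_two h.ne h.sq]; rfl)

theorem iv_le (h : Hy A x) {U : Subgroup X} (hU : IsPGroup 2 U) (hi : Iv A U) : U ≤ HH A X := by
  obtain ⟨P, hP, hUP⟩ := CoprimeAct.exists_sylow_ge h.cop (.inl h.sol) hU hi
  obtain ⟨T, hT⟩ := h.isP.exists_le_sylow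
  have hTH := h.two_le T.2 (hT (mem_zpowers x))
  obtain ⟨c, hc, e⟩ := CoprimeAct.sylow_conj h.cop (.inl h.sol) (P := T) (Q := P)
    (fun a y hy => by rw [mem_HH.1 (hTH hy) a]; exact hy) hP
  intro u hu
  have hu' : u ∈ ((c • T : Sylow 2 X) : Subgroup X) := by rw [e]; exact hUP hu
  rw [Sylow.coe_subgroup_smul, Coprime.mem_conj_smul_iff] at hu'
  have hc' := mem_HH.2 hc
  have := (HH A X).mul_mem ((HH A X).mul_mem hc' (hTH hu')) ((HH A X).inv_mem hc')
  simpa [mul_assoc] using this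

theorem conj_into (h : Hy A x) {N : Subgroup X} (hN : Iv A N) {y : X} (hy : y ∈ N) {a : ℕ}
    (ha : y ^ 2 ^ a = 1) : ∃ k ∈ N, k⁻¹ * y * k ∈ HH A X := by
  letI := Act.subAct N hN
  obtain ⟨R, hR⟩ := CoprimeAct.exists_sylow (A := A) (K := N) (CoprimeAct.cop_sub h.cop N) (.inl h.sol) 2
  have hle : (R : Subgroup N).map N.subtype ≤ HH A X := by
    refine h.iv_le (R.2.map _) ?_
    rintro b _ ⟨r, hr, rfl⟩
    exact ⟨b • r, hR b r hr, rfl⟩
  have hp : IsPGroup 2 (zpowers (⟨y, hy⟩ : N)) := by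
    rintro ⟨_, i, rfl⟩
    refine ⟨a, Subtype.ext (Subtype.ext ?_)⟩
    simp only [SubgroupClass.coe_pow, SubgroupClass.coe_zpow, OneMemClass.coe_one]
    rw [← zpow_natCast, ← zpow_mul, mul_comm, zpow_mul, zpow_natCast, ha, one_zpow]
  obtain ⟨Q, hQ⟩ := hp.exists_le_sylow
  obtain ⟨k, hk⟩ := MulAction.exists_smul_eq N R Q
  have hu' : (⟨y, hy⟩ : N) ∈ ((k • R : Sylow 2 N) : Subgroup N) := by rw [hk]; exact hQ (mem_zpowers _)
  rw [Sylow.coe_subgroup_smul, Coprime.mem_conj_smul_iff] at hu'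
  exact ⟨k, k.2, hle ⟨_, hu', rfl⟩⟩

theorem inverted (h : Hy A x) {c g : X} (hc : x * c * x⁻¹ = c⁻¹) (hg : g⁻¹ * c * g ∈ HH A X) :
    c ∈ HH A X := by
  have hx' : g⁻¹ * x * g ∈ CS (g⁻¹ * c * g) := by
    right
    calc g⁻¹ * x * g * (g⁻¹ * c * g) * (g⁻¹ * x * g)⁻¹ = g⁻¹ * (x * c * x⁻¹) * g := by group
      _ = _ := by rw [hc]; group
  obtain ⟨k, hk, hk'⟩ := h.conj_into (iv_CS hg) hx' (a := 1) (by
    calc (g⁻¹ * x * g) ^ 2 ^ 1 = g⁻¹ * (x * x) * g := by rw [pow_one, pow_two]; group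
      _ = 1 := by rw [h.sq]; group)
  have h0 : g * k ∈ HH A X := h.uniq' (by convert hk' using 1; group)
  have hk2 := (CS _).inv_mem hk
  have e : c = g * k * (k⁻¹ * (g⁻¹ * c * g) * k⁻¹⁻¹) * (g * k)⁻¹ := by group
  rw [e]
  refine (HH A X).mul_mem ((HH A X).mul_mem h0 ?_) ((HH A X).inv_mem h0)
  rcases hk2 with h1 | h1 <;> rw [h1]
  · exact hg
  · exact (HH A X).inv_mem hg

theorem ineq (h : Hy A x) {w : X} (hw : w ∈ HH A X) :
    (HH A X).relIndex (CC (x * w)) * (HH A X).relIndex (CC w) ≤ (HH A X).index := by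
  classical
  have hy : x * w ∈ HH A X := (HH A X).mul_mem h.mem hw
  rw [relIndex, relIndex, index, index, index, ← Nat.card_prod]
  refine Nat.card_le_card_of_injective
    (fun q : (CC (x * w) ⧸ (HH A X).subgroupOf (CC (x * w))) × (CC w ⧸ (HH A X).subgroupOf (CC w)) =>
      ((((q.2.out : CC w) : X) * ((q.1.out : CC (x * w)) : X) : X) : X ⧸ HH A X)) ?_
  rintro ⟨P, Q⟩ ⟨P', Q'⟩ e
  simp only [QuotientGroup.eq] at e
  have hi := mem_CC.1 P.out.2
  have hi' := mem_CC.1 P'.out.2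
  have hb := mem_CC.1 ((CC w).mul_mem ((CC w).inv_mem Q'.out.2) Q.out.2)
  have hQ : Q' = Q → P = P' := fun hq => by
    subst hq
    rw [← QuotientGroup.out_eq' P, ← QuotientGroup.out_eq' P', QuotientGroup.eq, mem_subgroupOf]
    convert e using 1
    simp only [coe_mul, coe_inv]; group
  have hq : Q' = Q := by
    rw [← QuotientGroup.out_eq' Q, ← QuotientGroup.out_eq' Q', QuotientGroup.eq, mem_subgroupOf]
    simp only [coe_mul, coe_inv]
    generalize ((Q.out : CC w) : X) = j at e hb ⊢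
    generalize ((Q'.out : CC w) : X) = j' at e hb ⊢
    generalize ((P.out : CC (x * w)) : X) = i at e hi
    generalize ((P'.out : CC (x * w)) : X) = i' at e hi'
    set b := j'⁻¹ * j with hbd
    have e' : i⁻¹ * b⁻¹ * i' ∈ HH A X := by convert e using 1; rw [hbd]; group
    have hc : b⁻¹ * x * b * x⁻¹ ∈ HH A X := by
      refine h.inverted (g := i) ?_ ?_
      · calc x * (b⁻¹ * x * b * x⁻¹) * x⁻¹ = x * b⁻¹ * x * b * (x * x)⁻¹ := by group
          _ = x * b⁻¹ * x⁻¹ * b := by rw [h.sq, h.inv]; group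
          _ = _ := by group
      · have h1 : b⁻¹ * x * b * x⁻¹ = b⁻¹ * (x * w) * b * (x * w)⁻¹ := by
          calc b⁻¹ * x * b * x⁻¹ = b⁻¹ * x * (b * w) * (x * w)⁻¹ := by group
            _ = _ := by rw [hb]; group
        have h2 : i⁻¹ * (b⁻¹ * (x * w) * b * (x * w)⁻¹) * i =
            (i⁻¹ * b⁻¹ * i') * (x * w) * (i⁻¹ * b⁻¹ * i')⁻¹ * (x * w)⁻¹ := by
          calc i⁻¹ * (b⁻¹ * (x * w) * b * (x * w)⁻¹) * i
              = i⁻¹ * b⁻¹ * ((x * w) * i') * i'⁻¹ * b * ((x * w)⁻¹ * (i * (x * w))) * (x * w)⁻¹ := by group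
            _ = _ := by rw [← hi', hi]; group
        rw [h1, h2]
        exact (HH A X).mul_mem ((HH A X).mul_mem ((HH A X).mul_mem e' hy) ((HH A X).inv_mem e'))
          ((HH A X).inv_mem hy)
    refine h.uniq' ?_
    simpa using (HH A X).mul_mem hc h.mem
  rw [hQ hq, hq]

/-- class counting -/
theorem count (h : Hy A x) {s : X} (hs : s ∈ HH A X) :
    (HH A X).relIndex (CC s) * {y | IsConj s y}.ncard =
      (HH A X).index * {y | IsConj s y ∧ y ∈ HH A X}.ncard := by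
  have h1 : {y | IsConj s y} = {y | ∃ k ∈ (⊤ : Subgroup X), k * s * k⁻¹ = y} := by
    ext y; simp [isConj_iff]
  have h2 : {y | IsConj s y ∧ y ∈ HH A X} = {y | ∃ k ∈ HH A X, k * s * k⁻¹ = y} := by
    ext y
    constructor
    · rintro ⟨hc, hy⟩
      obtain ⟨g, rfl⟩ := isConj_iff.1 hc
      exact h.fus hs hy
    · rintro ⟨k, hk, rfl⟩
      exact ⟨isConj_iff.2 ⟨k, rfl⟩,
        (HH A X).mul_mem ((HH A X).mul_mem hk hs) ((HH A X).inv_mem hk)⟩
  rw [h1, h2, ncard_cl, ncard_cl, relIndex_top_right, ← inf_relIndex_right,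
    relIndex_mul_index inf_le_right, mul_comm, ← inf_relIndex_left,
    relIndex_mul_index inf_le_left]

end Hy

end CA.H19Aut
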