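import Cfsg.Agent.Lib.Grp.H19Aut
import Cfsg.Agent.Lib.Grp.Coprime2
import Cfsg.Agent.Lib.Block.H13Zstar
import Cfsg.Agent.S1225

/-! Coprime operators fixing an involution centralizer: the counting argument. -/

set_option autoImplicit false
open Cfsg Subgroup

namespace CA.H19Aut

variable {A X : Type*} [Group A] [Group X] [MulDistribMulAction A X]

/-- the inductive conclusion for an invariant subgroup -/
def Dec (A : Type*) [Group A] [MulDistribMulAction A X] (K : Subgroup X) : Prop :=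
  ∃ O : Subgroup X, O ≤ K ∧ Odd (Nat.card O) ∧ (∀ k ∈ K, ∀ o ∈ O, k * o * k⁻¹ ∈ O) ∧
    ∀ k ∈ K, ∃ o ∈ O, ∃ g ∈ HH A X, k = o * g

/-- minimal counterexample -/
structure Mn (A X : Type*) [Group A] [Group X] [MulDistribMulAction A X] : Prop where
  ih : ∀ (x : X) (K : Subgroup X), Hy A x → Iv A K → K ≠ ⊤ → x ∈ K → Dec A K
  nz : ∀ z : X, z * z = 1 → (∀ g, g * z = z * g) → z = 1
  core : ∀ v : X, (∀ g, g⁻¹ * v * g ∈ HH A X) → v = 1
  odd : pPrimeCore 2 X = ⊥

variable [Finite A] [Finite X] {x : X}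

omit [Finite A] in
theorem exists_ma (X : Type*) [Group X] [Finite X] :
    ∃ k a : ℕ, ∀ z : X, (z ^ (2 * k + 1)) ^ 2 ^ a = 1 := by
  obtain ⟨a, m, hm, e⟩ := Nat.exists_eq_two_pow_mul_odd (Nat.card_pos (α := X)).ne'
  obtain ⟨k, rfl⟩ := hm
  exact ⟨k, a, fun z => by rw [← pow_mul, mul_comm, ← e, pow_card_eq_one']⟩

omit [Finite A] in
theorem pow_odd_card {O : Subgroup X} {o : X} (ho : o ∈ O) : o ^ Nat.card O = 1 := by
  have := pow_card_eq_one' (G := O) (x := ⟨o, ho⟩)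
  exact congrArg Subtype.val this

omit [Finite A] [Finite X] in
theorem Mn.CS_ne (M : Mn A X) {w : X} {a : ℕ} (hw : w ^ 2 ^ a = 1) (h1 : w ≠ 1) : CS w ≠ ⊤ := by
  intro e
  obtain ⟨i, h2, h3⟩ := exists_invol hw h1
  refine h2 (M.nz _ h3 fun g => ?_)
  have hg : g ∈ CS w := e ▸ mem_top g
  rw [← mul_inv_eq_iff_eq_mul, ← conj_pow]
  rcases hg with hg | hg <;> rw [hg]
  rw [inv_pow]; exact inv_eq_of_mul_eq_one_right h3

theorem Mn.reps (M : Mn A X) (h : Hy A x) {k a : ℕ} (hka : ∀ z : X, (z ^ (2 * k + 1)) ^ 2 ^ a = 1)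
    (w : X) : ∃ J : Set X, J.ncard ≤ (HH A X).relIndex (CC w) ∧
      ∀ y : X, y * y = 1 → ¬ IsConj x y → (x * y) ^ (2 * k + 1) = w →
        ∃ j ∈ J, j⁻¹ * y * j ∈ HH A X ∧ (x * (j⁻¹ * y * j)) ^ (2 * k + 1) = w := by
  classical
  by_cases hex : ∃ y : X, y * y = 1 ∧ ¬ IsConj x y ∧ (x * y) ^ (2 * k + 1) = w
  swap
  · exact ⟨∅, by simp, fun y h1 h2 h3 => (hex ⟨y, h1, h2, h3⟩).elim⟩
  obtain ⟨y0, h1, h2, h3⟩ := hex
  have hw1 : w ≠ 1 := fun e => h2 (isConj_iff.2 ⟨_, conj_of_odd h.sq h1 (h3.trans e)⟩)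
  have hwa : w ^ 2 ^ a = 1 := h3 ▸ hka _
  have hxw : x * w * x⁻¹ = w⁻¹ := h3 ▸ inv_pow_of (inverts h.sq h1) _
  have hwH : w ∈ HH A X := by
    obtain ⟨g, -, hg⟩ := h.conj_into (N := ⊤) (fun _ _ _ => mem_top _) (mem_top w) hwa
    exact h.inverted hxw hg
  obtain ⟨O, hOK, hodd, hn, hdec⟩ := M.ih x (CS w) h (iv_CS hwH) (M.CS_ne hwa hw1) (.inr hxw)
  have hOC : O ≤ CC w := fun o ho => mem_of_sq hodd (pow_odd_card ho) (sq_mem_CC (hOK ho))
  refine ⟨Set.range fun q : O ⧸ (HH A X).subgroupOf O => ((q.out : O) : X), ?_, ?_⟩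
  · refine le_trans ?_ (relIndex_le_of_le_right hOC (by
      rw [relIndex]; exact index_ne_zero_of_finite))
    rw [← Set.image_univ]
    refine (Set.ncard_image_le).trans ?_
    rw [Set.ncard_univ]; rfl
  · intro y hy1 _ hy3
    have hxyC : x * y ∈ CC w := by rw [mem_CC, ← hy3]; exact ((Commute.refl _).pow_right _).eq
    have hCC : CC w ≤ CS w := fun c hc => .inl (by rw [mem_CC.1 hc]; group)
    have hyK : y ∈ CS w := by
      have := (CS w).mul_mem ((CS w).inv_mem (show x ∈ CS w from .inr hxw)) (hCC hxyC)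
      simpa using this
    obtain ⟨c, hc, hc'⟩ := h.conj_into (iv_CS hwH) hyK (a := 1) (by rw [pow_one, pow_two, hy1])
    obtain ⟨o, ho, g, hg, rfl⟩ := hdec c hc
    set q : O ⧸ (HH A X).subgroupOf O := ((⟨o, ho⟩ : O) : O ⧸ (HH A X).subgroupOf O) with hq
    have hj : ((q.out : O) : X)⁻¹ * o ∈ HH A X := by
      have := QuotientGroup.eq.1 (QuotientGroup.out_eq' q)
      exact this
    have hjO : ((q.out : O) : X) ∈ O := q.out.2
    refine ⟨_, ⟨q, rfl⟩, ?_, ?_⟩
    all_goals simp only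
    all_goals generalize ((q.out : O) : X) = j at hj hjO
    · have e : j⁻¹ * y * j = (j⁻¹ * o * g) * ((o * g)⁻¹ * y * (o * g)) * (j⁻¹ * o * g)⁻¹ := by group
      have h5 := (HH A X).mul_mem hj hg
      rw [e]; exact (HH A X).mul_mem ((HH A X).mul_mem h5 hc') ((HH A X).inv_mem h5)
    · have ho' : y⁻¹ * j⁻¹ * y * j ∈ O := by
        have := hn _ ((CS w).inv_mem hyK) _ (O.inv_mem hjO)
        rw [inv_inv] at this
        exact O.mul_mem this hjO
      have e : x * (j⁻¹ * y * j) = x * y * (y⁻¹ * j⁻¹ * y * j) := by group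
      rw [e]
      generalize y⁻¹ * j⁻¹ * y * j = o' at ho'
      have key : ∀ n : ℕ, ((x * y) ^ n)⁻¹ * (x * y * o') ^ n ∈ O := by
        intro n
        induction n with
        | zero => simp [O.one_mem]
        | succ n ih =>
          have e2 : ((x * y) ^ (n + 1))⁻¹ * (x * y * o') ^ (n + 1) =
              (x * y)⁻¹ * (((x * y) ^ n)⁻¹ * (x * y * o') ^ n) * (x * y)⁻¹⁻¹ * o' := by
            rw [pow_succ, pow_succ]; group
          rw [e2]
          exact O.mul_mem (hn _ ((CS w).inv_mem (hCC hxyC)) _ ih) ho'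
      have k1 := key (2 * k + 1)
      rw [hy3] at k1
      have hcm : Commute w⁻¹ ((x * y * o') ^ (2 * k + 1)) :=
        Commute.inv_left (Commute.pow_right
          (show Commute w (x * y * o') from (mem_CC.1 ((CC w).mul_mem hxyC (hOC ho'))).symm) _)
      have k2 : (w⁻¹ * (x * y * o') ^ (2 * k + 1)) ^ 2 ^ a = 1 := by
        rw [hcm.mul_pow, hka, inv_pow, hwa]; simp
      have := eq_one_of_odd hodd (pow_odd_card k1) k2
      exact (inv_mul_eq_one.1 this).symm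

theorem Mn.eqn (M : Mn A X) (h : Hy A x) {k a : ℕ} (hka : ∀ z : X, (z ^ (2 * k + 1)) ^ 2 ^ a = 1)
    {s : X} (hs : s ∈ HH A X) (hs2 : s * s = 1) (hn : ¬ IsConj x s) :
    (HH A X).relIndex (CC ((x * s) ^ (2 * k + 1))) * {y | IsConj s y ∧ y ∈ HH A X}.ncard =
      {y | IsConj s y}.ncard := by
  classical
  haveI := Fintype.ofFinite X
  choose J hJ hJ' using M.reps h hka
  have hsq : ∀ y, IsConj s y → y * y = 1 := fun y hy => by
    obtain ⟨g, rfl⟩ := isConj_iff.1 hy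
    calc g * s * g⁻¹ * (g * s * g⁻¹) = g * (s * s) * g⁻¹ := by group
      _ = 1 := by rw [hs2]; group
  set EH : Finset X := Finset.univ.filter fun y => IsConj s y ∧ y ∈ HH A X with hEH
  have hNH : {y | IsConj s y ∧ y ∈ HH A X}.ncard = EH.card := by
    rw [← Set.ncard_coe_finset]; congr 1; ext y; simp [hEH]
  set κ : X → ℕ := fun y => (HH A X).relIndex (CC ((x * y) ^ (2 * k + 1))) with hκ
  have hn0 : 0 < (HH A X).index := Nat.pos_of_ne_zero index_ne_zero_of_finite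
  have up : ∀ y ∈ EH, κ y * EH.card ≤ {y | IsConj s y}.ncard := by
    intro y hy
    simp only [hEH, Finset.mem_filter, Finset.mem_univ, true_and] at hy
    have hw : (x * y) ^ (2 * k + 1) ∈ HH A X := (HH A X).pow_mem ((HH A X).mul_mem h.mem hy.2) _
    have h1 := h.ineq hw
    have h2 := h.count ((HH A X).mul_mem h.mem hw)
    have hc : IsConj s (x * (x * y) ^ (2 * k + 1)) := by
      rw [odd_conj h.sq (hsq y hy.1)]
      exact hy.1.trans (isConj_iff.2 ⟨((x * y) ^ k)⁻¹, by rw [inv_inv]⟩)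
    have e : ∀ z, IsConj (x * (x * y) ^ (2 * k + 1)) z ↔ IsConj s z := fun z =>
      ⟨fun hz => hc.trans hz, fun hz => hc.symm.trans hz⟩
    simp only [e] at h2
    rw [hNH] at h2
    refine Nat.le_of_mul_le_mul_left ?_ hn0
    calc (HH A X).index * (κ y * EH.card) = κ y * ((HH A X).index * EH.card) := by ring
      _ = ((HH A X).relIndex (CC (x * (x * y) ^ (2 * k + 1))) * κ y) * {y | IsConj s y}.ncard := by
        rw [← h2]; ring
      _ ≤ _ := Nat.mul_le_mul_right _ h1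
  have lo : {y | IsConj s y}.ncard ≤ ∑ y ∈ EH, κ y := by
    have sub : {y | IsConj s y} ⊆ ↑(EH.biUnion fun y =>
        (Set.toFinite (J ((x * y) ^ (2 * k + 1)))).toFinset.image fun j => j * y * j⁻¹) := by
      intro y hy
      obtain ⟨j, hj, h1, h2⟩ := hJ' _ y (hsq y hy) (fun c => hn (c.trans hy.symm)) rfl
      simp only [Finset.coe_biUnion, Set.mem_iUnion, Finset.mem_coe, Finset.mem_image,
        Set.Finite.mem_toFinset]
      refine ⟨j⁻¹ * y * j, ?_, j, by rw [h2]; exact hj, by group⟩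
      simp only [hEH, Finset.mem_filter, Finset.mem_univ, true_and]
      exact ⟨IsConj.trans hy (isConj_iff.2 ⟨j⁻¹, by rw [inv_inv]⟩), h1⟩
    refine (Set.ncard_le_ncard sub (Set.toFinite _)).trans ?_
    rw [Set.ncard_coe_finset]
    refine Finset.card_biUnion_le.trans (Finset.sum_le_sum fun y _ => Finset.card_image_le.trans ?_)
    rw [← Set.ncard_eq_toFinset_card]
    exact hJ _
  have hsE : s ∈ EH := Finset.mem_filter.2 ⟨Finset.mem_univ _, IsConj.refl s, hs⟩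
  rw [hNH]
  by_contra hne
  have lt : ∑ y ∈ EH, κ y * EH.card < ∑ _y ∈ EH, {y | IsConj s y}.ncard :=
    Finset.sum_lt_sum up ⟨s, hsE, lt_of_le_of_ne (up s hsE) hne⟩
  rw [← Finset.sum_mul, Finset.sum_const, smul_eq_mul, mul_comm EH.card] at lt
  exact absurd (Nat.mul_le_mul_right _ lo) (not_le.2 lt)

theorem Mn.key (M : Mn A X) (h : Hy A x) {k a : ℕ} (hka : ∀ z : X, (z ^ (2 * k + 1)) ^ 2 ^ a = 1)
    {s : X} (hs : s ∈ HH A X) (hs1 : s ≠ 1) (hs2 : s * s = 1) (hn : ¬ IsConj x s) :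
    ¬ CC ((x * s) ^ (2 * k + 1)) ≤ HH A X ∧ ¬ CC s ≤ HH A X := by
  have e := M.eqn h hka hs hs2 hn
  constructor
  · intro hle
    rw [relIndex_eq_one.2 hle, one_mul] at e
    have := Set.eq_of_subset_of_ncard_le (s := {y | IsConj s y ∧ y ∈ HH A X}) (t := {y | IsConj s y})
      (fun y hy => hy.1) e.ge
    refine hs1 (M.core s fun g => ?_)
    have hg : g⁻¹ * s * g ∈ {y | IsConj s y} := isConj_iff.2 ⟨g⁻¹, by rw [inv_inv]⟩
    rw [← this] at hg
    exact hg.2
  · intro hle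
    have e2 := h.count hs
    rw [relIndex_eq_one.2 hle, one_mul, ← e] at e2
    have hpos : 0 < {y | IsConj s y ∧ y ∈ HH A X}.ncard :=
      (Set.ncard_pos (Set.toFinite _)).2 ⟨s, IsConj.refl s, hs⟩
    have e3 := Nat.eq_of_mul_eq_mul_right hpos e2
    have hw : (x * s) ^ (2 * k + 1) ∈ HH A X := (HH A X).pow_mem ((HH A X).mul_mem h.mem hs) _
    have hw1 : (x * s) ^ (2 * k + 1) ≠ 1 := fun e =>
      hn (isConj_iff.2 ⟨_, conj_of_odd h.sq hs2 e⟩)
    generalize (x * s) ^ (2 * k + 1) = w at hw hw1 e3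
    refine hw1 (M.core w fun g => ?_)
    let f : CC w ⧸ (HH A X).subgroupOf (CC w) → X ⧸ HH A X := fun q => (((q.out : CC w) : X) : X ⧸ HH A X)
    have hf : Function.Injective f := fun P Q e => by
      rw [← QuotientGroup.out_eq' P, ← QuotientGroup.out_eq' Q, QuotientGroup.eq, mem_subgroupOf]
      exact QuotientGroup.eq.1 e
    have hb := (Nat.bijective_iff_injective_and_card f).2 ⟨hf, e3⟩
    obtain ⟨q, hq⟩ := hb.2 (g : X ⧸ HH A X)
    have h1 : ((q.out : CC w) : X)⁻¹ * g ∈ HH A X := QuotientGroup.eq.1 hq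
    have h2 := mem_CC.1 q.out.2
    generalize ((q.out : CC w) : X) = c at h1 h2
    have e : g⁻¹ * w * g = (c⁻¹ * g)⁻¹ * w * (c⁻¹ * g) := by
      calc g⁻¹ * w * g = g⁻¹ * (w * c) * c⁻¹ * g := by group
        _ = _ := by rw [← h2]; group
    rw [e]
    exact (HH A X).mul_mem ((HH A X).mul_mem ((HH A X).inv_mem h1) hw) h1

end CA.H19Aut
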