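import Cfsg.Agent.Lib.Grp.H19Aut2
import Cfsg.Agent.Lib.Grp.H13Ext

/-! Coprime operators fixing an involution centralizer act trivially modulo `O(X)`. -/

set_option autoImplicit false
open Cfsg Subgroup

namespace CA.H19Aut

universe u

section Main
variable {A X : Type*} [Group A] [Group X] [MulDistribMulAction A X] [Finite A] [Finite X] {x : X}

theorem Mn.prod (M : Mn A X) (h : Hy A x) {y : X} (h' : Hy A y) (hc : x * y = y * x) (hne : x ≠ y) :
    IsConj x (x * y) ∧ Hy A (x * y) := by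
  obtain ⟨k, a, hka⟩ := exists_ma X
  have hm := (HH A X).mul_mem h.mem h'.mem
  have hj : IsConj x (x * y) := by
    by_contra hn
    have h1 : x * y ≠ 1 := fun e => hne (by rw [← h.inv]; exact inv_eq_of_mul_eq_one_right e)
    have h2 : x * y * (x * y) = 1 := by
      calc x * y * (x * y) = x * (y * x) * y := by group
        _ = (x * x) * (y * y) := by rw [← hc]; group
        _ = 1 := by rw [h.sq, h'.sq, mul_one]
    refine (M.key h hka hm h1 h2 hn).1 ?_
    have : (x * (x * y)) ^ (2 * k + 1) = y := by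
      rw [← mul_assoc, h.sq, one_mul, pow_succ, pow_mul, pow_two, h'.sq, one_pow, one_mul]
    rw [this]; exact h'.cen
  exact ⟨hj, h.conj hj hm⟩

theorem Mn.other (M : Mn A X) (h : Hy A x) : ∃ y, IsConj x y ∧ Hy A y ∧ x * y = y * x ∧ x ≠ y := by
  have hz : ¬ InZStar 2 x := fun hz => h.ne (M.nz x h.sq fun g => by
    have := hz g
    rw [M.odd, mem_bot, mul_inv_eq_one, mul_inv_eq_iff_eq_mul] at this
    exact this)
  obtain ⟨g, hc, hne⟩ := H13Zstar.exists_commute_conj h.sq hz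
  have hj : IsConj x (g * x * g⁻¹) := isConj_iff.2 ⟨g, rfl⟩
  exact ⟨_, hj, h.conj hj (h.cen (mem_CC.2 hc.eq.symm)), hc.eq, hne.symm⟩

theorem Mn.comm (M : Mn A X) (h : Hy A x) {s : X} (hs : s ∈ HH A X) (hs1 : s ≠ 1) (hs2 : s * s = 1)
    (hn : ¬ IsConj x s) {b : ℕ} (hb : (x * s) ^ 2 ^ b = 1) : x * s = s * x := by
  obtain ⟨k, a, hka⟩ := exists_ma X
  have key := (M.key h hka hs hs1 hs2 hn).1
  have hinv := inv_pow_of (inverts h.sq hs2) (2 * k + 1)
  have hwH : (x * s) ^ (2 * k + 1) ∈ HH A X := (HH A X).pow_mem ((HH A X).mul_mem h.mem hs) _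
  have hw1 : (x * s) ^ (2 * k + 1) ≠ 1 := fun e =>
    hn (isConj_iff.2 ⟨_, conj_of_odd h.sq hs2 e⟩)
  have hsq : (x * s) ^ (2 * k + 1) * (x * s) ^ (2 * k + 1) = 1 := by
    have hwa := hka (x * s)
    generalize (x * s) ^ (2 * k + 1) = w at key hinv hwH hw1 hwa
    by_contra hw2
    obtain ⟨i, h1, h2⟩ := exists_invol hwa hw1
    obtain ⟨i, rfl⟩ : ∃ j, i = j + 1 := by
      rcases i with _ | i
      · simp at h2; exact absurd h2 hw2
      · exact ⟨i, rfl⟩
    have e : w ^ 2 ^ (i + 1) = w ^ 2 ^ i * w ^ 2 ^ i := by rw [← pow_add, ← two_mul, ← pow_succ']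
    have hj : IsConj x (x * w ^ 2 ^ (i + 1)) := by
      rw [e, mul_sq (inv_pow_of hinv _)]
      exact isConj_iff.2 ⟨(w ^ 2 ^ i)⁻¹, by rw [inv_inv]⟩
    have ht := inv_pow_of hinv (2 ^ (i + 1))
    rw [inv_eq_of_mul_eq_one_right h2, mul_inv_eq_iff_eq_mul] at ht
    have h3 := h.conj hj ((HH A X).mul_mem h.mem ((HH A X).pow_mem hwH _))
    have h4 := (M.prod h h3 (by rw [mul_assoc, ← ht]) (fun e => h1 (by simpa using e))).2
    rw [← mul_assoc, h.sq, one_mul] at h4
    refine key fun c hc => h4.cen ?_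
    rw [mem_CC] at hc ⊢
    exact ((show Commute c w from hc).pow_right _).eq
  have h5 : x * s * (x * s) = 1 := by
    refine eq_one_of_odd (m := 2 * k + 1) (a := b) ⟨k, rfl⟩ ?_ ?_
    · rw [(Commute.refl _).mul_pow, hsq]
    · rw [(Commute.refl _).mul_pow, hb, mul_one]
  have := inv_eq_of_mul_eq_one_right h5
  rw [← this, mul_inv_rev, h.inv, inv_eq_of_mul_eq_one_right hs2]

omit [Finite X] in
theorem mem_four {x y g : X} (hx : x * x = 1) (hy : y * y = 1) (hc : x * y = y * x)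
    (hg : g ∈ zpowers x ⊔ zpowers y) : g = 1 ∨ g = x ∨ g = y ∨ g = x * y := by
  have h1 : x⁻¹ = x := inv_eq_of_mul_eq_one_right hx
  have h2 : y⁻¹ = y := inv_eq_of_mul_eq_one_right hy
  have a1 : x * (x * y) = y := by rw [← mul_assoc, hx, one_mul]
  have a2 : y * (x * y) = x := by rw [hc, ← mul_assoc, hy, one_mul]
  have a3 : x * y * x = y := by rw [hc, mul_assoc, hx, mul_one]
  have a4 : x * y * y = x := by rw [mul_assoc, hy, mul_one]
  have a5 : x * y * (x * y) = 1 := by rw [← mul_assoc, a3, hy]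
  let V : Subgroup X :=
    { carrier := {g | g = 1 ∨ g = x ∨ g = y ∨ g = x * y}
      one_mem' := .inl rfl
      mul_mem' := by
        rintro a b (ha | ha | ha | ha) (hb | hb | hb | hb) <;> rw [ha, hb] <;>
          simp only [Set.mem_setOf_eq, hx, hy, ← hc, a1, a2, a3, a4, a5, one_mul, mul_one, true_or,
            or_true]
      inv_mem' := by
        rintro a (ha | ha | ha | ha) <;> rw [ha] <;>
          simp only [Set.mem_setOf_eq, h1, h2, inv_eq_of_mul_eq_one_right a5, inv_one, true_or,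
            or_true] }
  have : zpowers x ⊔ zpowers y ≤ V :=
    sup_le (zpowers_le.2 (.inr (.inl rfl))) (zpowers_le.2 (.inr (.inr (.inl rfl))))
  exact this hg

theorem Mn.all (M : Mn A X) (h : Hy A x) {s : X} (hs1 : s ≠ 1) (hs2 : s * s = 1) : IsConj x s := by
  by_contra hn
  obtain ⟨y, hj, h', hc, hne⟩ := M.other h
  obtain ⟨hj2, h''⟩ := M.prod h h' hc hne
  have hK := H13Zstar.isKleinFour_closure (ord_two h.ne h.sq) (ord_two h'.ne h'.sq) hc hne
  have hP : IsPGroup 2 (zpowers x ⊔ zpowers y : Subgroup X) :=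
    IsPGroup.of_card (n := 2) hK.card_four
  obtain ⟨T, hT⟩ := hP.exists_le_sylow
  have hxT : x ∈ (T : Subgroup X) := hT (mem_sup_left (mem_zpowers x))
  have hyT : y ∈ (T : Subgroup X) := hT (mem_sup_right (mem_zpowers y))
  have hTH := h.two_le T.2 hxT
  have hsP : IsPGroup 2 (zpowers s) :=
    IsPGroup.of_card (n := 1) (by rw [Nat.card_zpowers, ord_two hs1 hs2]; rfl)
  obtain ⟨Q, hQ⟩ := hsP.exists_le_sylow
  obtain ⟨g, hg⟩ := MulAction.exists_smul_eq X T Q
  have hu : s ∈ ((g • T : Sylow 2 X) : Subgroup X) := by rw [hg]; exact hQ (mem_zpowers _)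
  rw [Sylow.coe_subgroup_smul, Coprime.mem_conj_smul_iff] at hu
  have hjs : IsConj (g⁻¹ * s * g) s := isConj_iff.2 ⟨g, by group⟩
  have t1 : g⁻¹ * s * g ≠ 1 := fun e => hs1 (by rw [e] at hjs; exact isConj_one_right.1 hjs)
  have t2 : g⁻¹ * s * g * (g⁻¹ * s * g) = 1 := by
    calc g⁻¹ * s * g * (g⁻¹ * s * g) = g⁻¹ * (s * s) * g := by group
      _ = 1 := by rw [hs2]; group
  have t3 : ¬ IsConj x (g⁻¹ * s * g) := fun c => hn (c.trans hjs)
  generalize g⁻¹ * s * g = t at hu t1 t2 t3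
  have cm : ∀ u, Hy A u → IsConj x u → u ∈ (T : Subgroup X) → u ∈ CC t := fun u hu1 hu2 hu3 => by
    obtain ⟨b, hb⟩ := T.2 ⟨u * t, (T : Subgroup X).mul_mem hu3 hu⟩
    exact mem_CC.2 (M.comm hu1 (hTH hu) t1 t2 (fun c => t3 (hu2.trans c)) (congrArg Subtype.val hb))
  have hx := cm x h (IsConj.refl x) hxT
  have hy := cm y h' hj hyT
  have hne' : CC t ≠ ⊤ := fun e => t1 (M.nz t t2 fun g => mem_CC.1 (e ▸ mem_top g))
  obtain ⟨O, -, hodd, hnO, hdec⟩ := M.ih x (CC t) h (iv_CC (hTH hu)) hne' hx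
  have hOH : O ≤ HH A X := by
    refine Coprime2.le_of_forall_centralizer_singleton (A := zpowers x ⊔ zpowers y)
      IsKleinFour.isMulCommutative
      IsKleinFour.not_isCyclic ?_ ?_ ?_
    · intro v hv
      exact mem_normalizer_fintype fun o ho =>
        hnO v (sup_le (zpowers_le.2 hx) (zpowers_le.2 hy) hv) o ho
    · rw [hK.card_four]
      exact Nat.Coprime.pow_left 2 hodd.coprime_two_left
    · intro v hv hv1
      rcases mem_four h.sq h'.sq hc hv with e | e | e | e
      · exact absurd e hv1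
      · rw [e]; exact inf_le_right.trans h.cen
      · rw [e]; exact inf_le_right.trans h'.cen
      · rw [e]; exact inf_le_right.trans h''.cen
  obtain ⟨k, a, hka⟩ := exists_ma X
  refine (M.key h hka (hTH hu) t1 t2 t3).2 fun c hc => ?_
  obtain ⟨o, ho, g, hg, rfl⟩ := hdec c hc
  exact (HH A X).mul_mem (hOH ho) hg

theorem Mn.false (M : Mn A X) (h : Hy A x) : False := by
  have hy : ∀ s ∈ HH A X, s ≠ 1 → s * s = 1 → Hy A s := fun s hs h1 h2 => h.conj (M.all h h1 h2) hs
  obtain ⟨g, hg⟩ : ∃ g, g⁻¹ * x * g ∉ HH A X := by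
    by_contra hh
    push Not at hh
    exact h.ne (M.core x hh)
  have u1 : g⁻¹ * x * g ≠ 1 := fun e => hg (e ▸ one_mem _)
  have u2 : g⁻¹ * x * g * (g⁻¹ * x * g) = 1 := by
    calc g⁻¹ * x * g * (g⁻¹ * x * g) = g⁻¹ * (x * x) * g := by group
      _ = 1 := by rw [h.sq]; group
  generalize g⁻¹ * x * g = u at hg u1 u2
  have hse : IsStronglyEmbedded (HH A X) := by
    refine ⟨fun e => hg (e ▸ mem_top u), ?_, fun g hg => ?_⟩
    · rw [even_iff_two_dvd, ← ord_two h.ne h.sq]; exact Subgroup.orderOf_dvd_natCard _ h.mem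
    · rw [← Nat.not_even_iff_odd, even_iff_two_dvd]
      intro hd
      obtain ⟨⟨t, ht0⟩, ho⟩ := exists_prime_orderOf_dvd_card' 2 hd
      rw [orderOf_mk] at ho
      obtain ⟨ht, c, hc, rfl⟩ := ht0
      have o1 : (MulAut.conj g).toMonoidHom c ≠ 1 := fun e => by rw [e, orderOf_one] at ho; omega
      have o2 := pow_orderOf_eq_one ((MulAut.conj g).toMonoidHom c)
      rw [ho, pow_two] at o2
      refine hg ((hy _ ht o1 o2).uniq' ?_)
      simpa [mul_assoc] using hc
  set D := HH A X ⊓ (HH A X).map (MulAut.conj u).toMonoidHom with hD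
  have hodd : Odd (Nat.card D) := hse.2.2 u hg
  have hui : u⁻¹ = u := inv_eq_of_mul_eq_one_right u2
  have huN : u ∈ normalizer (D : Set X) := mem_normalizer_fintype fun d hd => by
    obtain ⟨h1, c, hc, rfl⟩ := hd
    refine ⟨?_, _, h1, rfl⟩
    have : u * (MulAut.conj u).toMonoidHom c * u⁻¹ = (u * u) * c * (u * u)⁻¹ := by
      simp only [MulEquiv.coe_toMonoidHom, MulAut.conj_apply]; group
    rw [this, u2]; simpa using hc
  have hiv : Iv A (normalizer (D : Set X)) := fun a n hn => mem_normalizer_fintype fun d hd => by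
    have h1 := (mem_normalizer_iff.1 hn d).1 hd
    have e : a • n * d * (a • n)⁻¹ = a • (n * d * n⁻¹) := by
      rw [smul_mul', smul_mul', smul_inv', mem_HH.1 hd.1 a]
    rw [e, mem_HH.1 h1.1 a]; exact h1
  obtain ⟨c, hc, hc'⟩ := h.conj_into hiv huN (a := 1) (by rw [pow_one, pow_two, u2])
  have hvN : c⁻¹ * u * c ∈ normalizer (D : Set X) := mul_mem (mul_mem (inv_mem hc) huN) hc
  have v1 : c⁻¹ * u * c ≠ 1 := fun e => u1 (by
    calc u = c * (c⁻¹ * u * c) * c⁻¹ := by group
      _ = 1 := by rw [e]; group)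
  have v2 : c⁻¹ * u * c * (c⁻¹ * u * c) = 1 := by
    calc c⁻¹ * u * c * (c⁻¹ * u * c) = c⁻¹ * (u * u) * c := by group
      _ = 1 := by rw [u2]; group
  generalize c⁻¹ * u * c = v at hc' hvN v1 v2
  have hv := hy v hc' v1 v2
  obtain ⟨y, -, h', hcm, hne⟩ := M.other hv
  obtain ⟨d, hd, e⟩ := (Cfsg.Agent.S1225.result (HH A X) hse u (ord_two u1 u2) hg v y
    (ord_two v1 v2) hc' (ord_two h'.ne h'.sq) h'.mem).1
  have hm : v * y ∈ D := by
    have : v * y = v * d * v⁻¹ * d⁻¹ := by rw [← e, hv.inv]; group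
    rw [this]
    exact D.mul_mem ((mem_normalizer_iff.1 hvN d).1 hd) (D.inv_mem hd)
  have := (M.prod hv h' hcm hne).2
  exact this.ne (eq_one_of_odd (a := 1) hodd (pow_odd_card hm) (by rw [pow_one, pow_two, this.sq]))

end Main

section Ind
variable {A : Type*} [Group A] [Finite A]

theorem quot_step {X : Type u} [Group X] [Finite X] [MulDistribMulAction A X] {x : X} (h : Hy A x)
    (ih : ∀ (Y : Type u) [Group Y] [Finite Y] [MulDistribMulAction A Y] (y : Y),
      Nat.card Y < Nat.card X → Hy A y → ∀ (a : A) (g : Y), g⁻¹ * a • g ∈ pPrimeCore 2 Y)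
    (N : Subgroup X) [N.Normal] (hN : Iv A N) (h1 : N ≠ ⊥) (hx : x ∉ N)
    (hc : ∀ c, c * x * c⁻¹ * x⁻¹ ∈ N → ∃ c' ∈ HH A X, c⁻¹ * c' ∈ N)
    (hq : pPrimeCore 2 (X ⧸ N) = ⊥) (a : A) (g : X) : g⁻¹ * a • g ∈ N := by
  letI := Act.quotAct N hN
  have hlt : Nat.card (X ⧸ N) < Nat.card X := by
    rw [card_eq_card_quotient_mul_card_subgroup N]
    exact lt_mul_of_one_lt_right Nat.card_pos ((one_lt_card_iff_ne_bot N).2 h1)
  have hy : Hy A (x : X ⧸ N) := by
    refine ⟨h.cop.coprime_dvd_right (card_quotient_dvd_card N), h.sol,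
      fun e => hx ((QuotientGroup.eq_one_iff x).1 e), ?_, fun c hc' => ?_⟩
    · rw [← QuotientGroup.mk_mul, h.sq, QuotientGroup.mk_one]
    · obtain ⟨c, rfl⟩ := QuotientGroup.mk_surjective c
      have : c * x * c⁻¹ * x⁻¹ ∈ N := by
        rw [← QuotientGroup.eq_one_iff]
        simp only [QuotientGroup.mk_mul, QuotientGroup.mk_inv]
        rw [mem_CC.1 hc']; group
      obtain ⟨c', h2, h3⟩ := hc c this
      rw [QuotientGroup.eq.2 h3, mem_HH]
      intro b
      change ((b • c' : X) : X ⧸ N) = c'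
      rw [mem_HH.1 h2 b]
  have := ih (X ⧸ N) x hlt hy a g
  rw [hq, mem_bot, inv_mul_eq_one] at this
  exact QuotientGroup.eq.1 this

theorem sub_step {X : Type u} [Group X] [Finite X] [MulDistribMulAction A X]
    (ih : ∀ (Y : Type u) [Group Y] [Finite Y] [MulDistribMulAction A Y] (y : Y),
      Nat.card Y < Nat.card X → Hy A y → ∀ (a : A) (g : Y), g⁻¹ * a • g ∈ pPrimeCore 2 Y)
    (x : X) (K : Subgroup X) (h : Hy A x) (hK : Iv A K) (h1 : K ≠ ⊤) (hx : x ∈ K) : Dec A K := by
  letI := Act.subAct K hK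
  have hlt : Nat.card K < Nat.card X :=
    lt_of_le_of_ne (card_le_card_group K) fun e => h1 (eq_top_of_card_eq K e)
  have hy : Hy A (⟨x, hx⟩ : K) := by
    refine ⟨CoprimeAct.cop_sub h.cop K, h.sol, fun e => h.ne (congrArg Subtype.val e),
      Subtype.ext h.sq, fun c hc => mem_HH.2 fun a => Subtype.ext ?_⟩
    exact mem_HH.1 (h.cen (mem_CC.2 (congrArg Subtype.val (mem_CC.1 hc)))) a
  have hle : Act.comm A K ≤ pPrimeCore 2 K := Act.comm_le.2 (ih K _ hlt hy)
  refine ⟨(pPrimeCore 2 K).map K.subtype, map_subtype_le _,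
    (Core.coprime_map_pPrimeCore K).odd_of_right, fun k hk o ho => ?_, fun k hk => ?_⟩
  · exact (mem_normalizer_iff.1 (Core.le_normalizer_map_pPrimeCore K hk) o).1 ho
  · obtain ⟨n, hn, c, hc, e⟩ := CoprimeAct.exists_comm_mul_fixed hy.cop (.inl h.sol) (⟨k, hk⟩⁻¹ : K)
    refine ⟨(n⁻¹ : K), ⟨_, inv_mem (hle hn), rfl⟩, (c⁻¹ : K),
      inv_mem (mem_HH.2 fun a => congrArg Subtype.val (hc a)), ?_⟩
    have := congrArg (fun t : K => ((t⁻¹ : K) : X)) e
    simpa using this.symm

theorem core_step {X : Type u} [Group X] [Finite X] [MulDistribMulAction A X] {x : X} (h : Hy A x)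
    (ih : ∀ (x : X) (K : Subgroup X), Hy A x → Iv A K → K ≠ ⊤ → x ∈ K → Dec A K)
    (nz : ∀ z : X, z * z = 1 → (∀ g, g * z = z * g) → z = 1) (hO : pPrimeCore 2 X = ⊥)
    {v : X} (hv : ∀ g, g⁻¹ * v * g ∈ HH A X) (hv1 : v ≠ 1) (a : A) (g : X) : a • g = g := by
  set K := (HH A X).normalCore with hKd
  have hvK : v ∈ K := fun b => by simpa using hv b⁻¹
  have hKH : K ≤ HH A X := normalCore_le _
  set M := centralizer (K : Set X) with hM
  have hcomm : ∀ (a : A) (g : X), g⁻¹ * a • g ∈ M := fun a g => mem_centralizer_iff.2 fun k hk => by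
    have h1 := mem_HH.1 (hKH ((normalCore_normal _).conj_mem k hk g)) a
    rw [smul_mul', smul_mul', smul_inv', mem_HH.1 (hKH hk) a] at h1
    calc k * (g⁻¹ * a • g) = g⁻¹ * (g * k * g⁻¹) * a • g := by group
      _ = _ := by rw [← h1]; group
  set L := (zpowers (x : X ⧸ M)).comap (QuotientGroup.mk' M) with hL
  have hML : M ≤ L := fun m hm => by
    rw [hL, mem_comap, QuotientGroup.mk'_apply, (QuotientGroup.eq_one_iff m).2 hm]; exact one_mem _
  have hxx : (x : X ⧸ M) * x = 1 := by rw [← QuotientGroup.mk_mul, h.sq, QuotientGroup.mk_one]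
  have hcase : ∀ l ∈ L, l ∈ M ∨ l * x ∈ M := fun l hl => by
    have := mem_four hxx hxx rfl (mem_sup_left (show (l : X ⧸ M) ∈ zpowers (x : X ⧸ M) from hl))
    rw [hxx] at this
    rw [← QuotientGroup.eq_one_iff, ← QuotientGroup.eq_one_iff, QuotientGroup.mk_mul]
    rcases this with e | e | e | e
    · exact .inl e
    · exact .inr (by rw [e, hxx])
    · exact .inr (by rw [e, hxx])
    · exact .inl e
  have hsq : ∀ l ∈ L, l * l ∈ M := fun l hl => by
    rcases hcase l hl with e | e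
    · exact M.mul_mem e e
    · have := M.mul_mem e (Normal.conj_mem inferInstance _ e x)
      have e2 : l * x * (x * (l * x) * x⁻¹) = l * (x * x) * l := by group
      rwa [e2, h.sq, mul_one] at this
  by_cases hT : L = ⊤
  · exfalso
    have hall : ∀ l, l ∈ M ∨ l * x ∈ M := fun l => hcase l (hT ▸ mem_top l)
    have cen : ∀ z ∈ K, x * z = z * x → ∀ g, g * z = z * g := fun z hz hxz g => by
      rcases hall g with e | e
      · exact (mem_centralizer_iff.1 e z hz).symm
      · have := mem_centralizer_iff.1 e z hz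
        calc g * z = g * x * z * x⁻¹ * (x * z⁻¹ * x⁻¹ * z) := by group
          _ = z * g * (x * z⁻¹ * x⁻¹ * z) := by rw [← this]; group
          _ = z * g * (z⁻¹ * (z * x) * z⁻¹ * x⁻¹ * z) := by group
          _ = z * g := by rw [← hxz]; group
    by_cases hZ : K ⊓ M = ⊥
    · have hvM : v ∉ M := fun e => hv1 (mem_bot.1 (hZ ▸ (⟨hvK, e⟩ : v ∈ K ⊓ M)))
      have h2 : v * v = 1 :=
        mem_bot.1 (hZ ▸ (⟨K.mul_mem hvK hvK, hsq v (hT ▸ mem_top v)⟩ : v * v ∈ K ⊓ M))
      refine hv1 (nz v h2 (cen v hvK ?_))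
      have e := (hall v).resolve_left hvM
      have := mem_centralizer_iff.1 e v hvK
      rw [mul_assoc] at this
      exact (mul_left_cancel this).symm
    · have hev : 2 ∣ Nat.card (K ⊓ M : Subgroup X) := by
        by_contra hd
        exact hZ (Core.pPrimeCore_eq_bot_iff.1 hO _ inferInstance
          ((Nat.prime_two.coprime_iff_not_dvd.2 hd).symm))
      obtain ⟨⟨z, hz0⟩, ho⟩ := exists_prime_orderOf_dvd_card' 2 hev
      rw [orderOf_mk] at ho
      obtain ⟨hz, hzM⟩ := hz0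
      have o1 : z ≠ 1 := fun e => by rw [e, orderOf_one] at ho; omega
      have o2 := pow_orderOf_eq_one z
      rw [ho, pow_two] at o2
      have hz' : x * z * x⁻¹ ∈ K := (normalCore_normal _).conj_mem z hz x
      have c1 := mem_centralizer_iff.1 hzM _ hz'
      have e1 : z * (x * z * x⁻¹) = 1 := by
        refine nz _ ?_ (cen _ (K.mul_mem hz hz') ?_)
        · calc z * (x * z * x⁻¹) * (z * (x * z * x⁻¹)) = z * ((x * z * x⁻¹) * z) * (x * z * x⁻¹) := by group
            _ = (z * z) * (x * (z * z) * x⁻¹) := by rw [c1]; group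
            _ = 1 := by rw [o2]; group
        · calc x * (z * (x * z * x⁻¹)) = (x * z * x⁻¹) * ((x * x) * z * x⁻¹) := by group
            _ = (x * z * x⁻¹) * z * x := by rw [h.sq, h.inv]; group
            _ = _ := by rw [c1]
      refine o1 (nz z o2 (cen z hz ?_))
      have := inv_eq_of_mul_eq_one_right e1
      rw [inv_eq_of_mul_eq_one_right o2, eq_mul_inv_iff_mul_eq] at this
      exact this.symm
  · have hiv : Iv A L := fun a l hl => by
      have := L.mul_mem hl (hML (hcomm a l))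
      simpa using this
    obtain ⟨O, hOL, hodd, hn, hdec⟩ := ih x L h hiv hT (mem_zpowers _)
    have hOM : O ≤ M := fun o ho => mem_of_sq hodd (pow_odd_card ho) (hsq o (hOL ho))
    have hO1 : O ≤ ⊥ := by
      rw [← hO]
      exact (Core.le_map_pPrimeCore hOM (fun m hm => mem_normalizer_fintype fun o ho =>
        hn m (hML hm) o ho) hodd.coprime_two_right).trans (Core.map_pPrimeCore_le_of_normal M)
    refine CoprimeAct.fixed_of_stable (N := M) (CoprimeAct.cop_sub h.cop M) (fun a m hm => ?_) hcomm a g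
    obtain ⟨o, ho, c, hc, e⟩ := hdec m (hML hm)
    rw [e, mem_bot.1 (hO1 ho), one_mul]; exact mem_HH.1 hc a

/-- a coprime solvable operator group fixing an involution centralizer acts trivially mod `O(X)` -/
theorem main (n : ℕ) : ∀ (X : Type u) [Group X] [Finite X] [MulDistribMulAction A X] (x : X),
    Nat.card X = n → Hy A x → ∀ (a : A) (g : X), g⁻¹ * a • g ∈ pPrimeCore 2 X := by
  induction n using Nat.strong_induction_on with
  | _ n ih0 =>
  intro X _ _ _ x hn h a g
  have ih : ∀ (Y : Type u) [Group Y] [Finite Y] [MulDistribMulAction A Y] (y : Y),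
      Nat.card Y < Nat.card X → Hy A y → ∀ (a : A) (g : Y), g⁻¹ * a • g ∈ pPrimeCore 2 Y :=
    fun Y _ _ _ y hY => ih0 _ (hn ▸ hY) Y y rfl
  have hodd : Odd (Nat.card (pPrimeCore 2 X)) := Core.coprime_pPrimeCore.odd_of_right
  by_cases hO : pPrimeCore 2 X = ⊥
  swap
  · refine quot_step h ih _ (fun a x hx => Act.smul_mem_of_characteristic _ a x hx) hO
      (fun hx => h.ne (eq_one_of_odd (a := 1) hodd (pow_odd_card hx) (by rw [pow_one, pow_two, h.sq])))
      (fun c hc => ?_) Core.pPrimeCore_quotient_pPrimeCore a g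
    have h2 : c * x * c⁻¹ * (c * x * c⁻¹) = 1 := by
      calc c * x * c⁻¹ * (c * x * c⁻¹) = c * (x * x) * c⁻¹ := by group
        _ = 1 := by rw [h.sq]; group
    rw [h.inv] at hc
    obtain ⟨k, hk⟩ := hodd
    have e := conj_of_odd h2 h.sq (k := k) (hk ▸ pow_odd_card hc)
    have hz := (pPrimeCore 2 X).pow_mem hc k
    generalize (c * x * c⁻¹ * x) ^ k = z at e hz
    refine ⟨z * c, h.cen (mem_CC.2 ?_), ?_⟩
    · calc z * c * x = z * (c * x * c⁻¹) * z⁻¹ * (z * c) := by group
        _ = _ := by rw [e]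
    · have := Normal.conj_mem inferInstance z hz c⁻¹
      simpa [mul_assoc] using this
  have fin : a • g = g → g⁻¹ * a • g ∈ pPrimeCore 2 X := fun e => by rw [e]; simp
  refine fin ?_
  by_cases nz : ∀ z : X, z * z = 1 → (∀ g, g * z = z * g) → z = 1
  · by_cases core : ∀ v : X, (∀ g, g⁻¹ * v * g ∈ HH A X) → v = 1
    · exact (Mn.false ⟨sub_step ih, nz, core, hO⟩ h).elim
    · push Not at core
      obtain ⟨v, hv, hv1⟩ := core
      exact core_step h (sub_step ih) nz hO hv hv1 a g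
  · push Not at nz
    obtain ⟨z, z2, zc, z1⟩ := nz
    by_cases hzx : x = z
    · exact mem_HH.1 (h.cen (mem_CC.2 (hzx ▸ zc g))) a
    have hzH : zpowers z ≤ HH A X := zpowers_le.2 (h.cen (mem_CC.2 (zc x).symm))
    have hZ : zpowers z ≤ center X := zpowers_le.2 (mem_center_iff.2 zc)
    haveI : (zpowers z).Normal := ⟨fun m hm g => by
      rw [mem_center_iff.1 (hZ hm) g]; simpa using hm⟩
    refine CoprimeAct.fixed_of_stable (N := zpowers z) (CoprimeAct.cop_sub h.cop _)
      (fun a m hm => mem_HH.1 (hzH hm) a) ?_ a g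
    refine quot_step h ih _ (fun a m hm => by rw [mem_HH.1 (hzH hm) a]; exact hm)
      (by simpa using z1) (fun hx => ?_) (fun c hc => ⟨c, h.uniq ?_, by simp⟩)
      (H13Ext.core_quot_eq_bot hO _ hZ)
    · rcases mem_four z2 z2 rfl (mem_sup_left hx) with e | e | e | e
      · exact h.ne e
      · exact hzx e
      · exact hzx e
      · exact h.ne (e.trans z2)
    · simpa using (HH A X).mul_mem (hzH hc) h.mem

end Ind

end CA.H19Aut
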