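import Mathlib

/-! Laws (identical relations) in groups and a ping-pong lemma for one-parameter diagonal matrices. -/

set_option autoImplicit false

namespace CA.H22Law

open Polynomial
open scoped commutatorElement

/-- `w` is a law in `G`. -/
def Law (w : FreeGroup ℕ) (G : Type*) [Group G] : Prop := ∀ f : ℕ → G, FreeGroup.lift f w = 1

theorem map_lift {G H : Type*} [Group G] [Group H] (φ : G →* H) (f : ℕ → G) (w : FreeGroup ℕ) :
    φ (FreeGroup.lift f w) = FreeGroup.lift (fun i => φ (f i)) w := by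
  have : φ.comp (FreeGroup.lift f) = FreeGroup.lift (fun i => φ (f i)) := by
    ext i; simp
  rw [← this]; rfl

theorem Law.of_injective {G H : Type*} [Group G] [Group H] {w : FreeGroup ℕ} (h : Law w H)
    (φ : G →* H) (hφ : Function.Injective φ) : Law w G := by
  intro f
  apply hφ
  rw [map_lift, h, map_one]

theorem Law.of_surjective {G H : Type*} [Group G] [Group H] {w : FreeGroup ℕ} (h : Law w G)
    (φ : G →* H) (hφ : Function.Surjective φ) : Law w H := by
  intro f
  choose g hg using fun i => hφ (f i)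
  have : f = fun i => φ (g i) := by funext i; rw [hg]
  rw [this, ← map_lift, h, map_one]

/-- The word `[w(x₁,x₂,…), x₀]`. -/
noncomputable def comm (w : FreeGroup ℕ) : FreeGroup ℕ :=
  ⁅FreeGroup.map Nat.succ w, FreeGroup.of 0⁆

theorem lift_comm {G : Type*} [Group G] (f : ℕ → G) (w : FreeGroup ℕ) :
    FreeGroup.lift f (comm w) = ⁅FreeGroup.lift (fun i => f (i + 1)) w, f 0⁆ := by
  have : (FreeGroup.lift f).comp (FreeGroup.map Nat.succ) = FreeGroup.lift (fun i => f (i + 1)) := by
    ext i; simp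
  rw [comm, map_commutatorElement, ← this]
  simp

theorem Law.comm_of_quotient_center {G : Type*} [Group G] {w : FreeGroup ℕ}
    (h : Law w (G ⧸ Subgroup.center G)) : Law (comm w) G := by
  intro f
  rw [lift_comm, commutatorElement_eq_one_iff_mul_comm]
  have h1 := h (fun i => QuotientGroup.mk' _ (f (i + 1)))
  rw [← map_lift, QuotientGroup.mk'_apply, QuotientGroup.eq_one_iff] at h1
  exact (Subgroup.mem_center_iff.mp h1 _).symm

theorem comm_ne_one {w : FreeGroup ℕ} (hw : w ≠ 1) : comm w ≠ 1 := by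
  classical
  intro h
  let G := Equiv.Perm (FreeGroup ℕ)
  let f : ℕ → G := fun i => match i with
    | 0 => Equiv.swap 1 w⁻¹
    | i + 1 => MulAction.toPerm (FreeGroup.of i : FreeGroup ℕ)
  have h1 : FreeGroup.lift f (comm w) = 1 := by rw [h, map_one]
  rw [lift_comm, commutatorElement_eq_one_iff_mul_comm] at h1
  have h2 : FreeGroup.lift (fun i => f (i + 1)) w = MulAction.toPerm w := by
    have := map_lift (MulAction.toPermHom (FreeGroup ℕ) (FreeGroup ℕ)) FreeGroup.of w
    rw [FreeGroup.lift_of_eq_id] at this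
    exact this.symm
  rw [h2] at h1
  have hw2 : w * w ≠ 1 := by
    intro h2
    have : IsOfFinOrder w := isOfFinOrder_iff_pow_eq_one.mpr ⟨2, by norm_num, by rw [pow_two, h2]⟩
    exact hw (this.eq_one')
  have h3 := congrArg (fun σ : G => σ 1) h1
  have hw1 : w⁻¹ ≠ 1 := inv_ne_one.mpr hw
  have hw3 : w ≠ w⁻¹ := fun h => hw2 (by nth_rewrite 2 [h]; simp)
  simp [f, G, Equiv.swap_apply_of_ne_of_ne hw hw3] at h3
  exact hw h3.symm

section pingpong

variable {F : Type*} [Field F] {n : Type*} [Fintype n] [DecidableEq n]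

/-- entries have degree at most `D` -/
def DegLE (M : Matrix n n F[X]) (D : ℕ) : Prop := ∀ i j, (M i j).natDegree ≤ D

/-- the matrix of coefficients of `X ^ D` -/
noncomputable def top (M : Matrix n n F[X]) (D : ℕ) : Matrix n n F := M.map (fun p => p.coeff D)

theorem DegLE.mul {M N : Matrix n n F[X]} {D E : ℕ} (hM : DegLE M D) (hN : DegLE N E) :
    DegLE (M * N) (D + E) := by
  intro i j
  rw [Matrix.mul_apply]
  refine natDegree_sum_le_of_forall_le _ _ fun k _ => ?_
  exact natDegree_mul_le.trans (add_le_add (hM i k) (hN k j))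

theorem top_mul {M N : Matrix n n F[X]} {D E : ℕ} (hM : DegLE M D) (hN : DegLE N E) :
    top (M * N) (D + E) = top M D * top N E := by
  ext i j
  simp only [top, Matrix.map_apply, Matrix.mul_apply, finsetSum_coeff]
  refine Finset.sum_congr rfl fun k _ => ?_
  exact coeff_mul_add_eq_of_natDegree_le (hM i k) (hN k j)

theorem degLE_C (A : Matrix n n F) : DegLE (A.map C) 0 := by
  intro i j; simp

theorem top_C (A : Matrix n n F) : top (A.map C) 0 = A := by
  ext i j; simp [top]

/-- Products of rank one matrices along a chain. -/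
theorem prod_word {S : Type*} (P : S → Matrix n n F[X]) (D : ℕ) (u v : S → n → F) (R : S → S → Prop)
    (L : List S) (hP : ∀ x ∈ L, DegLE (P x) D ∧ top (P x) D = Matrix.vecMulVec (u x) (v x))
    (hR : ∀ x ∈ L, ∀ y ∈ L, R x y → v x ⬝ᵥ u y ≠ 0) (hL : L.IsChain R) (x : S) (L' : List S)
    (hx : L = x :: L') :
    DegLE (L.map P).prod (D * L.length) ∧
      ∃ c : F, c ≠ 0 ∧ ∃ y ∈ L, top (L.map P).prod (D * L.length) = c • Matrix.vecMulVec (u x) (v y) := by
  induction L' generalizing x L with
  | nil =>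
    subst hx
    have := hP x (by simp)
    refine ⟨by simpa using this.1, 1, one_ne_zero, x, by simp, by simpa using this.2⟩
  | cons y L' ih =>
    subst hx
    have hx := hP x (by simp)
    rw [List.isChain_cons_cons] at hL
    obtain ⟨h1, c, hc, z, hz, h2⟩ := ih (y :: L') (fun a ha => hP a (List.mem_cons_of_mem _ ha))
      (fun a ha b hb => hR a (List.mem_cons_of_mem _ ha) b (List.mem_cons_of_mem _ hb)) hL.2 y rfl
    have e : D * (x :: y :: L').length = D + D * (y :: L').length := by
      simp only [List.length_cons]; ring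
    rw [e, List.map_cons, List.prod_cons]
    refine ⟨hx.1.mul h1, c * (v x ⬝ᵥ u y), mul_ne_zero hc (hR x (by simp) y (by simp) hL.1), z,
      List.mem_cons_of_mem _ hz, ?_⟩
    rw [top_mul hx.1 h1, hx.2, h2, Matrix.mul_smul, Matrix.vecMulVec_mul_vecMulVec]
    ext i j
    simp [Matrix.vecMulVec_apply]
    ring

/-- Ping-pong: conjugates of a one-parameter family of diagonal matrices with a unique attracting and a
unique repelling coordinate do not satisfy the law `w` over a large field. -/
theorem pingpong [Fintype F] {G : Type*} [Group G] (ρ : G →* Matrix n n F) (w : FreeGroup ℕ) (hw : w ≠ 1)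
    (d : ℕ) (hd : 0 < d) (k : Bool → n → ℕ) (s : Bool → n) (hk : ∀ b j, k b j ≤ 2 * d)
    (hks : ∀ b j, k b j = 2 * d ↔ j = s b)
    (h : Fˣ → G) (hh : ∀ (t : Fˣ) (b : Bool), (t : F) ^ d • ρ (cond b (h t) (h t)⁻¹) =
      Matrix.diagonal fun j => (t : F) ^ k b j)
    (g : ℕ → G) (hg : ∀ x ∈ w.toWord, ∀ y ∈ w.toWord, x.1 ≠ y.1 →
      ρ ((g x.1)⁻¹ * g y.1) (s x.2) (s y.2) ≠ 0)
    (hF : 2 * d * w.toWord.length + 1 < Fintype.card F) : ¬ Law w G := by
  classical
  intro hlaw
  set L := w.toWord with hLdef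
  have hLne : L ≠ [] := fun h => hw (FreeGroup.toWord_eq_nil_iff.mp h)
  obtain ⟨x, L', hx⟩ := List.exists_cons_of_ne_nil hLne
  let P : ℕ × Bool → Matrix n n F[X] := fun x =>
    (ρ (g x.1)).map C * (Matrix.diagonal fun j => (X : F[X]) ^ k x.2 j) * (ρ (g x.1)⁻¹).map C
  let u : ℕ × Bool → n → F := fun x i => ρ (g x.1) i (s x.2)
  let v : ℕ × Bool → n → F := fun x j => ρ (g x.1)⁻¹ (s x.2) j
  have hP : ∀ x ∈ L, DegLE (P x) (2 * d) ∧ top (P x) (2 * d) = Matrix.vecMulVec (u x) (v x) := by
    intro x _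
    have hD : DegLE (Matrix.diagonal fun j => (X : F[X]) ^ k x.2 j) (2 * d) := by
      intro i j
      rw [Matrix.diagonal_apply]
      split_ifs
      · simpa using hk _ _
      · simp
    have h1 := (degLE_C (ρ (g x.1))).mul hD
    have h2 := h1.mul (degLE_C (ρ (g x.1)⁻¹))
    refine ⟨by simpa using h2, ?_⟩
    have h3 := top_mul h1 (degLE_C (ρ (g x.1)⁻¹))
    rw [top_mul (degLE_C _) hD, top_C, top_C] at h3
    simp only [zero_add, add_zero] at h3
    have h4 : top (Matrix.diagonal fun j => (X : F[X]) ^ k x.2 j) (2 * d) =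
        Matrix.single (s x.2) (s x.2) 1 := by
      ext i j
      simp only [top, Matrix.map_apply, Matrix.diagonal_apply, Matrix.single_apply]
      by_cases hij : i = j
      · subst hij
        simp only [if_true, coeff_X_pow, and_self]
        have := hks x.2 i
        by_cases hi : i = s x.2
        · simp [hi, (hks x.2 (s x.2)).mpr rfl]
        · have h5 : ¬ (2 * d = k x.2 i) := fun h => hi (this.mp h.symm)
          have h6 : ¬ (s x.2 = i) := fun h => hi h.symm
          simp [h5, h6]
      · have : ¬ (s x.2 = i ∧ s x.2 = j) := fun h => hij (h.1.symm.trans h.2)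
        simp [hij, this]
    simp only [P]
    rw [h3, h4]
    ext i j
    simp [Matrix.mul_apply, Matrix.single_apply, Matrix.vecMulVec_apply, u, v, ite_and]
  have hR : ∀ x ∈ L, ∀ y ∈ L, (x.1 = y.1 → x.2 = y.2) → v x ⬝ᵥ u y ≠ 0 := by
    intro x hx y hy hxy
    have e : v x ⬝ᵥ u y = ρ ((g x.1)⁻¹ * g y.1) (s x.2) (s y.2) := by
      rw [map_mul, Matrix.mul_apply]; rfl
    rw [e]
    by_cases h1 : x.1 = y.1
    · rw [h1, hxy h1]; simp
    · exact hg x hx y hy h1
  obtain ⟨hdeg, c, hc, y, hy, htop⟩ := prod_word P (2 * d) u v _ L hP hR FreeGroup.isReduced_toWord x L' hx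
  -- evaluation
  have hev : ∀ (t : Fˣ) (L : List (ℕ × Bool)), ((L.map P).prod).map (eval (t : F)) =
      (t : F) ^ (d * L.length) • ρ ((L.map fun x => cond x.2 (g x.1 * h t * (g x.1)⁻¹)
        (g x.1 * h t * (g x.1)⁻¹)⁻¹).prod) := by
    intro t L
    have hm : ∀ A B : Matrix n n F[X], (A * B).map (eval (t : F)) =
        A.map (eval (t : F)) * B.map (eval (t : F)) := fun A B =>
      Matrix.map_mul (f := evalRingHom (t : F))
    induction L with
    | nil =>
      simp only [List.map_nil, List.prod_nil, List.length_nil, mul_zero, pow_zero, map_one, one_smul]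
      exact Matrix.map_one _ (by simp) (by simp)
    | cons x L ih =>
      rw [List.map_cons, List.prod_cons, hm, ih, List.map_cons, List.prod_cons, map_mul,
        List.length_cons, mul_add, mul_one, add_comm, pow_add, mul_smul, Matrix.mul_smul, smul_comm,
        ← Matrix.smul_mul]
      congr 2
      have hC : ∀ A : Matrix n n F, (A.map C).map (eval (t : F)) = A := by
        intro A; ext i j; simp
      have hdiag : (Matrix.diagonal fun j => (X : F[X]) ^ k x.2 j).map (eval (t : F)) =
          Matrix.diagonal fun j => (t : F) ^ k x.2 j := by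
        rw [Matrix.diagonal_map (by simp)]; simp
      simp only [P]
      rw [hm, hm, hC, hC, hdiag, ← hh t x.2, Matrix.mul_smul, Matrix.smul_mul, ← map_mul, ← map_mul]
      congr 2
      cases x.2 <;> simp [mul_assoc]
  have hone : ∀ t : Fˣ, ((L.map P).prod).map (eval (t : F)) = (t : F) ^ (d * L.length) • 1 := by
    intro t
    rw [hev]
    have := hlaw (fun i => g i * h t * (g i)⁻¹)
    rw [← FreeGroup.mk_toWord (x := w), FreeGroup.lift_mk] at this
    rw [hLdef, this, map_one]
  -- a nonzero entry of the top coefficient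
  have hu : ∃ i, u x i ≠ 0 := by
    by_contra hcon
    push Not at hcon
    have := hR x (by simp [hx]) x (by simp [hx]) (fun _ => rfl)
    apply this
    simp [dotProduct, hcon]
  have hv : ∃ j, v y j ≠ 0 := by
    by_contra hcon
    push Not at hcon
    have := hR y hy y hy (fun _ => rfl)
    apply this
    simp [dotProduct, hcon]
  obtain ⟨i, hi⟩ := hu
  obtain ⟨j, hj⟩ := hv
  have hLpos : 0 < L.length := List.length_pos_iff.mpr hLne
  let q : F[X] := (L.map P).prod i j - X ^ (d * L.length) * C ((1 : Matrix n n F) i j)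
  have hlt : d * L.length < 2 * d * L.length := by nlinarith
  have hq : q.coeff (2 * d * L.length) ≠ 0 := by
    have := congrFun (congrFun htop i) j
    simp only [top, Matrix.map_apply, Matrix.smul_apply, Matrix.vecMulVec_apply, smul_eq_mul] at this
    simp only [q, coeff_sub, this, coeff_mul_C, coeff_X_pow, hlt.ne', if_false, zero_mul, sub_zero]
    exact mul_ne_zero hc (mul_ne_zero hi hj)
  have hq0 : q ≠ 0 := fun h => hq (by simp [h])
  have hqd : q.natDegree ≤ 2 * d * L.length := by
    refine (natDegree_sub_le _ _).trans (max_le (hdeg i j) ?_)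
    refine natDegree_mul_le.trans ?_
    simpa using hlt.le
  have hroots : (Finset.univ.erase (0 : F)).val ⊆ q.roots := by
    intro t ht
    have ht0 : t ≠ 0 := Finset.ne_of_mem_erase ht
    rw [mem_roots hq0, IsRoot.def]
    have := congrFun (congrFun (hone (Units.mk0 t ht0)) i) j
    simp only [Matrix.map_apply, Units.val_mk0, Matrix.smul_apply, smul_eq_mul] at this
    simp only [q, eval_sub, eval_mul, eval_pow, eval_X, eval_C, this, sub_self]
  have := card_le_degree_of_subset_roots hroots
  rw [Finset.card_erase_of_mem (Finset.mem_univ _), Finset.card_univ] at this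
  omega

end pingpong

/-- Letters of a word are bounded. -/
theorem exists_bound (w : FreeGroup ℕ) : ∃ K : ℕ, ∀ x ∈ w.toWord, x.1 < K :=
  ⟨(w.toWord.map Prod.fst).sum + 1, fun x hx =>
    Nat.lt_succ_of_le (List.single_le_sum (fun _ _ => Nat.zero_le _) _ (List.mem_map_of_mem hx))⟩

/-- A family of field elements, injective on the first `K` naturals. -/
theorem exists_inj (F : Type*) [Fintype F] (K : ℕ) (hK : K ≤ Fintype.card F) (h0 : Nonempty F) :
    ∃ b : ℕ → F, ∀ i < K, ∀ j < K, b i = b j → i = j := by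
  obtain ⟨e⟩ : Nonempty (Fin K ↪ F) := Function.Embedding.nonempty_of_card_le (by simpa using hK)
  refine ⟨fun i => if h : i < K then e ⟨i, h⟩ else h0.some, fun i hi j hj h => ?_⟩
  simp only [hi, hj, dif_pos] at h
  exact congrArg Fin.val (e.injective h)

open scoped MatrixGroups in
/-- A nontrivial word is not a law in `SL₂(F)` for large finite fields `F`. -/
theorem not_law_SL2 (w : FreeGroup ℕ) (hw : w ≠ 1) : ∃ N : ℕ, ∀ (F : Type*) [Field F] [Fintype F],
    N ≤ Fintype.card F → ¬ Law w SL(2, F) := by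
  obtain ⟨K, hK⟩ := exists_bound w
  refine ⟨2 * K + 2 * w.toWord.length + 2, fun F _ _ hF => ?_⟩
  classical
  obtain ⟨b, hb⟩ := exists_inj F (2 * K) (by omega) ⟨0⟩
  have hg0 : ∀ p q : F, ∃ g : SL(2, F), p - q ≠ 0 →
      (g : Matrix (Fin 2) (Fin 2) F) = !![1, (p - q)⁻¹; q, p * (p - q)⁻¹] := by
    intro p q
    by_cases h : p - q = 0
    · exact ⟨1, fun h' => absurd h h'⟩
    · exact ⟨⟨!![1, (p - q)⁻¹; q, p * (p - q)⁻¹], by rw [Matrix.det_fin_two_of]; field_simp⟩, fun _ => rfl⟩
  choose g0 hg0 using hg0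
  let g : ℕ → SL(2, F) := fun i => g0 (b (2 * i + 1)) (b (2 * i))
  have hh0 : ∀ t : Fˣ, ∃ g : SL(2, F), (g : Matrix (Fin 2) (Fin 2) F) = !![(t : F), 0; 0, (t : F)⁻¹] :=
    fun t => ⟨⟨!![(t : F), 0; 0, (t : F)⁻¹], by rw [Matrix.det_fin_two_of]; simp⟩, rfl⟩
  choose h hh using hh0
  refine pingpong (Matrix.SpecialLinearGroup.coeMonoidHom) w hw 1 one_pos
    (fun b j => cond b (![2, 0] j) (![0, 2] j)) (fun b => cond b 0 1) ?_ ?_ h ?_ g ?_ (by omega)
  · intro b j; cases b <;> fin_cases j <;> simp
  · intro b j; cases b <;> fin_cases j <;> simp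
  · intro t b
    cases b
    · rw [Bool.cond_false, Matrix.SpecialLinearGroup.coeMonoidHom_apply,
        Matrix.SpecialLinearGroup.coe_inv, hh, Matrix.adjugate_fin_two_of]
      ext i j; fin_cases i <;> fin_cases j <;> simp [pow_two]
    · rw [Bool.cond_true, Matrix.SpecialLinearGroup.coeMonoidHom_apply, hh]
      ext i j; fin_cases i <;> fin_cases j <;> simp [pow_two]
  · intro x hx y hy hxy
    have hxK := hK x hx
    have hyK := hK y hy
    have ne : ∀ i < 2 * K, ∀ j < 2 * K, i ≠ j → b i - b j ≠ 0 := fun i hi j hj hij h =>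
      hij (hb i hi j hj (sub_eq_zero.mp h))
    have h1 := ne (2 * x.1 + 1) (by omega) (2 * x.1) (by omega) (by omega)
    have h2 := ne (2 * y.1 + 1) (by omega) (2 * y.1) (by omega) (by omega)
    have h3 := ne (2 * x.1 + 1) (by omega) (2 * y.1) (by omega) (by omega)
    have h4 := ne (2 * x.1 + 1) (by omega) (2 * y.1 + 1) (by omega) (by omega)
    have h5 := ne (2 * y.1) (by omega) (2 * x.1) (by omega) (by omega)
    have h6 := ne (2 * y.1 + 1) (by omega) (2 * x.1) (by omega) (by omega)
    simp only [Matrix.SpecialLinearGroup.coeMonoidHom_apply, Matrix.SpecialLinearGroup.coe_mul,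
      Matrix.SpecialLinearGroup.coe_inv, g, hg0 _ _ h1, hg0 _ _ h2, Matrix.adjugate_fin_two_of]
    generalize b (2 * x.1 + 1) = p at *
    generalize b (2 * x.1) = q at *
    generalize b (2 * y.1 + 1) = r at *
    generalize b (2 * y.1) = s at *
    cases x.2 <;> cases y.2 <;> simp only [Bool.cond_true, Bool.cond_false, Matrix.mul_apply, Fin.sum_univ_two,
      Matrix.of_apply, Matrix.cons_val', Matrix.cons_val_zero, Matrix.cons_val_one,
      Matrix.cons_val_fin_one]
    · have : -q * (r - s)⁻¹ + 1 * (r * (r - s)⁻¹) = (r - q) * (r - s)⁻¹ := by ring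
      rw [this]; exact mul_ne_zero h6 (inv_ne_zero h2)
    · have : -q * 1 + 1 * s = s - q := by ring
      rw [this]; exact h5
    · have : p * (p - q)⁻¹ * (r - s)⁻¹ + -(p - q)⁻¹ * (r * (r - s)⁻¹) =
          (p - r) * (p - q)⁻¹ * (r - s)⁻¹ := by ring
      rw [this]; exact mul_ne_zero (mul_ne_zero h4 (inv_ne_zero h1)) (inv_ne_zero h2)
    · have : p * (p - q)⁻¹ * 1 + -(p - q)⁻¹ * s = (p - s) * (p - q)⁻¹ := by ring
      rw [this]; exact mul_ne_zero h3 (inv_ne_zero h1)

/-- A finite group embeds in `A_n` for `n ≥ 2 |G|`. -/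
theorem exists_embed_alternating (G : Type*) [Group G] [Fintype G] (n : ℕ) (hn : 2 * Fintype.card G ≤ n) :
    ∃ φ : G →* alternatingGroup (Fin n), Function.Injective φ := by
  classical
  obtain ⟨e⟩ : Nonempty (G ⊕ G ↪ Fin n) :=
    Function.Embedding.nonempty_of_card_le (by simp; omega)
  let ψ : G →* Equiv.Perm (G ⊕ G) := (Equiv.Perm.sumCongrHom G G).comp
    ((MulAction.toPermHom G G).prod (MulAction.toPermHom G G))
  let φ : G →* Equiv.Perm (Fin n) := (Equiv.Perm.viaEmbeddingHom e).comp ψ
  have hφ : ∀ g, φ g ∈ alternatingGroup (Fin n) := by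
    intro g
    simp [φ, ψ, Equiv.Perm.viaEmbeddingHom_apply, Equiv.Perm.viaEmbedding,
      Equiv.Perm.sign_extendDomain]
  refine ⟨φ.codRestrict _ hφ, ?_⟩
  rw [MonoidHom.injective_codRestrict]
  refine (Equiv.Perm.viaEmbeddingHom_injective e).comp ?_
  refine Equiv.Perm.sumCongrHom_injective.comp ?_
  intro a b hab
  exact MulAction.toPerm_injective (congrArg Prod.fst hab)

open scoped MatrixGroups in
/-- A nontrivial word is not a law in `A_n` for large `n`. -/
theorem not_law_alternating (w : FreeGroup ℕ) (hw : w ≠ 1) : ∃ N : ℕ, ∀ n : ℕ, N ≤ n →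
    ¬ Law w (alternatingGroup (Fin n)) := by
  obtain ⟨N, hN⟩ := not_law_SL2.{0} w hw
  obtain ⟨p, hp, hpp⟩ := Nat.exists_infinite_primes N
  haveI : Fact p.Prime := ⟨hpp⟩
  classical
  haveI : Fintype SL(2, ZMod p) := Fintype.ofFinite _
  refine ⟨2 * Fintype.card SL(2, ZMod p), fun n hn h => ?_⟩
  obtain ⟨φ, hφ⟩ := exists_embed_alternating SL(2, ZMod p) n hn
  exact hN (ZMod p) (by simpa using hp) (h.of_injective φ hφ)

end CA.H22Law
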