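import Mathlib

/-! Elementary tools for prime-graph arguments: a `r`-group normalizing a `r'`-group `K`
whose order does not divide `|K|_p - 1` yields commuting elements of orders `r` and `p`. -/

set_option autoImplicit false

namespace Cfsg.Agent.H25Adj

open Subgroup
open scoped Pointwise

variable {G : Type*} [Group G]

theorem card_dvd_of_free {A X : Type*} [Group A] [MulAction A X]
    (h : ∀ (a : A) (x : X), a • x = x → a = 1) : Nat.card A ∣ Nat.card X := by
  have e := MulAction.selfEquivOrbitsQuotientProd (G := A) (X := X) (fun b => by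
    rw [eq_bot_iff]; intro a ha; exact (mem_bot).2 (h a b ha))
  rw [Nat.card_congr e, Nat.card_prod]
  exact Dvd.intro_left _ rfl

theorem exists_prime_pow {p : ℕ} [hp : Fact p.Prime] {y : G} (hy : y ≠ 1) {k : ℕ}
    (h : y ^ p ^ k = 1) : ∃ n : ℕ, orderOf (y ^ n) = p := by
  have h1 : orderOf y ∣ p ^ k := orderOf_dvd_of_pow_eq_one h
  obtain ⟨j, -, hj⟩ := (Nat.dvd_prime_pow hp.out).1 h1
  have hj0 : j ≠ 0 := by
    rintro rfl
    exact hy (orderOf_eq_one_iff.1 (by simpa using hj))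
  obtain ⟨j, rfl⟩ := Nat.exists_eq_succ_of_ne_zero hj0
  refine ⟨p ^ j, ?_⟩
  rw [orderOf_pow_of_dvd (pow_ne_zero _ hp.out.ne_zero) (by rw [hj]; exact pow_dvd_pow _ (by omega)),
    hj, pow_succ, Nat.mul_div_cancel_left _ (pow_pos hp.out.pos _)]

/-- An `r`-group `R` normalizing `Q` with `|R| ∤ |Q| - 1` has a nontrivial element centralizing
a nontrivial element of `Q`. -/
theorem comm_of_norm [Finite G] (Q R : Subgroup G) (hn : R ≤ normalizer (Q : Set G))
    (hd : ¬ Nat.card R ∣ Nat.card Q - 1) : ∃ y ∈ R, ∃ q ∈ Q, y ≠ 1 ∧ q ≠ 1 ∧ Commute y q := by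
  by_contra hc
  push Not at hc
  letI : MulAction R {q : G // q ∈ Q ∧ q ≠ 1} :=
    { smul := fun y q => ⟨y * q * (y : G)⁻¹, (mem_normalizer_iff.1 (hn y.2) _).1 q.2.1, by
        intro h; apply q.2.2
        have : (q : G) = (y : G)⁻¹ * (y * q * (y : G)⁻¹) * y := by group
        rw [this, h]; group⟩
      one_smul := fun q => Subtype.ext (by
        change ((1 : R) : G) * q * ((1 : R) : G)⁻¹ = q
        simp)
      mul_smul := fun a b q => Subtype.ext (by
        change ((a * b : R) : G) * q * ((a * b : R) : G)⁻¹ = a * (b * q * (b : G)⁻¹) * (a : G)⁻¹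
        simp only [coe_mul]; group) }
  have h1 := card_dvd_of_free (A := R) (X := {q : G // q ∈ Q ∧ q ≠ 1}) (fun a x h => by
    by_contra ha
    have h2 : (a : G) * x * (a : G)⁻¹ = x := congrArg Subtype.val h
    refine hc a a.2 x x.2.1 (fun h => ha (Subtype.ext h)) x.2.2 ?_
    rw [Commute, SemiconjBy]
    calc (a : G) * x = (a * x * (a : G)⁻¹) * a := by group
      _ = x * a := by rw [h2])
  apply hd
  have h2 : Nat.card {q : G // q ∈ Q ∧ q ≠ 1} = Nat.card Q - 1 := by
    have : Nat.card {q : G // q ∈ Q ∧ q ≠ 1} = ((Q : Set G) \ {1}).ncard := by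
      rw [← Nat.card_coe_set_eq]; rfl
    rw [this, Set.ncard_sdiff_singleton_of_mem Q.one_mem, ← Nat.card_coe_set_eq]
    rfl
  rwa [h2] at h1

/-- an `r`-group normalizing an `r'`-group `K` normalizes a Sylow `p`-subgroup of `K`. -/
theorem exists_inv_sylow [Finite G] (K R : Subgroup G) (r p : ℕ) [Fact r.Prime] [Fact p.Prime]
    (hR : IsPGroup r R) (hn : R ≤ normalizer (K : Set G)) (hr : ¬ r ∣ Nat.card K) :
    ∃ Q : Subgroup G, Q ≤ K ∧ Nat.card Q = p ^ (Nat.card K).factorization p ∧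
      R ≤ normalizer (Q : Set G) := by
  let f : R →* MulAut K := K.normalizerMonoidHom.comp (inclusion hn)
  letI : MulDistribMulAction R K := MulDistribMulAction.compHom K f
  have hc : ¬ r ∣ Nat.card (Sylow p K) := by
    intro h
    obtain ⟨P⟩ : Nonempty (Sylow p K) := inferInstance
    exact hr (h.trans (P.card_dvd_index.trans (index_dvd_card _)))
  obtain ⟨P, hP⟩ := hR.nonempty_fixed_point_of_prime_not_dvd_card (Sylow p K) hc
  refine ⟨(P : Subgroup K).map K.subtype, map_subtype_le _, ?_, ?_⟩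
  · rw [card_map_of_injective K.subtype_injective, P.card_eq_multiplicity]
  · intro y hy
    have key : ∀ y (hy : y ∈ R), ∀ x ∈ (P : Subgroup K).map K.subtype,
        y * x * y⁻¹ ∈ (P : Subgroup K).map K.subtype := by
      intro y hy x hx
      obtain ⟨x, hx, rfl⟩ := hx
      have h1 : (⟨y, hy⟩ : R) • P = P := hP ⟨y, hy⟩
      have h2 : (⟨y, hy⟩ : R) • x ∈ (((⟨y, hy⟩ : R) • P : Sylow p K) : Subgroup K) := by
        rw [Sylow.pointwise_smul_def]
        exact smul_mem_pointwise_smul _ _ _ hx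
      rw [h1] at h2
      exact ⟨_, h2, rfl⟩
    rw [mem_normalizer_iff]
    intro x
    refine ⟨key y hy x, fun h => ?_⟩
    have := key y⁻¹ (R.inv_mem hy) _ h
    simpa [mul_assoc] using this

theorem comm_pair [Finite G] (K R : Subgroup G) (r p : ℕ) [Fact r.Prime] [Fact p.Prime]
    (hR : IsPGroup r R) (hn : R ≤ normalizer (K : Set G)) (hr : ¬ r ∣ Nat.card K)
    (hd : ¬ Nat.card R ∣ p ^ (Nat.card K).factorization p - 1) :
    ∃ y ∈ R, ∃ q ∈ K, orderOf y = r ∧ orderOf q = p ∧ Commute y q := by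
  obtain ⟨Q, hQK, hQ, hRQ⟩ := exists_inv_sylow K R r p hR hn hr
  obtain ⟨y, hy, q, hq, hy1, hq1, hc⟩ := comm_of_norm Q R hRQ (by rwa [hQ])
  obtain ⟨k, hk⟩ := hR ⟨y, hy⟩
  obtain ⟨n, hn⟩ := exists_prime_pow (p := r) hy1 (k := k) (by simpa using congrArg Subtype.val hk)
  obtain ⟨m, hm⟩ := exists_prime_pow (p := p) hq1 (k := (Nat.card K).factorization p) (by
    rw [← hQ]
    exact congrArg Subtype.val (pow_card_eq_one' (x := (⟨q, hq⟩ : Q))))
  exact ⟨y ^ n, R.pow_mem hy _, q ^ m, K.pow_mem (hQK hq) _, hn, hm, hc.pow_pow _ _⟩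

theorem adj_of_comm {y q : G} {r p : ℕ} (hr : r.Prime) (hp : p.Prime) (hne : r ≠ p)
    (hy : orderOf y = r) (hq : orderOf q = p) (hc : Commute y q) : ∃ g : G, orderOf g = r * p :=
  ⟨y * q, by
    rw [hc.orderOf_mul_eq_mul_orderOf_of_coprime (by
      rw [hy, hq]; exact (Nat.coprime_primes hr hp).2 hne), hy, hq]⟩

/-- version with a test over all exponents. -/
theorem comm_pair' [Finite G] (K R : Subgroup G) (r p : ℕ) [Fact r.Prime] [hp : Fact p.Prime]
    (hR : IsPGroup r R) (hn : R ≤ normalizer (K : Set G)) (hr : ¬ r ∣ Nat.card K)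
    (hpK : p ∣ Nat.card K) (b : ℕ) (hb : ¬ p ^ (b + 1) ∣ Nat.card K)
    (hd : ∀ a, 1 ≤ a → a ≤ b → ¬ Nat.card R ∣ p ^ a - 1) :
    ∃ y ∈ R, ∃ q ∈ K, orderOf y = r ∧ orderOf q = p ∧ Commute y q := by
  refine comm_pair K R r p hR hn hr (hd _ ?_ ?_)
  · exact (hp.out.dvd_iff_one_le_factorization Nat.card_pos.ne').1 hpK
  · by_contra h
    exact hb ((hp.out.pow_dvd_iff_le_factorization Nat.card_pos.ne').2 (by omega))

/-- If `|H| = p m` with `p ∤ m` and `m ≢ 1 (mod p)`, the normalizer of a Sylow `p`-subgroup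
has an element of prime order `s ∣ m`. -/
theorem exists_norm_prime [Finite G] {p m : ℕ} [hp : Fact p.Prime] (hG : Nat.card G = p * m)
    (hm : ¬ p ∣ m) (h1 : ¬ m ≡ 1 [MOD p]) (P : Sylow p G) :
    ∃ y ∈ normalizer (P : Set G), (orderOf y).Prime ∧ orderOf y ∣ m := by
  have hP : Nat.card P = p := by
    rw [P.card_eq_multiplicity, hG,
      Nat.factorization_mul hp.out.ne_zero (by rintro rfl; exact hm (dvd_zero _))]
    simp [hp.out.factorization_self, Nat.factorization_eq_zero_of_not_dvd hm]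
  have h2 := (normalizer (P : Set G)).card_mul_index
  obtain ⟨k, hk⟩ : p ∣ Nat.card (normalizer (P : Set G)) := by
    have := card_dvd_of_le (le_normalizer (H := (P : Subgroup G)))
    rw [hP] at this; exact this
  have h3 : k * Nat.card (Sylow p G) = m := by
    rw [hk, hG, ← P.card_eq_index_normalizer, mul_assoc] at h2
    exact Nat.eq_of_mul_eq_mul_left hp.out.pos h2
  have hk1 : k ≠ 1 := by
    rintro rfl
    rw [one_mul] at h3
    exact h1 (h3 ▸ card_sylow_modEq_one p G)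
  obtain ⟨s, hs, hsk⟩ := Nat.exists_prime_and_dvd hk1
  haveI := Fact.mk hs
  obtain ⟨y, hy⟩ := exists_prime_orderOf_dvd_card' (G := normalizer (P : Set G)) s
    (by rw [hk]; exact hsk.mul_left _)
  refine ⟨y, y.2, ?_, ?_⟩
  · rw [orderOf_coe, hy]; exact hs
  · rw [orderOf_coe, hy, ← h3]; exact hsk.mul_right _

end Cfsg.Agent.H25Adj
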