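import Mathlib
import Cfsg.Agent.Lib.Grp.H28Nse

/-! Groups with the same commuting graph. -/

set_option autoImplicit false

namespace CA.H28Cg

open Subgroup CA.H28Syl CA.H28SC CA.H28Nse

variable {G H : Type*} [Group G] [Finite G] [Group H] [Finite H]

theorem card_ne (G : Type*) [Group G] [Finite G] : Nat.card {g : G // g ≠ 1} + 1 = Nat.card G := by
  classical
  rw [← Finite.card_option]
  exact Nat.card_congr (Equiv.optionSubtypeNe 1)

theorem card_eq (f : {h : H // h ≠ 1} ≃ {g : G // g ≠ 1}) : Nat.card H = Nat.card G := by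
  rw [← card_ne H, ← card_ne G, Nat.card_congr f]

theorem card_CC (f : {h : H // h ≠ 1} ≃ {g : G // g ≠ 1})
    (hf : ∀ x y : {h : H // h ≠ 1}, (x : H) * y = y * x ↔ (f x : G) * f y = f y * f x)
    (x : {h : H // h ≠ 1}) : Nat.card (CC x.1) = Nat.card (CC (f x).1) := by
  refine card_eq ⟨fun a => ⟨⟨f ⟨a.1, fun e => a.2 (Subtype.ext e)⟩, mem_CC.2 ((hf _ x).1
    (mem_CC.1 a.1.2))⟩, fun e => (f _).2 (congrArg Subtype.val e)⟩,
    fun a => ⟨⟨f.symm ⟨a.1, fun e => a.2 (Subtype.ext e)⟩, mem_CC.2 ((hf _ x).2 ?_)⟩,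
    fun e => (f.symm _).2 (congrArg Subtype.val e)⟩, fun a => ?_, fun a => ?_⟩
  · rw [Equiv.apply_symm_apply]; exact mem_CC.1 a.1.2
  · simp
  · simp

theorem sc {p : ℕ} [hp : Fact p.Prime] (f : {h : H // h ≠ 1} ≃ {g : G // g ≠ 1})
    (hf : ∀ x y : {h : H // h ≠ 1}, (x : H) * y = y * x ↔ (f x : G) * f y = f y * f x)
    (h : ∀ y : G, orderOf y = p → SC p y) (x : H) (hx : orderOf x = p) : SC p x := by
  have h1 : x ≠ 1 := fun e => hp.out.one_lt.ne (by rw [← hx, e, orderOf_one])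
  have h2 := card_CC f hf ⟨x, h1⟩
  have h3 := h2 ▸ dvd_card_of_mem hx (zpowers_le_CC x (mem_zpowers x))
  obtain ⟨y, hy⟩ := exists_prime_orderOf_dvd_card' p h3
  rw [← Subgroup.orderOf_coe] at hy
  have h4 : (f ⟨x, h1⟩).1 ∈ zpowers (y : G) := (h y hy).cent ▸ mem_CC.2 (mem_CC.1 y.2).symm
  have h5 := ((Nat.dvd_prime hp.out).1 (hy ▸ orderOf_dvd_of_mem_zpowers h4)).resolve_left
    fun e => (f _).2 (orderOf_eq_one_iff.1 e)
  refine ⟨hx, (eq_of_le_of_card_ge (zpowers_le_CC x) ?_).symm⟩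
  rw [h2, (h _ h5).cent, Nat.card_zpowers, Nat.card_zpowers, h5, hx]

end CA.H28Cg
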