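import Cfsg.Agent.Lib.Grp.Core
import Cfsg.Agent.Lib.Grp.H23Sec

/-!
Left-normed commutator values and nilpotency of a term of the lower central series (solvable part).
-/

set_option autoImplicit false

namespace CA.H2Gam

open Subgroup Cfsg
open scoped commutatorElement

variable {G Q : Type*} [Group G] [Group Q]

/-- left-normed commutator values with first entry in `R` and the other entries in `A` -/
def VI (R A : Set G) : ℕ → G → Prop
  | 0, x => x ∈ R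
  | k + 1, x => ∃ y a, VI R A k y ∧ a ∈ A ∧ x = ⁅y, a⁆

theorem VI.mono {R A R' A' : Set G} (h1 : R ⊆ R') (h2 : A ⊆ A') :
    ∀ {k : ℕ} {x : G}, VI R A k x → VI R' A' k x
  | 0, _, h => h1 h
  | _ + 1, _, ⟨y, a, hy, ha, hx⟩ => ⟨y, a, VI.mono h1 h2 hy, h2 ha, hx⟩

theorem VI.univ {R A : Set G} {k : ℕ} {x : G} (h : VI R A k x) : VI Set.univ Set.univ k x :=
  h.mono (Set.subset_univ _) (Set.subset_univ _)

theorem VI.mem {P : Subgroup G} {A : Set G} (hA : ∀ a ∈ A, ∀ y ∈ P, a * y * a⁻¹ ∈ P) :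
    ∀ {k : ℕ} {x : G}, VI (P : Set G) A k x → x ∈ P
  | 0, _, h => h
  | _ + 1, _, ⟨y, a, hy, ha, hx⟩ => by
    have h1 := VI.mem hA hy
    have h2 := P.mul_mem h1 (hA a ha _ (P.inv_mem h1))
    rw [hx, commutatorElement_def]
    simpa [mul_assoc] using h2

theorem VI.lift (φ : G →* Q) {R A : Set G} {R' A' : Set Q} (h1 : ∀ y ∈ R', ∃ x ∈ R, φ x = y)
    (h2 : ∀ y ∈ A', ∃ x ∈ A, φ x = y) :
    ∀ {k : ℕ} {y : Q}, VI R' A' k y → ∃ x, VI R A k x ∧ φ x = y
  | 0, _, h => h1 _ h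
  | _ + 1, _, ⟨y, a, hy, ha, hx⟩ => by
    obtain ⟨u, hu, rfl⟩ := VI.lift φ h1 h2 hy
    obtain ⟨b, hb, rfl⟩ := h2 a ha
    exact ⟨⁅u, b⁆, ⟨u, b, hu, hb, rfl⟩, by rw [hx, map_commutatorElement]⟩

theorem VI.map (φ : G →* Q) : ∀ {k : ℕ} {x : G}, VI Set.univ Set.univ k x →
    VI Set.univ Set.univ k (φ x)
  | 0, _, _ => trivial
  | _ + 1, _, ⟨y, a, hy, _, hx⟩ => ⟨φ y, φ a, VI.map φ hy, trivial, by rw [hx, map_commutatorElement]⟩

theorem VI.mem_lcs {K : Subgroup G} : ∀ {k : ℕ} {x : G}, VI (K : Set G) K k x →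
    x ∈ K.lowerCentralSeries k
  | 0, _, h => h
  | _ + 1, _, ⟨y, a, hy, ha, hx⟩ => by
    rw [hx, Subgroup.lowerCentralSeries_succ]
    exact commutator_mem_commutator (VI.mem_lcs hy) ha

theorem VI.pred : ∀ {k : ℕ} {x : G}, VI Set.univ Set.univ (k + 1) x → VI Set.univ Set.univ k x
  | 0, _, _ => trivial
  | _ + 1, _, ⟨y, a, hy, ha, hx⟩ => ⟨y, a, VI.pred hy, ha, hx⟩

theorem VI.shift {R A : Set G} : ∀ {k : ℕ} {x : G},
    VI {z | ∃ y ∈ R, ∃ a ∈ A, z = ⁅y, a⁆} A k x → VI R A (k + 1) x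
  | 0, _, ⟨y, hy, a, ha, hx⟩ => ⟨y, a, hy, ha, hx⟩
  | _ + 1, _, ⟨y, a, hy, ha, hx⟩ => ⟨y, a, VI.shift hy, ha, hx⟩

theorem upper : ∀ {k : ℕ} {R : Set G}, (∀ x, VI R Set.univ k x → x = 1) →
    ∀ y ∈ R, y ∈ Subgroup.upperCentralSeries G k
  | 0, _, h, y, hy => by rw [h y hy]; exact one_mem _
  | _ + 1, _, h, y, hy => Subgroup.mem_upperCentralSeries_succ_iff.2 fun a =>
      upper (fun x hx => h x hx.shift) _ ⟨y, hy, a, trivial, rfl⟩

theorem comm_comm {y a : G} {m : ℕ} (h : ⁅⁅y, a⁆, a⁆ = 1) (hm : ⁅y, a⁆ ^ m = 1)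
    (hc : (orderOf a).Coprime m) : ⁅y, a⁆ = 1 := by
  have h1 : Commute ⁅y, a⁆ a := commutatorElement_eq_one_iff_commute.1 h
  have h2 : ⁅y, a⁆ * a = y * a * y⁻¹ := by rw [commutatorElement_def]; group
  have h3 : ⁅y, a⁆ ^ orderOf a = 1 := by
    have := congrArg (· ^ orderOf a) h2
    simp only [h1.mul_pow, conj_pow, pow_orderOf_eq_one, mul_one, mul_inv_cancel] at this
    exact this
  have := pow_gcd_eq_one.2 ⟨h3, hm⟩
  rwa [hc.gcd_eq_one, pow_one] at this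

theorem coprime_act {p : ℕ} {P : Subgroup G} (hP : IsPGroup p P) {a : G}
    (ha : ∀ y ∈ P, a * y * a⁻¹ ∈ P) (hc : (orderOf a).Coprime p) :
    ∀ {k : ℕ}, (∀ x, VI (P : Set G) {a} (k + 1) x → x = 1) → ∀ y ∈ P, ⁅y, a⁆ = 1
  | 0, h, y, hy => h _ ⟨y, a, hy, rfl, rfl⟩
  | k + 1, h, y, hy => by
    refine coprime_act hP ha hc (k := k) (fun x hx => ?_) y hy
    have hxP : x ∈ P := VI.mem (fun b hb => by rw [Set.mem_singleton_iff.1 hb]; exact ha) hx
    have h1 := h _ ⟨x, a, hx, rfl, rfl⟩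
    obtain ⟨u, b, _, hb, rfl⟩ := hx
    obtain rfl : b = a := hb
    obtain ⟨n, hn⟩ := hP ⟨_, hxP⟩
    exact comm_comm (m := p ^ n) h1 (by simpa using congrArg Subtype.val hn) (hc.pow_right n)

theorem coprime_act' {p : ℕ} {P : Subgroup G} (hP : IsPGroup p P) {a : G}
    (ha : ∀ y ∈ P, a * y * a⁻¹ ∈ P) (hc : (orderOf a).Coprime p) {k : ℕ}
    (h : ∀ x, VI (P : Set G) {a} k x → x = 1) : ∀ y ∈ P, ⁅y, a⁆ = 1 :=
  coprime_act hP ha hc (k := k) fun _ ⟨y, b, hy, _, hx⟩ => by rw [hx, h y hy]; simp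

/-- values of order prime to `p` centralize the `p`-subgroups they normalize -/
def L (k : ℕ) (G : Type*) [Group G] : Prop :=
  ∀ x : G, VI Set.univ Set.univ k x → ∀ p : ℕ, p.Prime → ∀ P : Subgroup G, IsPGroup p P →
    (∀ y ∈ P, x * y * x⁻¹ ∈ P) → (orderOf x).Coprime p → ∀ y ∈ P, ⁅y, x⁆ = 1

theorem L.sub {k : ℕ} (h : L k G) (H : Subgroup G) : L k H := by
  intro x hx p hp P hP hn hc y hy
  have := h x (hx.map H.subtype) p hp (P.map H.subtype) (hP.map _)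
    (CA.H23Sec.conj_map H.subtype hn) (by simpa using hc) y ⟨y, hy, rfl⟩
  apply H.subtype_injective
  rw [map_commutatorElement, map_one]
  exact this

theorem L.of_hyp [Finite G] {k : ℕ} (h : ∀ x y : G, VI Set.univ Set.univ k x → VI Set.univ Set.univ k y →
    (orderOf x).Coprime (orderOf y) →
      (∀ r : ℕ, r.Prime → r ∣ orderOf x * orderOf y → r ∣ orderOf (x * y)) ∨
        orderOf x * orderOf y ≤ orderOf (x * y)) : L k G := by
  intro x hx p hp P hP hn hc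
  refine coprime_act hP hn hc (k := k) fun c hcv => ?_
  have hcP : c ∈ P := VI.mem (fun b hb => by rw [Set.mem_singleton_iff.1 hb]; exact hn) hcv
  have hv := hcv.univ.pred
  obtain ⟨u, b, _, hb, hcu⟩ := hcv
  obtain rfl : b = x := hb
  obtain ⟨n, hn⟩ := hP ⟨_, hcP⟩
  have hn' : c ^ p ^ n = 1 := by simpa using congrArg Subtype.val hn
  obtain ⟨j, _, hj⟩ := (Nat.dvd_prime_pow hp).1 (orderOf_dvd_of_pow_eq_one hn')
  have h2 : c * b = u * b * u⁻¹ := by rw [hcu, commutatorElement_def]; group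
  have h3 : orderOf (c * b) = orderOf b := by
    rw [h2]; exact (MulAut.conj u).orderOf_eq b
  have h4 := h c b hv hx (by rw [hj]; exact (hc.symm.pow_left j))
  rw [h3] at h4
  rw [← orderOf_eq_one_iff]
  rcases h4 with h4 | h4
  · by_contra hne
    have : p ∣ orderOf c := by
      rw [hj] at hne ⊢
      exact dvd_pow_self p fun h0 => hne (by rw [h0, pow_zero])
    exact hp.one_lt.ne' (Nat.Coprime.eq_one_of_dvd hc.symm (h4 p hp (this.mul_right _)))
  · have h5 := orderOf_pos b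
    have h6 := orderOf_pos c
    nlinarith

theorem not_dvd_index [Finite G] {q : ℕ} (hq : q.Prime) {D : Subgroup G}
    (h : ∀ y : G, (∃ n, y ^ q ^ n = 1) → y ∈ D) : ¬ q ∣ D.index := by
  haveI := Fact.mk hq
  obtain ⟨P⟩ : Nonempty (Sylow q G) := inferInstance
  have : (P : Subgroup G) ≤ D := fun y hy => by
    obtain ⟨n, hn⟩ := P.isPGroup' ⟨y, hy⟩
    exact h y ⟨n, by simpa using congrArg Subtype.val hn⟩
  exact fun hd => P.not_dvd_index (hd.trans (index_dvd_of_le this))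

theorem not_dvd_relIndex [Finite G] {q : ℕ} (hq : q.Prime) {D H : Subgroup G}
    (h : ∀ y ∈ H, (∃ n, y ^ q ^ n = 1) → y ∈ D) : ¬ q ∣ D.relIndex H :=
  not_dvd_index hq fun y ⟨n, hn⟩ => h y y.2 ⟨n, by simpa using congrArg Subtype.val hn⟩

theorem le_of_not_dvd {D H : Subgroup G} (h : ∀ q : ℕ, q.Prime → ¬ q ∣ D.relIndex H) : H ≤ D := by
  rw [← relIndex_eq_one]
  by_contra hne
  obtain ⟨q, hq, hd⟩ := Nat.exists_prime_and_dvd hne
  exact h q hq hd

theorem nilp_of_central [Finite G] {r : ℕ} (hr : r.Prime)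
    (h : ∀ q : ℕ, q.Prime → q ≠ r → ∀ y : G, (∃ n, y ^ q ^ n = 1) → y ∈ center G) :
    Group.IsNilpotent G := by
  haveI := Fact.mk hr
  have h1 : Nat.card (G ⧸ center G) = r ^ (Nat.card (G ⧸ center G)).primeFactorsList.length := by
    refine Nat.eq_prime_pow_of_unique_prime_dvd Nat.card_pos.ne' fun {q} hq hd => ?_
    by_contra hne
    exact not_dvd_index hq (h q hq hne) hd
  exact Group.of_quotient_center_nilpotent (IsPGroup.of_card h1).isNilpotent

theorem pPart [Finite G] {N : Subgroup G} (hN : Group.IsNilpotent N) {q : ℕ} (hq : q.Prime) :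
    ∃ P : Subgroup G, IsPGroup q P ∧ ∀ y, y ∈ P ↔ y ∈ N ∧ ∃ n, y ^ q ^ n = 1 := by
  haveI := Fact.mk hq
  obtain ⟨P⟩ : Nonempty (Sylow q N) := inferInstance
  refine ⟨(P : Subgroup N).map N.subtype, P.isPGroup'.map _, fun y => ⟨?_, ?_⟩⟩
  · rintro ⟨x, hx, rfl⟩
    obtain ⟨n, hn⟩ := P.isPGroup' ⟨x, hx⟩
    exact ⟨x.2, n, by simpa using congrArg (fun z => ((z : P) : N).1) hn⟩
  · rintro ⟨hy, n, hn⟩
    have h1 : IsPGroup q (zpowers (⟨y, hy⟩ : N)) := by
      rintro ⟨_, m, rfl⟩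
      refine ⟨n, Subtype.ext (Subtype.ext ?_)⟩
      simp only [SubmonoidClass.coe_pow, SubgroupClass.coe_zpow, OneMemClass.coe_one]
      rw [← zpow_natCast, ← zpow_mul, mul_comm, zpow_mul, zpow_natCast, hn, one_zpow]
    obtain ⟨S, hS⟩ := h1.exists_le_sylow
    haveI := Sylow.unique_of_normal P inferInstance
    rw [Subsingleton.elim S P] at hS
    exact ⟨_, hS (mem_zpowers _), rfl⟩

theorem L.comm [Finite G] {k : ℕ} (h : L k G) {x : G} (hx : VI Set.univ Set.univ k x) {q : ℕ}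
    (hq : q.Prime) (hc : (orderOf x).Coprime q) {N : Subgroup G} (hN : Group.IsNilpotent N)
    (hn : ∀ y ∈ N, x * y * x⁻¹ ∈ N) {c : G} (hcN : c ∈ N) (hcq : ∃ n, c ^ q ^ n = 1) :
    ⁅c, x⁆ = 1 := by
  obtain ⟨P, hP, hm⟩ := pPart hN hq
  refine h x hx q hq P hP (fun y hy => ?_) hc c ((hm c).2 ⟨hcN, hcq⟩)
  obtain ⟨h1, n, h2⟩ := (hm y).1 hy
  exact (hm _).2 ⟨hn y h1, n, by rw [conj_pow, h2]; simp⟩

theorem coprime_of_mem {r q : ℕ} (hr : r.Prime) (hq : q.Prime) (hne : q ≠ r) {P : Subgroup G}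
    (hP : IsPGroup r P) {x : G} (hx : x ∈ P) : (orderOf x).Coprime q := by
  obtain ⟨n, hn⟩ := hP ⟨x, hx⟩
  have hn' : x ^ r ^ n = 1 := by simpa using congrArg Subtype.val hn
  exact (((Nat.coprime_primes hr hq).2 hne.symm).pow_left n).coprime_dvd_left
    (orderOf_dvd_of_pow_eq_one hn')

theorem L.le_upper [Finite G] {k : ℕ} (h : L k G) {r : ℕ} (hr : r.Prime)
    {R : Subgroup (G ⧸ fittingSubgroup G)} [hRn : R.Normal] (hR : IsPGroup r R) :
    R ≤ Subgroup.upperCentralSeries (G ⧸ fittingSubgroup G) k := by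
  haveI := Fact.mk hr
  set φ := QuotientGroup.mk' (fittingSubgroup G) with hφ
  have hs : (⊤ : Subgroup G).map φ = ⊤ := map_top_of_surjective φ (QuotientGroup.mk'_surjective _)
  obtain ⟨P, -, hP, hPR, hl⟩ := CA.H23Sec.lift φ ⊤ hR (by rw [hs]; exact le_top)
  refine fun z hz => upper (R := (R : Set (G ⧸ fittingSubgroup G))) (fun xb hxb => ?_) z hz
  obtain ⟨x, hx, rfl⟩ := VI.lift φ (R := P) (A := {g | ∀ x ∈ P, g * x * g⁻¹ ∈ P})
    (fun y hy => by rw [← hPR] at hy; exact hy)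
    (fun y _ => by
      obtain ⟨g, -, h1, h2⟩ := hl y (by rw [hs]; trivial) (fun x hx => hRn.conj_mem x hx y)
      exact ⟨g, h2, h1⟩) hxb
  have hxP : x ∈ P := VI.mem (fun _ ha => ha) hx
  let S : Set G := {c | c ∈ fittingSubgroup G ∧ ∃ q : ℕ, q.Prime ∧ q ≠ r ∧ ∃ n, c ^ q ^ n = 1}
  let C : Subgroup G := R.comap φ ⊓ centralizer S
  haveI hC : C.Normal := by
    refine ⟨fun a ha g => ⟨(hRn.comap φ).conj_mem a ha.1 g, fun c hc => ?_⟩⟩
    obtain ⟨h1, q, hq, hne, n, h2⟩ := hc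
    have h3 := ha.2 (g⁻¹ * c * g⁻¹⁻¹) ⟨(inferInstance : (fittingSubgroup G).Normal).conj_mem c h1 g⁻¹, q, hq, hne, n,
      by rw [conj_pow, h2]; simp⟩
    calc c * (g * a * g⁻¹) = g * (g⁻¹ * c * g⁻¹⁻¹ * a) * g⁻¹ := by group
      _ = g * a * g⁻¹ * c := by rw [h3]; group
  have hCn : Group.IsNilpotent C := by
    refine nilp_of_central hr fun q hq hne y ⟨n, hn⟩ => mem_center_iff.2 fun g => Subtype.ext ?_
    have hn' : (y : G) ^ q ^ n = 1 := by simpa using congrArg Subtype.val hn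
    refine (g.2.2 y ⟨?_, q, hq, hne, n, hn'⟩).symm
    have h1 := coprime_of_mem hr hq hne hR (show φ y ∈ R from y.2.1)
    have h2 : φ y ^ q ^ n = 1 := by rw [← map_pow, hn', map_one]
    have h3 := (h1.pow_right n).eq_one_of_dvd (orderOf_dvd_of_pow_eq_one h2)
    exact (QuotientGroup.eq_one_iff _).1 (orderOf_eq_one_iff.1 h3)
  refine (QuotientGroup.eq_one_iff _).2 (CA.Core.le_fitting hCn ⟨?_, fun c hc => ?_⟩)
  · show φ x ∈ R
    rw [← hPR]; exact ⟨x, hxP, rfl⟩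
  · obtain ⟨h1, q, hq, hne, h2⟩ := hc
    exact (commutatorElement_eq_one_iff_commute.1 (h.comm hx.univ hq (coprime_of_mem hr hq hne hP hxP)
      CA.Core.isNilpotent_fitting (fun y hy => (inferInstance : (fittingSubgroup G).Normal).conj_mem y hy x) h1 h2)).eq

theorem lcs_bot (S : Subgroup G) : ∀ (j m : ℕ), S.lowerCentralSeries m ≤ Subgroup.upperCentralSeries G j →
    S.lowerCentralSeries (m + j) = ⊥
  | 0, _, h => le_bot_iff.1 h
  | j + 1, m, h => by
    rw [add_comm j, ← add_assoc]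
    refine lcs_bot S j (m + 1) ?_
    rw [Subgroup.lowerCentralSeries_succ]
    exact (commutator_mono h le_top).trans (Subgroup.commutator_upperCentralSeries_top_le G j)

theorem L.solvable [Finite G] {k : ℕ} (h : L k G) (hs : Group.IsSolvable G) :
    Group.IsNilpotent ((⊤ : Subgroup G).lowerCentralSeries k) := by
  set F := fittingSubgroup G with hF
  have key : ∀ n, derivedSeries (G ⧸ F) n ≤ Subgroup.upperCentralSeries (G ⧸ F) k →
      ⊤ ≤ Subgroup.upperCentralSeries (G ⧸ F) k := by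
    intro n
    induction n with
    | zero => exact id
    | succ n ih =>
      intro hn
      have hA : Group.IsNilpotent (derivedSeries (G ⧸ F) n) :=
        Subgroup.isNilpotent_of_lowerCentralSeries_eq_bot (lcs_bot _ k 1 hn)
      refine ih (le_of_not_dvd fun q hq => not_dvd_relIndex hq fun y hy hyq => ?_)
      obtain ⟨P, hP, hm⟩ := pPart hA hq
      haveI : P.Normal := ⟨fun a ha g => by
        obtain ⟨h1, m, h2⟩ := (hm a).1 ha
        exact (hm _).2 ⟨(derivedSeries_normal _ n).conj_mem a h1 g, m, by rw [conj_pow, h2]; simp⟩⟩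
      exact h.le_upper hq hP ((hm y).2 ⟨hy, hyq⟩)
  obtain ⟨n, hn⟩ := (inferInstance : Group.IsSolvable (G ⧸ F)).solvable
  have h1 := Subgroup.lowerCentralSeries_eq_bot_iff_upperCentralSeries_eq_top.2
    (top_le_iff.1 (key n (by rw [hn]; exact bot_le)))
  refine CA.Core.isNilpotent_of_le_fitting ?_
  rw [← QuotientGroup.ker_mk' (fittingSubgroup G), ← Subgroup.map_eq_bot_iff, Subgroup.map_lowerCentralSeries,
    map_top_of_surjective _ (QuotientGroup.mk'_surjective _)]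
  exact h1

end CA.H2Gam
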