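import Cfsg.Agent.Lib.Grp.H2Gam
import Cfsg.Agent.S0215
import Cfsg.Agent.S0116
import Cfsg.Agent.S0200
import Cfsg.Agent.S0205

/-!
Left-normed commutator values and nilpotency of a term of the lower central series.
-/

set_option autoImplicit false

namespace CA.H2Gam

open Subgroup Cfsg
open scoped commutatorElement

variable {G Q : Type*} [Group G] [Group Q]

theorem vi_inv {K : Subgroup Q} {b t : Q} (hb : b ∈ K) (ht : t ∈ K) (h : t * b * t⁻¹ = b⁻¹) :
    ∀ k : ℕ, ⁅b ^ 2 ^ k, t⁆ = b ^ 2 ^ (k + 1) ∧ VI (K : Set Q) K k (b ^ 2 ^ k) := by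
  have h1 : ∀ k : ℕ, ⁅b ^ 2 ^ k, t⁆ = b ^ 2 ^ (k + 1) := fun k => by
    have : t * (b ^ 2 ^ k)⁻¹ * t⁻¹ = b ^ 2 ^ k := by
      rw [← inv_pow, ← conj_pow, show t * b⁻¹ * t⁻¹ = (t * b * t⁻¹)⁻¹ by group, h, inv_inv]
    rw [commutatorElement_def, mul_assoc, mul_assoc, ← mul_assoc t, this, ← pow_add, pow_succ, mul_two]
  intro k
  refine ⟨h1 k, ?_⟩
  induction k with
  | zero => rw [pow_zero, pow_one]; exact hb
  | succ k ih => exact ⟨_, t, ih, ht, (h1 k).symm⟩

theorem normal_cases [IsSimpleGroup Q] (hns : ¬ Group.IsSolvable Q) {N : Subgroup Q} (hN : N.Normal)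
    (hs : Group.IsSolvable N) : N = ⊥ := by
  rcases hN.eq_bot_or_eq_top with h | h
  · exact h
  · subst h
    exact (hns (solvable_of_surjective (f := (⊤ : Subgroup Q).subtype) fun x => ⟨⟨x, trivial⟩, rfl⟩)).elim

theorem elem_cent [Finite G] [Finite Q] [IsSimpleGroup Q] (hns : ¬ Group.IsSolvable Q) {k : ℕ}
    (h : L k G) (φ : G →* Q) (hφ : Function.Surjective φ)
    (hK : ∀ K : Subgroup G, K ≠ ⊤ → Group.IsNilpotent (K.lowerCentralSeries k))
    {E : Subgroup Q} (hE : ∀ e ∈ E, e ^ 2 = 1) {a : Q} (ha : ∀ e ∈ E, a * e * a⁻¹ ∈ E)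
    (hc : (orderOf a).Coprime 2) : ∀ e ∈ E, ⁅e, a⁆ = 1 := by
  have hE2 : IsPGroup 2 E := fun e => ⟨1, Subtype.ext (by simpa using hE e e.2)⟩
  have hs : (⊤ : Subgroup G).map φ = ⊤ := map_top_of_surjective φ hφ
  refine coprime_act' hE2 ha hc (k := k) fun xb hxb => ?_
  by_contra hne
  have hxE : xb ∈ E := VI.mem (fun b hb => by rw [Set.mem_singleton_iff.1 hb]; exact ha) hxb
  obtain ⟨P, -, hP, hPR, hl⟩ := CA.H23Sec.lift φ ⊤ hE2 (by rw [hs]; exact le_top)
  obtain ⟨x, hx, rfl⟩ := VI.lift φ (R := P) (A := {g | ∀ x ∈ P, g * x * g⁻¹ ∈ P})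
    (fun y hy => by rw [← hPR] at hy; exact hy)
    (fun y hy => by
      obtain rfl : y = a := hy
      obtain ⟨g, -, h1, h2⟩ := hl y (by rw [hs]; trivial) ha
      exact ⟨g, h2, h1⟩) hxb
  have hxP : x ∈ P := VI.mem (fun _ ha => ha) hx
  obtain ⟨c, hc1, hco, hinv⟩ := Cfsg.Agent.S0200.result (φ x) (orderOf_eq_prime (hE _ hxE) hne)
    fun N hN h2 hm => by
      have := h2.isNilpotent
      rw [normal_cases hns hN inferInstance] at hm
      exact hne hm
  obtain ⟨q, hq, hqd⟩ := Nat.exists_prime_and_dvd (mt orderOf_eq_one_iff.1 hc1)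
  haveI := Fact.mk hq
  have hq2 : q ≠ 2 := by
    rintro rfl
    exact (Nat.not_even_iff_odd.2 hco) (even_iff_two_dvd.2 hqd)
  set b := c ^ (orderOf c / q) with hb
  have hbo : orderOf b = q := orderOf_pow_orderOf_div (orderOf_pos c).ne' hqd
  have hbi : φ x * b * (φ x)⁻¹ = b⁻¹ := by rw [hb, ← conj_pow, hinv, inv_pow]
  set Kb := normalizer ((zpowers b : Subgroup Q) : Set Q) with hKb
  have hKt : Kb ≠ ⊤ := fun ht => by
    have hn : (zpowers b).Normal := normalizer_eq_top_iff.1 ht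
    have := normal_cases hns hn inferInstance
    rw [zpowers_eq_bot] at this
    rw [this, orderOf_one] at hbo
    exact hq.one_lt.ne hbo
  have hxK : φ x ∈ Kb := by
    refine mem_normalizer_fintype ?_
    rintro _ ⟨m, rfl⟩
    refine ⟨-m, ?_⟩
    simp only
    rw [← conj_zpow, hbi, inv_zpow, zpow_neg]
  obtain ⟨h1, h2⟩ := vi_inv (le_normalizer (mem_zpowers b)) hxK hbi k
  have hKK : Kb.comap φ ≠ ⊤ := fun ht => hKt (by
    rw [← map_comap_eq_self_of_surjective hφ Kb, ht, hs])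
  have h3 : b ^ 2 ^ k ∈ ((Kb.comap φ).lowerCentralSeries k).map φ := by
    rw [Subgroup.map_lowerCentralSeries, map_comap_eq_self_of_surjective hφ]
    exact h2.mem_lcs
  have h4 : (b ^ 2 ^ k) ^ q = 1 := by rw [← pow_mul, mul_comm, pow_mul, ← hbo, pow_orderOf_eq_one, one_pow]
  obtain ⟨P', hP'1, hP'2, hP'3, -⟩ := CA.H23Sec.lift φ _ (CA.H23Sec.isP_zpowers h4) (zpowers_le.2 h3)
  obtain ⟨d, hd, hd'⟩ : b ^ 2 ^ k ∈ P'.map φ := by rw [hP'3]; exact mem_zpowers _
  obtain ⟨n, hn⟩ := hP'2 ⟨d, hd⟩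
  have h5 := h.comm hx.univ hq (coprime_of_mem Nat.prime_two hq hq2 hP hxP) (hK _ hKK)
    (fun y hy => (mem_normalizer_iff.1 (Subgroup.self_le_normalizer_lowerCentralSeries _ k
      (show x ∈ Kb.comap φ from hxK)) y).1 hy) (hP'1 hd) ⟨n, by simpa using congrArg Subtype.val hn⟩
  have h6 : b ^ 2 ^ (k + 1) = 1 := by rw [← h1, ← hd', ← map_commutatorElement, h5, map_one]
  have h7 := orderOf_dvd_of_pow_eq_one h6
  rw [hbo] at h7
  exact hq2 ((Nat.prime_dvd_prime_iff_eq hq Nat.prime_two).1 (hq.dvd_of_dvd_pow h7))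

/-- the involutions of the centre -/
def omZ (H : Subgroup Q) : Subgroup Q where
  carrier := {y | y ∈ H ∧ y ^ 2 = 1 ∧ ∀ h ∈ H, Commute y h}
  mul_mem' := fun {a b} ⟨h1, h2, h3⟩ ⟨h4, h5, h6⟩ =>
    ⟨H.mul_mem h1 h4, by rw [(h3 b h4).mul_pow, h2, h5, one_mul], fun h hh => (h3 h hh).mul_left (h6 h hh)⟩
  one_mem' := ⟨H.one_mem, one_pow _, fun h _ => Commute.one_left h⟩
  inv_mem' := fun {a} ⟨h1, h2, h3⟩ => ⟨H.inv_mem h1, by rw [inv_pow, h2, inv_one], fun h hh => (h3 h hh).inv_left⟩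

theorem simple_false [Finite Q] [IsSimpleGroup Q] (hns : ¬ Group.IsSolvable Q)
    (h : ∀ E : Subgroup Q, (∀ e ∈ E, e ^ 2 = 1) → ∀ a : Q, (∀ e ∈ E, a * e * a⁻¹ ∈ E) →
      (orderOf a).Coprime 2 → ∀ e ∈ E, ⁅e, a⁆ = 1) : False := by
  obtain ⟨P⟩ : Nonempty (Sylow 2 Q) := inferInstance
  have hP : (P : Subgroup Q) ≠ ⊥ := P.ne_bot_of_dvd_card (by
    by_contra hd
    exact hns (Cfsg.Agent.S0205.result (Nat.odd_iff.2 (Nat.two_dvd_ne_zero.1 hd))))
  haveI := (nontrivial_iff_ne_bot _).2 hP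
  haveI := P.isPGroup'.center_nontrivial
  obtain ⟨z0, hz0⟩ := exists_prime_orderOf_dvd_card' (G := center P) 2 (by
    obtain ⟨n, hn, hc⟩ := (P.isPGroup'.to_subgroup (center P)).nontrivial_iff_card.1 inferInstance
    rw [hc]; exact dvd_pow_self 2 hn.ne')
  set z : Q := z0.1.1 with hz
  have hzo : orderOf z = 2 := by rw [hz, orderOf_coe, orderOf_coe, hz0]
  have hzP : z ∈ P := z0.1.2
  have hzc : ∀ y ∈ P, Commute z y := fun y hy =>
    (congrArg Subtype.val (mem_center_iff.1 z0.2 ⟨y, hy⟩)).symm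
  have key : ∀ H : Subgroup Q, H ≤ P → z ∈ H →
      ¬ 2 ∣ ((P : Subgroup Q) ⊓ normalizer (H : Set Q)).relIndex (normalizer (H : Set Q)) →
      normalizer (H : Set Q) ≤ centralizer {z} := by
    intro H hH hzH hi
    refine le_of_not_dvd fun q hq => ?_
    by_cases h2 : q = 2
    · subst h2
      refine fun hd => hi (hd.trans (relIndex_dvd_of_le_left _ fun y hy => ?_))
      exact mem_centralizer_singleton_iff.2 (hzc y hy.1).eq.symm
    · refine not_dvd_relIndex hq fun y hy ⟨n, hn⟩ => mem_centralizer_singleton_iff.2 ?_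
      refine (commutatorElement_eq_one_iff_commute.1 (h (omZ H) (fun e he => he.2.1) y ?_ ?_ z
        ⟨hzH, by rw [← hzo, pow_orderOf_eq_one], fun u hu => hzc u (hH hu)⟩)).eq.symm
      · rintro e ⟨h1, h3, h4⟩
        refine ⟨(mem_normalizer_iff.1 hy e).1 h1, by rw [conj_pow, h3]; simp, fun u hu => ?_⟩
        have h5 := (h4 _ ((mem_normalizer_iff.1 ((normalizer (H : Set Q)).inv_mem hy) u).1 hu)).eq
        calc y * e * y⁻¹ * u = y * (e * (y⁻¹ * u * y⁻¹⁻¹)) * y⁻¹ := by group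
          _ = u * (y * e * y⁻¹) := by rw [h5]; group
      · exact (((Nat.coprime_primes hq Nat.prime_two).2 h2).pow_left n).coprime_dvd_left
          (orderOf_dvd_of_pow_eq_one hn)
  obtain ⟨N, hN, hNo, hNc⟩ := Cfsg.Agent.S0215.result P z hzo hzP fun g hg => by
    obtain ⟨n, R, x, hx, h1, h2, h3⟩ := Cfsg.Agent.S0116.result P {z} g⁻¹ (Set.singleton_subset_iff.2 hzP)
      (by rw [Set.image_singleton, inv_inv]; exact Set.singleton_subset_iff.2 hg)
    have h4 : ∀ i, i ≤ n → ((List.ofFn x).take i).prod ∈ centralizer {z} ∧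
        ∀ hi : i < n, z ∈ (P : Subgroup Q) ⊓ (R ⟨i, hi⟩ : Subgroup Q) := by
      intro i
      induction i with
      | zero => exact fun _ => ⟨by simpa using one_mem _, fun hi => h2 hi rfl⟩
      | succ i ih =>
        intro hi
        obtain ⟨h5, h6⟩ := ih (by omega)
        have h7 : ((List.ofFn x).take (i + 1)).prod ∈ centralizer {z} := by
          rw [List.prod_take_succ _ _ (by simpa using hi)]
          refine mul_mem h5 ?_
          rw [List.getElem_ofFn]
          exact key _ inf_le_left (h6 hi) (h1 _).2.1 (h1 _).1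
        refine ⟨h7, fun hi' => ?_⟩
        have h8 := h3 ⟨i, hi⟩ hi' ⟨z, rfl, rfl⟩
        simp only at h8
        rw [mul_assoc, ← mem_centralizer_singleton_iff.1 h7, inv_mul_cancel_left] at h8
        exact h8
    have h5 := (h4 n le_rfl).1
    rw [List.take_of_length_le (by simp), hx] at h5
    rw [mul_assoc, ← mem_centralizer_singleton_iff.1 h5, mul_inv_cancel_left]
  rw [normal_cases hns hN (Cfsg.Agent.S0205.result hNo)] at hNc
  have hn : (zpowers z).Normal := ⟨fun a ha g => by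
    obtain ⟨m, rfl⟩ := ha
    have h1 : z * g = g * z := by
      have := hNc g
      rw [mem_bot, mul_inv_eq_one, mul_inv_eq_iff_eq_mul] at this
      exact this
    refine ⟨m, ?_⟩
    simp only
    rw [← conj_zpow, ← h1, mul_inv_cancel_right]⟩
  have := normal_cases hns hn inferInstance
  rw [zpowers_eq_bot] at this
  rw [this, orderOf_one] at hzo
  exact absurd hzo (by decide)

universe u

theorem L.main (k : ℕ) : ∀ (n : ℕ) (G : Type u) [Group G] [Finite G], Nat.card G = n → L k G →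
    Group.IsNilpotent ((⊤ : Subgroup G).lowerCentralSeries k) := by
  intro n
  induction n using Nat.strong_induction_on with
  | _ n ih =>
  intro G _ _ hn h
  by_cases hs : Group.IsSolvable G
  · exact h.solvable hs
  have hK0 : ∀ K : Subgroup G, K ≠ ⊤ → Group.IsNilpotent ((⊤ : Subgroup K).lowerCentralSeries k) :=
    fun K hK => ih _ (by
      rw [← hn]
      exact lt_of_le_of_ne (card_le_card_group K) fun h => hK (eq_top_of_card_eq K h)) K rfl (h.sub K)
  have hK : ∀ K : Subgroup G, K ≠ ⊤ → Group.IsNilpotent (K.lowerCentralSeries k) := fun K hK => by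
    have := hK0 K hK
    rw [← Subgroup.top_subtype_lowerCentralSeries]
    exact Group.nilpotent_of_mulEquiv (equivMapOfInjective _ _ K.subtype_injective)
  haveI : Nontrivial G := by
    by_contra hh
    rw [not_nontrivial_iff_subsingleton] at hh
    exact hs inferInstance
  obtain ⟨N, ⟨hN, hNt⟩, hmax⟩ := (Set.toFinite {N : Subgroup G | N.Normal ∧ N ≠ ⊤}).exists_maximal
    ⟨⊥, inferInstance, bot_ne_top⟩
  have hsurj := QuotientGroup.mk'_surjective N
  haveI : Nontrivial (G ⧸ N) := by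
    by_contra hh
    rw [not_nontrivial_iff_subsingleton] at hh
    exact hNt (eq_top_iff.2 fun x _ => (QuotientGroup.eq_one_iff x).1 (Subsingleton.elim _ _))
  haveI : IsSimpleGroup (G ⧸ N) := ⟨fun M hM => by
    by_cases hMt : M = ⊤
    · exact Or.inr hMt
    refine Or.inl (eq_bot_iff.2 fun y hy => ?_)
    obtain ⟨x, rfl⟩ := hsurj y
    have := hmax (y := M.comap (QuotientGroup.mk' N)) ⟨hM.comap _, fun ht => hMt (by
      rw [← map_comap_eq_self_of_surjective hsurj M, ht, map_top_of_surjective _ hsurj])⟩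
      (fun u hu => by
        rw [mem_comap, QuotientGroup.mk'_apply, (QuotientGroup.eq_one_iff u).2 hu]; exact one_mem _)
    exact (QuotientGroup.eq_one_iff x).2 (this hy)⟩
  have hNs : Group.IsSolvable N := by
    have := hK0 N hNt
    refine (Group.isSolvable_iff_subgroup_quotient ((⊤ : Subgroup N).lowerCentralSeries k)).2
      ⟨inferInstance, ?_⟩
    have : Group.IsNilpotent (N ⧸ (⊤ : Subgroup N).lowerCentralSeries k) := by
      refine Subgroup.nilpotent_iff_lowerCentralSeries.2 ⟨k, ?_⟩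
      rw [← map_top_of_surjective _ (QuotientGroup.mk'_surjective _), ← Subgroup.map_lowerCentralSeries,
        Subgroup.map_eq_bot_iff, QuotientGroup.ker_mk']
    infer_instance
  have hns : ¬ Group.IsSolvable (G ⧸ N) := fun hq =>
    hs ((Group.isSolvable_iff_subgroup_quotient N).2 ⟨hNs, hq⟩)
  exact (simple_false hns fun E hE a ha hc => elem_cent hns h _ hsurj hK hE ha hc).elim

theorem vi_iff : ∀ (k : ℕ) (x : G), VI Set.univ Set.univ k x ↔ ∃ f : Fin (k + 1) → G,
    x = ((List.ofFn f).tail).foldl (fun a b => a * b * a⁻¹ * b⁻¹) (f 0)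
  | 0, x => ⟨fun _ => ⟨fun _ => x, by simp⟩, fun _ => trivial⟩
  | k + 1, x => by
    have key : ∀ f : Fin (k + 2) → G, ((List.ofFn f).tail).foldl (fun a b => a * b * a⁻¹ * b⁻¹) (f 0) =
        ⁅((List.ofFn fun i : Fin (k + 1) => f i.castSucc).tail).foldl (fun a b => a * b * a⁻¹ * b⁻¹)
          (f (0 : Fin (k + 1)).castSucc), f (Fin.last _)⁆ := fun f => by
      rw [List.ofFn_succ', List.concat_eq_append, List.tail_append_of_ne_nil (by simp), List.foldl_append]
      rfl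
    constructor
    · rintro ⟨y, a, hy, -, rfl⟩
      obtain ⟨f, rfl⟩ := (vi_iff k y).1 hy
      refine ⟨Fin.snoc f a, ?_⟩
      rw [key]
      simp only [Fin.snoc_castSucc, Fin.snoc_last]
    · rintro ⟨f, rfl⟩
      exact ⟨_, _, (vi_iff k _).2 ⟨fun i => f i.castSucc, rfl⟩, trivial, key f⟩

end CA.H2Gam
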