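import Cfsg.Agent.Lib.Odd.BG4x1
import Cfsg.Agent.Lib.Odd.BG1b
import Cfsg.Agent.Lib.Odd.BGCoprime
import Cfsg.Agent.Lib.Loc.H6PSolv

/-! Bender's form of the `P × Q` lemma for odd `p` and the Bender-Thompson signalizer lemma. -/

set_option autoImplicit false
set_option linter.unusedSectionVars false
set_option linter.unusedVariables false
set_option linter.style.haveILetI false

namespace CA.H4Bend
open Subgroup Cfsg CA.BG CA.OQuo
open scoped commutatorElement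

section
variable {W : Type*} [Group W]

theorem lc (h : ∀ x y z : W, ⁅x, y⁆ * z = z * ⁅x, y⁆) :
    LeftCommutative (fun x s : W => x * s * x) := ⟨fun x y s => by
  have h1 : x * y = ⁅x, y⁆ * (y * x) := by simp [commutatorElement_def]
  calc x * (y * s * y) * x = (x * y) * (s * (y * x)) := by group
    _ = y * x * s * (⁅x, y⁆ * (y * x)) := by
      rw [h1, mul_assoc, h]; simp only [mul_assoc]; rw [h x y (y * x)]; simp only [mul_assoc]
    _ = _ := by rw [← h1]; group⟩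

/-- symmetric product -/
noncomputable def sp (h : ∀ x y z : W, ⁅x, y⁆ * z = z * ⁅x, y⁆) (m : Multiset W) : W :=
  haveI := lc h
  m.foldr (fun x s : W => x * s * x) 1

variable (h : ∀ x y z : W, ⁅x, y⁆ * z = z * ⁅x, y⁆)

theorem sp_zero : sp h 0 = 1 := rfl

theorem sp_cons (x : W) (m : Multiset W) : sp h (x ::ₘ m) = x * sp h m * x :=
  haveI := lc h
  Multiset.foldr_cons _ _ _ _

theorem sp_map (φ : W →* W) (m : Multiset W) : sp h (m.map φ) = φ (sp h m) := by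
  induction m using Multiset.induction_on with
  | empty => simp [sp_zero]
  | cons x m ih => rw [Multiset.map_cons, sp_cons, sp_cons, ih, map_mul, map_mul]

theorem sp_mul {c : W} (hc : c ∈ center W) (m : Multiset W) :
    sp h (m.map (· * c)) = sp h m * c ^ (2 * m.card) := by
  induction m using Multiset.induction_on with
  | empty => simp [sp_zero]
  | cons x m ih =>
    rw [Multiset.map_cons, sp_cons, sp_cons, ih, Multiset.card_cons, mul_add, mul_one, pow_add,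
      pow_two]
    have h1 := mem_center_iff.1 hc
    have h2 := mem_center_iff.1 (pow_mem hc (2 * m.card))
    calc _ = x * (c * (sp h m * (c ^ (2 * m.card) * x))) * c := by group
      _ = _ := by rw [← h1, ← h2]; group
end

variable {G : Type*} [Group G] [Finite G] {p : ℕ} {V K B E Y H : Subgroup G}

theorem exists_fix (hp : p.Prime) (h2 : p ≠ 2) (hV : IsPi {p} V) (hc : ⁅V, V⁆ ≤ 𝓒(V))
    (hK : IsPi {p}ᶜ K) (hKV : K ≤ 𝓝(V)) (hBV : B ≤ 𝓝(V)) (hBK : B ≤ 𝓝(K))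
    (hZ : V ⊓ 𝓒(K) ≤ 𝓒(V)) {v : G} (hv : v ∈ V) (h1 : v ∉ 𝓒(K))
    (hb : ∀ b ∈ B, ⁅v, b⁆ ∈ 𝓒(K)) : ∃ x ∈ V ⊓ 𝓒(B), x ∉ 𝓒(K) := by
  haveI := Fintype.ofFinite K
  have h : ∀ x y z : V, ⁅x, y⁆ * z = z * ⁅x, y⁆ := fun x y z =>
    Subtype.ext (mem_cent.1 (hc (commutator_mem_commutator x.2 y.2)) z z.2).symm
  let φ : 𝓝(V) → V →* V := fun g => (V.normalizerMonoidHom g).toMonoidHom
  have hφ : ∀ g x, (φ g x : G) = g * x * (g : G)⁻¹ := fun g x => rfl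
  let N : V → V := fun x => sp h (Finset.univ.val.map fun k : K => φ ⟨k, hKV k.2⟩ x)
  have N1 : ∀ x, (N x : G) ∈ 𝓒(K) := fun x => mem_cent.2 fun g hg => by
    refine mul_inv_eq_iff_eq_mul.1 ((hφ ⟨g, hKV hg⟩ _).symm.trans (congrArg Subtype.val ?_))
    simp only [N]
    rw [← sp_map, Multiset.map_map]
    conv_rhs => rw [← Multiset.map_univ_val_equiv (Equiv.mulLeft (⟨g, hg⟩ : K)), Multiset.map_map]
    congr 2
    funext k
    apply Subtype.ext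
    show g * (k * x * (k : G)⁻¹) * g⁻¹ = g * k * x * (g * k)⁻¹
    group
  have N2 : ∀ b (hb : b ∈ B) x, N (φ ⟨b, hBV hb⟩ x) = φ ⟨b, hBV hb⟩ (N x) := fun b hb x => by
    simp only [N]
    rw [← sp_map, Multiset.map_map]
    conv_lhs => rw [← Multiset.map_univ_val_equiv (K.normalizerMonoidHom ⟨b, hBK hb⟩).toEquiv,
      Multiset.map_map]
    congr 2
    funext k
    apply Subtype.ext
    show b * k * b⁻¹ * (b * x * b⁻¹) * (b * k * b⁻¹)⁻¹ = b * (k * x * (k : G)⁻¹) * b⁻¹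
    group
  have N3 : ∀ x c : V, (c : G) ∈ 𝓒(K) → N (x * c) = N x * c ^ (2 * ♯K) := fun x c hc => by
    simp only [N]
    have := sp_mul h (c := c) (mem_center_iff.2 fun y =>
      Subtype.ext (mem_cent.1 (hZ ⟨c.2, hc⟩) y y.2))
      (Finset.univ.val.map fun k : K => φ ⟨k, hKV k.2⟩ x)
    rw [Multiset.card_map, Finset.card_val, Finset.card_univ, ← Nat.card_eq_fintype_card,
      Multiset.map_map] at this
    rw [← this]
    congr 2
    funext k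
    apply Subtype.ext
    show (k : G) * (x * c) * (k : G)⁻¹ = (k : G) * x * (k : G)⁻¹ * c
    rw [mul_assoc _ _ (c : G), mem_cent.1 hc _ (inv_mem k.2)]
    group
  refine ⟨v ^ (2 * ♯K) * (N ⟨v, hv⟩ : G)⁻¹, ⟨V.mul_mem (pow_mem hv _) (inv_mem (N _).2),
    mem_cent.2 fun b hb' => mul_inv_eq_iff_eq_mul.1 ?_⟩, fun e => h1 ?_⟩
  · have h3 := conj_mem_of_norm hBV hb' hv
    obtain ⟨d, hd⟩ : ∃ d, d = v⁻¹ * (b * v * b⁻¹) := ⟨_, rfl⟩
    have d1 : d ∈ V := hd ▸ mul_mem (inv_mem hv) h3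
    have d2 : d ∈ 𝓒(K) := by
      have h4 := inv_mem (hb b hb')
      have h5 := mem_cent.1 (hZ ⟨V.inv_mem (comm_le_left hBV (commutator_mem_commutator hv hb')),
        h4⟩) v⁻¹ (inv_mem hv)
      rwa [hd, show v⁻¹ * (b * v * b⁻¹) = v⁻¹ * ⁅v, b⁆⁻¹ * v by
        simp only [commutatorElement_def]; group, h5, inv_mul_cancel_right]
    have h4 : φ ⟨b, hBV hb'⟩ ⟨v, hv⟩ = ⟨v, hv⟩ * ⟨d, d1⟩ := Subtype.ext (by
      show b * v * b⁻¹ = v * d
      rw [hd]; group)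
    have h5 := congrArg Subtype.val (N2 b hb' ⟨v, hv⟩)
    rw [h4, N3 _ _ d2, hφ] at h5
    have h6 : b * v * b⁻¹ = v * d := congrArg Subtype.val h4
    have h7 := mem_cent.1 (pow_mem (hZ ⟨d1, d2⟩) (2 * ♯K))
    rw [← conj_mul, ← conj_pow, ← conj_inv, h6, ← h5,
      Commute.mul_pow (mem_cent.1 (hZ ⟨d1, d2⟩) v hv)]
    simp only [coe_mul, coe_pow, mul_inv_rev]
    group
  · have h3 : v ^ (2 * ♯K) ∈ 𝓒(K) := by simpa using mul_mem e (N1 ⟨v, hv⟩)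
    refine (zpowers_le.2 h3 : zpowers _ ≤ _) (mem_zpowers_pow_iff.2 ?_)
    exact (((piNat_prime Nat.prime_two).2 (ne_mem_compl h2.symm)).mul hK.nat).coprime'
      (hV.orderOf hv)

/-- Bender's lemma. -/
theorem bender (hp : p.Prime) (h2 : p ≠ 2) (hV : IsPi {p} V) (hK : IsPi {p}ᶜ K) (hB : IsPi {p} B)
    (hKV : K ≤ 𝓝(V)) (hBV : B ≤ 𝓝(V)) (hBK : B ≤ 𝓝(K))
    (h : ∀ x ∈ V ⊓ 𝓒(B), x ^ p = 1 → x ∈ 𝓒(K)) : K ≤ 𝓒(V) := by
  by_cases h1 : V = ⊥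
  · rw [h1, cent_bot]; exact le_top
  obtain ⟨D, d1, -, d2, d3, d4⟩ := critical_odd hp h2 hV h1
  refine d4 K hKV hK ?_
  by_contra e
  obtain ⟨W, w1, ⟨w2, w3, w4⟩, w5⟩ := exists_minimal_le
    (P := fun W => K ≤ 𝓝(W) ∧ B ≤ 𝓝(W) ∧ ¬ K ≤ 𝓒(W)) ⟨d1.le_norm hKV, d1.le_norm hBV, e⟩
  have w6 : ∀ U, U ≤ W → K ≤ 𝓝(U) → B ≤ 𝓝(U) → U ≠ W → K ≤ 𝓒(U) := fun U a b c d => by
    by_contra e
    exact d (w5 U ⟨b, c, e⟩ a)
  have hW := hV.of_le (w1.trans d1.le)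
  have w7 : ⁅W, K⁆ = W := by
    by_contra e
    exact w4 (coprime_commGG1P w2 (hW.coprime hK) (Or.inr (hW.isSolvable hp)) (cent_symm
      (w6 _ (comm_le_left w2) (norm_comm w2 (le_norm_self K)) (norm_comm w3 hBK) e)))
  have w8 : ⁅W, W⁆ ≤ 𝓒(K) := cent_symm (w6 _ (der_le W) (norm_comm w2 w2) (norm_comm w3 w3)
    (der_lt_of_solv (hW.isSolvable hp) (by rintro rfl; exact w4 (by rw [cent_bot]; exact le_top))).ne)
  have w9 : W ⊓ 𝓒(K) ≤ 𝓒(W) := by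
    refine cent_symm (w7.ge.trans (three_subgroups ?_ ((commutator_mono inf_le_left le_rfl).trans w8)))
    rw [comm_eq_bot_iff.2 (cent_symm inf_le_right)]
    exact bot_le
  obtain ⟨v, v1, v2, -, v3⟩ := CA.BG4.layer hp (hB.sup hW w3) le_sup_left le_sup_right w3
    (norm_of_der_le (le_inf (der_le W) w8) inf_le_left) fun e => w4 (cent_symm (e.trans inf_le_right))
  obtain ⟨x, x1, x2⟩ := exists_fix hp h2 hW ((commutator_mono (w1.trans d1.le) w1).trans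
    (d2.trans (inf_le_right.trans (cent_anti w1)))) hK w2 w3 hBK w9 v1 (fun e => v2 ⟨v1, e⟩)
    fun b hb => (v3 b hb).2
  exact x2 (h x ⟨d1.le (w1 x1.1), x1.2⟩ (d3 x (w1 x1.1)))

/-- the hypothesis on `E` inside `H` -/
def Sg (p : ℕ) (E H : Subgroup G) : Prop :=
  (p ≠ 2 ∧ ∀ x ∈ H ⊓ 𝓒(E), x ^ p = 1 → x ∈ E) ∨
    ((∀ T, T ≤ H ⊓ 𝓒(E) → IsPi {p} T → T ≤ E) ∧ ∃ S, Syl p S H ∧ ⁅S, E⁆ ≤ E)

theorem eq_bot_of_char (hp : p.Prime) (hC : H ⊓ 𝓒(𝓞({p}, H)) ≤ 𝓞({p}, H)) (hE : IsPi {p} E)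
    (hEc : IsMulCommutative E)
    (hEH : E ≤ H) (h : Sg p E H) (hY : IsPi {p}ᶜ Y) (hYH : Y ≤ H) (hn : E ≤ 𝓝(Y)) : Y = ⊥ := by
  obtain ⟨R, hR⟩ : ∃ R, R = 𝓞({p}, H) := ⟨_, rfl⟩
  have r1 : IsPi {p} R := hR ▸ core_pi _ _
  have r2 : H ≤ 𝓝(R) := hR ▸ le_norm_core _ _
  have r3 : R ≤ H := hR ▸ core_le _ _
  rw [← hR] at hC
  have r4 : ∀ K, K ≤ Y → K ≤ 𝓒(R) → K = ⊥ := fun K a b =>
    (r1.of_le ((le_inf (a.trans hYH) b).trans hC)).eq_bot (hY.of_le a)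
  have r5 : R ⊓ E ≤ 𝓒(Y) := comm_eq_bot_iff.1 (eq_bot_iff.2 ((le_inf ((commutator_mono inf_le_left
    le_rfl).trans (comm_le_left (hYH.trans r2))) (comm_le_right (inf_le_right.trans hn))).trans
    (r1.inf_eq_bot hY).le))
  refine r4 Y le_rfl ?_
  rcases h with ⟨h2, h⟩ | ⟨h, S, h1, h2⟩
  · exact bender hp h2 r1 hY hE (hYH.trans r2) (hEH.trans r2) hn fun x hx e =>
      r5 ⟨hx.1, h x ⟨r3 hx.1, hx.2⟩ e⟩
  have h3 : ⁅R, E⁆ ≤ R ⊓ E := le_inf (comm_le_left (hEH.trans r2))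
    ((commutator_mono (hR ▸ h1.core_le) le_rfl).trans h2)
  have n1 : R ≤ 𝓝(R ⊓ E) := norm_of_comm_le_left ((commutator_mono inf_le_right le_rfl).trans
    (comm_symm R E ▸ h3))
  have n2 : E ≤ 𝓝(R ⊓ E) := norm_of_comm hEc inf_le_right
  have n3 : Y ≤ 𝓝(R ⊓ E) := norm_of_cent (cent_symm r5)
  have h4 : ⁅Y, E⁆ ≤ Y := comm_le_left hn
  have h5 : ⁅R, ⁅Y, E⁆⁆ ≤ R ⊓ E := by
    refine comm_le_of_quo_cent n1 (h4.trans n3) (cent_symm ?_)
    rw [quo_comm n3 n2]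
    exact comm_le_cent_of_norm (norm_quo _ (hYH.trans r2))
      (cent_symm (quo_cent_of_comm_le n1 n2 h3))
  have h6 := r4 _ h4 (stable_factor_cent' (h4.trans (hYH.trans r2)) (r1.coprime (hY.of_le h4)) h5
    (h4.trans (cent_symm r5)))
  exact p_times_q hp hE hY r1 (cent_symm (comm_eq_bot_iff.1 h6)) (hEH.trans r2) (hYH.trans r2)
    ((le_inf inf_le_left (h _ (inf_le_inf_right _ r3) (r1.inf_left _))).trans r5)

/-- the Bender-Thompson signalizer lemma -/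
theorem le_core (hp : p.Prime) (hH : IsPConstrained p H) (hE : IsPi {p} E)
    (hEc : IsMulCommutative E)
    (hEH : E ≤ H) (h : Sg p E H) (hY : IsPi {p}ᶜ Y) (hYH : Y ≤ H) (hn : E ≤ 𝓝(Y)) :
    Y ≤ 𝓞({p}ᶜ, H) := by
  haveI := Fact.mk hp
  let f := CA.H6PSolv.π p H
  have hk : mker f = 𝓞({p}ᶜ, H) := by rw [core_p'_eq hp, mker_def, CA.H6PSolv.π_ker]
  have hk' : IsPi {p}ᶜ (mker f) := hk ▸ core_pi _ _
  have hT : mim f H = ⊤ := by rw [mim_dom, MonoidHom.range_eq_top.2 CA.H6PSolv.π_surj]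
  have hc := cop_mim_cent f hEH le_rfl (hEH.trans (le_norm_self H)) ((hk'.inf_right H).coprime' hE)
    (Or.inl (hE.isSolvable hp))
  have lift : ∀ T, T ≤ mim f H ⊓ 𝓒(mim f E) → IsPi {p} T → ∃ R, R ≤ H ⊓ 𝓒(E) ∧ IsPi {p} R ∧
      T ≤ mim f R := fun T a b => by
    obtain ⟨R, c⟩ := syl_exists hp (H ⊓ 𝓒(E) ⊓ mpre f T)
    have d := c.mim f (inf_le_left.trans inf_le_left)
    rw [mim_inf_mpre, hc, inf_eq_right.2 a] at d
    exact ⟨R, c.le.trans inf_le_left, c.pi, (d.eq_self b).ge⟩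
  rw [← hk, ← mim_eq_bot_iff hYH]
  refine eq_bot_of_char (H := mim f H) hp ?_ (hE.mim f) (isMulCommutative_mim f hEc)
    (mim_mono f hEH) ?_ (hY.mim f) (mim_mono f hYH) (mim_le_normalizer f hn)
  · rw [hT, top_inf_eq, core_p_top hp]
    exact CA.AmbChar.charP_top_iff.1 (CA.H6PSolv.isPConstrained_iff.1 hH)
  rcases h with ⟨h2, h⟩ | ⟨h, S, h1, h2⟩
  · refine Or.inl ⟨h2, fun x hx e => ?_⟩
    obtain ⟨R, a, b, c⟩ := lift (zpowers x) (zpowers_le.2 hx) (isPi_zpowers.2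
      (((piNat_prime (π := {p}) hp).2 rfl).of_dvd (orderOf_dvd_of_pow_eq_one e)))
    obtain ⟨y, hy, rfl⟩ := (mem_mim_of_le (a.trans inf_le_left)).1 (c (mem_zpowers x))
    refine mel_mem_mim f (h y (a hy) (mem_bot.1 ((b.inf_eq_bot hk').le ⟨pow_mem hy p, ?_⟩)))
    rwa [← mel_pow f (a hy).1, mel_eq_one_iff (pow_mem (a hy).1 p)] at e
  · refine Or.inr ⟨fun T a b => ?_, mim f S, h1.mim f le_rfl, ?_⟩
    · obtain ⟨R, a, b, c⟩ := lift T a b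
      exact c.trans (mim_mono f (h R a b))
    · rw [← mim_commutator f h1.le hEH]
      exact mim_mono f h2

end CA.H4Bend
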