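import Mathlib

/-!
Subnormal chains between two subgroups, their behaviour under intersection, join, images and
preimages, and numerical bounds for their length.
-/

set_option autoImplicit false

namespace CA.H7Len

open Subgroup ArithmeticFunction
open scoped ArithmeticFunction.Omega

variable {G : Type*} [Group G]

/-- `Ch A B l`: a chain `A = X₀ < X₁ < ⋯ < X_l = B`, each term normal in the next. -/
inductive Ch (A : Subgroup G) : Subgroup G → ℕ → Prop
  | refl : Ch A A 0
  | step {B C : Subgroup G} {l : ℕ} : Ch A B l → B < C → C ≤ normalizer (B : Set G) →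
      Ch A C (l + 1)

theorem Ch.le {A B : Subgroup G} {l : ℕ} (h : Ch A B l) : A ≤ B := by
  induction h with
  | refl => exact le_rfl
  | step _ h1 _ ih => exact ih.trans h1.le

theorem Ch.trans {A B C : Subgroup G} {l m : ℕ} (h : Ch A B l) (h' : Ch B C m) :
    Ch A C (l + m) := by
  induction h' with
  | refl => exact h
  | step _ h1 h2 ih => exact Ch.step ih h1 h2

theorem Ch.eq_zero {A B : Subgroup G} {l : ℕ} (h : Ch A B l) (hB : B ≤ A) : l = 0 := by
  cases h with
  | refl => rfl
  | step h0 h1 _ => exact absurd (h1.trans_le (hB.trans h0.le)) (lt_irrefl _)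

theorem mem_sup_nb {X N : Subgroup G} (h : X ≤ normalizer (N : Set G)) {y : G}
    (hy : y ∈ X ⊔ N) : ∃ x ∈ X, ∃ n ∈ N, y = x * n := by
  have : y ∈ ((X ⊔ N : Subgroup G) : Set G) := hy
  rw [coe_mul_of_left_le_normalizer_right X N h] at this
  obtain ⟨x, hx, n, hn, rfl⟩ := this
  exact ⟨x, hx, n, hn, rfl⟩

theorem dedekind {X Y N : Subgroup G} (hXY : X ≤ Y) (h : X ≤ normalizer (N : Set G))
    (h1 : Y ⊓ N ≤ X) (h2 : Y ≤ X ⊔ N) : Y ≤ X := by
  intro y hy
  obtain ⟨x, hx, n, hn, rfl⟩ := mem_sup_nb h (h2 hy)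
  have : n ∈ Y := by
    have := Y.mul_mem (Y.inv_mem (hXY hx)) hy
    simpa using this
  exact X.mul_mem hx (h1 ⟨this, hn⟩)

theorem nb_inf {B C N : Subgroup G} (h : C ≤ normalizer (B : Set G)) :
    C ⊓ N ≤ normalizer ((B ⊓ N : Subgroup G) : Set G) :=
  (inf_le_inf h le_normalizer).trans inf_normalizer_le_normalizer_inf

theorem nb_sup {B C N : Subgroup G} (h : C ≤ normalizer (B : Set G))
    (hN : C ≤ normalizer (N : Set G)) :
    C ⊔ N ≤ normalizer ((B ⊔ N : Subgroup G) : Set G) :=
  sup_le ((le_inf h hN).trans (normalizer_inf_normalizer_le_normalizer_sup B N))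
    (le_sup_right.trans le_normalizer)

theorem Ch.split {A B N : Subgroup G} {l : ℕ} (h : Ch A B l) (hN : B ≤ normalizer (N : Set G)) :
    ∃ l1 l2, l ≤ l1 + l2 ∧ Ch (A ⊓ N) (B ⊓ N) l1 ∧ Ch (A ⊔ N) (B ⊔ N) l2 := by
  induction h with
  | refl => exact ⟨0, 0, le_rfl, Ch.refl, Ch.refl⟩
  | @step B C l _ h1 h2 ih =>
    obtain ⟨l1, l2, hl, c1, c2⟩ := ih (h1.le.trans hN)
    have e1 : B ⊓ N ≤ C ⊓ N := inf_le_inf_right N h1.le
    have e2 : B ⊔ N ≤ C ⊔ N := sup_le_sup_right h1.le N
    rcases e1.eq_or_lt with e1 | e1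
    · rcases e2.eq_or_lt with e2 | e2
      · exfalso
        refine h1.not_ge (dedekind h1.le (h1.le.trans hN) ?_ ?_)
        · rw [← e1]; exact inf_le_left
        · rw [e2]; exact le_sup_left
      · exact ⟨l1, l2 + 1, by omega, e1 ▸ c1, Ch.step c2 e2 (nb_sup h2 hN)⟩
    · rcases e2.eq_or_lt with e2 | e2
      · exact ⟨l1 + 1, l2, by omega, Ch.step c1 e1 (nb_inf h2), e2 ▸ c2⟩
      · exact ⟨l1 + 1, l2 + 1, by omega, Ch.step c1 e1 (nb_inf h2),
          Ch.step c2 e2 (nb_sup h2 hN)⟩

/-- Chains above `N` inside `S N` come from chains in `S`. -/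
theorem Ch.transfer {N B S : Subgroup G} {l : ℕ} (h : Ch N B l)
    (hS : S ≤ normalizer (N : Set G)) (hB : B ≤ S ⊔ N) : Ch (N ⊓ S) (B ⊓ S) l := by
  induction h with
  | refl => exact Ch.refl
  | @step B C l h0 h1 h2 ih =>
    refine Ch.step (ih (h1.le.trans hB)) ?_ (nb_inf h2)
    refine lt_of_le_of_ne (inf_le_inf_right S h1.le) fun e => h1.not_ge ?_
    intro c hc
    obtain ⟨s, hs, n, hn, rfl⟩ := mem_sup_nb hS (hB hc)
    have hsC : s ∈ C := by
      have := C.mul_mem hc (C.inv_mem (h1.le (h0.le hn)))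
      simpa using this
    have : s ∈ B ⊓ S := by rw [e]; exact ⟨hsC, hs⟩
    exact B.mul_mem this.1 (h0.le hn)

theorem Ch.comap {G' : Type*} [Group G'] (f : G' →* G) {A B : Subgroup G} {l : ℕ}
    (h : Ch A B l) (hB : B ≤ f.range) : Ch (A.comap f) (B.comap f) l := by
  induction h with
  | refl => exact Ch.refl
  | @step B C l h0 h1 h2 ih =>
    refine Ch.step (ih (h1.le.trans hB)) ?_ ((comap_mono h2).trans (le_normalizer_comap f))
    refine lt_of_le_of_ne (comap_mono h1.le) fun e => h1.not_ge ?_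
    intro c hc
    obtain ⟨x, rfl⟩ := hB hc
    have : x ∈ B.comap f := by rw [e]; exact hc
    exact this

theorem Ch.map {G' : Type*} [Group G'] (f : G →* G') {A B : Subgroup G} {l : ℕ}
    (h : Ch A B l) (hA : f.ker ≤ A) : Ch (A.map f) (B.map f) l := by
  induction h with
  | refl => exact Ch.refl
  | @step B C l h0 h1 h2 ih =>
    refine Ch.step ih ?_ ((map_mono h2).trans (le_normalizer_map f))
    refine lt_of_le_of_ne (map_mono h1.le) fun e => h1.not_ge ?_
    have := congrArg (Subgroup.comap f) e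
    rw [comap_map_eq_self (hA.trans h0.le), comap_map_eq_self ((hA.trans h0.le).trans h1.le)]
      at this
    exact this.ge

/-- chains inside a subgroup, viewed in the subgroup as a group -/
theorem Ch.sub {K : Subgroup G} {l : ℕ} (h : Ch ⊥ K l) : Ch (⊥ : Subgroup K) ⊤ l := by
  have := h.comap K.subtype (by simp)
  have e1 : (⊥ : Subgroup G).comap K.subtype = ⊥ := by
    rw [MonoidHom.comap_bot, ker_subtype]
  have e2 : K.comap K.subtype = ⊤ := by
    ext x; simp
  rwa [e1, e2] at this

theorem Ch.omega [Finite G] {A B : Subgroup G} {l : ℕ} (h : Ch A B l) :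
    l + Ω (Nat.card A) ≤ Ω (Nat.card B) := by
  induction h with
  | refl => simp
  | @step B C l h0 h1 h2 ih =>
    obtain ⟨m, hm⟩ := card_dvd_of_le h1.le
    have hB : Nat.card B ≠ 0 := Nat.card_pos.ne'
    have hC : Nat.card C ≠ 0 := Nat.card_pos.ne'
    have hm0 : m ≠ 0 := by rintro rfl; simp at hm; exact hC hm
    have hm1 : m ≠ 1 := by
      rintro rfl
      rw [mul_one] at hm
      exact h1.ne (eq_of_le_of_card_ge h1.le hm.le)
    have : 1 ≤ Ω m := by
      rw [Nat.one_le_iff_ne_zero]
      intro e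
      rw [cardFactors_eq_zero_iff_eq_zero_or_one] at e
      omega
    rw [hm, cardFactors_mul hB hm0]
    omega

theorem Ch.le_omega [Finite G] {B : Subgroup G} {l : ℕ} (h : Ch ⊥ B l) : l ≤ Ω (Nat.card B) := by
  have := h.omega
  omega

theorem three_pow_le (m : ℕ) (hm : m ≠ 0) : ∀ a c : ℕ, ¬ 2 ^ (a + 1) ∣ m → a + c ≤ Ω m →
    2 ^ a * 3 ^ c ≤ m := by
  induction m using induction_on_primes with
  | zero => exact absurd rfl hm
  | one =>
    intro a c _ h
    simp only [cardFactors_one] at h
    have : a = 0 := by omega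
    have : c = 0 := by omega
    subst_vars; simp
  | prime_mul p m hp ih =>
    intro a c hd h
    have hm0 : m ≠ 0 := by rintro rfl; simp at hm
    rw [cardFactors_mul hp.ne_zero hm0, cardFactors_apply_prime hp] at h
    have hm1 : 1 ≤ m := Nat.one_le_iff_ne_zero.mpr hm0
    by_cases h2 : p = 2
    · subst h2
      cases a with
      | zero => exact absurd (by simp) hd
      | succ a =>
        have := ih hm0 a c (fun e => hd (by
          rw [pow_succ' 2 (a + 1)]; exact Nat.mul_dvd_mul_left 2 e)) (by omega)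
        rw [pow_succ]; nlinarith
    · have h3 : 3 ≤ p := by have := hp.two_le; omega
      have hd' : ¬ 2 ^ (a + 1) ∣ m := fun e => hd (e.mul_left p)
      cases c with
      | succ c =>
        have := ih hm0 a c hd' (by omega)
        rw [pow_succ]; nlinarith
      | zero =>
        cases a with
        | zero => simp; nlinarith
        | succ a =>
          by_cases e : 2 ^ (a + 1) ∣ m
          · have := Nat.le_of_dvd (by omega) e
            simp only [pow_zero, mul_one]; nlinarith
          · have := ih hm0 a 0 e (by omega)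
            rw [pow_succ]; nlinarith

theorem two_pow_le (m : ℕ) (hm : m ≠ 0) (c : ℕ) (h : c ≤ Ω m) : 2 ^ c ≤ m := by
  by_cases e : 2 ^ (c + 1) ∣ m
  · have := Nat.le_of_dvd (Nat.pos_of_ne_zero hm) e
    rw [pow_succ] at this; omega
  · simpa using three_pow_le m hm c 0 e (by omega)

theorem Ch.two_pow_le [Finite G] {B : Subgroup G} {l : ℕ} (h : Ch ⊥ B l) :
    2 ^ l ≤ Nat.card B :=
  H7Len.two_pow_le _ Nat.card_pos.ne' _ h.le_omega

theorem dbl [Finite G] {X Y : Subgroup G} (hXY : X < Y) : 2 * Nat.card X ≤ Nat.card Y := by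
  obtain ⟨m, hm⟩ := card_dvd_of_le hXY.le
  have hY : Nat.card Y ≠ 0 := Nat.card_pos.ne'
  have hm0 : m ≠ 0 := by rintro rfl; simp at hm; exact hY hm
  have hm1 : m ≠ 1 := by
    rintro rfl
    rw [mul_one] at hm
    exact hXY.ne (eq_of_le_of_card_ge hXY.le hm.le)
  have : 2 ≤ m := by omega
  rw [hm]; nlinarith

theorem card_le_stab [Finite G] {R S : Subgroup G} (hN : S ≤ normalizer (R : Set G)) {b : G}
    (hb : b ∈ R) (hb1 : b ≠ 1) :
    Nat.card S ≤ (Nat.card R - 1) * Nat.card (S ⊓ centralizer {b} : Subgroup G) := by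
  letI : MulAction S G := MulAction.compHom G ((MulAut.conj : G →* MulAut G).comp S.subtype)
  have sm : ∀ (s : S) (x : G), s • x = (s : G) * x * (s : G)⁻¹ := fun s x => rfl
  have e1 : (MulAction.stabilizer S b).map S.subtype = S ⊓ centralizer {b} := by
    ext x
    simp only [mem_map, MulAction.mem_stabilizer_iff, sm, mem_inf, mem_centralizer_singleton_iff]
    constructor
    · rintro ⟨s, hs, rfl⟩
      exact ⟨s.2, by simpa [mul_inv_eq_iff_eq_mul] using hs⟩
    · rintro ⟨h1, h2⟩
      exact ⟨⟨x, h1⟩, by simpa [mul_inv_eq_iff_eq_mul] using h2, rfl⟩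
  have e2 : (MulAction.stabilizer S b).index ≤ Nat.card R - 1 := by
    rw [MulAction.index_stabilizer]
    have : MulAction.orbit S b ⊆ (R : Set G) \ {1} := by
      rintro _ ⟨s, rfl⟩
      refine ⟨?_, ?_⟩
      · exact (mem_normalizer_iff.mp (hN s.2) b).mp hb
      · simp only [sm, Set.mem_singleton_iff]
        intro e
        apply hb1
        have : b = (s : G)⁻¹ * ((s : G) * b * (s : G)⁻¹) * s := by group
        rw [this, e]; simp
    refine (Set.ncard_le_ncard this).trans ?_
    rw [Set.ncard_diff_singleton_of_mem (by exact R.one_mem)]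
    exact le_of_eq rfl
  rw [← e1, card_map_of_injective S.subtype_injective,
    ← (MulAction.stabilizer S b).index_mul_card]
  exact Nat.mul_le_mul_right _ e2

/-- A group of automorphisms of `R` has order at most `(|R| - 1) ^ log₂ |R|`. -/
theorem card_le_pow [Finite G] {R : Subgroup G} (hR : 2 ≤ Nat.card R) (j : ℕ) :
    ∀ S : Subgroup G, S ≤ normalizer (R : Set G) →
    (∀ s ∈ S, (∀ r ∈ R, s * r = r * s) → s = 1) →
    Nat.card R < 2 ^ (j + 1) * Nat.card (R ⊓ centralizer (S : Set G) : Subgroup G) →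
    Nat.card S ≤ (Nat.card R - 1) ^ j := by
  have triv : ∀ S : Subgroup G, (∀ s ∈ S, (∀ r ∈ R, s * r = r * s) → s = 1) →
      R ≤ centralizer (S : Set G) → Nat.card S = 1 := by
    intro S h1 h2
    rw [card_eq_one, eq_bot_iff]
    intro s hs
    exact h1 s hs fun r hr => (mem_centralizer_iff.mp (h2 hr)) s hs
  induction j with
  | zero =>
    intro S _ h1 h2
    rw [pow_zero, triv S h1]
    by_contra hc
    have : R ⊓ centralizer (S : Set G) < R :=
      lt_of_le_of_ne inf_le_left fun e => hc (by rw [← e]; exact inf_le_right)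
    have := dbl this
    rw [zero_add, pow_one] at h2; omega
  | succ j ih =>
    intro S hN h1 h2
    by_cases hc : R ≤ centralizer (S : Set G)
    · rw [triv S h1 hc]
      exact Nat.one_le_pow _ _ (by omega)
    · obtain ⟨b, hb, hbc⟩ := SetLike.not_le_iff_exists.mp hc
      have hb1 : b ≠ 1 := by rintro rfl; exact hbc (one_mem _)
      have lt : R ⊓ centralizer (S : Set G) <
          R ⊓ centralizer ((S ⊓ centralizer {b} : Subgroup G) : Set G) := by
        refine lt_of_le_of_ne (inf_le_inf_left R (centralizer_le fun x hx => hx.1)) fun e => hbc ?_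
        have : b ∈ R ⊓ centralizer ((S ⊓ centralizer {b} : Subgroup G) : Set G) :=
          ⟨hb, mem_centralizer_iff.mpr fun x hx => mem_centralizer_singleton_iff.mp hx.2⟩
        rw [← e] at this
        exact this.2
      have i1 := ih (S ⊓ centralizer {b}) (inf_le_left.trans hN) (fun s hs => h1 s hs.1) (by
        have := dbl lt
        rw [pow_succ, mul_assoc] at h2
        exact h2.trans_le (Nat.mul_le_mul_left (2 ^ (j + 1)) this))
      refine (card_le_stab hN hb hb1).trans ?_
      rw [pow_succ']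
      exact Nat.mul_le_mul_left _ i1

theorem card_le_pow_log [Finite G] {R S : Subgroup G} (hR : 2 ≤ Nat.card R)
    (hN : S ≤ normalizer (R : Set G)) (h1 : ∀ s ∈ S, (∀ r ∈ R, s * r = r * s) → s = 1) :
    Nat.card S ≤ (Nat.card R - 1) ^ Nat.log 2 (Nat.card R) := by
  refine card_le_pow hR _ S hN h1 ?_
  have h2 := Nat.lt_pow_succ_log_self (b := 2) (by norm_num) (Nat.card R)
  have h3 : 0 < Nat.card (R ⊓ centralizer (S : Set G) : Subgroup G) := Nat.card_pos
  calc Nat.card R < 2 ^ (Nat.log 2 (Nat.card R) + 1) := h2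
    _ ≤ _ := Nat.le_mul_of_pos_right _ h3

theorem sq_le_pow (L : ℕ) (hL : 5 ≤ L) : 3 * L * L + 10 * L ≤ 4 * 2 ^ L := by
  induction L, hL using Nat.le_induction with
  | base => norm_num
  | succ L hL ih => rw [pow_succ]; nlinarith

theorem lt_sq_log {n m c : ℕ} (hn : n ≠ 0) (hc : 2 ^ c ≤ m)
    (hm : m ≤ n * (n - 1) ^ Nat.log 2 n) : c ≤ Nat.log 2 n * Nat.log 2 n + 2 * Nat.log 2 n := by
  have h2 := Nat.lt_pow_succ_log_self (b := 2) (by norm_num) n
  set L := Nat.log 2 n
  have h3 : n * (n - 1) ^ L ≤ n ^ (L + 1) := by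
    rw [pow_succ']
    exact Nat.mul_le_mul_left _ (Nat.pow_le_pow_left (by omega) _)
  have h4 : n ^ (L + 1) < (2 ^ (L + 1)) ^ (L + 1) := Nat.pow_lt_pow_left h2 (by omega)
  rw [← pow_mul] at h4
  have h5 : c < (L + 1) * (L + 1) :=
    (Nat.pow_lt_pow_iff_right (by norm_num : 1 < 2)).mp (by omega)
  nlinarith

/-- numerical bound in the case of a regular normal subgroup -/
theorem num_reg {n m c : ℕ} (hn : 2 ≤ n) (hm0 : m ≠ 0) (hd : m ∣ n.factorial)
    (hm : m ≤ n * (n - 1) ^ Nat.log 2 n) (hc : c ≤ Ω m) : 3 * c + 4 ≤ 4 * n := by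
  have h2 := two_pow_le m hm0 c hc
  have sp : ∀ a b : ℕ, ¬ 2 ^ (a + 1) ∣ n.factorial → n * (n - 1) ^ Nat.log 2 n < 2 ^ a * 3 ^ b →
      c < a + b := by
    intro a b h1 h3
    by_contra h4
    have := three_pow_le m hm0 a b (fun e => h1 (e.trans hd)) (by omega)
    omega
  have ge : ∀ a : ℕ, n * (n - 1) ^ Nat.log 2 n < 2 ^ a → c < a := by
    intro a h3
    exact (Nat.pow_lt_pow_iff_right (by norm_num : 1 < 2)).mp (by omega)
  have h5 := lt_sq_log (by omega) h2 hm
  rcases Nat.lt_or_ge n 32 with h | h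
  · rcases Nat.lt_or_ge n 19 with h' | h'
    · interval_cases n
      · have := ge 2 (by decide +kernel); omega
      · have := ge 3 (by decide +kernel); omega
      · have := sp 3 2 (by decide +kernel) (by decide +kernel); omega
      · have := sp 3 3 (by decide +kernel) (by decide +kernel); omega
      · have := sp 4 3 (by decide +kernel) (by decide +kernel); omega
      · have := ge 9 (by decide +kernel); omega
      · have := sp 7 3 (by decide +kernel) (by decide +kernel); omega
      · have := sp 7 4 (by decide +kernel) (by decide +kernel); omega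
      · have := ge 13 (by decide +kernel); omega
      · have := ge 14 (by decide +kernel); omega
      · have := ge 14 (by decide +kernel); omega
      · have := ge 16 (by decide +kernel); omega
      · have := ge 16 (by decide +kernel); omega
      · have := ge 16 (by decide +kernel); omega
      · have := ge 20 (by decide +kernel); omega
      · have := ge 21 (by decide +kernel); omega
      · have := ge 21 (by decide +kernel); omega
    · have : Nat.log 2 n = 4 := Nat.log_eq_of_pow_le_of_lt_pow (by omega) (by omega)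
      rw [this] at h5; omega
  · have h6 : 5 ≤ Nat.log 2 n := Nat.le_log_of_pow_le (by norm_num) (by omega)
    have h7 := sq_le_pow _ h6
    have h8 : 2 ^ Nat.log 2 n ≤ n := Nat.pow_log_le_self 2 (by omega)
    nlinarith

/-- numerical bound in the diagonal case -/
theorem num_diag {n m c k : ℕ} (hn : 30 ≤ n) (hc : 2 ^ c ≤ m)
    (hm : m ≤ n * (n - 1) ^ Nat.log 2 n) (hk : 4 ^ k ≤ n * n) :
    3 * c + 4 * k ≤ 4 * n ∧ k < n := by
  have h5 := lt_sq_log (by omega) hc hm
  have h2 := Nat.lt_pow_succ_log_self (b := 2) (by norm_num) n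
  have h8 : 2 ^ Nat.log 2 n ≤ n := Nat.pow_log_le_self 2 (by omega)
  have h3 : k ≤ Nat.log 2 n := by
    have : 2 ^ k ≤ n := by
      by_contra h
      have : 4 ^ k = 2 ^ k * 2 ^ k := by rw [← mul_pow]; rfl
      nlinarith
    exact Nat.le_log_of_pow_le (by norm_num) this
  have h9 : Nat.log 2 n < 2 ^ Nat.log 2 n := Nat.lt_two_pow_self
  refine ⟨?_, by omega⟩
  rcases Nat.lt_or_ge n 32 with h | h
  · have : Nat.log 2 n = 4 := Nat.log_eq_of_pow_le_of_lt_pow (by omega) (by omega)
    rw [this] at h5 h3; omega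
  · have h6 : 5 ≤ Nat.log 2 n := Nat.le_log_of_pow_le (by norm_num) (by omega)
    have h7 := sq_le_pow _ h6
    nlinarith

end CA.H7Len
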