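import Cfsg.Agent.Lib.Grp.H7Len
import Cfsg.Agent.Lib.Char.CharBurn

/-!
Minimal normal subgroups of a nonabelian minimal normal subgroup, and the bound for the length
of subnormal chains in a group with a core-free maximal subgroup.
-/

set_option autoImplicit false

namespace CA.H7Len

open Subgroup
open scoped Pointwise

variable {G : Type*} [Group G]

/-- conjugate subgroup -/
def cj (g : G) (T : Subgroup G) : Subgroup G := MulAut.conj g • T

theorem mem_cj {g x : G} {T : Subgroup G} : x ∈ cj g T ↔ g⁻¹ * x * g ∈ T := by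
  unfold cj
  rw [mem_pointwise_smul_iff_inv_smul_mem]
  simp

theorem cj_cj (g h : G) (T : Subgroup G) : cj g (cj h T) = cj (g * h) T := by
  ext x; simp only [mem_cj, mul_inv_rev, mul_assoc]

theorem cj_one (T : Subgroup G) : cj 1 T = T := by
  ext x; simp [mem_cj]

theorem cj_eq_iff {g : G} {T : Subgroup G} : cj g T = T ↔ g ∈ normalizer (T : Set G) := by
  rw [mem_normalizer_iff'']
  constructor
  · intro h x
    conv_lhs => rw [← h]
    exact mem_cj
  · intro h; ext x; rw [mem_cj]; exact (h x).symm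

theorem le_norm_of {X Y : Subgroup G} (h : ∀ x ∈ X, ∀ y ∈ Y, x * y * x⁻¹ ∈ Y) :
    X ≤ normalizer (Y : Set G) := by
  intro x hx
  rw [mem_normalizer_iff]
  intro y
  refine ⟨h x hx y, fun hy => ?_⟩
  have := h x⁻¹ (X.inv_mem hx) _ hy
  simpa [mul_assoc] using this

theorem conj_mem_of {X Y : Subgroup G} (h : X ≤ normalizer (Y : Set G)) {x y : G} (hx : x ∈ X)
    (hy : y ∈ Y) : x * y * x⁻¹ ∈ Y := (mem_normalizer_iff.mp (h hx) y).mp hy

theorem norm_cent {X Y : Subgroup G} (h : X ≤ normalizer (Y : Set G)) :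
    X ≤ normalizer ((centralizer (Y : Set G) : Subgroup G) : Set G) := by
  refine le_norm_of fun x hx c hc => mem_centralizer_iff.mpr fun y hy => ?_
  have := mem_centralizer_iff.mp hc _ (conj_mem_of h (X.inv_mem hx) hy)
  rw [inv_inv] at this
  calc y * (x * c * x⁻¹) = x * (x⁻¹ * y * x * c) * x⁻¹ := by group
    _ = x * (c * (x⁻¹ * y * x)) * x⁻¹ := by rw [this]
    _ = _ := by group

theorem cent_of_disj {N X Y : Subgroup G} (hX : X ≤ N) (hY : Y ≤ N)
    (h1 : N ≤ normalizer (X : Set G)) (h2 : N ≤ normalizer (Y : Set G)) (h : X ⊓ Y = ⊥) :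
    X ≤ centralizer (Y : Set G) := by
  intro x hx
  rw [mem_centralizer_iff]
  intro y hy
  have : y * x * y⁻¹ * x⁻¹ ∈ X ⊓ Y := by
    refine ⟨X.mul_mem (conj_mem_of h1 (hY hy) hx) (X.inv_mem hx), ?_⟩
    have := Y.mul_mem hy (conj_mem_of h2 (hX hx) (Y.inv_mem hy))
    simpa [mul_assoc] using this
  rw [h, mem_bot] at this
  calc y * x = y * x * y⁻¹ * x⁻¹ * (x * y) := by group
    _ = x * y := by rw [this, one_mul]

/-- minimal normal subgroups of `N` -/
def Mn (N T : Subgroup G) : Prop :=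
  Minimal (fun X : Subgroup G => X ≠ ⊥ ∧ X ≤ N ∧ N ≤ normalizer (X : Set G)) T

theorem Mn.alt {N T M : Subgroup G} (h : Mn N T) (hM : N ≤ normalizer (M : Set G)) :
    T ≤ M ∨ T ⊓ M = ⊥ := by
  by_cases e : T ⊓ M = ⊥
  · exact Or.inr e
  · left
    have := h.2 (y := T ⊓ M) ⟨e, inf_le_left.trans h.1.2.1,
      (le_inf h.1.2.2 hM).trans inf_normalizer_le_normalizer_inf⟩ inf_le_left
    exact this.trans inf_le_right

theorem cj_props {N X : Subgroup G} [hN : N.Normal] (g : G)
    (h : X ≠ ⊥ ∧ X ≤ N ∧ N ≤ normalizer (X : Set G)) :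
    cj g X ≠ ⊥ ∧ cj g X ≤ N ∧ N ≤ normalizer ((cj g X : Subgroup G) : Set G) := by
  refine ⟨fun e => h.1 ?_, fun x hx => ?_, le_norm_of fun n hn x hx => ?_⟩
  · rw [eq_bot_iff]
    intro x hx
    have : g * x * g⁻¹ ∈ cj g X := by rw [mem_cj]; simpa [mul_assoc] using hx
    rw [e, mem_bot] at this
    rw [mem_bot]
    calc x = g⁻¹ * (g * x * g⁻¹) * g := by group
      _ = 1 := by rw [this]; simp
  · have := hN.conj_mem _ (h.2.1 (mem_cj.mp hx)) g
    simpa [mul_assoc] using this
  · rw [mem_cj] at hx ⊢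
    have := conj_mem_of h.2.2 (hN.conj_mem' n hn g) hx
    simpa [mul_assoc] using this

theorem Mn.cj {N T : Subgroup G} [N.Normal] (h : Mn N T) (g : G) : Mn N (cj g T) := by
  refine ⟨cj_props g h.1, fun Y hY hYT => ?_⟩
  have h1 : H7Len.cj g⁻¹ Y ≤ T := by
    intro x hx
    have := mem_cj.mp (hYT (mem_cj.mp hx))
    simpa [mul_assoc] using this
  have h2 := h.2 (cj_props g⁻¹ hY) h1
  intro x hx
  have := mem_cj.mp (h2 (mem_cj.mp hx))
  simpa [mul_assoc] using this

theorem Mn.cent {N T T' : Subgroup G} (h : Mn N T) (h' : Mn N T') (ne : T ≠ T') :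
    T ≤ centralizer (T' : Set G) := by
  refine cent_of_disj h.1.2.1 h'.1.2.1 h.1.2.2 h'.1.2.2 ?_
  rcases h.alt h'.1.2.2 with e | e
  · exact absurd (le_antisymm e (h'.2 h.1 e)) ne
  · exact e

/-- `N` is a minimal normal subgroup -/
def MN (N : Subgroup G) : Prop := Minimal (fun X : Subgroup G => X.Normal ∧ X ≠ ⊥) N

theorem le_of_cj {N T X : Subgroup G} (hN : MN N) (h : Mn N T) (hX : ∀ g, cj g T ≤ X) :
    N ≤ X := by
  haveI := hN.1.1
  have hn : (⨆ g, cj g T).Normal := by
    rw [← normalizer_eq_top_iff, eq_top_iff]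
    refine le_norm_of fun x _ y hy => ?_
    have : (⨆ g, cj g T) ≤ cj x⁻¹ (⨆ g, cj g T) := by
      refine iSup_le fun g z hz => ?_
      rw [mem_cj]
      refine (le_iSup (fun g => cj g T) (x * g)) ?_
      rw [mem_cj] at hz ⊢
      simpa [mul_assoc] using hz
    simpa using mem_cj.mp (this hy)
  have := hN.2 (y := ⨆ g, cj g T) ⟨hn, fun e => (h.cj 1).1.1 (by
    rw [eq_bot_iff, ← e]; exact le_iSup (fun g => cj g T) 1)⟩ (iSup_le fun g => (h.cj g).1.2.1)
  exact this.trans (iSup_le hX)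

theorem le_sup_cent {N T : Subgroup G} (hN : MN N) (h : Mn N T) :
    N ≤ T ⊔ (N ⊓ centralizer (T : Set G)) := by
  haveI := hN.1.1
  refine le_of_cj hN h fun g => ?_
  by_cases e : cj g T = T
  · rw [e]; exact le_sup_left
  · exact (le_inf (h.cj g).1.2.1 ((h.cj g).cent h e)).trans le_sup_right

theorem center_bot {N : Subgroup G} (hN : MN N) (hc : ¬ N ≤ centralizer (N : Set G)) :
    N ⊓ centralizer (N : Set G) = ⊥ := by
  haveI := hN.1.1
  by_contra e
  have hn : (N ⊓ centralizer (N : Set G)).Normal := by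
    rw [← normalizer_eq_top_iff, eq_top_iff]
    exact (le_inf le_normalizer_of_normal (norm_cent le_normalizer_of_normal)).trans
      inf_normalizer_le_normalizer_inf
  exact hc ((hN.2 ⟨hn, e⟩ inf_le_left).trans inf_le_right)

theorem Mn.center {N T : Subgroup G} (hN : MN N) (hc : ¬ N ≤ centralizer (N : Set G))
    (h : Mn N T) : T ⊓ centralizer (T : Set G) = ⊥ := by
  rcases h.alt (norm_cent h.1.2.2) with e | e
  · exfalso
    have h1 : N ≤ centralizer (T : Set G) := (le_sup_cent hN h).trans (sup_le e inf_le_right)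
    apply h.1.1
    rw [eq_bot_iff, ← center_bot hN hc]
    exact le_inf h.1.2.1 (le_centralizer_iff.mp h1)
  · exact e

theorem Mn.simple {N T U : Subgroup G} (hN : MN N) (h : Mn N T) (hU : U ≤ T)
    (hn : T ≤ normalizer (U : Set G)) : U = ⊥ ∨ U = T := by
  have h1 : N ≤ normalizer (U : Set G) := by
    refine (le_sup_cent hN h).trans (sup_le hn (inf_le_right.trans ?_))
    exact (centralizer_le hU).trans (centralizer_le_normalizer _)
  rcases h.alt h1 with e | e
  · exact Or.inr (le_antisymm hU e)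
  · left; rw [← e, inf_eq_right.mpr hU]

theorem Mn.ch_le {N T : Subgroup G} (hN : MN N) (h : Mn N T) {l : ℕ} (c : Ch ⊥ T l) : l ≤ 1 := by
  cases c with
  | refl => omega
  | step c0 h1 h2 =>
    rcases h.simple hN h1.le h2 with e | e
    · have := c0.eq_zero e.le; omega
    · exact absurd e h1.ne

theorem Mn.card_ge [Finite G] {N T : Subgroup G} (hN : MN N)
    (hc : ¬ N ≤ centralizer (N : Set G)) (h : Mn N T) : 30 ≤ Nat.card T := by
  haveI : Nontrivial T := (nontrivial_iff_ne_bot T).mpr h.1.1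
  haveI : IsSimpleGroup T := ⟨fun U hU => by
    have hn : T ≤ normalizer ((U.map T.subtype : Subgroup G) : Set G) := by
      refine le_norm_of fun x hx y hy => ?_
      obtain ⟨u, hu, rfl⟩ := hy
      exact ⟨_, hU.conj_mem u hu ⟨x, hx⟩, rfl⟩
    rcases h.simple hN (map_subtype_le U) hn with e | e
    · left
      exact (map_eq_bot_iff_of_injective U T.subtype_injective).mp e
    · right
      apply map_injective T.subtype_injective
      rw [e, ← MonoidHom.range_eq_map, range_subtype]⟩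
  by_contra hlt
  have hpos : 0 < Nat.card T := Nat.card_pos
  have : (Nat.card T).primeFactors.card ≤ 2 := by
    generalize Nat.card T = t at hlt hpos
    have : t < 30 := by omega
    interval_cases t <;> simp [Nat.primeFactors]
  have hs := CChar.CharBurn.isSolvable_of_card_primeFactors_le this
  have hcomm := IsSimpleGroup.comm_iff_isSolvable.mpr hs
  apply h.1.1
  rw [← h.center hN hc, eq_comm, inf_eq_left]
  intro x hx
  exact mem_centralizer_iff.mpr fun y hy => congrArg Subtype.val (hcomm ⟨y, hy⟩ ⟨x, hx⟩)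

theorem ind_cj [Finite G] {N T : Subgroup G} (hN : MN N) (hc : ¬ N ≤ centralizer (N : Set G))
    (h : Mn N T) (P : Subgroup G → ℕ → Prop) (h0 : P ⊥ 0)
    (hs : ∀ M j g, M ≤ N → N ≤ normalizer (M : Set G) → cj g T ⊓ M = ⊥ → P M j →
      P (M ⊔ cj g T) (j + 1)) : P N (normalizer (T : Set G)).index := by
  classical
  haveI := hN.1.1
  have key : ∀ J : Finset (Subgroup G), (∀ X ∈ J, ∃ g, X = cj g T) →
      P (J.sup id) J.card ∧ J.sup id ≤ N ∧ N ≤ normalizer ((J.sup id : Subgroup G) : Set G) := by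
    intro J
    induction J using Finset.induction_on with
    | empty =>
      intro _
      refine ⟨by simpa using h0, by simp, ?_⟩
      simp only [Finset.sup_empty]
      exact le_normalizer_of_normal
    | insert X J hX ih =>
      intro hJ
      obtain ⟨i1, i2, i3⟩ := ih fun Y hY => hJ Y (Finset.mem_insert_of_mem hY)
      obtain ⟨g, rfl⟩ := hJ X (Finset.mem_insert_self _ _)
      rw [Finset.sup_insert, Finset.card_insert_of_notMem hX, id, sup_comm]
      refine ⟨hs _ _ g i2 i3 ?_ i1, sup_le i2 (h.cj g).1.2.1, (le_inf i3 (h.cj g).1.2.2).trans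
        (normalizer_inf_normalizer_le_normalizer_sup _ _)⟩
      rw [eq_bot_iff, ← (h.cj g).center hN hc]
      refine inf_le_inf_left _ (Finset.sup_le fun Y hY => ?_)
      obtain ⟨g', rfl⟩ := hJ Y (Finset.mem_insert_of_mem hY)
      exact (h.cj g').cent (h.cj g) fun e => hX (e ▸ hY)
  letI : MulAction G (Subgroup G) := MulAction.compHom _ (MulAut.conj : G →* MulAut G)
  have fin : (MulAction.orbit G T).Finite := Set.toFinite _
  obtain ⟨i1, i2, -⟩ := key fin.toFinset fun X hX => by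
    obtain ⟨g, rfl⟩ := fin.mem_toFinset.mp hX
    exact ⟨g, rfl⟩
  have e1 : fin.toFinset.sup id = N := le_antisymm i2 (le_of_cj hN h fun g =>
    Finset.le_sup (f := id) (fin.mem_toFinset.mpr ⟨g, rfl⟩))
  have e2 : MulAction.stabilizer G T = normalizer (T : Set G) := by
    ext g; rw [MulAction.mem_stabilizer_iff]; exact cj_eq_iff
  rw [← e2, MulAction.index_stabilizer, Set.ncard_eq_toFinset_card _ fin, ← e1]
  exact i1

theorem card_le_relIndex [Finite G] {X S Y : Subgroup G} (h : X ⊓ S = ⊥) (hY : X ≤ Y) :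
    Nat.card X ≤ S.relIndex Y := by
  have := relIndex_le_of_le_right (H := S) hY index_ne_zero_of_finite
  rwa [← inf_relIndex_right S X, inf_comm, h, relIndex_bot_left] at this

theorem card_eq_rel [Finite G] (S K : Subgroup G) :
    Nat.card K = S.relIndex K * Nat.card (K ⊓ S : Subgroup G) := by
  have := relIndex_mul_relIndex (H := ⊥) (K := S ⊓ K) (L := K) bot_le inf_le_right
  rw [relIndex_bot_left, relIndex_bot_left, inf_relIndex_right, inf_comm] at this
  rw [← this, mul_comm]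

theorem four_pow_le [Finite G] {N T : Subgroup G} (hN : MN N)
    (hc : ¬ N ≤ centralizer (N : Set G)) (h : Mn N T) :
    4 ^ (normalizer (T : Set G)).index ≤ Nat.card N := by
  haveI := hN.1.1
  refine ind_cj hN hc h (fun M j => 4 ^ j ≤ Nat.card M) (by simp) ?_
  intro M j g _ _ hd ih
  have h1 := card_le_relIndex hd (le_sup_right : cj g T ≤ M ⊔ cj g T)
  have h2 := (h.cj g).card_ge hN hc
  rw [card_eq_rel M (M ⊔ cj g T), inf_eq_right.mpr le_sup_left, pow_succ']
  exact Nat.mul_le_mul (by omega) ih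

theorem ch_lift [Finite G] {N T S : Subgroup G} (hN : MN N)
    (hc : ¬ N ≤ centralizer (N : Set G)) (h : Mn N T) (hS : ∀ g, cj g T ⊓ S ≠ ⊥) :
    ∀ l, Ch ⊥ N l → ∃ m, l ≤ m ∧ Ch ⊥ (N ⊓ S) m := by
  haveI := hN.1.1
  refine ind_cj hN hc h (fun M _ => ∀ l, Ch ⊥ M l → ∃ m, l ≤ m ∧ Ch ⊥ (M ⊓ S) m) ?_ ?_
  · intro l c
    exact ⟨l, le_rfl, by simpa using c⟩
  intro M _ g hM hMn hd ih l c
  have hT := h.cj g
  have hle : M ⊔ cj g T ≤ N := sup_le hM hT.1.2.1
  obtain ⟨l1, l2, hl, c1, c2⟩ := c.split (hle.trans hT.1.2.2)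
  rw [bot_inf_eq, inf_eq_right.mpr le_sup_right] at c1
  rw [bot_sup_eq, sup_assoc, sup_idem] at c2
  have c3 := c2.transfer (hM.trans hT.1.2.2) le_rfl
  rw [hd, inf_eq_right.mpr le_sup_left] at c3
  obtain ⟨m, hm, c4⟩ := ih l2 c3
  have := hT.ch_le hN c1
  refine ⟨m + 1, by omega, Ch.step c4 ?_ (nb_inf (hle.trans hMn))⟩
  refine lt_of_le_of_ne (inf_le_inf_right S le_sup_left) fun e => hS g ?_
  rw [eq_bot_iff, ← hd]
  intro x hx
  have : x ∈ M ⊓ S := by rw [e]; exact ⟨(le_sup_right : cj g T ≤ M ⊔ cj g T) hx.1, hx.2⟩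
  exact ⟨hx.1, this.1⟩

end CA.H7Len
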