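import Cfsg.Agent.Lib.Grp.H7Len2

/-!
The bound for the length of subnormal chains in a group with a core-free maximal subgroup.
-/

set_option autoImplicit false

namespace CA.H7Len

open Subgroup

variable {G : Type*} [Group G]

/-- `R` is transitive on the cosets of `S` -/
def Tr (R S : Subgroup G) : Prop := ∀ g : G, ∃ r ∈ R, ∃ s ∈ S, g = r * s

theorem semi {R S : Subgroup G} (hcf : S.normalCore = ⊥) (hR : Tr R S) {s : G} (hs : s ∈ S)
    (hc : ∀ r ∈ R, s * r = r * s) : s = 1 := by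
  rw [← mem_bot, ← hcf]
  intro g
  obtain ⟨r, hr, t, ht, e⟩ := hR g⁻¹
  have e' : g = t⁻¹ * r⁻¹ := by rw [← mul_inv_rev, ← e, inv_inv]
  have : g * s * g⁻¹ = t⁻¹ * s * t := by
    rw [e, e']
    calc t⁻¹ * r⁻¹ * s * (r * t) = t⁻¹ * r⁻¹ * (s * r) * t := by group
      _ = t⁻¹ * r⁻¹ * (r * s) * t := by rw [hc r hr]
      _ = _ := by group
  rw [this]
  exact S.mul_mem (S.mul_mem (S.inv_mem ht) hs) ht

theorem card_reg [Finite G] {R S : Subgroup G} (hR : Tr R S) (hd : R ⊓ S = ⊥) :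
    Nat.card R = S.index := by
  symm
  refine IsComplement'.index_eq_card (isComplement'_of_disjoint_and_mul_eq_univ
    (disjoint_iff.mpr hd) (Set.eq_univ_of_forall fun g => ?_))
  obtain ⟨r, hr, s, hs, e⟩ := hR g
  exact ⟨r, hr, s, hs, e.symm⟩

theorem card_le_index [Finite G] {X S : Subgroup G} (h : X ⊓ S = ⊥) : Nat.card X ≤ S.index := by
  simpa using card_le_relIndex h (le_top : X ≤ ⊤)

theorem reg_bound [Finite G] {K R S : Subgroup G} (hcf : S.normalCore = ⊥) (hR : Tr R S)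
    (hd : R ⊓ S = ⊥) (hK : K ≤ normalizer (R : Set G)) (hn : 2 ≤ S.index) :
    Nat.card K ≤ S.index * (S.index - 1) ^ Nat.log 2 S.index := by
  have e := card_reg hR hd
  have h1 := card_le_pow_log (R := R) (S := K ⊓ S) (by omega) (inf_le_left.trans hK)
    fun s hs hc => semi hcf hR hs.2 hc
  rw [e] at h1
  rw [card_eq_rel S K]
  refine Nat.mul_le_mul ?_ h1
  simpa using relIndex_le_of_le_right (H := S) (le_top : K ≤ ⊤) index_ne_zero_of_finite

theorem tr_of_sup {N S : Subgroup G} [N.Normal] (h : S ⊔ N = ⊤) : Tr N S := by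
  intro g
  obtain ⟨s, hs, n, hn, e⟩ := mem_sup_nb (X := S) (N := N) le_normalizer_of_normal
    (y := g⁻¹) (by rw [h]; trivial)
  exact ⟨n⁻¹, N.inv_mem hn, s⁻¹, S.inv_mem hs, by rw [← mul_inv_rev, ← e, inv_inv]⟩

theorem cj_disj {N T S : Subgroup G} (h : Mn N T) (hN : Tr N S) (hd : T ⊓ S = ⊥) (g : G) :
    cj g T ⊓ S = ⊥ := by
  obtain ⟨n, hn, s, hs, e⟩ := hN g⁻¹
  rw [eq_bot_iff]
  intro x hx
  have h1 := mem_cj.mp hx.1
  have e' : g = s⁻¹ * n⁻¹ := by rw [← mul_inv_rev, ← e, inv_inv]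
  have h2 := conj_mem_of h.1.2.2 (N.inv_mem hn) h1
  have h3 : n⁻¹ * (g⁻¹ * x * g) * n⁻¹⁻¹ = s * x * s⁻¹ := by rw [e, e']; group
  rw [h3] at h2
  have : s * x * s⁻¹ ∈ T ⊓ S := ⟨h2, S.mul_mem (S.mul_mem hs hx.2) (S.inv_mem hs)⟩
  rw [hd, mem_bot] at this
  rw [mem_bot]
  calc x = s⁻¹ * (s * x * s⁻¹) * s := by group
    _ = 1 := by rw [this]; simp

theorem decomp {N T : Subgroup G} (hN : MN N) (h : Mn N T) {x : G} (hx : x ∈ N) :
    ∃ t ∈ T, ∃ c ∈ N ⊓ centralizer (T : Set G), x = t * c := by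
  haveI := hN.1.1
  refine mem_sup_nb ?_ (le_sup_cent hN h hx)
  exact (le_inf le_normalizer_of_normal (norm_cent le_normalizer)).trans
    inf_normalizer_le_normalizer_inf

/-- the point stabilizer of `N` projects onto every factor -/
theorem subdirect {N T S : Subgroup G} (hN : MN N) (hc : ¬ N ≤ centralizer (N : Set G))
    (h : Mn N T) (hS : IsCoatom S) (hd : ∀ g, cj g T ⊓ S = ⊥) (hne : N ⊓ S ≠ ⊥) (g : G) :
    N ≤ (N ⊓ S) ⊔ (N ⊓ centralizer ((cj g T : Subgroup G) : Set G)) := by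
  haveI := hN.1.1
  set Q : G → Subgroup G := fun g => (N ⊓ S) ⊔ (N ⊓ centralizer ((cj g T : Subgroup G) : Set G))
    with hQ
  have nq : ∀ g, N ≤ normalizer
      ((N ⊓ centralizer ((cj g T : Subgroup G) : Set G) : Subgroup G) : Set G) := fun g =>
    (le_inf le_normalizer (norm_cent (h.cj g).1.2.2)).trans inf_normalizer_le_normalizer_inf
  have QN : ∀ g, Q g ≤ N := fun g => sup_le inf_le_left inf_le_left
  have SP : S ≤ normalizer ((⨅ g, Q g : Subgroup G) : Set G) := by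
    refine le_norm_of fun s hs y hy => mem_iInf.mpr fun g => ?_
    obtain ⟨a, ha, c, hc, rfl⟩ := mem_sup_nb (inf_le_left.trans (nq (s⁻¹ * g)))
      (mem_iInf.mp hy (s⁻¹ * g))
    have : s * (a * c) * s⁻¹ = (s * a * s⁻¹) * (s * c * s⁻¹) := by group
    rw [this]
    refine mul_mem (mem_sup_left ⟨Normal.conj_mem ‹_› a ha.1 s,
      S.mul_mem (S.mul_mem hs ha.2) (S.inv_mem hs)⟩)
      (mem_sup_right ⟨Normal.conj_mem ‹_› c hc.1 s, mem_centralizer_iff.mpr fun t ht => ?_⟩)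
    have h1 : s⁻¹ * t * s ∈ cj (s⁻¹ * g) T := by
      have := mem_cj.mp ht
      rw [mem_cj]; simpa [mul_assoc] using this
    have := mem_centralizer_iff.mp hc.2 _ h1
    calc t * (s * c * s⁻¹) = s * (s⁻¹ * t * s * c) * s⁻¹ := by group
      _ = s * (c * (s⁻¹ * t * s)) * s⁻¹ := by rw [this]
      _ = _ := by group
  by_cases hP : (⨅ g, Q g) ≤ S
  · exfalso
    apply hne
    rw [eq_bot_iff, ← center_bot hN hc]
    intro x hx
    refine ⟨hx.1, ?_⟩
    have : N ≤ centralizer {x} := by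
      refine le_of_cj hN h fun g' => ?_
      obtain ⟨t, ht, c, hc', e⟩ := decomp hN (h.cj g') hx.1
      have htP : t ∈ ⨅ g, Q g := by
        refine mem_iInf.mpr fun g'' => ?_
        by_cases e' : cj g' T = cj g'' T
        · have : t = x * c⁻¹ := by rw [e]; simp
          rw [this]
          exact mul_mem (mem_sup_left hx) (mem_sup_right (inv_mem (e' ▸ hc')))
        · exact mem_sup_right ⟨(h.cj g').1.2.1 ht, (h.cj g').cent (h.cj g'') e' ht⟩
      have : t ∈ cj g' T ⊓ S := ⟨ht, hP htP⟩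
      rw [hd, mem_bot] at this
      rw [this, one_mul] at e
      intro y hy
      rw [mem_centralizer_singleton_iff, e]
      exact mem_centralizer_iff.mp hc'.2 y hy
    exact mem_centralizer_iff.mpr fun y hy => mem_centralizer_singleton_iff.mp (this hy)
  · have e : S ⊔ (⨅ g, Q g) = ⊤ := hS.2 _ (left_lt_sup.mpr hP)
    intro x hx
    obtain ⟨s, hs, p, hp, rfl⟩ := mem_sup_nb SP (y := x) (by rw [e]; trivial)
    have hp' := mem_iInf.mp hp g
    have : s ∈ N := by
      have := N.mul_mem hx (N.inv_mem (QN g hp'))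
      simpa using this
    exact mul_mem (mem_sup_left ⟨this, hs⟩) hp'

theorem exists_reg [Finite G] {N T S K : Subgroup G} (hN : MN N) (h : Mn N T)
    (hsd : ∀ g, N ≤ (N ⊓ S) ⊔ (N ⊓ centralizer ((cj g T : Subgroup G) : Set G)))
    (hNK : N ≤ K) (hK : ∀ g, K ≤ normalizer ((cj g T : Subgroup G) : Set G)) :
    ∃ R : Subgroup G, R ≤ N ∧ K ≤ normalizer (R : Set G) ∧ R ⊓ S = ⊥ ∧ N ≤ (N ⊓ S) ⊔ R := by
  haveI := hN.1.1
  obtain ⟨R, -, hR⟩ := Finite.exists_le_maximal
    (p := fun X : Subgroup G => X ≤ N ∧ K ≤ normalizer (X : Set G) ∧ X ⊓ S = ⊥) (a := ⊥)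
    ⟨bot_le, le_normalizer_of_normal, by simp⟩
  obtain ⟨⟨h1, h2, h3⟩, hmax⟩ := hR
  refine ⟨R, h1, h2, h3, le_of_cj hN h fun g => ?_⟩
  have hT := h.cj g
  rcases hT.alt (hNK.trans h2) with e | e
  · exact e.trans le_sup_right
  have hne : (R ⊔ cj g T) ⊓ S ≠ ⊥ := by
    intro e'
    have := hmax (y := R ⊔ cj g T) ⟨sup_le h1 hT.1.2.1, (le_inf h2 (hK g)).trans
      (normalizer_inf_normalizer_le_normalizer_sup _ _), e'⟩ le_sup_left
    apply hT.1.1
    rw [← e, eq_comm, inf_eq_left]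
    exact le_sup_right.trans this
  set D := (R ⊔ cj g T) ⊓ S with hD
  have hRT : N ≤ normalizer ((R ⊔ cj g T : Subgroup G) : Set G) :=
    (le_inf (hNK.trans h2) hT.1.2.2).trans (normalizer_inf_normalizer_le_normalizer_sup _ _)
  have DN : D ≤ N := inf_le_left.trans (sup_le h1 hT.1.2.1)
  have TR : cj g T ≤ normalizer (R : Set G) := hT.1.2.1.trans (hNK.trans h2)
  have nE : N ≤ normalizer ((D ⊔ R : Subgroup G) : Set G) := by
    refine (hsd g).trans (sup_le ?_ ?_)
    · refine (le_inf ?_ (inf_le_left.trans (hNK.trans h2))).trans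
        (normalizer_inf_normalizer_le_normalizer_sup _ _)
      exact (inf_le_inf hRT le_normalizer).trans inf_normalizer_le_normalizer_inf
    · refine le_norm_of fun c hc y hy => ?_
      obtain ⟨d, hd, r, hr, rfl⟩ := mem_sup_nb (DN.trans (hNK.trans h2)) hy
      obtain ⟨t, ht, r', hr', e1⟩ := mem_sup_nb TR (y := d) (by rw [sup_comm]; exact hd.1)
      have hct := mem_centralizer_iff.mp hc.2 t ht
      have : c * (d * r) * c⁻¹ = d * (r'⁻¹ * (c * (r' * r) * c⁻¹)) := by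
        rw [e1]
        calc c * (t * r' * r) * c⁻¹ = (c * t) * (r' * r) * c⁻¹ := by group
          _ = (t * c) * (r' * r) * c⁻¹ := by rw [hct]
          _ = _ := by group
      rw [this]
      exact mul_mem (mem_sup_left hd) (mem_sup_right (R.mul_mem (R.inv_mem hr')
        (conj_mem_of (hNK.trans h2) hc.1 (R.mul_mem hr' hr))))
  rcases hT.alt nE with e1 | e1
  · exact e1.trans (sup_le_sup_right (le_inf DN inf_le_right) R)
  · exfalso
    apply hne
    rw [eq_bot_iff, ← h3]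
    intro d hd
    obtain ⟨t, ht, r', hr', e2⟩ := mem_sup_nb TR (y := d) (by rw [sup_comm]; exact hd.1)
    have : t ∈ cj g T ⊓ (D ⊔ R) := by
      refine ⟨ht, ?_⟩
      have : t = d * r'⁻¹ := by rw [e2]; simp
      rw [this]
      exact mul_mem (mem_sup_left hd) (mem_sup_right (R.inv_mem hr'))
    rw [e1, mem_bot] at this
    rw [this, one_mul] at e2
    exact ⟨e2 ▸ hr', hd.2⟩

theorem card_le_sq [Finite G] {N T S R : Subgroup G} (hN : MN N) (h : Mn N T)
    (hcf : S.normalCore = ⊥) (hRN : R ≤ N) (hn : N ≤ normalizer (R : Set G)) (hR : Tr R S)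
    (hd : R ⊓ S = ⊥) : Nat.card N ≤ S.index * S.index := by
  haveI := hN.1.1
  set C := N ⊓ centralizer (R : Set G)
  have h1 : N ≤ R ⊔ C := by
    refine le_of_cj hN h fun g => ?_
    rcases (h.cj g).alt hn with e | e
    · exact e.trans le_sup_left
    · exact (le_inf (h.cj g).1.2.1 (cent_of_disj (h.cj g).1.2.1 hRN (h.cj g).1.2.2 hn e)).trans
        le_sup_right
  have h2 : C ⊓ S = ⊥ := by
    rw [eq_bot_iff]
    intro s hs
    exact semi hcf hR hs.2 fun r hr => (mem_centralizer_iff.mp hs.1.2 r hr).symm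
  have h3 : R ≤ normalizer (C : Set G) :=
    (le_inf le_normalizer_of_normal (norm_cent le_normalizer)).trans
      inf_normalizer_le_normalizer_inf
  have h4 : Nat.card N ≤ Nat.card (R × C) := by
    have : ∀ x : N, ∃ p : R × C, (x : G) = p.1 * p.2 := fun x => by
      obtain ⟨r, hr, c, hc, e⟩ := mem_sup_nb h3 (h1 x.2)
      exact ⟨(⟨r, hr⟩, ⟨c, hc⟩), e⟩
    choose f hf using this
    exact Nat.card_le_card_of_injective f fun x y e => Subtype.ext (by rw [hf x, hf y, e])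
  rw [Nat.card_prod] at h4
  exact h4.trans (Nat.mul_le_mul (card_le_index hd) (card_le_index h2))

theorem prim [Finite G] {S : Subgroup G} (hS : IsCoatom S) (hcf : S.normalCore = ⊥)
    (hd : Nat.card G ∣ S.index.factorial)
    (IH1 : ∀ L : Subgroup G, L.index < S.index → ∀ l, Ch L.normalCore ⊤ l →
      3 * l + 4 ≤ 4 * L.index)
    (IH2 : ∀ l, Ch ⊥ S l → 3 * l + 4 ≤ 4 * S.index) {l : ℕ} (c : Ch (⊥ : Subgroup G) ⊤ l) :
    3 * l + 4 ≤ 4 * S.index := by
  have hn : 2 ≤ S.index := by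
    have h1 : S.index ≠ 0 := index_ne_zero_of_finite
    have h2 : S.index ≠ 1 := fun e => hS.1 (index_eq_one.mp e)
    omega
  obtain ⟨N, -, hN⟩ := Finite.exists_le_minimal
    (p := fun X : Subgroup G => X.Normal ∧ X ≠ ⊥) (a := ⊤)
    ⟨inferInstance, fun e => hS.1 (eq_top_iff.mpr (e.le.trans bot_le))⟩
  change MN N at hN
  haveI := hN.1.1
  have hsup : S ⊔ N = ⊤ := by
    refine hS.2 _ (left_lt_sup.mpr fun e => hN.1.2 ?_)
    rw [eq_bot_iff, ← hcf]
    exact normal_le_normalCore.mpr e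
  have hT := tr_of_sup hsup
  by_cases hne : N ⊓ S = ⊥
  · have h1 := reg_bound (K := ⊤) hcf hT hne le_normalizer_of_normal hn
    have h2 := c.le_omega
    rw [card_top] at h1 h2
    exact num_reg hn Nat.card_pos.ne' hd h1 h2
  have hc : ¬ N ≤ centralizer (N : Set G) := by
    intro e
    apply hne
    rw [eq_bot_iff]
    intro s hs
    exact semi hcf hT hs.2 fun r hr => (mem_centralizer_iff.mp (e hs.1) r hr).symm
  obtain ⟨T, -, h⟩ := Finite.exists_le_minimal
    (p := fun X : Subgroup G => X ≠ ⊥ ∧ X ≤ N ∧ N ≤ normalizer (X : Set G)) (a := N)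
    ⟨hN.1.2, le_rfl, le_normalizer⟩
  change Mn N T at h
  by_cases hall : ∀ g, cj g T ⊓ S ≠ ⊥
  · obtain ⟨l1, l2, hl, c1, c2⟩ := c.split (N := N) le_normalizer_of_normal
    rw [bot_inf_eq, top_inf_eq] at c1
    rw [bot_sup_eq, top_sup_eq] at c2
    obtain ⟨m, hm, c3⟩ := ch_lift hN hc h hall l1 c1
    have c4 := c2.transfer (S := S) le_normalizer_of_normal hsup.ge
    rw [top_inf_eq] at c4
    have := IH2 _ (c3.trans c4)
    omega
  push Not at hall
  obtain ⟨g0, hg0⟩ := hall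
  have hdis : ∀ g, cj g T ⊓ S = ⊥ := fun g => by
    have := cj_disj (h.cj g0) hT hg0 (g * g0⁻¹)
    rwa [cj_cj, inv_mul_cancel_right] at this
  set K := (normalizer (T : Set G)).normalCore with hKdef
  have hK : ∀ g, K ≤ normalizer ((cj g T : Subgroup G) : Set G) := by
    intro g k hk
    rw [← cj_eq_iff, cj_cj]
    have := cj_eq_iff.mpr (hk g⁻¹)
    conv_rhs => rw [← this, cj_cj]
    congr 1; group
  have hNK : N ≤ K := normal_le_normalCore.mpr h.1.2.2
  obtain ⟨R, h1, h2, h3, h4⟩ := exists_reg hN h (subdirect hN hc h hS hdis hne) hNK hK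
  have hR : Tr R S := by
    intro g
    obtain ⟨n, hn, s, hs, rfl⟩ := hT g
    obtain ⟨a, ha, r, hr, e⟩ := mem_sup_nb (inf_le_left.trans (hNK.trans h2))
      (h4 (N.inv_mem hn))
    refine ⟨r⁻¹, R.inv_mem hr, a⁻¹ * s, S.mul_mem (S.inv_mem ha.2) hs, ?_⟩
    rw [← mul_assoc, ← mul_inv_rev, ← e, inv_inv]
  have b1 := reg_bound hcf hR h3 h2 hn
  have b2 := (four_pow_le hN hc h).trans (card_le_sq hN h hcf h1 (hNK.trans h2) hR h3)
  have b3 := ((h.cj 1).card_ge hN hc).trans (card_le_index (hdis 1))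
  obtain ⟨l1, l2, hl, c1, c2⟩ := c.split (N := K) le_normalizer_of_normal
  rw [bot_inf_eq, top_inf_eq] at c1
  rw [bot_sup_eq, top_sup_eq] at c2
  obtain ⟨n1, n2⟩ := num_diag b3 c1.two_pow_le b1 b2
  have := IH1 _ n2 l2 c2
  omega

end CA.H7Len
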