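import Cfsg.Agent.Lib.Grp.H7Lge2

/-!
Large extraspecial 2-subgroups: singular subspaces.
-/

set_option autoImplicit false
set_option linter.unusedSectionVars false

namespace CA.H7Lge

open Subgroup Cfsg CA.BG CA.BG4
open scoped commutatorElement

variable {G : Type*} [Group G] [Finite G] {Q : G → Subgroup G} {U : Subgroup G} {z x y g u : G}

/-- an elementary abelian group of pairwise orthogonal singular involutions -/
structure Sing (Q : G → Subgroup G) (U : Subgroup G) : Prop where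
  ex : ∀ u ∈ U, u ≠ 1 → EX (Q u) u
  le : ∀ u ∈ U, u ≠ 1 → U ≤ Q u
  cj : ∀ g x, Q (g * x * g⁻¹) = BG.cj g (Q x)
  sq : ∀ u ∈ U, u * u = 1

theorem sing_of (hQ : ∀ x : G, Q x = (pCore 2 𝓒₁(x)).map 𝓒₁(x).subtype) (hz : orderOf z = 2)
    (hE : IsExtraspecial 2 (Q z)) (hC : 𝓒(Q z) ≤ Q z) (hU2 : ∀ u ∈ U, u * u = 1)
    (hS : ∀ u ∈ U, u ≠ 1 → ∃ g : G, g * z * g⁻¹ = u)
    (hO : ∀ u ∈ U, ∀ v ∈ U, u ≠ 1 → v ≠ 1 → v ∈ Q u) : Sing Q U := by
  have e : ∀ x, Q x = 𝓞({2}, 𝓒₁(x)) := fun x => (hQ x).trans (core_p_eq Nat.prime_two _).symm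
  have h1 : Q z ≤ 𝓒₁(z) := e z ▸ core_le _ _
  have h := EX.of_mem hE ⟨hC (le_cent1_iff.1 h1), le_cent1_iff.1 h1⟩ (by rintro rfl; simp at hz)
  have h2 : ∀ g x, Q (g * x * g⁻¹) = BG.cj g (Q x) := fun g x => by rw [e, e, cj_core, cj_cent1]
  refine ⟨fun u hu u1 => ?_, fun u hu u1 v hv => ?_, h2, hU2⟩
  · obtain ⟨g, rfl⟩ := hS u hu u1
    exact h2 g z ▸ h.cj g
  · by_cases v1 : v = 1
    · exact v1 ▸ one_mem _
    · exact hO u hu v hv u1 v1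

namespace Sing

variable (h : Sing Q U)
include h

theorem norm (hu : u ∈ U) (u1 : u ≠ 1) : Q u ≤ 𝓝(U) := (h.ex u hu u1).norm_of hu (h.le u hu u1)

theorem normL : ⨆ u ∈ ((U : Set G) \ {1}), Q u ≤ 𝓝(U) := iSup₂_le fun _ hu => h.norm hu.1 hu.2

theorem comm {a b : G} (ha : a ∈ U) (hb : b ∈ U) : a * b = b * a := by
  have := h.sq _ (mul_mem ha hb)
  rwa [mul_eq_one_iff_eq_inv, mul_inv_rev, inv_eq (h.sq _ ha), inv_eq (h.sq _ hb)] at this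

theorem mem_mul {a b : G} (ha : a ∈ U) (hb : b ∈ U) (a1 : a ≠ 1) (b1 : b ≠ 1) (ab : a * b ≠ 1)
    (h1 : x ∈ Q a) (h2 : x ∈ Q b) : x ∈ Q (a * b) := by
  have e := h.ex a ha a1
  obtain ⟨q, hq, k⟩ := e.exists_conj (h.le a ha a1 hb) (h.sq b hb) fun k => by
    rcases e.mem_iff.1 k with k | k
    · exact b1 k
    · exact ab (k ▸ e.sq)
  have h3 : q * x * q⁻¹ ∈ Q (a * b) := by rw [h.comm ha hb, ← k, h.cj]; exact mem_cj'.2 ⟨x, h2, rfl⟩
  rcases e.conj_or hq h1 with k | k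
  · rwa [k, mul_inv_cancel_right] at h3
  · rwa [k, mul_mem_cancel_right (h.le _ (mul_mem ha hb) ab ha)] at h3

theorem iInf_eq {T : Set G} (hT : closure T = U) (hT1 : (1 : G) ∉ T) :
    ⨅ u ∈ ((U : Set G) \ {1}), Q u = ⨅ t ∈ T, Q t := by
  refine le_antisymm (le_iInf₂ fun t ht => iInf₂_le t ⟨hT ▸ subset_closure ht, fun e => hT1 (e ▸ ht)⟩)
    fun x hx => mem_iInf.2 fun u => mem_iInf.2 fun hu => ?_
  have : ∀ u ∈ closure T, u = 1 ∨ x ∈ Q u := fun u hu => by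
    induction hu using closure_induction with
    | mem t ht => exact .inr (mem_iInf.1 (mem_iInf.1 hx t) ht)
    | one => exact .inl rfl
    | mul a b ha hb ka kb =>
      by_cases a1 : a = 1
      · rwa [a1, one_mul]
      by_cases b1 : b = 1
      · rwa [b1, mul_one]
      by_cases ab : a * b = 1
      · exact .inl ab
      · exact .inr (h.mem_mul (hT ▸ ha) (hT ▸ hb) a1 b1 ab (ka.resolve_left a1) (kb.resolve_left b1))
    | inv a ha ka => rwa [inv_eq (h.sq a (hT ▸ ha))]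
  exact (this u (hT ▸ hu.1)).resolve_left hu.2

theorem comm_mem (hg : g ∈ ⨆ u ∈ ((U : Set G) \ {1}), Q u) (hx : x ∈ ⨅ u ∈ ((U : Set G) \ {1}), Q u) :
    ⁅g, x⁆ ∈ U :=
  (mem_cmod.1 ((iSup₂_le fun u hu a ha => mem_cmod.2 ⟨h.norm hu.1 hu.2 ha, zpowers_le.2 hu.1
    ((h.ex u hu.1 hu.2).comm ha (mem_iInf.1 (mem_iInf.1 hx u) hu))⟩ :
      _ ≤ cmod 𝓝(U) U le_rfl x) hg)).2

theorem induces (φ : U ≃* U) :
    ∃ g ∈ ⨆ u ∈ ((U : Set G) \ {1}), Q u, ∀ u : U, g * (u : G) * g⁻¹ = φ u := by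
  suffices H : ∀ K : Subgroup G, K ≤ U → ∀ φ : U ≃* U, (∀ k : U, (k : G) ∈ K → φ k = k) →
      ∃ g ∈ ⨆ u ∈ ((U : Set G) \ {1}), Q u, ∀ u : U, g * (u : G) * g⁻¹ = φ u from
    H ⊥ bot_le φ fun k hk => by rw [show k = 1 from Subtype.ext hk, map_one]
  intro K
  induction K using WellFoundedGT.induction with
  | _ K ih =>
  intro hK φ hφ
  by_cases h0 : U ≤ K
  · exact ⟨1, one_mem _, fun u => by rw [hφ u (h0 u.2)]; group⟩
  obtain ⟨y, hy, hyK⟩ := SetLike.not_le_iff_exists.1 h0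
  have c : ∀ A B : Subgroup G, A ≤ U → B ≤ U → A ≤ 𝓝(B) := fun A B hA hB =>
    le_trans (fun a ha => mem_cent.2 fun b hb => h.comm (hB hb) (hA ha)) (cent_le_norm B)
  have hlt : K < K ⊔ zpowers y := left_lt_sup.2 (mt zpowers_le.1 hyK)
  have hle : K ⊔ zpowers y ≤ U := sup_le hK (zpowers_le.2 hy)
  have st : ∀ ψ : U ≃* U, (∀ k : U, (k : G) ∈ K → ψ k = k) → ψ ⟨y, hy⟩ = ⟨y, hy⟩ →
      ∀ k : U, (k : G) ∈ K ⊔ zpowers y → ψ k = k := fun ψ k1 k2 k hk => by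
    obtain ⟨a, ha, b, hb, e⟩ := (mem_sup_norm (c _ _ hK (zpowers_le.2 hy))).1 hk
    obtain rfl : k = ⟨a, hK ha⟩ * ⟨b, zpowers_le.2 hy hb⟩ := Subtype.ext e.symm
    rw [map_mul, k1 _ ha]
    rcases (mem_two (h.sq y hy)).1 hb with rfl | rfl
    · exact congrArg _ (map_one ψ)
    · rw [k2]
  by_cases h1 : φ ⟨y, hy⟩ = ⟨y, hy⟩
  · exact ih _ hlt hle φ (st φ hφ h1)
  set w : G := y * φ ⟨y, hy⟩ with hw
  have w0 : w ∈ U := mul_mem hy (φ _).2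
  have w1 : w ≠ 1 := fun e => h1 (Subtype.ext (by
    rw [eq_inv_of_mul_eq_one_right e, inv_eq (h.sq y hy)]))
  have e := h.ex w w0 w1
  obtain ⟨q, hq, k⟩ := e.exists_cent (K := K ⊔ zpowers w) (mem_sup_right (mem_zpowers w))
    ((sup_le hK (zpowers_le.2 w0)).trans (h.le w w0 w1)) (h.le w w0 w1 hy) fun k => by
      obtain ⟨a, ha, b, hb, k⟩ := (mem_sup_norm (c _ _ hK (zpowers_le.2 w0))).1 k
      rcases e.mem_iff.1 hb with rfl | rfl
      · exact hyK (k ▸ mul_mem ha (one_mem _))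
      · rw [hw, ← mul_assoc, h.comm (hK ha) hy, mul_assoc, mul_eq_left] at k
        have k1 : φ ⟨y, hy⟩ = ⟨a⁻¹, inv_mem (hK ha)⟩ := Subtype.ext (eq_inv_of_mul_eq_one_right k)
        rw [← hφ ⟨a⁻¹, _⟩ (inv_mem ha)] at k1
        exact hyK ((show y = a⁻¹ from congrArg Subtype.val (φ.injective k1)) ▸ inv_mem ha)
  rw [hw, ← mul_assoc y, h.sq y hy, one_mul] at k
  let ν := U.normalizerMonoidHom ⟨q, h.norm w0 w1 hq.1⟩
  have hν : ∀ a : U, (ν a : G) = q * a * q⁻¹ := fun a => rfl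
  obtain ⟨g, hg, k1⟩ := ih _ hlt hle (φ.trans ν.symm) (st _ (fun a ha => by
    rw [MulEquiv.trans_apply, hφ a ha, MulEquiv.symm_apply_eq]
    exact Subtype.ext (by rw [hν, ← mem_cent.1 hq.2 _ (mem_sup_left ha), mul_inv_cancel_right]))
    (by rw [MulEquiv.trans_apply, MulEquiv.symm_apply_eq]; exact Subtype.ext k.symm))
  refine ⟨q * g, mul_mem (mem_iSup_of_mem w (mem_iSup_of_mem ⟨w0, w1⟩ hq.1)) hg, fun a => ?_⟩
  rw [show q * g * a * (q * g)⁻¹ = q * (g * a * g⁻¹) * q⁻¹ by group, k1, ← hν]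
  simp

end Sing

end CA.H7Lge
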