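import Cfsg.Agent.Lib.Grp.H12PSolv
import Cfsg.Agent.Lib.Grp.Fus3
import Cfsg.Agent.Lib.Grp.Subn
import Cfsg.Agent.Lib.Grp.Coprime

/-!
Groups that are (p-nilpotent)-by-(p-nilpotent): closure properties, and the theorem that a
p-solvable group whose maximal subgroups are p-nilpotent or of prime index is of this kind.
-/

set_option autoImplicit false

namespace CA.H7PNil

open Subgroup Cfsg CA.PRes CA.SylIn

universe u

variable {p : ℕ} [hp : Fact p.Prime]

theorem npc_of_two {G H₁ H₂ : Type*} [Group G] [Group H₁] [Group H₂] [Finite G] [Finite H₁]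
    [Finite H₂] (f₁ : G →* H₁) (f₂ : G →* H₂) (h : ∀ x, f₁ x = 1 → f₂ x = 1 → x = 1)
    (h₁ : HasNormalPComplement p H₁) (h₂ : HasNormalPComplement p H₂) :
    HasNormalPComplement p G := by
  rw [hasNPC_iff_mul] at h₁ h₂ ⊢
  intro x y hx hy
  have e₁ := h₁ _ _ (hx.coprime_dvd_left (orderOf_map_dvd f₁ x))
    (hy.coprime_dvd_left (orderOf_map_dvd f₁ y))
  have e₂ := h₂ _ _ (hx.coprime_dvd_left (orderOf_map_dvd f₂ x))
    (hy.coprime_dvd_left (orderOf_map_dvd f₂ y))
  rw [← map_mul] at e₁ e₂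
  refine (e₁.mul_left e₂).coprime_dvd_left (orderOf_dvd_of_pow_eq_one (h _ ?_ ?_))
  · rw [map_pow, pow_mul, pow_orderOf_eq_one, one_pow]
  · rw [map_pow, mul_comm, pow_mul, pow_orderOf_eq_one, one_pow]

/-- Frattini argument for normal `p`-complements. -/
theorem npc_comap_frattini {G H : Type*} [Group G] [Group H] [Finite G] [Finite H] (f : G →* H)
    (hf : Function.Surjective f) (hN : IsPGroup p f.ker) (hΦ : f.ker ≤ frattini G)
    (K : Subgroup H) [K.Normal] (hK : HasNormalPComplement p K) :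
    HasNormalPComplement p (K.comap f) := by
  let L' : Subgroup H := (pResidual p K).map K.subtype
  haveI : L'.Normal := inferInstance
  let L : Subgroup G := L'.comap f
  have hNL : f.ker ≤ L := ker_le_comap f L'
  have hL' : (Nat.card L').Coprime p := by
    rw [card_subtype]
    exact coprime_iff_not_dvd.2 (hasNPC_iff_not_dvd.1 hK)
  have hi : (f.ker.subgroupOf L).index = Nat.card L' := by
    show f.ker.relIndex L = _
    rw [← MonoidHom.comap_bot, relIndex_comap, map_comap_eq_self_of_surjective hf, relIndex_bot_left]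
  obtain ⟨k, hk⟩ := hN.exists_card_eq
  obtain ⟨Q', hQ'⟩ := exists_right_complement'_of_coprime (N := f.ker.subgroupOf L) (by
    rw [hi, CA.Coprime.card_subgroupOf hNL, hk]
    exact hL'.symm.pow_left k)
  let Q : Subgroup G := Q'.map L.subtype
  have hQ : (Nat.card Q).Coprime p := by
    rw [card_subtype, ← hQ'.symm.index_eq_card, hi]
    exact hL'
  have hQc : (Nat.card Q).Coprime (Nat.card f.ker) := by
    rw [hk]
    exact hQ.pow_right k
  have hsup : L ≤ Q ⊔ f.ker := fun x hx => by
    obtain ⟨⟨a, b⟩, e⟩ := hQ'.2 ⟨x, hx⟩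
    have e' : ((a : L) : G) * ((b : L) : G) = x := congrArg Subtype.val e
    rw [← e']
    exact mul_mem (mem_sup_right a.2) (mem_sup_left ⟨_, b.2, rfl⟩)
  have hn : normalizer (Q : Set G) = ⊤ := by
    refine CA.Fitting.eq_top_of_sup_le_frattini hΦ (eq_top_iff.2 fun g _ => ?_)
    obtain ⟨c, hc, h⟩ := CA.Coprime.exists_conj_mem (A := Q) (K := f.ker) (B := g •ᶜ Q)
      le_normalizer_of_normal hQc
      (((conj_mono g (map_subtype_le Q')).trans (conj_eq_of_normal g L).le).trans hsup)
      (by rwa [card_conj]) (Or.inr (Or.inr (CA.Core.isSolvable_of_isPGroup hN)))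
    have : c * g ∈ normalizer (Q : Set G) := mem_normalizer_of_forall fun x hx => by
      have := h _ (conj_mem_conj.2 hx)
      simpa [mul_assoc] using this
    have e : g = c⁻¹ * (c * g) := by group
    rw [e]
    exact mul_mem (mem_sup_right (inv_mem hc)) (mem_sup_left this)
  have hm : ∀ x : K.comap f, (orderOf x).Coprime p → (x : G) ∈ Q := fun x hx => by
    have hx' : (orderOf (x : G)).Coprime p := by simpa using hx
    refine CA.Fus3.mem_of_coprime_of_mem_sup hN (by rw [hn]; exact le_top) ?_ hx'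
    rw [sup_comm]
    exact hsup (mem_map_pResidual_of_coprime x.2 (hx'.coprime_dvd_left (orderOf_map_dvd f _)))
  rw [hasNPC_iff_mul]
  intro x y hx hy
  have := Q.orderOf_dvd_natCard (Q.mul_mem (hm x hx) (hm y hy))
  rw [← coe_mul, orderOf_coe] at this
  exact hQ.coprime_dvd_left this

/-- `G` is an extension of a `p`-nilpotent group by a `p`-nilpotent group. -/
def NN (p : ℕ) (G : Type u) [Group G] : Prop :=
  ∃ (H : Type u) (_ : Group H) (_ : Finite H) (f : G →* H),
    HasNormalPComplement p H ∧ HasNormalPComplement p f.ker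

theorem NN.two {G : Type u} [Group G] [Finite G] (A B : Subgroup G) [A.Normal] [B.Normal]
    (h : A ⊓ B = ⊥) (hA : NN p (G ⧸ A)) (hB : NN p (G ⧸ B)) : NN p G := by
  obtain ⟨H₁, _, _, f₁, h₁, k₁⟩ := hA
  obtain ⟨H₂, _, _, f₂, h₂, k₂⟩ := hB
  let f := (f₁.comp (QuotientGroup.mk' A)).prod (f₂.comp (QuotientGroup.mk' B))
  refine ⟨H₁ × H₂, inferInstance, inferInstance, f,
    npc_of_two (MonoidHom.fst _ _) (MonoidHom.snd _ _) (fun x a b => Prod.ext a b) h₁ h₂, ?_⟩
  refine npc_of_two
    (((QuotientGroup.mk' A).comp f.ker.subtype).codRestrict f₁.ker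
      fun x => congrArg Prod.fst (MonoidHom.mem_ker.1 x.2))
    (((QuotientGroup.mk' B).comp f.ker.subtype).codRestrict f₂.ker
      fun x => congrArg Prod.snd (MonoidHom.mem_ker.1 x.2)) (fun x a b => ?_) k₁ k₂
  have : (x : G) ∈ A ⊓ B := ⟨(QuotientGroup.eq_one_iff _).1 (congrArg Subtype.val a),
    (QuotientGroup.eq_one_iff _).1 (congrArg Subtype.val b)⟩
  rw [h] at this
  exact Subtype.ext this

theorem NN.chain {G : Type u} [Group G] [Finite G] (h : NN p G) :
    ∃ A B C : Subgroup G, A.Normal ∧ B.Normal ∧ C.Normal ∧ A ≤ B ∧ B ≤ C ∧ ¬ p ∣ Nat.card A ∧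
      (∃ k : ℕ, A.relIndex B = p ^ k) ∧ ¬ p ∣ B.relIndex C ∧ ∃ k : ℕ, C.index = p ^ k := by
  obtain ⟨H, _, _, f, h₁, h₂⟩ := h
  refine ⟨(pResidual p f.ker).map f.ker.subtype, f.ker, (pResidual p H).comap f, inferInstance,
    inferInstance, inferInstance, map_subtype_le _, ker_le_comap _ _, ?_, ?_, ?_, ?_⟩
  · rw [card_subtype]
    exact hasNPC_iff_not_dvd.1 h₂
  · rw [relIndex, subgroupOf, comap_map_eq_self_of_injective f.ker.subtype_injective]
    exact exists_index_pResidual_eq p _
  · rw [← MonoidHom.comap_bot, relIndex_comap, relIndex_bot_left]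
    exact fun hd => hasNPC_iff_not_dvd.1 h₁ (hd.trans (card_dvd_of_le (map_comap_le _ _)))
  · obtain ⟨k, hk⟩ := exists_index_pResidual_eq p H
    have : ((pResidual p H).comap f).index ∣ p ^ k := by
      rw [index_comap, ← hk]
      exact relIndex_dvd_index_of_normal _ _
    obtain ⟨j, -, hj⟩ := (Nat.dvd_prime_pow hp.out).1 this
    exact ⟨j, hj⟩

theorem nn_aux (n : ℕ) : ∀ (G : Type u) [Group G] [Finite G], Nat.card G = n → IsPSolvable p G →
    (∀ M : Subgroup G, IsCoatom M → HasNormalPComplement p M ∨ M.index.Prime) → NN p G := by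
  induction n using Nat.strong_induction_on with
  | _ n ih =>
  intro G _ _ hn hs hmax
  have hq : ∀ (N : Subgroup G) [N.Normal], N ≠ ⊥ → NN p (G ⧸ N) := by
    intro N _ hN
    refine ih _ ?_ (G ⧸ N) rfl (CA.H12PSolv.psolv_quotient hs N) fun M hM => ?_
    · rw [← hn, ← N.card_mul_index]
      exact lt_mul_of_one_lt_left Nat.card_pos ((one_lt_card_iff_ne_bot N).2 hN)
    · rcases hmax _ (isCoatom_comap_of_surjective (QuotientGroup.mk'_surjective N) hM) with h | h
      · left
        have := hasNPC_map h (QuotientGroup.mk' N)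
        rwa [map_comap_eq_self_of_surjective (QuotientGroup.mk'_surjective N)] at this
      · right
        rwa [index_comap_of_surjective _ (QuotientGroup.mk'_surjective N)] at h
  by_cases h0 : (⊤ : Subgroup G) = ⊥
  · have : ¬ p ∣ Nat.card G := by
      rw [← card_top, h0, card_bot]
      exact hp.out.not_dvd_one
    exact ⟨G, inferInstance, inferInstance, MonoidHom.id G, hasNPC_of_not_dvd this,
      hasNPC_subgroup (hasNPC_of_not_dvd this) _⟩
  rcases (CA.H12PSolv.core_ne_bot hs h0).symm with h1 | h1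
  · rw [top_inf_eq] at h1
    obtain ⟨H, _, _, f, h₁, h₂⟩ := hq _ h1
    refine ⟨H, inferInstance, inferInstance, f.comp (QuotientGroup.mk' _), h₁, ?_⟩
    refine hasNPC_of_surjective_of_ker
      (((QuotientGroup.mk' _).comp (Subgroup.subtype _)).codRestrict f.ker fun x => x.2) ?_ ?_ h₂
    · rintro ⟨y, hy⟩
      obtain ⟨x, rfl⟩ := QuotientGroup.mk'_surjective _ y
      exact ⟨⟨x, hy⟩, rfl⟩
    · intro hd
      obtain ⟨⟨x, hx⟩, ho⟩ := exists_prime_orderOf_dvd_card' p hd
      have h3 : (x : G) ∈ pPrimeCore p G :=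
        (QuotientGroup.eq_one_iff _).1 (congrArg Subtype.val (MonoidHom.mem_ker.1 hx))
      have h4 := (pPrimeCore p G).orderOf_dvd_natCard h3
      have h5 : orderOf (x : G) = p := by rw [orderOf_coe]; simpa using ho
      rw [h5] at h4
      exact coprime_iff_not_dvd.1 CA.Core.coprime_pPrimeCore h4
  rw [top_inf_eq] at h1
  obtain ⟨N, hNO, hN1, _, hmin⟩ := CA.Subn.exists_minimal_normal h1
  have hN : IsPGroup p N := CA.Core.isPGroup_pCore.to_le hNO
  have hab := (CA.Subn.elemAb_of_minimal_normal (CA.Core.isSolvable_of_isPGroup hN) hN1 hmin).1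
  by_cases hΦ : N ≤ frattini G
  · obtain ⟨H, _, _, f, h₁, h₂⟩ := hq _ hN1
    refine ⟨H, inferInstance, inferInstance, f.comp (QuotientGroup.mk' _), h₁, ?_⟩
    exact npc_comap_frattini (QuotientGroup.mk' N) (QuotientGroup.mk'_surjective N)
      (by rwa [QuotientGroup.ker_mk']) (by rwa [QuotientGroup.ker_mk']) f.ker h₂
  obtain ⟨M, hM, hNM⟩ : ∃ M : Subgroup G, IsCoatom M ∧ ¬ N ≤ M := by
    by_contra hc
    push Not at hc
    exact hΦ (le_iInf₂ hc)
  have hsup : N ⊔ M = ⊤ := hM.2 _ (lt_of_le_of_ne le_sup_right fun h => hNM (h ▸ le_sup_left))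
  have hnrm : ∀ X : Subgroup G, X.Normal → X ≤ centralizer (N : Set G) → (X ⊓ M).Normal := by
    intro X _ hX
    rw [← normalizer_eq_top_iff, eq_top_iff, ← hsup]
    refine sup_le ?_ (CA.Coprime.inf_le_normalizer_inf le_normalizer_of_normal le_normalizer)
    exact (le_centralizer_iff.1 (inf_le_left.trans hX)).trans (centralizer_le_normalizer _)
  have hinf : N ⊓ M = ⊥ := (hmin _ (hnrm N inferInstance (le_centralizer_iff_isMulCommutative.2 hab))
    inf_le_left).resolve_right fun h => hNM (h ▸ inf_le_right)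
  have key : HasNormalPComplement p M → NN p G := fun h => by
    refine ⟨G ⧸ N, inferInstance, inferInstance, QuotientGroup.mk' N, ?_, ?_⟩
    · refine hasNPC_of_surjective h ((QuotientGroup.mk' N).comp M.subtype) fun y => ?_
      obtain ⟨x, rfl⟩ := QuotientGroup.mk'_surjective _ y
      obtain ⟨a, ha, b, hb, rfl⟩ := (CA.Rad.mem_sup_iff_of_le_normalizer'
        (le_normalizer_of_normal : M ≤ normalizer (N : Set G))).1 (hsup ▸ mem_top x)
      exact ⟨⟨b, hb⟩, by simp [(QuotientGroup.eq_one_iff a).2 ha]⟩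
    · rw [QuotientGroup.ker_mk']
      exact hasNPC_of_isPGroup hN
  rcases hmax M hM with h | h
  · exact key h
  have hcard : Nat.card N = p := by
    have e := CA.Coprime.card_sup_of_disjoint
      (le_normalizer_of_normal : M ≤ normalizer (N : Set G)) (disjoint_iff.2 hinf)
    rw [sup_comm, hsup, card_top, ← M.card_mul_index] at e
    have e2 := Nat.eq_of_mul_eq_mul_left Nat.card_pos e
    obtain ⟨k, hk⟩ := hN.exists_card_eq
    rw [e2, hk] at h
    rw [hk, (Nat.Prime.pow_eq_iff h).1 rfl |>.2, pow_one]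
  by_cases hC : centralizer (N : Set G) ⊓ M = ⊥
  · refine key (hasNPC_of_not_dvd fun hd => ?_)
    haveI : IsCyclic N := isCyclic_of_prime_card hcard
    have hi : Function.Injective ((MulAut.conjNormal (H := N)).comp M.subtype) := by
      rw [injective_iff_map_eq_one]
      intro x hx
      have : (x : G) ∈ centralizer (N : Set G) ⊓ M := ⟨mem_centralizer_iff.2 fun y hy => by
        have := congrArg Subtype.val (DFunLike.congr_fun hx ⟨y, hy⟩)
        simp only [MonoidHom.comp_apply, MulAut.conjNormal_apply, coe_subtype,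
          MulAut.one_apply] at this
        exact (mul_inv_eq_iff_eq_mul.1 this).symm, x.2⟩
      rw [hC] at this
      exact Subtype.ext this
    have := hd.trans (card_dvd_of_injective _ hi)
    rw [IsCyclic.card_mulAut, hcard, Nat.totient_prime hp.out] at this
    have h2 := hp.out.two_le
    have := Nat.le_of_dvd (by omega) this
    omega
  · haveI := hnrm _ inferInstance le_rfl
    refine NN.two N _ ?_ (hq _ hN1) (hq _ hC)
    rw [eq_bot_iff, ← hinf]
    exact inf_le_inf_left _ inf_le_right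

theorem chain {G : Type u} [Group G] [Finite G] (hs : IsPSolvable p G)
    (hmax : ∀ M : Subgroup G, IsCoatom M → (∃ K : Subgroup M, K.Normal ∧ ¬ p ∣ Nat.card K ∧
      ∃ k : ℕ, K.index = p ^ k) ∨ M.index.Prime) :
    ∃ A B C : Subgroup G, A.Normal ∧ B.Normal ∧ C.Normal ∧ A ≤ B ∧ B ≤ C ∧ ¬ p ∣ Nat.card A ∧
      (∃ k : ℕ, A.relIndex B = p ^ k) ∧ ¬ p ∣ B.relIndex C ∧ ∃ k : ℕ, C.index = p ^ k :=
  (nn_aux _ G rfl hs fun M hM => (hmax M hM).imp_left fun ⟨K, _, h1, _, h2⟩ =>
    hasNPC_of_normal K h1 (IsPGroup.of_card h2)).chain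

end CA.H7PNil
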