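import Cfsg.Agent.Lib.Odd.BG1b
import Cfsg.Prelude.Def_HallClasses

/-! Pronormal subgroups: images, preimages, and groups whose Sylow overgroups are pronormal. -/

set_option autoImplicit false
set_option linter.unusedSectionVars false

namespace CA.H7Pron

open CA.BG Subgroup Cfsg

variable {G : Type*} [Group G] {G' : Type*} [Group G'] {H K N : Subgroup G} {g l n : G}

/-- `H` and its conjugate by `g` are conjugate in the subgroup they generate. -/
def Good (H : Subgroup G) (g : G) : Prop := ∃ x ∈ H ⊔ cj g H, cj g H = cj x H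

theorem pron_iff : IsPronormal H ↔ ∀ g, Good H g := Iff.rfl

theorem Good.of_mul (hl : l ∈ H ⊔ cj g H) (h : Good H (l⁻¹ * g)) : Good H g := by
  obtain ⟨w, hw, e⟩ := h
  refine ⟨l * w, mul_mem hl ((sup_le le_sup_left ?_ : H ⊔ cj (l⁻¹ * g) H ≤ _) hw), ?_⟩
  · rw [cj_mul]; exact cj_le_of_mem (inv_mem hl) le_sup_right
  · rw [cj_mul, ← e, ← cj_mul, mul_inv_cancel_left]

theorem Good.mul_norm (h : Good H g) (hn : n ∈ 𝓝(H)) : Good H (g * n) := by
  rwa [Good, cj_mul, cj_of_mem_norm hn]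

theorem Good.exists_norm (h : Good H g) : ∃ x ∈ H ⊔ cj g H, x⁻¹ * g ∈ 𝓝(H) := by
  obtain ⟨x, hx, e⟩ := h
  exact ⟨x, hx, mem_norm_iff_cj.2 (by rw [cj_mul, e, cj_inv_cj])⟩

theorem map_cj (f : G →* G') (g : G) (H : Subgroup G) : (cj g H).map f = cj (f g) (H.map f) := by
  rw [cj, cj, map_map, map_map]
  congr 1
  ext x
  simp

theorem Good.map (h : Good H g) (f : G →* G') : Good (H.map f) (f g) := by
  obtain ⟨x, hx, e⟩ := h
  refine ⟨f x, ?_, by rw [← map_cj, e, map_cj]⟩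
  rw [← map_cj, ← Subgroup.map_sup]
  exact mem_map_of_mem f hx

theorem Good.of_map (f : G →* G') (hk : f.ker ≤ H) (h : Good (H.map f) (f g)) : Good H g := by
  obtain ⟨y, hy, e⟩ := h
  rw [← map_cj, ← Subgroup.map_sup] at hy
  obtain ⟨x, hx, rfl⟩ := hy
  have h1 : ∀ z : G, f.ker ≤ cj z H := fun z k hk' =>
    mem_cj.2 (hk (Normal.conj_mem' inferInstance k hk' z))
  refine ⟨x, hx, ?_⟩
  rw [← map_cj, ← map_cj] at e
  rw [← comap_map_eq_self (h1 g), e, comap_map_eq_self (h1 x)]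

theorem pron_cj (h : IsPronormal H) (a : G) : IsPronormal (cj a H) := fun g => by
  have := (pron_iff.1 h (a⁻¹ * g * a)).map (MulAut.conj a).toMonoidHom
  rwa [show (MulAut.conj a).toMonoidHom (a⁻¹ * g * a) = g by simp [mul_assoc]] at this

theorem pron_sub_iff (h : H ≤ K) : IsPronormal (H.subgroupOf K) ↔ ∀ g ∈ K, Good H g := by
  refine ⟨fun h1 g hg => ?_, fun h1 g => Good.of_map K.subtype (by simp) ?_⟩
  · have := (pron_iff.1 h1 ⟨g, hg⟩).map K.subtype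
    rwa [map_subgroupOf_eq_of_le h] at this
  · rw [map_subgroupOf_eq_of_le h]
    exact h1 g g.2

/-- All overgroups of Sylow `p`-subgroups are pronormal. -/
def XP (p : ℕ) (G : Type*) [Group G] : Prop :=
  ∀ K : Subgroup G, (∃ P : Sylow p G, (P : Subgroup G) ≤ K) → IsPronormal K

variable [Finite G] {p : ℕ} [hp : Fact p.Prime]

theorem XP.quot (h : XP p G) (N : Subgroup G) [N.Normal] : XP p (G ⧸ N) := by
  rintro K ⟨Q, hQ⟩ y
  obtain ⟨P, rfl⟩ := Sylow.mapSurjective_surjective (QuotientGroup.mk'_surjective N) p Q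
  obtain ⟨g, rfl⟩ := QuotientGroup.mk'_surjective N y
  have := (pron_iff.1 (h _ ⟨P, map_le_iff_le_comap.1 hQ⟩) g).map (QuotientGroup.mk' N)
  rwa [map_comap_eq_self_of_surjective (QuotientGroup.mk'_surjective N)] at this

theorem XP.of_quot [N.Normal] (hN : IsPGroup p N) (h : XP p (G ⧸ N)) : XP p G := by
  rintro K ⟨P, hP⟩ g
  refine Good.of_map (QuotientGroup.mk' N) ?_
    (h _ ⟨P.mapSurjective (QuotientGroup.mk'_surjective N), map_mono hP⟩ _)
  rw [QuotientGroup.ker_mk']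
  exact (hN.le_sylow_of_normal P).trans hP

theorem xp_sub_iff : XP p N ↔ ∀ M P, Syl p P N → P ≤ M → M ≤ N → ∀ g ∈ N, Good M g := by
  constructor
  · intro h M P hP h1 h2
    obtain ⟨S, rfl⟩ := hP.exists_sylow hp.out
    exact (pron_sub_iff h2).1 (h _ ⟨S, map_le_iff_le_comap.1 h1⟩)
  · rintro h K ⟨S, hS⟩
    rw [← subgroupOf_map_subtype' K]
    exact (pron_sub_iff (map_subtype_le _)).2
      (h _ _ (syl_map hp.out S) (map_mono hS) (map_subtype_le _))
where subgroupOf_map_subtype' (K : Subgroup N) : (K.map N.subtype).subgroupOf N = K :=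
  comap_map_eq_self_of_injective N.subtype_injective K

theorem good_of_mem {A T P : Subgroup G} [A.Normal] (hA : XP p A) (hT : XP p 𝓝(T))
    (hP : Syl p P ⊤) (hPT : P ⊓ A = T) (hPH : P ≤ H) (hg : g ∈ H ⊔ A) : Good H g := by
  have hTA : Syl p T A := hPT ▸ hP.inf_normal le_top (top_le_norm A _)
  have hTH : T ≤ H := hPT ▸ inf_le_left.trans hPH
  have hPN : P ≤ 𝓝(T) := hPT ▸ norm_inf (le_norm_self P) (top_le_norm A _)
  have hM := xp_sub_iff.1 hT (H ⊓ 𝓝(T)) P (hP.of_le hPN le_top) (le_inf hPH hPN) inf_le_right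
  have hcA : ∀ x : G, cj x A = A := fun x => cj_of_mem_norm (top_le_norm A ⊤ (mem_top x))
  have hL : ∀ g ∈ H ⊔ A, H ⊔ cj g H ≤ H ⊔ A := fun g hg =>
    sup_le le_sup_left (cj_le_of_mem hg le_sup_left)
  have hsyl : ∀ X, T ≤ X → Syl p T (X ⊓ A) := fun X h => hTA.of_le (le_inf h hTA.le) inf_le_right
  have hH : (H ⊓ A) ⊔ (H ⊓ 𝓝(T)) = H := (hsyl H hTH).syl_frattini_sup hp.out inf_le_left
    (norm_inf (le_norm_self H) (top_le_norm A _))
  have s3 : ∀ g ∈ H ⊔ A, g ∈ 𝓝(T) → g ∈ 𝓝(H ⊓ 𝓝(T)) → Good H g := by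
    intro g hg h1 h2
    obtain ⟨a, ha, k, hk, rfl⟩ := (mem_sup_norm' (top_le_norm A H)).1 (sup_comm H A ▸ hg)
    have e1 : cj (a * k) (H ⊓ A) = cj a (H ⊓ A) := by
      rw [cj_mul, cj_inf k, hcA, cj_of_mem hk]
    obtain ⟨y, hy, e2⟩ := xp_sub_iff.1 hA (H ⊓ A) T hTA (le_inf hTH hTA.le) inf_le_right a ha
    rw [← e1] at hy e2
    have h3 := (hsyl H hTH).cj (a * k)
    rw [cj_of_mem_norm h1] at h3
    obtain ⟨d, hd, e3⟩ := (e2 ▸ (hsyl H hTH).cj y : Syl p _ (cj (a * k) (H ⊓ A))).syl_conj hp.out h3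
    have h4 : d * y ∈ 𝓝(T) := mem_norm_iff_cj.2 (by rw [cj_mul, e3])
    have e4 : cj (d * y) (H ⊓ A) = cj (a * k) (H ⊓ A) := by rw [cj_mul, ← e2, cj_of_mem hd]
    have h5 : d * y ∈ H ⊔ cj (a * k) H := mul_mem (mem_sup_right (cj_mono _ inf_le_left hd))
      (sup_le_sup inf_le_left (cj_mono _ inf_le_left) hy)
    obtain ⟨z, hz, e5⟩ := hM _ h4
    have hn : H ⊓ 𝓝(T) ≤ 𝓝(H ⊓ A) :=
      inf_le_left.trans (norm_inf (le_norm_self H) (top_le_norm A _))
    have h6 : z ∈ 𝓝(cj (a * k) (H ⊓ A)) := by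
      refine (sup_le ?_ ?_ : _ ≤ 𝓝(cj (a * k) (H ⊓ A))) hz
      · have := norm_cj (a * k) hn
        rwa [cj_of_mem_norm h2] at this
      · rw [← e4]; exact norm_cj _ hn
    have h7 : z ∈ H ⊔ cj (a * k) H := (sup_le (inf_le_left.trans le_sup_left)
      (cj_le_of_mem h5 (inf_le_left.trans le_sup_left)) : _ ≤ H ⊔ cj (a * k) H) hz
    refine ⟨z⁻¹ * (d * y), mul_mem (inv_mem h7) h5, ?_⟩
    conv_lhs => rw [← hH, cj_sup, cj_of_mem_norm h2]
    conv_rhs => rw [← hH, cj_mul, cj_sup, e4, e5, cj_sup, cj_inv_cj, cj_of_mem_norm (inv_mem h6)]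
  have s2 : ∀ g ∈ H ⊔ A, g ∈ 𝓝(T) → Good H g := by
    intro g hg h1
    obtain ⟨x, hx, h2⟩ := (hM g h1).exists_norm
    have h3 : x ∈ H ⊔ cj g H := sup_le_sup inf_le_left (cj_mono _ inf_le_left) hx
    refine Good.of_mul h3 (s3 _ (mul_mem (inv_mem (hL g hg h3)) hg) (mul_mem (inv_mem ?_) h1) h2)
    exact (sup_le inf_le_right (cj_le_of_mem h1 inf_le_right) : _ ≤ 𝓝(T)) hx
  have h1 : Syl p (cj g T) ((H ⊔ cj g H) ⊓ A) := (hcA g ▸ hTA.cj g : Syl p _ A).of_le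
    (le_inf ((cj_mono g hTH).trans le_sup_right) (hcA g ▸ cj_mono g hTA.le)) inf_le_right
  obtain ⟨l, hl, e⟩ := (hsyl _ (hTH.trans le_sup_left)).syl_conj hp.out h1
  exact Good.of_mul hl.1 (s2 _ (mul_mem (inv_mem (hL g hg hl.1)) hg)
    (mem_norm_iff_cj.2 (by rw [cj_mul, ← e, cj_inv_cj])))

theorem xp_iff {A T : Subgroup G} [A.Normal] (hA : XP p A) (hQ : XP p (G ⧸ A)) (hT : Syl p T A) :
    XP p G ↔ XP p 𝓝(T) ∧ ∀ K : Subgroup G, (∃ P : Sylow p G, (P : Subgroup G) ≤ K) →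
      𝓝(K).map (QuotientGroup.mk' A) = 𝓝(K.map (QuotientGroup.mk' A)) := by
  constructor
  · intro h
    refine ⟨xp_sub_iff.2 fun M P hP h1 _ g _ => h M ?_ g, fun K hK => ?_⟩
    · obtain ⟨Q, hQ, hle⟩ := syl_superset hp.out hT.pi le_top
      have e : Q ⊓ A = T := hT.eq_of_le (hQ.pi.inf_left _) (le_inf hle hT.le) inf_le_right
      have h2 : Q ≤ 𝓝(T) := e ▸ norm_inf (le_norm_self Q) (top_le_norm A _)
      obtain ⟨S, rfl⟩ := (hP.of_idx le_top (hQ.le_of_idx h2)).exists_sylow_top hp.out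
      exact ⟨S, h1⟩
    · refine le_antisymm (le_normalizer_map _) fun y hy => ?_
      obtain ⟨g, rfl⟩ := QuotientGroup.mk'_surjective A y
      obtain ⟨x, hx, h1⟩ := (pron_iff.1 (h K hK) g).exists_norm
      have h2 := mem_map_of_mem (QuotientGroup.mk' A) hx
      rw [Subgroup.map_sup, map_cj, cj_of_mem_norm hy, sup_idem] at h2
      simpa using mul_mem (map_mono (le_norm_self K) h2) (mem_map_of_mem _ h1)
  · rintro ⟨h1, h2⟩
    have key : ∀ K P : Subgroup G, Syl p P ⊤ → P ⊓ A = T → P ≤ K → IsPronormal K := by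
      intro K P hP e hle g
      obtain ⟨S, rfl⟩ := hP.exists_sylow_top hp.out
      obtain ⟨y, hy, h3⟩ := (pron_iff.1 (hQ _
        ⟨S.mapSurjective (QuotientGroup.mk'_surjective A), map_mono hle⟩) (g : G ⧸ A)).exists_norm
      rw [show (g : G ⧸ A) = QuotientGroup.mk' A g from rfl, ← map_cj, ← Subgroup.map_sup] at hy
      obtain ⟨x, hx, rfl⟩ := hy
      rw [← h2 K ⟨S, hle⟩] at h3
      obtain ⟨n, hn, e2⟩ := h3
      refine Good.of_mul hx ?_
      have h4 : x⁻¹ * g * n⁻¹ ∈ A := (QuotientGroup.eq_one_iff _).1 (by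
        rw [QuotientGroup.mk_mul, QuotientGroup.mk_inv, show (n : G ⧸ A) = _ from e2]; simp)
      simpa using (good_of_mem hA h1 hP e hle (mem_sup_right h4)).mul_norm hn
    rintro K ⟨S, hS⟩
    have hP := syl_top hp.out S
    obtain ⟨a, -, e⟩ := (hP.inf_normal le_top (top_le_norm A _)).syl_conj hp.out hT
    rw [cj_inf, cj_of_mem_norm (top_le_norm A ⊤ (mem_top a))] at e
    simpa using pron_cj (key _ _ (hP.cj_mem (mem_top a)) e (cj_mono a hS)) a⁻¹

theorem xp_norm_iff {T : Subgroup G} (hT : IsPi {p} T) [(T.subgroupOf 𝓝(T)).Normal] :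
    XP p (𝓝(T) ⧸ T.subgroupOf 𝓝(T)) ↔ XP p 𝓝(T) :=
  ⟨XP.of_quot ((hT.isPGroup hp.out).of_equiv (subgroupOfEquivOfLe (le_norm_self T)).symm),
    fun h => h.quot _⟩

theorem good_syl {P : Subgroup G} (hP : Syl p P ⊤) (g : G) : Good P g := by
  obtain ⟨x, hx, e⟩ := (hP.of_le le_sup_left le_top).syl_conj hp.out
    ((hP.cj_mem (mem_top g)).of_le le_sup_right le_top)
  exact ⟨x, hx, e.symm⟩

end CA.H7Pron
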