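import Cfsg.Agent.Lib.Grp.PGFrattini
import Cfsg.Agent.Lib.Grp.Act
import Cfsg.Agent.Lib.Grp.Rad
import Cfsg.Prelude.Def_CaseTheorems
import Cfsg.Prelude.Def_OddOrderLocal

/-!
Sectional 2-rank: a subgroup form `SR`, and 2-groups of sectional rank at most two are metacyclic.
-/

set_option autoImplicit false
set_option linter.unusedSectionVars false
set_option linter.unusedVariables false

namespace CA.H7SR
open Subgroup Cfsg CA.PGBasic CA.PGFrattini
open scoped commutatorElement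

universe u
variable {G : Type*} [Group G] {k : ℕ}

/-- every elementary abelian section has order at most `2 ^ k` -/
def SR (k : ℕ) (G : Type*) [Group G] : Prop :=
  ∀ H N : Subgroup G, N ≤ H → (∀ x ∈ H, x ^ 2 ∈ N) → N.relIndex H ≤ 2 ^ k

theorem comm_of_sq {a b : G} (ha : a ^ 2 = 1) (hb : b ^ 2 = 1) (h : (a * b) ^ 2 = 1) :
    a * b = b * a := by
  have : a * b = a * (a * b) ^ 2 * b := by rw [h, mul_one]
  rw [this, sq, show a * (a * b * (a * b)) * b = a ^ 2 * (b * a) * b ^ 2 by simp [sq, mul_assoc], ha,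
    hb, one_mul, mul_one]

theorem relIndex_comap_mk (N : Subgroup G) [N.Normal] (A : Subgroup (G ⧸ N)) :
    N.relIndex (A.comap (QuotientGroup.mk' N)) = Nat.card A := by
  have h4 := relIndex_comap (⊥ : Subgroup (G ⧸ N)) (QuotientGroup.mk' N)
    (A.comap (QuotientGroup.mk' N))
  rwa [MonoidHom.comap_bot, QuotientGroup.ker_mk',
    map_comap_eq_self_of_surjective (QuotientGroup.mk'_surjective _), relIndex_bot_left] at h4

theorem sr_of (h : SectionalPRankLE 2 k G) : SR k G := by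
  intro H N h1 h2
  have h3 : ∀ x : H, x ^ 2 ∈ N.subgroupOf H := fun x => h2 x x.2
  haveI : (N.subgroupOf H).Normal := by
    refine ⟨fun n hn g => ?_⟩
    have := commutator_le_of_sq_mem h3 (commutator_mem_commutator (mem_top g) (mem_top n))
    rw [show g * n * g⁻¹ = ⁅g, n⁆ * n by simp [commutatorElement_def]]
    exact mul_mem this hn
  have h4 : ∀ y : H ⧸ N.subgroupOf H, y ^ 2 = 1 := fun y => by
    obtain ⟨x, rfl⟩ := QuotientGroup.mk_surjective y
    rw [← QuotientGroup.mk_pow, QuotientGroup.eq_one_iff]; exact h3 x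
  have := h H (N.subgroupOf H) ⊤ ⟨⟨fun a b => Subtype.ext (comm_of_sq (h4 _) (h4 _) (h4 _))⟩⟩
    fun a _ => h4 a
  rwa [card_top] at this

theorem of_sr (h : SR k G) : SectionalPRankLE 2 k G := by
  intro H N _ A h1 h2
  have h3 := h ((A.comap (QuotientGroup.mk' N)).map H.subtype) (N.map H.subtype)
    (map_mono fun x hx => by
      rw [mem_comap, QuotientGroup.mk'_apply, (QuotientGroup.eq_one_iff x).2 hx]; exact one_mem _)
    (by
      rintro _ ⟨x, hx, rfl⟩
      refine ⟨x ^ 2, ?_, by simp⟩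
      have := h2 _ hx
      rwa [QuotientGroup.mk'_apply, ← QuotientGroup.mk_pow, QuotientGroup.eq_one_iff] at this)
  rw [relIndex_map_map_of_injective _ _ H.subtype_injective] at h3
  rwa [relIndex_comap_mk] at h3

theorem SR.map {G' : Type*} [Group G'] (h : SR k G) {f : G →* G'} (hf : Function.Surjective f) :
    SR k G' := by
  intro H N h1 h2
  have := h (H.comap f) (N.comap f) (comap_mono h1) fun x hx => by
    rw [mem_comap, map_pow]; exact h2 _ hx
  rwa [relIndex_comap, map_comap_eq_self_of_surjective hf] at this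

theorem SR.comap {G' : Type*} [Group G'] (h : SR k G') {f : G →* G'} (hf : Function.Injective f) :
    SR k G := by
  intro H N h1 h2
  have := h (H.map f) (N.map f) (map_mono h1) (by
    rintro _ ⟨x, hx, rfl⟩
    exact ⟨_, h2 x hx, map_pow _ _ _⟩)
  rwa [relIndex_map_map_of_injective _ _ hf] at this

theorem SR.card_le (h : SR k G) {A : Subgroup G} (hA : ∀ x ∈ A, x ^ 2 = 1) : Nat.card A ≤ 2 ^ k := by
  have := h A ⊥ bot_le hA
  rwa [relIndex_bot_left] at this

theorem mc_of {u b : G} (h1 : closure {u, b} = ⊤) (h2 : b * u * b⁻¹ ∈ zpowers u) [Finite G] :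
    IsMetacyclic G := by
  have h3 : closure {u, b} ≤ normalizer (zpowers u : Set G) := by
    rw [closure_le]
    rintro x (rfl | rfl)
    · exact le_normalizer (mem_zpowers _)
    · refine CA.Rad.mem_normalizer_of_conj_mem fun y ⟨n, hn⟩ => ?_
      rw [← hn, ← conj_zpow]; exact zpow_mem h2 n
  haveI : (zpowers u).Normal := normalizer_eq_top_iff.1 (top_le_iff.1 (h1 ▸ h3))
  refine ⟨zpowers u, this, inferInstance, (b : G ⧸ zpowers u), fun y => ?_⟩
  obtain ⟨x, rfl⟩ := QuotientGroup.mk_surjective y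
  have h4 : closure {u, b} ≤ (zpowers (b : G ⧸ zpowers u)).comap (QuotientGroup.mk' _) := by
    rw [closure_le]
    rintro x (rfl | rfl)
    · rw [SetLike.mem_coe, mem_comap, QuotientGroup.mk'_apply,
        (QuotientGroup.eq_one_iff _).2 (mem_zpowers _)]
      exact one_mem _
    · exact mem_zpowers _
  exact h4 (h1 ▸ mem_top x)

theorem comm_mem_of {u b : G} (h1 : closure {u, b} = ⊤) {N : Subgroup G} [N.Normal]
    (h2 : ⁅b, u⁆ ∈ N) (x y : G) : ⁅x, y⁆ ∈ N := by
  have h3 : (b : G ⧸ N) * u = u * b := by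
    rw [← QuotientGroup.eq_one_iff] at h2
    exact commutatorElement_eq_one_iff_mul_comm.1 h2
  have h4 : ∀ t : G, (t : G ⧸ N) * u = u * t → (t : G ⧸ N) * b = b * t →
      ∀ s : G, (t : G ⧸ N) * s = s * t := by
    intro t e1 e2 s
    have : closure {u, b} ≤ (centralizer {(t : G ⧸ N)}).comap (QuotientGroup.mk' N) := by
      rw [closure_le]
      rintro x (rfl | rfl)
      · exact mem_centralizer_singleton_iff.2 e1.symm
      · exact mem_centralizer_singleton_iff.2 e2.symm
    exact (mem_centralizer_singleton_iff.1 (this (h1 ▸ mem_top s))).symm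
  rw [← QuotientGroup.eq_one_iff]
  exact commutatorElement_eq_one_iff_mul_comm.2
    (h4 x (h4 u rfl h3.symm x).symm (h4 b h3 rfl x).symm y)

theorem mem_zpowers_two {z x : G} (hz : z ^ 2 = 1) (hx : x ∈ zpowers z) : x = 1 ∨ x = z := by
  obtain ⟨n, rfl⟩ := hx
  have h2 : z ^ (2 : ℤ) = 1 := by rw [zpow_ofNat, hz]
  rcases Int.even_or_odd' n with ⟨m, rfl | rfl⟩
  · left; simp only [zpow_mul, h2, one_zpow]
  · right; simp only [zpow_add, zpow_mul, h2, one_zpow, one_mul, zpow_one]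

theorem normal_zpowers {z : G} (hz : z ∈ center G) : (zpowers z).Normal :=
  ⟨fun n hn g => by
    rw [mem_center_iff.1 (zpowers_le.2 hz hn) g, mul_inv_cancel_right]; exact hn⟩

variable [Finite G]

theorem exists_sq (hG : IsPGroup 2 G) (h : SR 2 G) {z : G} (hz : z ∈ center G) (h2 : orderOf z = 2)
    (hc : ∀ x y : G, ⁅x, y⁆ ∈ zpowers z) (hn : ¬ IsMulCommutative G) : ∃ v : G, v ^ 2 = z := by
  by_contra! h3
  haveI := normal_zpowers hz
  have hz2 : z ^ 2 = 1 := h2 ▸ pow_orderOf_eq_one z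
  haveI : IsMulCommutative (G ⧸ zpowers z) := ⟨⟨fun a b => by
    obtain ⟨x, rfl⟩ := QuotientGroup.mk_surjective a
    obtain ⟨y, rfl⟩ := QuotientGroup.mk_surjective b
    exact commutatorElement_eq_one_iff_mul_comm.1 ((QuotientGroup.eq_one_iff _).2 (hc x y))⟩⟩
  have h4 : IsCyclic (G ⧸ zpowers z) := by
    refine CA.Act.isCyclic_of_card_pow_prime_le fun p hp => ?_
    by_cases e : p = 2
    · subst e
      rw [← relIndex_comap_mk]
      set W := Subgroup.comap (QuotientGroup.mk' (zpowers z)) _ with hW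
      have h5 : Nat.card W ≤ 2 ^ 2 := h.card_le fun x hx => by
        have : x ^ 2 ∈ zpowers z := by
          rw [← QuotientGroup.eq_one_iff, QuotientGroup.mk_pow]; exact hx
        exact (mem_zpowers_two hz2 this).resolve_right (h3 x)
      have h6 : zpowers z ≤ W := fun x hx => by
        rw [hW, mem_comap, QuotientGroup.mk'_apply, (QuotientGroup.eq_one_iff x).2 hx]
        exact one_mem _
      have h7 := card_mul_relIndex h6
      rw [Nat.card_zpowers, h2] at h7
      omega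
    · refine le_trans (le_of_eq (card_eq_one.2 (eq_bot_iff.2 fun y hy => ?_))) hp.one_le
      obtain ⟨n, hn⟩ := (hG.to_quotient (zpowers z)) y
      have h5 : y ^ p = 1 := hy
      exact mem_bot.2 (pow_eq_one_iff_of_coprime
        (((Nat.coprime_primes hp Nat.prime_two).2 e).pow_right n) |>.1 ⟨h5, hn⟩)
  exact hn ⟨⟨commutative_of_cyclic_center_quotient (QuotientGroup.mk' (zpowers z))
    (by rw [QuotientGroup.ker_mk']; exact zpowers_le.2 hz)⟩⟩

theorem base (hG : IsPGroup 2 G) (h : SR 2 G) {z u b : G} (hz : z ∈ center G) (h2 : orderOf z = 2)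
    (hc : ∀ x y : G, ⁅x, y⁆ ∈ zpowers z) (hn : ¬ IsMulCommutative G) (h1 : closure {u, b} = ⊤) :
    IsMetacyclic G := by
  haveI : Fact (Nat.Prime 2) := ⟨Nat.prime_two⟩
  haveI := normal_zpowers hz
  have hz2 : z ^ 2 = 1 := h2 ▸ pow_orderOf_eq_one z
  obtain ⟨w, n, h3, h4⟩ : ∃ (w : G) (n : ℕ), w ^ 2 ^ (n + 1) = z ∧
      ∀ v : G, (w : G ⧸ zpowers z) ≠ (v : G ⧸ zpowers z) ^ 2 := by
    by_contra! h3
    have h4 : ∀ n : ℕ, ∃ w : G, w ^ 2 ^ (n + 1) = z := by
      intro n
      induction n with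
      | zero => exact exists_sq hG h hz h2 hc hn
      | succ n ih =>
        obtain ⟨w, hw⟩ := ih
        obtain ⟨v, hv⟩ := h3 w n hw
        rw [← QuotientGroup.mk_pow, eq_comm, QuotientGroup.eq] at hv
        have h5 : w ^ 2 = v ^ 4 := by
          rcases mem_zpowers_two hz2 hv with e | e
          · rw [inv_mul_eq_one] at e; rw [← e, ← pow_mul]
          · rw [inv_mul_eq_iff_eq_mul] at e
            rw [e, Commute.mul_pow (mem_center_iff.1 hz _), hz2, mul_one, ← pow_mul]
        refine ⟨v, ?_⟩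
        rw [← hw, pow_succ' 2 n, pow_mul, h5, ← pow_mul]
        congr 1; ring
    obtain ⟨N, hN⟩ := IsPGroup.iff_card.1 hG
    obtain ⟨w, hw⟩ := h4 N
    rw [pow_succ, pow_mul, ← hN, pow_card_eq_one', one_pow] at hw
    rw [← hw, orderOf_one] at h2
    omega
  have hzw : z ∈ zpowers w := h3 ▸ pow_mem (mem_zpowers w) _
  have hcm : ∀ a b : G ⧸ zpowers z, a * b = b * a := fun a b => by
    obtain ⟨x, rfl⟩ := QuotientGroup.mk_surjective a
    obtain ⟨y, rfl⟩ := QuotientGroup.mk_surjective b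
    exact commutatorElement_eq_one_iff_mul_comm.1 ((QuotientGroup.eq_one_iff _).2 (hc x y))
  have key : ∀ u b : G, closure {u, b} = ⊤ → ∀ m n : ℤ,
      (w : G ⧸ zpowers z) = (u : G ⧸ zpowers z) ^ (2 * m + 1) * (b : G ⧸ zpowers z) ^ n →
      IsMetacyclic G := by
    intro u b h1 m n e
    refine mc_of (u := w) (b := b) (eq_top_of_sup_frattini (top_le_iff.1 ?_)) ?_
    · rw [← h1, closure_le]
      have hw : w ∈ closure {w, b} := subset_closure (by simp)
      have hb : b ∈ closure {w, b} := subset_closure (by simp)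
      rintro x (rfl | rfl)
      · rw [← QuotientGroup.mk_zpow, ← QuotientGroup.mk_zpow, ← QuotientGroup.mk_mul,
          QuotientGroup.eq] at e
        have h5 := mul_mem (mul_mem hw (zpowers_le.2 (zpowers_le.2 hw hzw) e)) (zpow_mem hb (-n))
        have h6 : x = (x ^ (-m)) ^ 2 * (w * (w⁻¹ * (x ^ (2 * m + 1) * b ^ n)) * b ^ (-n)) := by
          group
        rw [SetLike.mem_coe, h6]
        exact mul_mem (mem_sup_right (pow_mem_frattini hG _)) (mem_sup_left h5)
      · exact mem_sup_left hb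
    · rw [show b * w * b⁻¹ = ⁅b, w⁆ * w by simp [commutatorElement_def]]
      exact mul_mem (zpowers_le.2 hzw (hc _ _)) (mem_zpowers w)
  letI : CommGroup (G ⧸ zpowers z) := { mul_comm := hcm }
  have h5 : (w : G ⧸ zpowers z) ∈ closure {(u : G ⧸ zpowers z), (b : G ⧸ zpowers z)} := by
    have : closure {u, b} ≤ (closure {(u : G ⧸ zpowers z), (b : G ⧸ zpowers z)}).comap
        (QuotientGroup.mk' _) := by
      rw [closure_le]
      rintro x (rfl | rfl) <;> exact subset_closure (by simp)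
    exact this (h1 ▸ mem_top w)
  obtain ⟨m, n, e⟩ := mem_closure_pair.1 h5
  rcases Int.even_or_odd' m with ⟨m, rfl | rfl⟩
  · rcases Int.even_or_odd' n with ⟨n, rfl | rfl⟩
    · refine absurd ?_ (h4 (u ^ m * b ^ n))
      rw [← e, QuotientGroup.mk_mul, QuotientGroup.mk_zpow, QuotientGroup.mk_zpow, mul_pow,
        mul_comm 2 m, mul_comm 2 n, zpow_mul, zpow_mul, zpow_ofNat, zpow_ofNat]
    · exact key b u (by rw [Set.pair_comm, h1]) n _ (by rw [← e, mul_comm])
  · exact key u b h1 m n e.symm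

theorem exists_pair (hG : IsPGroup 2 G) (h : (frattini G).index ≤ 4) :
    ∃ u b : G, closure {u, b} = ⊤ := by
  haveI : Fact (Nat.Prime 2) := ⟨Nat.prime_two⟩
  obtain ⟨T, h1, h2⟩ := exists_basis hG (index_frattini_eq hG)
  rw [index_frattini_eq hG, ← h1] at h
  have h3 : T.card ≤ 2 := (Nat.pow_le_pow_iff_right (by norm_num : 1 < 2)).1 h
  suffices ∃ u b : G, (T : Set G) ⊆ {u, b} by
    obtain ⟨u, b, h4⟩ := this
    exact ⟨u, b, top_le_iff.1 (h2 ▸ closure_mono h4)⟩
  obtain h4 | h4 | h4 : T.card = 0 ∨ T.card = 1 ∨ T.card = 2 := by omega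
  · exact ⟨1, 1, by simp [Finset.card_eq_zero.1 h4]⟩
  · obtain ⟨a, rfl⟩ := Finset.card_eq_one.1 h4
    exact ⟨a, a, by simp⟩
  · classical
    obtain ⟨a, b, -, rfl⟩ := Finset.card_eq_two.1 h4
    exact ⟨a, b, by simp⟩

theorem exists_ub {N : Subgroup G} [N.Normal] (h : IsMetacyclic (G ⧸ N)) :
    ∃ u b : G, closure {u, b} ⊔ N = ⊤ ∧ ∃ r : ℤ, (u ^ r)⁻¹ * (b * u * b⁻¹) ∈ N := by
  obtain ⟨M, hM, ⟨⟨u, hu⟩, h1⟩, ⟨b, h2⟩⟩ := h
  obtain ⟨u, rfl⟩ := QuotientGroup.mk_surjective u
  obtain ⟨b, rfl⟩ := QuotientGroup.mk_surjective b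
  obtain ⟨b, rfl⟩ := QuotientGroup.mk_surjective b
  have h3 : ∀ x : G, (x : G ⧸ N) ∈ M → ∃ r : ℤ, (u ^ r)⁻¹ * x ∈ N := fun x hx => by
    obtain ⟨r, hr⟩ := h1 ⟨x, hx⟩
    refine ⟨r, QuotientGroup.eq.1 ?_⟩
    rw [QuotientGroup.mk_zpow]
    exact congrArg Subtype.val hr
  refine ⟨u, b, eq_top_iff.2 fun x _ => ?_, h3 _ (hM.conj_mem _ hu (b : G ⧸ N))⟩
  obtain ⟨n, hn⟩ := h2 (x : G ⧸ N)
  simp only [← QuotientGroup.mk_zpow] at hn
  obtain ⟨r, hr⟩ := h3 ((b ^ n)⁻¹ * x) (QuotientGroup.eq.1 hn)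
  rw [show x = b ^ n * u ^ r * ((u ^ r)⁻¹ * ((b ^ n)⁻¹ * x)) by group]
  exact mul_mem (mem_sup_left (mul_mem (zpow_mem (subset_closure (by simp)) _)
    (zpow_mem (subset_closure (by simp)) _))) (mem_sup_right hr)

theorem mc_aux (n : ℕ) : ∀ (G : Type u) [Group G] [Finite G], Nat.card G < n → IsPGroup 2 G →
    SR 2 G → IsMetacyclic G := by
  haveI : Fact (Nat.Prime 2) := ⟨Nat.prime_two⟩
  induction n with
  | zero => intro G _ _ h; omega
  | succ n ih =>
    intro G _ _ hn hG h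
    by_cases hc : IsMulCommutative G
    · obtain ⟨u, b, h1⟩ := exists_pair hG (by
        have := h ⊤ (frattini G) le_top fun x _ => pow_mem_frattini hG x
        rwa [relIndex_top_right] at this)
      exact mc_of h1 (by rw [hc.1.1 b u, mul_inv_cancel_right]; exact mem_zpowers u)
    obtain ⟨z, hz1, hz, h2⟩ := exists_mem_center_orderOf hG (M := commutator G) fun e => hc
      ⟨⟨fun a b => commutatorElement_eq_one_iff_mul_comm.1
        (mem_bot.1 (e ▸ commutator_mem_commutator (mem_top a) (mem_top b)))⟩⟩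
    haveI := normal_zpowers hz
    have hz2 : z ^ 2 = 1 := h2 ▸ pow_orderOf_eq_one z
    obtain ⟨u, b, h1, r, hr⟩ := exists_ub (ih (G ⧸ zpowers z) (by
      have := card_eq_card_quotient_mul_card_subgroup (zpowers z)
      rw [Nat.card_zpowers, h2] at this
      have := Nat.card_pos (α := G)
      omega) (hG.to_quotient _) (h.map (QuotientGroup.mk'_surjective _)))
    have h1 := eq_top_of_sup_le_frattini (zpowers_le.2 (commutator_le_frattini hG hz1)) h1
    by_cases hu : z ∈ zpowers u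
    · refine mc_of h1 ?_
      rw [← mul_inv_cancel_left (u ^ r) (b * u * b⁻¹)]
      exact mul_mem (zpow_mem (mem_zpowers u) r) (zpowers_le.2 hu hr)
    rcases mem_zpowers_two hz2 hr with e | e
    · exact mc_of h1 (by rw [← inv_mul_eq_one.1 e]; exact zpow_mem (mem_zpowers u) r)
    rw [inv_mul_eq_iff_eq_mul] at e
    have hzc : ∀ g, Commute g z := fun g => mem_center_iff.1 hz g
    have h3 : ⁅b, u⁆ = u ^ (r - 1) * z := by
      rw [commutatorElement_def, e, mul_assoc, ← (hzc u⁻¹).eq, zpow_sub_one, mul_assoc]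
    have h4 : closure {u, b} ≤ normalizer (zpowers ⁅b, u⁆ : Set G) := by
      rw [closure_le]
      rintro x hx
      refine CA.Rad.mem_normalizer_of_conj_mem fun y ⟨n, hn⟩ => ?_
      rw [← hn, ← conj_zpow]
      refine zpow_mem ?_ n
      rcases hx with rfl | rfl
      · rw [h3, ← mul_assoc, ← (Commute.self_zpow x (r - 1)).eq.symm, mul_assoc, mul_assoc,
          ← (hzc x⁻¹).eq, mul_inv_cancel_left]
        exact mem_zpowers _
      · refine ⟨r, ?_⟩
        have : x * (u ^ (r - 1) * z) * x⁻¹ = (x * u * x⁻¹) ^ (r - 1) * z := by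
          rw [conj_zpow, mul_assoc, mul_assoc, ← (hzc x⁻¹).eq]; group
        simp only
        rw [h3, this, e, (hzc _).mul_zpow, (hzc _).mul_zpow, ← zpow_mul, ← zpow_mul, mul_comm r,
          mul_assoc, zpow_sub_one, inv_mul_cancel_right]
    haveI : (zpowers ⁅b, u⁆).Normal := normalizer_eq_top_iff.1 (top_le_iff.1 (h1 ▸ h4))
    have h5 := comm_mem_of h1 (mem_zpowers ⁅b, u⁆)
    obtain ⟨j, hj⟩ := mem_powers_iff_mem_zpowers.2
      ((commutator_le.2 fun x _ y _ => h5 x y : commutator G ≤ _) hz1)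
    simp only at hj
    rcases Nat.even_or_odd' j with ⟨j, rfl | rfl⟩
    · rw [h3, (hzc _).mul_pow, pow_mul z, hz2, one_pow, mul_one] at hj
      exact absurd (hj ▸ pow_mem (zpow_mem (mem_zpowers u) _) _) hu
    obtain ⟨i, hi⟩ := hG (⁅b, u⁆ ^ 2)
    have h6 : ⁅b, u⁆ ^ 2 = 1 := (pow_eq_one_iff_of_coprime
      ((Nat.coprime_two_left.2 (odd_two_mul_add_one j)).pow_left i)).1
        ⟨hi, by rw [← pow_mul, mul_comm, pow_mul, hj, hz2]⟩
    rw [pow_succ, pow_mul, h6, one_pow, one_mul] at hj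
    exact base hG h hz h2 (hj ▸ h5) hc h1

theorem metacyclic (hG : IsPGroup 2 G) (h : SR 2 G) : IsMetacyclic G :=
  mc_aux _ G (Nat.lt_succ_self _) hG h

end CA.H7SR
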