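import Cfsg.Agent.Lib.Grp.H7SR

/-!
Sectional 2-rank at most four: commuting nonabelian subgroups with centre of order two.
-/

set_option autoImplicit false
set_option linter.unusedSectionVars false
set_option linter.unusedVariables false

namespace CA.H7SR
open Subgroup Cfsg CA.PGBasic CA.PGFrattini
open scoped commutatorElement

variable {G : Type*} [Group G] [Finite G] {k : ℕ} {A B A₀ B₀ P Q R : Subgroup G} {z w x y g : G}

/-- `A / A₀` is an elementary abelian section -/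
structure Sec (A A₀ : Subgroup G) : Prop where
  le : A₀ ≤ A
  sq : ∀ x ∈ A, x ^ 2 ∈ A₀

/-- elementwise commuting subgroups -/
def Cm (A B : Subgroup G) : Prop := ∀ a ∈ A, ∀ b ∈ B, Commute a b

theorem Cm.symm (h : Cm A B) : Cm B A := fun b hb a ha => (h a ha b hb).symm

theorem Cm.norm (h : Cm A B) : B ≤ normalizer (A : Set G) := fun b hb =>
  CA.Rad.mem_normalizer_of_conj_mem fun a ha => by
    rw [← (h a ha b hb).eq, mul_inv_cancel_right]; exact ha

theorem Cm.mem (h : Cm A B) (hx : x ∈ A ⊔ B) : ∃ a ∈ A, ∃ b ∈ B, x = a * b :=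
  (mem_sup_of_le_normalizer h.norm).1 hx

theorem Cm.mono (h : Cm A B) (h1 : A₀ ≤ A) (h2 : B₀ ≤ B) : Cm A₀ B₀ :=
  fun a ha b hb => h a (h1 ha) b (h2 hb)

theorem Sec.prod (h1 : Sec A A₀) (h2 : Sec B B₀) (h : Cm A B) : Sec (A ⊔ B) (A₀ ⊔ B₀) :=
  ⟨sup_le_sup h1.le h2.le, fun x hx => by
    obtain ⟨a, ha, b, hb, rfl⟩ := h.mem hx
    rw [(h a ha b hb).mul_pow]
    exact mul_mem (mem_sup_left (h1.sq a ha)) (mem_sup_right (h2.sq b hb))⟩

theorem idx_prod (h1 : A₀ ≤ A) (h2 : B₀ ≤ B) (h : Cm A B) (h3 : A ⊓ B ≤ A₀ ⊓ B₀) :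
    (A₀ ⊔ B₀).relIndex (A ⊔ B) = A₀.relIndex A * B₀.relIndex B := by
  have e1 := card_sup_mul_card_inf h.symm.norm
  have e2 := card_sup_mul_card_inf (h.mono h1 h2).symm.norm
  have e3 := card_mul_relIndex (sup_le_sup h1 h2)
  rw [← card_mul_relIndex h1, ← card_mul_relIndex h2, le_antisymm h3 (inf_le_inf h1 h2), ← e3,
    mul_mul_mul_comm, ← e2, mul_right_comm] at e1
  exact Nat.eq_of_mul_eq_mul_left (Nat.mul_pos Nat.card_pos Nat.card_pos) e1

/-- `P` is nonabelian with centre generated by the involution `z` -/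
structure Zc (P : Subgroup G) (z : G) : Prop where
  mem : z ∈ P
  ne : z ≠ 1
  cen : ∀ p ∈ P, Commute z p
  eq : ∀ x ∈ P, (∀ p ∈ P, Commute x p) → x = 1 ∨ x = z
  nc : ¬ Cm P P

theorem Zc.sq (h : Zc P z) : z ^ 2 = 1 :=
  (h.eq _ (pow_mem h.mem 2) fun p hp => (h.cen p hp).pow_left 2).resolve_right fun e =>
    h.ne (by rwa [pow_two, mul_eq_left] at e)

theorem zc_of (hP : ¬ IsMulCommutative P) (hZ : Nat.card (center P) = 2) :
    ∃ z, Zc P z ∧ (center P).map P.subtype = zpowers z := by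
  obtain ⟨y, h1, h2⟩ := (Nat.card_eq_two_iff' (1 : center P)).1 hZ
  have h3 : ∀ x : P, x ∈ center P → x = 1 ∨ x = y := fun x hx => by
    by_cases e : x = 1
    · exact Or.inl e
    · exact Or.inr (congrArg Subtype.val (h2 ⟨x, hx⟩ fun e' => e (congrArg Subtype.val e')))
  refine ⟨y.1.1, ⟨y.1.2, fun e => h1 (Subtype.ext (Subtype.ext e)), fun p hp =>
    (congrArg Subtype.val (mem_center_iff.1 y.2 ⟨p, hp⟩)).symm, fun x hx h => ?_, fun h => hP
      ⟨⟨fun a b => Subtype.ext (h _ a.2 _ b.2)⟩⟩⟩, le_antisymm ?_ (zpowers_le.2 ⟨y.1, y.2, rfl⟩)⟩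
  · exact (h3 ⟨x, hx⟩ (mem_center_iff.2 fun g => Subtype.ext (h g g.2).symm)).imp
      (congrArg Subtype.val) (congrArg Subtype.val)
  · rintro _ ⟨x, hx, rfl⟩
    rcases h3 x hx with rfl | rfl
    exacts [one_mem _, mem_zpowers _]

theorem Zc.frat (hG : IsPGroup 2 G) (h : Zc P z) :
    ∃ P₀, Sec P P₀ ∧ z ∈ P₀ ∧ 4 ≤ P₀.relIndex P := by
  haveI : Fact (Nat.Prime 2) := ⟨Nat.prime_two⟩
  have hP := hG.to_subgroup P
  have h1 : ¬ IsMulCommutative P := fun e => h.nc fun a ha b hb =>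
    congrArg Subtype.val (e.1.1 ⟨a, ha⟩ ⟨b, hb⟩)
  refine ⟨(frattini P).map P.subtype, ⟨map_subtype_le _, fun x hx => pow_mem_map_frattini hP hx⟩,
    ?_, ?_⟩
  · obtain ⟨y, h2, h3, h4⟩ := exists_mem_center_orderOf hP (M := commutator P) fun e => h1
      ⟨⟨fun a b => commutatorElement_eq_one_iff_mul_comm.1
        (mem_bot.1 (e ▸ commutator_mem_commutator (mem_top a) (mem_top b)))⟩⟩
    refine ⟨y, commutator_le_frattini hP h2, (h.eq _ y.2 fun p hp =>
      (congrArg Subtype.val (mem_center_iff.1 h3 ⟨p, hp⟩)).symm).resolve_left fun e => ?_⟩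
    rw [show y = 1 from Subtype.ext e, orderOf_one] at h4
    omega
  · rw [relIndex, subgroupOf, comap_map_eq_self_of_injective P.subtype_injective]
    exact sq_le_index_frattini hP fun e => h1 (by letI := e.commGroup; infer_instance)

theorem cent_mem (hG : IsPGroup 2 G) (hr : SR 4 G) (hP : Zc P z) (hQ : Zc Q w) (h : Cm P Q)
    (h0 : P ⊓ Q = ⊥) (h1 : ∀ p ∈ P, Commute x p) (h2 : ∀ q ∈ Q, Commute x q) : x ∈ P ⊔ Q := by
  haveI : Fact (Nat.Prime 2) := ⟨Nat.prime_two⟩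
  by_contra hx
  obtain ⟨n, hn⟩ := hG x
  obtain ⟨j, h3, h4⟩ := exists_pow_not_mem (p := 2) hx (k := n) (hn ▸ one_mem _)
  have h1' : ∀ p ∈ P, Commute (x ^ 2 ^ j) p := fun p hp => (h1 p hp).pow_left _
  have h2' : ∀ p ∈ Q, Commute (x ^ 2 ^ j) p := fun p hp => (h2 p hp).pow_left _
  generalize x ^ 2 ^ j = y at *
  obtain ⟨P₀, a1, a2, a3⟩ := hP.frat hG
  obtain ⟨Q₀, b1, b2, b3⟩ := hQ.frat hG
  have h5 : Cm (P ⊔ Q) (zpowers y) := fun a ha b ⟨i, hi⟩ => by
    obtain ⟨p, hp, q, hq, rfl⟩ := h.mem ha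
    exact hi ▸ (((h1' p hp).mul_right (h2' q hq)).zpow_left i).symm
  have h6 : y ^ 2 ∈ P₀ ⊔ Q₀ := by
    obtain ⟨p, hp, q, hq, e⟩ := h.mem h4
    rw [e]
    refine mul_mem (mem_sup_left ?_) (mem_sup_right ?_)
    · rcases hP.eq p hp fun t ht => by
        rw [← mul_inv_eq_iff_eq_mul.2 e]
        exact ((h1' t ht).pow_left 2).mul_left (h t ht q hq).symm.inv_left with rfl | rfl
      exacts [one_mem _, a2]
    · rcases hQ.eq q hq fun t ht => by
        rw [← inv_mul_eq_iff_eq_mul.2 e]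
        exact (h p hp t ht).inv_left.mul_left ((h2' t ht).pow_left 2) with rfl | rfl
      exacts [one_mem _, b2]
  have h7 := a1.prod b1 h
  have h8 := hr ((P ⊔ Q) ⊔ zpowers y) (P₀ ⊔ Q₀) (h7.le.trans le_sup_left) fun t ht => by
    obtain ⟨a, ha, _, ⟨i, rfl⟩, rfl⟩ := h5.mem ht
    rw [(h5 a ha _ (zpow_mem_zpowers y i)).mul_pow, ← zpow_natCast (y ^ i), ← zpow_mul, mul_comm i,
      zpow_mul, zpow_natCast]
    exact mul_mem (h7.sq a ha) (zpow_mem h6 i)
  rw [← relIndex_mul_relIndex _ _ _ h7.le le_sup_left, idx_prod a1.le b1.le h (h0.le.trans bot_le),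
    relIndex_sup_zpowers Nat.prime_two (h5.norm (mem_zpowers y)) h3 h4] at h8
  have := Nat.mul_le_mul a3 b3
  omega

theorem three (hG : IsPGroup 2 G) (hr : SR 4 G) (hP : Zc P z) (hQ : Zc Q w) (h : Cm P Q)
    (h0 : P ⊓ Q = ⊥) (h1 : Cm R P) (h2 : Cm R Q) : Cm R R := fun a ha b hb => by
  obtain ⟨p, hp, q, hq, rfl⟩ := h.mem (cent_mem hG hr hP hQ h h0 (h1 b hb) (h2 b hb))
  exact (h1 a ha p hp).mul_right (h2 a ha q hq)

theorem Zc.two (hG : IsPGroup 2 G) (hP : Zc P z) (hQ : Zc Q w) (hne : z ≠ w)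
    (h1 : P ≤ normalizer (Q : Set G)) (h2 : Q ≤ normalizer (P : Set G)) : P ⊓ Q = ⊥ ∧ Cm P Q := by
  haveI : Fact (Nat.Prime 2) := ⟨Nat.prime_two⟩
  have h0 : P ⊓ Q = ⊥ := by
    by_contra e
    obtain ⟨x, a1, a2, a3⟩ := exists_layer (H := ⊤) (P := P ⊔ Q) (M := P ⊓ Q) (N := ⊥)
      (hG.to_subgroup ⊤).isNilpotent le_top le_top
      ((sup_le (le_inf le_normalizer h1) (le_inf h2 le_normalizer)).trans
        inf_normalizer_le_normalizer_inf) (by rwa [le_bot_iff])
    have a4 : ∀ g ∈ P ⊔ Q, Commute x g := fun g hg =>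
      commutatorElement_eq_one_iff_mul_comm.1 (mem_bot.1 (a3 g hg))
    exact hne (((hP.eq x a1.1 fun p hp => a4 p (mem_sup_left hp)).resolve_left a2).symm.trans
      ((hQ.eq x a1.2 fun p hp => a4 p (mem_sup_right hp)).resolve_left a2))
  refine ⟨h0, fun a ha b hb => commutatorElement_eq_one_iff_mul_comm.1 (mem_bot.1 (h0.le (mem_inf.2 ⟨?_, ?_⟩)))⟩
  · rw [commutatorElement_def, mul_assoc, mul_assoc, ← mul_assoc b]
    exact mul_mem ha ((mem_normalizer_iff.1 (h2 hb) _).1 (P.inv_mem ha))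
  · exact mul_mem ((mem_normalizer_iff.1 (h1 ha) _).1 hb) (inv_mem hb)

/-- the conjugate `g P g⁻¹` -/
def pc (g : G) (P : Subgroup G) : Subgroup G := P.comap (MulAut.conj g⁻¹).toMonoidHom

theorem mem_pc : x ∈ pc g P ↔ g⁻¹ * x * g ∈ P := by simp [pc]

theorem conj_mem_pc : g * x * g⁻¹ ∈ pc g P ↔ x ∈ P := by simp [pc, mul_assoc]

theorem commute_conj (g : G) (h : Commute x y) : Commute (g * x * g⁻¹) (g * y * g⁻¹) := by
  have := h.map (MulAut.conj g)
  simpa using this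

theorem Zc.pc (h : Zc P z) (g : G) : Zc (pc g P) (g * z * g⁻¹) := by
  refine ⟨conj_mem_pc.2 h.mem, by simpa using h.ne, fun p hp => ?_, fun x hx h1 => ?_,
    fun h1 => h.nc fun a ha b hb => ?_⟩
  · simpa [mul_assoc] using commute_conj g (h.cen _ (mem_pc.1 hp))
  · refine (h.eq _ (mem_pc.1 hx) fun p hp => ?_).imp (fun e => ?_) fun e => ?_
    · simpa [mul_assoc] using commute_conj g⁻¹ (h1 _ (conj_mem_pc.2 hp))
    · rw [← mul_inv_cancel_left g x, ← mul_inv_cancel_right (g⁻¹ * x) g, e]; group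
    · rw [← e]; group
  · simpa [mul_assoc] using commute_conj g⁻¹ (h1 _ (conj_mem_pc.2 ha) _ (conj_mem_pc.2 hb))

theorem idx_pc (g : G) (A B : Subgroup G) : (pc g A).relIndex (pc g B) = A.relIndex B := by
  rw [pc, pc, relIndex_comap, map_comap_eq_self_of_surjective (MulAut.conj g⁻¹).surjective]

theorem Sec.pc (h : Sec A A₀) (g : G) : Sec (pc g A) (pc g A₀) :=
  ⟨comap_mono h.le, fun x hx => by
    have := h.sq _ (mem_pc.1 hx)
    rwa [mem_pc, show g⁻¹ * x ^ 2 * g = (g⁻¹ * x * g) ^ 2 by simp [pow_two, mul_assoc]]⟩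

theorem sr_two (hr : SR 4 G) (h : Cm P (pc g P)) (h0 : P ⊓ pc g P = ⊥) : SR 2 P := by
  intro H N h1 h2
  have a1 : Sec (H.map P.subtype) (N.map P.subtype) := ⟨map_mono h1, by
    rintro _ ⟨x, hx, rfl⟩
    exact ⟨_, h2 x hx, by simp⟩⟩
  have a2 := h.mono (map_subtype_le H) (comap_mono (map_subtype_le H))
  have a3 := a1.prod (a1.pc g) a2
  have a4 := hr _ _ a3.le a3.sq
  rw [idx_prod a1.le (a1.pc g).le a2 (((inf_le_inf (map_subtype_le H)
    (comap_mono (map_subtype_le H))).trans h0.le).trans bot_le), idx_pc,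
    relIndex_map_map_of_injective _ _ P.subtype_injective] at a4
  by_contra! a5
  have := Nat.mul_le_mul a5 a5
  omega

section
variable (hG : IsPGroup 2 G) (hr : SR 4 G) (h : Zc P z)
  (hn : centralizer {z} ≤ normalizer (P : Set G))
include h hn

theorem norm_pc (g : G) : centralizer {g * z * g⁻¹} ≤ normalizer (pc g P : Set G) := fun s hs =>
  CA.Rad.mem_normalizer_of_conj_mem fun x hx => by
    have h1 : g⁻¹ * s * g ∈ centralizer {z} := mem_centralizer_singleton_iff.2 (by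
      simpa [mul_assoc] using (commute_conj g⁻¹ (mem_centralizer_singleton_iff.1 hs)).eq)
    have := (mem_normalizer_iff.1 (hn h1) _).1 (mem_pc.1 hx)
    rw [mem_pc]
    simpa [mul_assoc] using this

include hG in
theorem two_pc {a b : G} (hne : a⁻¹ * b ∉ centralizer {z}) (h1 : pc (a⁻¹ * b) P ≤ centralizer {z})
    (h2 : pc (b⁻¹ * a) P ≤ centralizer {z}) : pc a P ⊓ pc b P = ⊥ ∧ Cm (pc a P) (pc b P) := by
  have k : ∀ {a b : G}, pc (a⁻¹ * b) P ≤ centralizer {z} → pc b P ≤ centralizer {a * z * a⁻¹} := by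
    intro a b h1 x hx
    have := h1 (x := a⁻¹ * x * a) (mem_pc.2 (by simpa [mul_assoc] using mem_pc.1 hx))
    exact mem_centralizer_singleton_iff.2 (by
      simpa [mul_assoc] using (commute_conj a (mem_centralizer_singleton_iff.1 this)).eq)
  refine (h.pc a).two hG (h.pc b) (fun e => hne (mem_centralizer_singleton_iff.2 ?_))
    ((k h2).trans (norm_pc h hn b)) ((k h1).trans (norm_pc h hn a))
  calc a⁻¹ * b * z = a⁻¹ * (b * z * b⁻¹) * b := by group
    _ = _ := by rw [← e]; group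

theorem pc_le {N : Subgroup G} (hN : N = normalizer (centralizer {z} : Subgroup G)) {n : G}
    (hx : n ∈ N) : pc n P ≤ centralizer {z} := fun x h1 => by
  have h2 : n⁻¹ * x * n ∈ centralizer {z} :=
    mem_centralizer_singleton_iff.2 (h.cen _ (mem_pc.1 h1)).symm
  subst hN
  simpa [mul_assoc] using (mem_normalizer_iff.1 hx _).1 h2

include hG hr in
theorem conj_cases {N : Subgroup G} (hN : N = normalizer (centralizer {z} : Subgroup G))
    (hy : y ∈ N) (hy' : y ∉ centralizer {z}) {n : G} (hx : n ∈ N) :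
    n * z * n⁻¹ = z ∨ n * z * n⁻¹ = y * z * y⁻¹ := by
  by_contra! h1
  have k : ∀ {a b : G}, a ∈ N → b ∈ N → a⁻¹ * b ∉ centralizer {z} →
      pc a P ⊓ pc b P = ⊥ ∧ Cm (pc a P) (pc b P) := fun ha hb e =>
    two_pc hG h hn e (pc_le h hn hN (mul_mem (inv_mem ha) hb))
      (pc_le h hn hN (mul_mem (inv_mem hb) ha))
  have h2 := k (one_mem N) hy (by simpa using hy')
  refine (h.pc n).nc (three hG hr (h.pc 1) (h.pc y) h2.2 h2.1 (k (one_mem N) hx fun e => h1.1 ?_).2.symm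
    (k hy hx fun e => h1.2 ?_).2.symm)
  · rw [inv_one, one_mul, mem_centralizer_singleton_iff] at e
    rw [e, mul_inv_cancel_right]
  · rw [mem_centralizer_singleton_iff] at e
    calc n * z * n⁻¹ = y * (y⁻¹ * n * z) * n⁻¹ := by group
      _ = _ := by rw [e]; group

include hG hr in
theorem pc_le' {N : Subgroup G} (hN : N = normalizer (centralizer {z} : Subgroup G))
    (hy : y ∈ N) (hy' : y ∉ centralizer {z}) (hw : w ∈ normalizer (N : Set G)) :
    pc w P ≤ centralizer {z} := by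
  have hS : centralizer {z} ≤ N := hN ▸ le_normalizer
  have hP : P ≤ centralizer {z} := fun p hp => mem_centralizer_singleton_iff.2 (h.cen p hp).symm
  have hz : z ∈ N := hS (hP h.mem)
  have k : ∀ {b : G}, b ∈ N → b ∉ centralizer {z} → P ⊓ pc b P = ⊥ ∧ Cm P (pc b P) := by
    intro b hb e
    have := two_pc hG h hn (a := 1) (b := b) (by simpa using e) (pc_le h hn hN (by simpa using hb))
      (pc_le h hn hN (by simpa using hb))
    rwa [show pc 1 P = P from Subgroup.ext fun x => by simp [mem_pc]] at this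
  have cc : ∀ n ∈ N, n * z * n⁻¹ = z ∨ n * z * n⁻¹ = y * z * y⁻¹ := fun n hx =>
    conj_cases hG hr h hn hN hy hy' hx
  have c2 : ∀ n ∈ N, n ∉ centralizer {z} → n * z * n⁻¹ = y * z * y⁻¹ := fun n hx e =>
    (cc n hx).resolve_left fun e' => e (mem_centralizer_singleton_iff.2 (mul_inv_eq_iff_eq_mul.1 e'))
  set v := y * z * y⁻¹ with hv
  have hzv : Commute z v := (k hy hy').2 z h.mem v (h.pc y).mem
  have hv2 : v ^ 2 = 1 := (h.pc y).sq
  have hne : z ≠ v := fun e => hy' (mem_centralizer_singleton_iff.2 (mul_inv_eq_iff_eq_mul.1 e.symm))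
  have hu : ∀ n ∈ N, n * (z * v) * n⁻¹ = z * v := fun n hx => by
    have e1 : n * (z * v) * n⁻¹ = (n * z * n⁻¹) * ((n * y) * z * (n * y)⁻¹) := by rw [hv]; group
    have e2 : n * z * n⁻¹ ≠ (n * y) * z * (n * y)⁻¹ := fun e => hne (by
      rw [hv]; exact (MulAut.conj n).injective (by simpa [mul_assoc] using e))
    rw [e1]
    rcases cc n hx with e3 | e3 <;> rcases cc _ (mul_mem hx hy) with e4 | e4 <;>
      simp only [e3, e4, ne_eq, not_true_eq_false] at e2 ⊢
    exact hzv.eq.symm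
  have hN' : ∀ n ∈ N, w⁻¹ * n * w ∈ N := fun n hx => (mem_normalizer_iff''.1 hw n).1 hx
  have hu2 : w * (z * v) * w⁻¹ = z * v := by
    have e1 : ∀ n ∈ N, Commute (w * (z * v) * w⁻¹) n := fun n hx => by
      have := commute_conj w (show Commute (z * v) _ from (mul_inv_eq_iff_eq_mul.1 (hu _ (hN' n hx))).symm)
      simpa [mul_assoc] using this
    have hPy : pc y P ≤ N := (pc_le h hn hN hy).trans hS
    obtain ⟨p, hp, q, hq, e⟩ := (k hy hy').2.mem (cent_mem hG hr h (h.pc y) (k hy hy').2 (k hy hy').1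
      (fun p hp => e1 p (hS (hP hp))) fun q hq => e1 q (hPy hq))
    have a1 := h.eq p hp fun t ht => by
      rw [← mul_inv_eq_iff_eq_mul.2 e]
      exact (e1 t (hS (hP ht))).mul_left ((k hy hy').2 t ht q hq).symm.inv_left
    have a2 := (h.pc y).eq q hq fun t ht => by
      rw [← inv_mul_eq_iff_eq_mul.2 e]
      exact ((k hy hy').2 p hp t ht).inv_left.mul_left (e1 t (hPy ht))
    have a3 := e1 y hy
    rw [e] at a3 ⊢
    rcases a1 with rfl | rfl <;> rcases a2 with rfl | rfl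
    · rw [mul_one, conj_eq_one_iff, mul_eq_one_iff_eq_inv'] at e
      rw [inv_eq_of_mul_eq_one_right ((pow_two z).symm.trans h.sq)] at e
      exact absurd e.symm hne
    · rw [one_mul] at a3
      exact absurd (mem_centralizer_singleton_iff.2 (by
        simpa [mul_assoc] using (commute_conj y⁻¹ a3).symm.eq)) hy'
    · rw [mul_one] at a3
      exact absurd (mem_centralizer_singleton_iff.2 a3.symm) hy'
    · rfl
  have c1 : w * z * w⁻¹ ∈ centralizer {z} := by
    by_contra e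
    set t := w * z * w⁻¹ with ht
    have htN : t ∈ N := (mem_normalizer_iff.1 hw z).1 hz
    have e2 : ∀ p ∈ P, p ^ 2 = 1 := fun p hp => by
      have a1 : (p * (t * p⁻¹ * t⁻¹)) ^ 2 = 1 := by
        have a2 : p * (t * p⁻¹ * t⁻¹) = w * ((w⁻¹ * p * w) * z * (w⁻¹ * p * w)⁻¹ * z⁻¹) * w⁻¹ := by
          rw [ht]; group
        rw [a2, conj_pow, conj_eq_one_iff]
        rcases cc _ (hN' p (hS (hP hp))) with a3 | a3 <;> rw [a3]
        · simp
        · rw [hzv.symm.inv_right.mul_pow, hv2, inv_pow, h.sq, inv_one, mul_one]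
      have a3 : t * p⁻¹ * t⁻¹ ∈ pc t P := conj_mem_pc.2 (inv_mem hp)
      rw [((k htN e).2 p hp _ a3).mul_pow, mul_eq_one_iff_eq_inv] at a1
      exact mem_bot.1 ((k htN e).1.le ⟨pow_mem hp 2, a1 ▸ (pc t P).inv_mem (pow_mem a3 2)⟩)
    exact h.nc fun a ha b hb => comm_of_sq (e2 a ha) (e2 b hb) (e2 _ (mul_mem ha hb))
  intro t ht
  by_contra e
  have htN : t ∈ N := by simpa [mul_assoc] using (mem_normalizer_iff.1 hw _).1 (hS (hP (mem_pc.1 ht)))
  have a1 : z ∈ normalizer (pc w P : Set G) :=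
    norm_pc h hn w (mem_centralizer_singleton_iff.2 (mem_centralizer_singleton_iff.1 c1).symm)
  have a2 := mul_mem ((mem_normalizer_iff.1 a1 t).1 ht) (inv_mem ht)
  have a3 : z * t * z⁻¹ * t⁻¹ = z * v := by
    rw [← c2 t htN e, inv_eq_of_mul_eq_one_right ((pow_two z).symm.trans h.sq)]; group
  rw [a3, ← hu2, conj_mem_pc, mul_mem_cancel_left h.mem] at a2
  exact (h.pc y).ne (mem_bot.1 ((k hy hy').1.le ⟨a2, (h.pc y).mem⟩))

include hG hr in
theorem index_two (h0 : centralizer {z} ≠ ⊤) : SR 2 P ∧ (centralizer {z}).index = 2 := by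
  haveI : Fact (Nat.Prime 2) := ⟨Nat.prime_two⟩
  obtain ⟨y, -, hy', hy, -⟩ := exists_mem_normalizer (hG.to_subgroup ⊤) h0.lt_top
  set N : Subgroup G := normalizer (centralizer {z} : Subgroup G) with hN
  have hS : centralizer {z} ≤ N := le_normalizer
  have k := two_pc hG h hn (a := 1) (b := y) (by simpa using hy') (pc_le h hn hN (by simpa using hy))
      (pc_le h hn hN (by simpa using hy))
  have e1 : pc 1 P = P := Subgroup.ext fun x => by simp [mem_pc]
  refine ⟨sr_two hr (by simpa only [e1] using k.2) (by simpa only [e1] using k.1), ?_⟩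
  have h1 : N = ⊤ := by
    by_contra e
    obtain ⟨w, -, hw', hw, -⟩ := exists_mem_normalizer (hG.to_subgroup ⊤) (Ne.lt_top e)
    have c : ∀ {t : G}, t ∈ normalizer (N : Set G) → pc t P ≤ centralizer {z} := fun ht =>
      pc_le' hG hr h hn hN hy hy' ht
    have hy2 : y ∈ normalizer (N : Set G) := le_normalizer hy
    refine (h.pc w).nc (three hG hr (h.pc 1) (h.pc y) k.2 k.1
      (two_pc hG h hn (fun e => hw' (by simpa using hS e)) (c (by simpa using hw))
        (c (by simpa using hw))).2.symm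
      (two_pc hG h hn (fun e => hw' ((mul_mem_cancel_left (inv_mem hy)).1 (hS e)))
        (c (mul_mem (inv_mem hy2) hw)) (c (mul_mem (inv_mem hw) hy2))).2.symm)
  refine index_eq_two_iff'.2 ⟨y⁻¹, fun b => ?_⟩
  by_cases hb : b ∈ centralizer {z}
  · exact Or.inr ⟨hb, fun e => hy' (inv_mem_iff.1 ((mul_mem_cancel_right hb).1 e))⟩
  · refine Or.inl ⟨mem_centralizer_singleton_iff.2 ?_, hb⟩
    have := (conj_cases hG hr h hn hN hy hy' (h1 ▸ mem_top b)).resolve_left fun e =>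
      hb (mem_centralizer_singleton_iff.2 (mul_inv_eq_iff_eq_mul.1 e))
    calc y⁻¹ * b * z = y⁻¹ * (b * z * b⁻¹) * b := by group
      _ = _ := by rw [this]; group

end

end CA.H7SR
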