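import Cfsg.Agent.Lib.Grp.H8Wr

/-!
Sylow `2`-subgroups of `Aut(A₆)` intersect nontrivially.
-/

set_option autoImplicit false

namespace CA.H8A6

open Subgroup Equiv Finset
open scoped Pointwise

/-- a double transposition -/
def z0 : Perm (Fin 6) := swap 0 1 * swap 2 3

theorem cnt : #{w : Perm (Fin 6) | w * z0 = z0 * w ∧ Perm.sign w = 1} ≤ 8 ∧
    #{w : Perm (Fin 6) | w * w = 1 ∧ (z0 * w) ^ 3 = 1 ∧ Perm.sign w = 1} < 32 ∧
    #{w : Perm (Fin 6) | w * w = 1 ∧ (z0 * w) ^ 3 ≠ 1 ∧ Perm.sign w = 1} < 32 := by decide +kernel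

theorem ctype {w : Perm (Fin 6)} (h : orderOf w = 2) (s : Perm.sign w = 1) : w.cycleType = {2, 2} := by
  obtain ⟨n, hn⟩ := Perm.cycleType_prime_order (h ▸ Nat.prime_two)
  have a := w.sum_cycleType_le
  rw [Perm.sign_of_cycleType] at s
  rw [hn, h, Multiset.sum_replicate, smul_eq_mul] at a s
  rw [Fintype.card_fin] at a
  rw [hn, h]
  have : n ≤ 2 := by omega
  interval_cases n
  · exact absurd s (by decide)
  · rfl
  · exact absurd s (by decide)

theorem le_card {X : Type*} {P : Perm (Fin 6) → Prop} [DecidablePred P] (f : X → Perm (Fin 6))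
    (hf : Function.Injective f) (h : ∀ x, P (f x)) : Nat.card X ≤ #{w | P w} := by
  rw [← Fintype.card_subtype, ← Nat.card_eq_fintype_card]
  exact Nat.card_le_card_of_injective (fun x => ⟨f x, h x⟩) fun x y e => hf (Subtype.ext_iff.1 e)

theorem main {G : Type*} [Group G] [Finite G] (N : Subgroup G) [hN : N.Normal] (e : N ≃* alternatingGroup (Fin 6))
    (hidx : N.index = 4) (H : Sylow 2 G) (x : G) : (H : Subgroup G) ⊓ MulAut.conj x • (H : Subgroup G) ≠ ⊥ := by
  intro hb
  have cG : Nat.card G = 2 ^ 5 * 45 := by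
    rw [← N.card_mul_index, hidx, Nat.card_congr e.toEquiv, nat_card_alternatingGroup]; simp [Nat.factorial]
  have cH : Nat.card H = 32 := CA.H8Wr.card_syl H cG (by decide)
  have ri : ∀ K : Subgroup G, Nat.card K ≤ Nat.card (N.subgroupOf K) * 4 := fun K => by
    rw [← (N.subgroupOf K).card_mul_index]
    exact Nat.mul_le_mul_left _ (Nat.le_of_dvd (by decide) (hidx ▸ relIndex_dvd_index_of_normal N K))
  obtain ⟨⟨z, zH⟩, zN, zc, oz⟩ := CA.PGBasic.exists_mem_center_orderOf H.isPGroup' (M := N.subgroupOf H) fun b => by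
    have := ri H
    rw [b, card_bot, cH] at this
    omega
  rw [← orderOf_coe] at oz
  change orderOf z = 2 at oz
  change z ∈ N at zN
  have hz : ∀ h ∈ H, h * z = z * h := fun h a => congrArg Subtype.val (mem_center_iff.1 zc ⟨h, a⟩)
  obtain ⟨π, hπ⟩ := isConj_iff.1 (Perm.isConj_of_cycleType_eq ((ctype (w := e ⟨z, zN⟩) (by
    rw [orderOf_coe, e.orderOf_eq, ← orderOf_coe, oz]) (e _).2).trans
    (ctype (w := z0) (orderOf_eq_prime (by decide) (by decide)) (by decide)).symm))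
  let f : N →* Perm (Fin 6) := (MulAut.conj π).toMonoidHom.comp ((alternatingGroup _).subtype.comp e.toMonoidHom)
  have fi : Function.Injective f := (MulAut.conj π).injective.comp (Subtype.val_injective.comp e.injective)
  have fs : ∀ n, Perm.sign (f n) = 1 := fun n => by
    change Perm.sign (π * _ * π⁻¹) = 1
    rw [map_mul, map_mul, map_inv, mul_inv_cancel_comm]; exact (e n).2
  have fz : f ⟨z, zN⟩ = z0 := hπ
  have c1 : (H : Subgroup G) = centralizer {z} := eq_of_le_of_card_ge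
    (fun h a => mem_centralizer_singleton_iff.2 (hz h a)) (by
      have a := (le_card (fun y : N.subgroupOf (centralizer {z}) => f ⟨y.1.1, y.2⟩)
        (fun a b c => Subtype.ext (Subtype.ext (Subtype.ext_iff.1 (fi c) :))) fun y => ⟨by
          rw [← fz, ← map_mul, ← map_mul]
          exact congrArg f (Subtype.ext (mem_centralizer_singleton_iff.1 y.1.2)), fs _⟩).trans cnt.1
      have := ri (centralizer {z})
      omega)
  have m : ∀ h : H, h * (x * z * x⁻¹) * (h : G)⁻¹ ∈ N := fun h => hN.conj_mem _ (hN.conj_mem _ zN x) h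
  have inj : Function.Injective fun h : H => f ⟨_, m h⟩ := fun a b c => by
    have d : (a : G) * (x * z * x⁻¹) * (a : G)⁻¹ = b * (x * z * x⁻¹) * (b : G)⁻¹ := Subtype.ext_iff.1 (fi c)
    have : (b : G)⁻¹ * a ∈ (H : Subgroup G) ⊓ MulAut.conj x • (H : Subgroup G) := mem_inf.2 ⟨mul_mem (inv_mem b.2) a.2, by
      rw [mem_pointwise_smul_iff_inv_smul_mem, c1, mem_centralizer_singleton_iff, MulAut.smul_def, MulAut.conj_inv_apply]
      calc _ = x⁻¹ * (b : G)⁻¹ * (a * (x * z * x⁻¹) * (a : G)⁻¹) * a * x := by group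
        _ = _ := by rw [d]; group⟩
    rw [hb, mem_bot, inv_mul_eq_one] at this
    exact Subtype.ext this.symm
  have sq : ∀ h : H, f ⟨_, m h⟩ * f ⟨_, m h⟩ = 1 := fun h => by
    rw [← map_mul, map_eq_one_iff f fi]
    refine Subtype.ext ?_
    change _ * _ = (1 : G)
    rw [conj_mul, conj_mul, ← pow_two, (oz ▸ pow_orderOf_eq_one z : z ^ 2 = 1)]; group
  have cb : ∀ h : H, (z0 * f ⟨_, m h⟩) ^ 3 = 1 ↔ (z * (x * z * x⁻¹)) ^ 3 = 1 := fun h => by
    rw [← fz, ← map_mul, ← map_pow, map_eq_one_iff f fi, Subtype.ext_iff]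
    change (z * _) ^ 3 = (1 : G) ↔ _
    rw [show z * (h * (x * z * x⁻¹) * (h : G)⁻¹) = h * (z * (x * z * x⁻¹)) * (h : G)⁻¹ by
      simp only [← mul_assoc, hz h h.2], conj_pow, conj_eq_one_iff]
  by_cases c : (z * (x * z * x⁻¹)) ^ 3 = 1
  · exact absurd ((le_card _ inj fun h => ⟨sq h, (cb h).2 c, fs _⟩).trans_lt cnt.2.1) cH.ge.not_gt
  · exact absurd ((le_card _ inj fun h => ⟨sq h, mt (cb h).1 c, fs _⟩).trans_lt cnt.2.2) cH.ge.not_gt

end CA.H8A6
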