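import Cfsg.Agent.S3299
import Cfsg.Agent.Lib.Grp.Trf

/-!
A conjugacy class of involutions with large extraspecial subgroups and subgroups of index 2 in the centralizers:
a maximal 2-subgroup on which two of the index-2 subgroups differ.
-/

set_option autoImplicit false
set_option linter.unusedSectionVars false

namespace CA.H8Lge

open Subgroup Cfsg CA.BG CA.GW CA.H7Lge
open scoped commutatorElement

variable {G : Type*} [Group G]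

/-- Transport of a subgroup attached to `z` along the conjugacy class of `z`. -/
def At (z : G) (K : Subgroup G) (w : G) : Subgroup G := ⨅ g : {g : G // g * z * g⁻¹ = w}, cj g.1 K

theorem mem_At {z w x : G} {K : Subgroup G} : x ∈ At z K w ↔ ∀ g, g * z * g⁻¹ = w → x ∈ cj g K := by
  simp [At, mem_iInf]

theorem At_cj (z : G) (K : Subgroup G) (h w : G) : At z K (h * w * h⁻¹) = cj h (At z K w) := by
  ext x
  rw [mem_cj, mem_At, mem_At]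
  refine ⟨fun H g hg => ?_, fun H g hg => ?_⟩
  · have := H (h * g) (by rw [← hg]; group)
    rwa [cj_mul, mem_cj] at this
  · have := H (h⁻¹ * g) (by rw [mul_inv_rev, inv_inv, show h⁻¹ * g * z * (g⁻¹ * h) = h⁻¹ * (g * z * g⁻¹) * h by group, hg]; group)
    rwa [← mem_cj, ← cj_mul, mul_inv_cancel_left] at this

theorem At_self {z : G} {K : Subgroup G} (hK : 𝓒₁(z) ≤ 𝓝(K)) : At z K z = K := by
  ext x
  rw [mem_At]
  refine ⟨fun H => by simpa using H 1 (by simp), fun H g hg => ?_⟩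
  rwa [cj_of_mem_norm (hK (mem_cent1.2 (mul_inv_eq_iff_eq_mul.1 hg)))]

theorem At_eq {z : G} {K : Subgroup G} (hK : 𝓒₁(z) ≤ 𝓝(K)) (g : G) : At z K (g * z * g⁻¹) = cj g K := by
  rw [At_cj, At_self hK]

/-- The basic data. -/
structure Sys (Δ : Set G) (Q K : G → Subgroup G) : Prop where
  ex : ∀ w ∈ Δ, EX (Q w) w
  lx : ∀ w ∈ Δ, LX (Q w) w
  cjD : ∀ w ∈ Δ, ∀ g, g * w * g⁻¹ ∈ Δ
  cjQ : ∀ g w, Q (g * w * g⁻¹) = cj g (Q w)
  cjK : ∀ g w, K (g * w * g⁻¹) = cj g (K w)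
  le : ∀ w ∈ Δ, K w ≤ 𝓒₁(w)
  idx : ∀ w ∈ Δ, (K w).relIndex 𝓒₁(w) = 2
  syl : ∀ T, IsPi {2} T → ∃ w ∈ Δ, T ≤ 𝓒₁(w)
  odd : ∀ w ∈ Δ, Odd (𝓒₁(w)).index
  res : pResidual 2 G = ⊤

variable [Finite G]

theorem sys_of {z : G} {E K : Subgroup G} (hres : pResidual 2 G = ⊤) (hz : orderOf z = 2)
    (hE : E = (pCore 2 𝓒₁(z)).map 𝓒₁(z).subtype) (hext : IsExtraspecial 2 E) (hcent : 𝓒(E) ≤ E)
    (hKH : K ≤ 𝓒₁(z)) (hKi : K.relIndex 𝓒₁(z) = 2) :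
    Sys {w | ∃ g, g * z * g⁻¹ = w} (At z E) (At z K) := by
  have p2 := Nat.prime_two
  obtain ⟨e, l, hs⟩ := Cfsg.Agent.S3299.setup hz hE hext hcent
  have hn : 𝓒₁(z) ≤ 𝓝(K) := CA.AmbTr.norm_of_relIndex_two hKH hKi
  obtain ⟨T, hT⟩ := syl_exists p2 𝓒₁(z)
  have hT' := (hs T hT).2
  refine ⟨?_, ?_, ?_, At_cj z E, At_cj z K, ?_, ?_, fun S hS => ?_, ?_, hres⟩
  · rintro _ ⟨g, rfl⟩; rw [At_eq l.norm]; exact e.cj g
  · rintro _ ⟨g, rfl⟩; rw [At_eq l.norm]; exact l.cj g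
  · rintro _ ⟨g, rfl⟩ h; exact ⟨h * g, by group⟩
  · rintro _ ⟨g, rfl⟩; rw [At_eq hn, ← cj_cent1]; exact cj_mono g hKH
  · rintro _ ⟨g, rfl⟩; rw [At_eq hn, ← cj_cent1, relIndex_cj]; exact hKi
  · obtain ⟨g, -, hg⟩ := hT'.syl_le_conj p2 hS le_top
    exact ⟨_, ⟨g, rfl⟩, hg.trans (cj_cent1 g z ▸ cj_mono g hT.le)⟩
  · rintro _ ⟨g, rfl⟩
    rw [← cj_cent1, index_cj]
    have := (piNat_compl_iff_coprime p2).1 (hT'.le_of_idx hT.le)
    rwa [relIndex_top_right, Nat.coprime_two_right] at this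

/-- Two points centralized by `U` whose index-2 subgroups differ on `U`. -/
structure Rel (Δ : Set G) (K : G → Subgroup G) (U : Subgroup G) (w w' : G) : Prop where
  m : w ∈ Δ
  m' : w' ∈ Δ
  c : U ≤ 𝓒₁(w)
  c' : U ≤ 𝓒₁(w')
  ne : U ⊓ K w ≠ U ⊓ K w'

variable {Δ : Set G} {Q K : G → Subgroup G} {U : Subgroup G} {w w' : G}

theorem Rel.symm (h : Rel Δ K U w w') : Rel Δ K U w' w := ⟨h.m', h.m, h.c', h.c, h.ne.symm⟩

theorem Rel.ne' (h : Rel Δ K U w w') : w ≠ w' := fun e => h.ne (e ▸ rfl)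

theorem Rel.up (h : Rel Δ K U w w') {S : Subgroup G} (h1 : U ≤ S) (h2 : S ≤ 𝓒₁(w)) (h3 : S ≤ 𝓒₁(w')) :
    Rel Δ K S w w' := ⟨h.m, h.m', h2, h3, fun e => h.ne (by
      have := congrArg (U ⊓ ·) e
      simpa only [← inf_assoc, inf_eq_left.2 h1] using this)⟩

/-- Maximality of `U`. -/
structure Mx (Δ : Set G) (K : G → Subgroup G) (U : Subgroup G) : Prop where
  pi : IsPi {2} U
  mx : ∀ S w w', IsPi {2} S → U ≤ S → Rel Δ K S w w' → S = U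

namespace Sys

variable (s : Sys Δ Q K)
include s

theorem nK (hw : w ∈ Δ) : 𝓒₁(w) ≤ 𝓝(K w) := CA.AmbTr.norm_of_relIndex_two (s.le w hw) (s.idx w hw)

theorem mul_iff (hw : w ∈ Δ) {a b : G} (ha : a ∈ 𝓒₁(w)) (hb : b ∈ 𝓒₁(w)) :
    a * b ∈ K w ↔ (a ∈ K w ↔ b ∈ K w) :=
  mul_mem_iff_of_index_two (H := (K w).subgroupOf 𝓒₁(w)) (s.idx w hw) (a := ⟨a, ha⟩) (b := ⟨b, hb⟩)

theorem comm_mem (hw : w ∈ Δ) {a b : G} (ha : a ∈ 𝓒₁(w)) (hb : b ∈ 𝓒₁(w)) : ⁅a, b⁆ ∈ K w := by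
  rw [commutatorElement_def, s.mul_iff hw (mul_mem (mul_mem ha hb) (inv_mem ha)) (inv_mem hb),
    s.mul_iff hw (mul_mem ha hb) (inv_mem ha), s.mul_iff hw ha hb, inv_mem_iff, inv_mem_iff]
  tauto

theorem sq_mem (hw : w ∈ Δ) {a : G} (ha : a ∈ 𝓒₁(w)) : a * a ∈ K w := (s.mul_iff hw ha ha).2 Iff.rfl

theorem exists_mx : ∃ U w w', Mx Δ K U ∧ Rel Δ K U w w' := by
  have p2 := Nat.prime_two
  have : ∃ U, IsPi {2} U ∧ ∃ w w', Rel Δ K U w w' := by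
    by_contra! H
    obtain ⟨z, hz, -⟩ := s.syl ⊥ (fun p hp h => by simp at h; exact absurd h hp.one_lt.ne')
    obtain ⟨T, hT⟩ := syl_exists p2 𝓒₁(z)
    obtain ⟨g, g1, g2⟩ : ∃ g ∈ T, g ∉ K z := by
      by_contra! h
      have := relIndex_dvd_of_le_left 𝓒₁(z) (show T ≤ K z from h)
      rw [s.idx z hz] at this
      exact hT.not_dvd p2 this
    obtain ⟨k, hk⟩ := hT.pi.exists_card p2
    have hg : g ^ 2 ^ k = 1 := by
      rw [← hk]; exact congrArg Subtype.val (pow_card_eq_one' (x := (⟨g, g1⟩ : T)))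
    haveI : Fact (Nat.Prime 2) := ⟨p2⟩
    obtain ⟨N, hN, -, h1, h2⟩ := CA.Trf.exists_normal_not_mem (p := 2) (H := 𝓒₁(z)) (K := K z)
      (commutator_le.2 fun a ha b hb => s.comm_mem hz ha hb)
      (by rw [← even_iff_two_dvd, Nat.not_even_iff_odd]; exact s.odd z hz) (hT.le g1) hg g2 (fun j _ t ht => by
        have c1 : g ^ j ∈ 𝓒₁(z) := pow_mem (hT.le g1) j
        have c2 : g ^ j ∈ 𝓒₁(t⁻¹ * z * t⁻¹⁻¹) := by rw [← cj_cent1, mem_cj_inv]; exact ht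
        have := H (zpowers (g ^ j)) (hT.pi.of_le (zp_le.2 (pow_mem g1 j))) z (t⁻¹ * z * t⁻¹⁻¹)
        have e : zpowers (g ^ j) ⊓ K z = zpowers (g ^ j) ⊓ K (t⁻¹ * z * t⁻¹⁻¹) := by
          by_contra hne
          exact this ⟨hz, s.cjD z hz _, zp_le.2 c1, zp_le.2 c2, hne⟩
        rw [s.mul_iff hz (inv_mem c1) ht, inv_mem_iff, ← mem_cj_inv, ← s.cjK]
        exact ⟨fun h => (e.le ⟨mem_zpowers _, h⟩).2, fun h => (e.ge ⟨mem_zpowers _, h⟩).2⟩)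
    rw [s.idx z hz] at h2
    have h3 : pResidual 2 G ≤ N := by
      rw [pResidual, closure_le]
      intro x hx
      have b : x ^ 2 ∈ N := by
        obtain ⟨c, hc⟩ := h2
        rw [hc, pow_mul]; exact pow_mem (pow_index_mem N x) c
      obtain ⟨m, hm⟩ := exists_pow_eq_self_of_coprime (x := x) (n := 2) (Nat.Coprime.symm hx)
      rw [← hm]; exact pow_mem b m
    exact h1 (h3 (s.res ▸ mem_top g))
  obtain ⟨U0, h0⟩ := this
  obtain ⟨U, -, ⟨h1, w, w', h2⟩, h3⟩ := exists_maximal_ge (P := fun U => IsPi {2} U ∧ ∃ w w', Rel Δ K U w w') h0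
  exact ⟨U, w, w', ⟨h1, fun S a b hS hU hr => h3 S ⟨hS, a, b, hr⟩ hU⟩, h2⟩

theorem not_le (h : Rel Δ K U w w') : ¬ Q w ≤ U := fun hle => by
  have c : w' ∈ 𝓒(Q w) := le_cent1_iff.1 (hle.trans h.c')
  rcases (s.ex w h.m).mem_iff.1 ((s.ex w h.m).ctr ⟨(s.lx w h.m).cent_le c, c⟩) with e | e
  · exact (s.ex w' h.m').ne e
  · exact h.ne' e.symm

theorem exF (m : Mx Δ K U) (h : Rel Δ K U w w') : ∃ f ∈ Q w, f ∈ 𝓝(U) ∧ f ∉ U := by
  have hn : U ≤ 𝓝(Q w) := h.c.trans (s.lx w h.m).norm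
  have lt : U < U ⊔ Q w := left_lt_sup.2 (s.not_le h)
  obtain ⟨x, ⟨x1, x2⟩, x3⟩ := SetLike.exists_of_lt (lt_norm_of_pi (m.pi.sup (s.ex w h.m).isPi hn) lt)
  obtain ⟨u, hu, q, hq, rfl⟩ := (mem_sup_norm hn).1 x1
  exact ⟨q, hq, (mul_mem_cancel_left (le_norm_self U hu)).1 x2, fun h => x3 (mul_mem hu h)⟩

theorem pi_sup (m : Mx Δ K U) (hw : w ∈ Δ) (c : U ≤ 𝓒₁(w)) {f : G} (hf : f ∈ Q w) : IsPi {2} (U ⊔ zpowers f) :=
  (m.pi.sup (s.ex w hw).isPi (c.trans (s.lx w hw).norm)).of_le (sup_le_sup_left (zp_le.2 hf) U)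

theorem key (m : Mx Δ K U) (h : Rel Δ K U w w') {S : Subgroup G} (hS : IsPi {2} S) (h1 : U ≤ S) (h2 : S ≤ 𝓝(U))
    (h3 : S ≤ 𝓒₁(w)) (h4 : S ≤ 𝓝(U ⊓ K w')) : S = U := by
  have p2 := Nat.prime_two
  by_contra hne
  obtain ⟨f, f1, f2, f3⟩ := s.exF m h.symm
  have fc : U ⊔ zpowers f ≤ 𝓒₁(w') := sup_le h.c' (zp_le.2 ((s.ex w' h.m').cent f1))
  have fn : U ⊔ zpowers f ≤ 𝓝(U) := sup_le (le_norm_self U) (zp_le.2 f2)
  obtain ⟨S', hS', s1⟩ := syl_superset p2 hS (le_inf h2 h4)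
  obtain ⟨y, hy, y1⟩ := s.syl S' hS'.pi
  obtain ⟨g, ⟨g1, g2⟩, g3⟩ := hS'.syl_conj_le p2 (s.pi_sup m h.m' h.c' f1)
    (le_inf fn (norm_inf fn (fc.trans (s.nK h.m'))))
  have u1 : U ≤ cj g (U ⊔ zpowers f) := by
    conv_lhs => rw [← cj_of_mem_norm g1]
    exact cj_mono g le_sup_left
  have e1 : U ⊓ K w = U ⊓ K y := by
    by_contra e
    exact hne (m.mx S w y hS h1 (Rel.up ⟨h.m, hy, h.c, h1.trans (s1.trans y1), e⟩ h1 h3 (s1.trans y1)))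
  have e2 : U ⊓ K (g * w' * g⁻¹) = U ⊓ K y := by
    by_contra e
    have c : cj g (U ⊔ zpowers f) ≤ 𝓒₁(g * w' * g⁻¹) := cj_cent1 g w' ▸ cj_mono g fc
    have := m.mx _ _ y (hS'.pi.of_le g3) u1
      (Rel.up ⟨s.cjD _ h.m' g, hy, u1.trans c, h1.trans (s1.trans y1), e⟩ u1 c (g3.trans y1))
    rw [← cj_of_mem_norm g1, cj_inj, cj_of_mem_norm g1] at this
    exact f3 (this.le (mem_sup_right (mem_zpowers f)))
  apply h.ne
  rw [e1, ← e2, s.cjK]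
  conv_lhs => rw [← cj_of_mem_norm g1, ← cj_inf]
  exact cj_of_mem_norm g2

theorem memU (m : Mx Δ K U) (h : Rel Δ K U w w') : w ∈ U := by
  have c : zpowers w ≤ 𝓒(U) := zp_le.2 (le_cent1_iff.1 h.c)
  refine (s.key m h (s.pi_sup m h.m h.c (s.ex w h.m).mem) le_sup_left
    (sup_le (le_norm_self U) (norm_of_cent c)) (sup_le h.c (zp_le.2 (mem_cent1_self w)))
    (sup_le (norm_inf (le_norm_self U) (h.c'.trans (s.nK h.m'))) (norm_of_cent (c.trans (cent_anti inf_le_left))))).le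
    (mem_sup_right (mem_zpowers w))

theorem centU (m : Mx Δ K U) (h : Rel Δ K U w w') : Q w ⊓ 𝓒₁(w') = Q w ⊓ U := by
  refine le_antisymm (fun x hx => ⟨hx.1, ?_⟩) (inf_le_inf_left _ h.c')
  exact (m.mx _ w w' (s.pi_sup m h.m h.c hx.1) le_sup_left (h.up le_sup_left
    (sup_le h.c (zp_le.2 ((s.ex w h.m).cent hx.1))) (sup_le h.c' (zp_le.2 hx.2)))).le (mem_sup_right (mem_zpowers x))

theorem rel_cj (h : Rel Δ K U w w') {n : G} (hn : n ∈ 𝓝(U)) : Rel Δ K U (n * w * n⁻¹) (n * w' * n⁻¹) := by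
  have c : ∀ w, U ≤ 𝓒₁(w) → U ≤ 𝓒₁(n * w * n⁻¹) := fun w hw => by
    rw [← cj_cent1, ← cj_of_mem_norm hn]; exact cj_mono n hw
  refine ⟨s.cjD _ h.m n, s.cjD _ h.m' n, c _ h.c, c _ h.c', fun e => h.ne ?_⟩
  rwa [s.cjK, s.cjK, ← cj_of_mem_norm hn, ← cj_inf, ← cj_inf, cj_inj] at e

theorem move (m : Mx Δ K U) (h : Rel Δ K U w w') {f : G} (f1 : f ∈ Q w) (f2 : f ∈ 𝓝(U)) (f3 : f ∉ U) :
    Rel Δ K U w (f * w' * f⁻¹) ∧ Rel Δ K U w' (f * w' * f⁻¹) := by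
  have fc := (s.ex w h.m).cent f1
  have r := s.rel_cj h f2
  rw [mem_cent1.1 fc, mul_inv_cancel_right] at r
  refine ⟨r, h.m', r.m', h.c', r.c', fun e => f3 ?_⟩
  rw [s.cjK] at e
  nth_rewrite 2 [← cj_of_mem_norm f2] at e
  rw [← cj_inf] at e
  exact (s.key m h (s.pi_sup m h.m h.c f1) le_sup_left (sup_le (le_norm_self U) (zp_le.2 f2))
    (sup_le h.c (zp_le.2 fc)) (sup_le (norm_inf (le_norm_self U) (h.c'.trans (s.nK h.m')))
    (zp_le.2 (mem_norm_iff_cj.2 e.symm)))).le (mem_sup_right (mem_zpowers f))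

theorem notK (m : Mx Δ K U) (h : Rel Δ K U w w') : ∃ b ∈ Q w ⊓ U, b ∉ K w' := by
  by_contra! H
  obtain ⟨f, f1, f2, f3⟩ := s.exF m h
  apply (s.move m h f1 f2 f3).2.ne
  ext u
  simp only [mem_inf, and_congr_right_iff, s.cjK, mem_cj]
  intro hu
  have : f⁻¹ * u * f * u⁻¹ ∈ K w' := H _ (mem_inf.2 ⟨by
    have := mul_mem (inv_mem f1) (conj_mem_of_mem_norm ((s.lx w h.m).norm (h.c hu)) f1)
    simpa only [mul_assoc] using this, mul_mem (conj_mem_of_mem_norm' f2 hu) (inv_mem hu)⟩)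
  refine ⟨fun a => by simpa using mul_mem this a, fun a => ?_⟩
  exact inv_mem_iff.1 (((K w').mul_mem_cancel_left a).1 this)

end Sys

end CA.H8Lge
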