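import Cfsg.Agent.Lib.Grp.H8Lge

/-!
The commutator form of an extraspecial 2-group, the subgroup `[E, t]⟨z⟩` for an involution `t`, and cyclic quotients
of order 4 of the centralizer.
-/

set_option autoImplicit false
set_option linter.unusedSectionVars false

namespace CA.H8Lge

open Subgroup Cfsg CA.BG CA.GW CA.H7Lge
open scoped commutatorElement

variable {G : Type*} [Group G] {E : Subgroup G} {z t x y e : G}

open Classical in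
/-- The commutator form. -/
noncomputable def fm (x y : G) : ZMod 2 := if x * y = y * x then 0 else 1

theorem fm_zero : fm x y = 0 ↔ x * y = y * x := by
  unfold fm; split_ifs with h <;> simp [h]

theorem fm_one : fm x y = 1 ↔ x * y ≠ y * x := by
  unfold fm; split_ifs with h <;> simp [h]

theorem z2 : ∀ a : ZMod 2, a = 0 ∨ a = 1 := by decide

theorem z2_add : ∀ a : ZMod 2, a + a = 0 := by decide

theorem z2_eq : ∀ a b : ZMod 2, a + b = 0 ↔ a = b := by decide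

theorem fm_congr {a b : G} (h : x * y = y * x ↔ a * b = b * a) : fm x y = fm a b := by
  unfold fm; rw [propext h]

theorem fm_symm (x y : G) : fm x y = fm y x := fm_congr eq_comm

theorem fm_self (x : G) : fm x x = 0 := fm_zero.2 rfl

theorem fm_cj (g x y : G) : fm (g * x * g⁻¹) (g * y * g⁻¹) = fm x y :=
  fm_congr (by simp only [conj_mul, mul_left_inj, mul_right_inj])

theorem fm_inv (x y : G) : fm x⁻¹ y = fm x y :=
  fm_congr (by rw [← mem_cent1, ← mem_cent1, inv_mem_iff])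

theorem fm_mul (h : SX E z) {a b : G} (ha : a ∈ E) (hb : b ∈ E) (hy : y ∈ E) : fm (a * b) y = fm a y + fm b y := by
  by_cases h1 : a ∈ 𝓒₁(y) <;> by_cases h2 : b ∈ 𝓒₁(y)
  · rw [fm_zero.2 (mem_cent1.1 h1), fm_zero.2 (mem_cent1.1 h2), fm_zero.2 (mem_cent1.1 (mul_mem h1 h2)), add_zero]
  · rw [fm_zero.2 (mem_cent1.1 h1), fm_one.2 (mt mem_cent1.2 h2),
      fm_one.2 (mt mem_cent1.2 fun h => h2 ((mul_mem_cancel_left h1).1 h)), zero_add]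
  · rw [fm_zero.2 (mem_cent1.1 h2), fm_one.2 (mt mem_cent1.2 h1),
      fm_one.2 (mt mem_cent1.2 fun h => h1 ((mul_mem_cancel_right h2).1 h)), add_zero]
  · rw [fm_one.2 (mt mem_cent1.2 h2), fm_one.2 (mt mem_cent1.2 h1),
      fm_zero.2 (mem_cent1.1 (h.mul_cent hy ha hb h1 h2))]; rfl

theorem fm_mul' (h : SX E z) {a b : G} (ha : a ∈ E) (hb : b ∈ E) (hy : y ∈ E) : fm y (a * b) = fm y a + fm y b := by
  rw [fm_symm, fm_mul h ha hb hy, fm_symm a, fm_symm b]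

theorem fm_z (h : SX E z) (hx : x ∈ zpowers z) (hy : y ∈ E) : fm x y = 0 :=
  fm_zero.2 (h.cz (h.cent hy) hx).symm

/-- An involution acting on `E`. -/
structure Inv (E : Subgroup G) (z t : G) : Prop extends SX E z where
  tc : t ∈ 𝓒₁(z)
  tn : t ∈ 𝓝(E)
  t2 : t * t = 1

namespace Inv

variable (h : Inv E z t)
include h

theorem tinv : t⁻¹ = t := inv_eq h.t2

theorem cm (he : e ∈ E) : ⁅e, t⁆ ∈ E := by
  have := mul_mem he (conj_mem_of_mem_norm h.tn (inv_mem he))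
  simpa only [commutatorElement_def, mul_assoc] using this

theorem cm_mul (ha : x ∈ E) (hb : y ∈ E) : (⁅y, t⁆ * ⁅x, t⁆)⁻¹ * ⁅x * y, t⁆ ∈ zpowers z := by
  have e1 : (⁅y, t⁆ * ⁅x, t⁆)⁻¹ * ⁅x * y, t⁆ = ⁅x, t⁆⁻¹ * ⁅⁅y, t⁆⁻¹, x⁆ * ⁅x, t⁆⁻¹⁻¹ := by
    simp only [commutatorElement_def]; group
  have c := h.comm (inv_mem (h.cm hb)) ha
  rw [e1, h.cz (h.cent (inv_mem (h.cm ha))) c, mul_inv_cancel_right]
  exact c

theorem adj (he : e ∈ E) (hy : y ∈ E) : fm ⁅y, t⁆ e = fm y ⁅e, t⁆ := by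
  have e1 : ∀ y : G, ⁅y, t⁆ = y * (t * y⁻¹ * t⁻¹) := fun y => by simp only [commutatorElement_def, mul_assoc]
  have n : ∀ y ∈ E, t * y⁻¹ * t⁻¹ ∈ E := fun y hy => conj_mem_of_mem_norm h.tn (inv_mem hy)
  rw [e1, e1, fm_mul h.toSX hy (n y hy) he, fm_mul' h.toSX he (n e he) hy]
  congr 1
  rw [← fm_cj t, show t * (t * y⁻¹ * t⁻¹) * t⁻¹ = (t * t) * y⁻¹ * (t * t)⁻¹ by group, h.t2, one_mul, inv_one, mul_one,
    fm_inv, fm_symm y, fm_symm y, ← fm_inv (t * e * t⁻¹)]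
  congr 1; group

/-- `[E, t]⟨z⟩`. -/
def A0 : Subgroup G where
  carrier := {c | ∃ e ∈ E, ⁅e, t⁆⁻¹ * c ∈ zpowers z}
  one_mem' := ⟨1, one_mem E, by simp⟩
  mul_mem' := by
    rintro a b ⟨x, hx, h1⟩ ⟨y, hy, h2⟩
    refine ⟨y * x, mul_mem hy hx, ?_⟩
    have e1 : ⁅y * x, t⁆⁻¹ * (a * b) = ((⁅x, t⁆ * ⁅y, t⁆)⁻¹ * ⁅y * x, t⁆)⁻¹ *
      (⁅y, t⁆⁻¹ * (⁅x, t⁆⁻¹ * a) * ⁅y, t⁆⁻¹⁻¹) * (⁅y, t⁆⁻¹ * b) := by group
    rw [e1, h.cz (h.cent (inv_mem (h.cm hy))) h1, mul_inv_cancel_right]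
    exact mul_mem (mul_mem (inv_mem (h.cm_mul hy hx)) h1) h2
  inv_mem' := by
    rintro a ⟨x, hx, h1⟩
    refine ⟨x, hx, ?_⟩
    have ha : a ∈ E := (E.mul_mem_cancel_left (inv_mem (h.cm hx))).1 (h.le h1)
    have e1 : ⁅x, t⁆⁻¹ * a⁻¹ = (⁅x, t⁆⁻¹ * a) * (a * a)⁻¹ := by group
    rw [e1]; exact mul_mem h1 (inv_mem (h.pow a ha))

theorem mem_A0 {c : G} : c ∈ h.A0 ↔ ∃ e ∈ E, ⁅e, t⁆⁻¹ * c ∈ zpowers z := Iff.rfl

theorem cm_A0 (he : e ∈ E) : ⁅e, t⁆ ∈ h.A0 := ⟨e, he, by rw [inv_mul_cancel]; exact one_mem _⟩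

theorem z_A0 : zpowers z ≤ h.A0 := fun c hc => ⟨1, one_mem E, by simpa using hc⟩

theorem A0_le : h.A0 ≤ E := fun _ ⟨_, hx, h1⟩ => (E.mul_mem_cancel_left (inv_mem (h.cm hx))).1 (h.le h1)

theorem A0_eq {c : G} (hc : c ∈ h.A0) : ∃ e ∈ E, c = ⁅e, t⁆ ∨ c = ⁅e, t⁆ * z := by
  obtain ⟨x, hx, h1⟩ := hc
  refine ⟨x, hx, (h.mem_iff.1 h1).imp (fun a => ?_) fun a => ?_⟩
  · exact (inv_mul_eq_one.1 a).symm
  · exact inv_mul_eq_iff_eq_mul.1 a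

theorem A0_inv {c : G} (hc : c ∈ h.A0) : t * c * t⁻¹ = c⁻¹ := by
  have k : ∀ e : G, t * ⁅e, t⁆ * t⁻¹ = ⁅e, t⁆⁻¹ := fun e => by
    rw [commutatorElement_inv, commutatorElement_def, commutatorElement_def, h.tinv]
    simp only [mul_assoc, h.t2, mul_one]
  obtain ⟨e, he, rfl | rfl⟩ := h.A0_eq hc
  · exact k e
  · rw [← conj_mul, k, mem_cent1.1 h.tc, mul_inv_cancel_right, mul_inv_rev, inv_eq h.sq,
      mem_cent1.1 (h.cent (inv_mem (h.cm he)))]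

theorem A0_cm {c : G} (hc : c ∈ h.A0) : ⁅c, t⁆ = c * c := by
  rw [commutatorElement_def, mul_assoc, mul_assoc, ← mul_assoc t, h.A0_inv (inv_mem hc), inv_inv]

theorem cent_A0 [Finite G] (x : EX E z) (he : e ∈ E) : e ∈ 𝓒(h.A0) ↔ ⁅e, t⁆ ∈ zpowers z := by
  refine ⟨fun H => x.ctr ⟨h.cm he, mem_cent.2 fun y hy => fm_zero.1 ?_⟩, fun H => mem_cent.2 fun c hc => ?_⟩
  · rw [← h.adj he hy]; exact fm_zero.2 (mem_cent.1 H _ (h.cm_A0 hy))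
  · have k : ∀ y ∈ E, fm ⁅y, t⁆ e = 0 := fun y hy => by rw [h.adj he hy, fm_symm, fm_z h.toSX H hy]
    obtain ⟨y, hy, rfl | rfl⟩ := h.A0_eq hc
    · exact fm_zero.1 (k y hy)
    · exact fm_zero.1 (by rw [fm_mul h.toSX (h.cm hy) h.mem he, k y hy, fm_z h.toSX (mem_zpowers z) he, add_zero])

theorem mem_A0_of [Finite G] (x : EX E z) {c : G} (hc : c ∈ E) (H : ∀ e ∈ E, ⁅e, t⁆ ∈ zpowers z → e * c = c * e) :
    c ∈ h.A0 :=
  x.cent_cent_le (h.z_A0 (mem_zpowers z)) h.A0_le ⟨hc, mem_cent.2 fun e he => H e he.1 ((h.cent_A0 x he.1).1 he.2)⟩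

theorem cm_z (hx : x ∈ E) (hy : y ∈ E) (h1 : ⁅x, t⁆ = z) : ⁅y * x, t⁆ = ⁅y, t⁆ * z := by
  have : ⁅y * x, t⁆ = y * ⁅x, t⁆ * y⁻¹ * ⁅y, t⁆ := by simp only [commutatorElement_def]; group
  rw [this, h1, mem_cent1.1 (h.cent hy), mul_inv_cancel_right, mem_cent1.1 (h.cent (h.cm hy))]

theorem A0_eq' (hx : x ∈ E) (h1 : ⁅x, t⁆ = z) {c : G} (hc : c ∈ h.A0) : ∃ e ∈ E, ⁅e, t⁆ = c := by
  obtain ⟨y, hy, rfl | rfl⟩ := h.A0_eq hc
  · exact ⟨y, hy, rfl⟩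
  · exact ⟨y * x, mul_mem hy hx, h.cm_z hx hy h1⟩

end Inv

theorem cm_one : ⁅x, y⁆ = 1 ↔ x ∈ 𝓒₁(y) := by rw [commutatorElement_eq_one_iff_mul_comm, mem_cent1]

theorem cj_eq_cm (x y : G) : x * y * x⁻¹ = ⁅x, y⁆ * y := by simp [commutatorElement_def]

variable [Finite G] {Δ : Set G} {Q K L : G → Subgroup G} {w w' : G}

theorem Sys.inv (s : Sys Δ Q K) (hw : w ∈ Δ) (hw' : w' ∈ Δ) (c : w' ∈ 𝓒₁(w)) : Inv (Q w) w w' :=
  ⟨(s.ex w hw).toSX, c, (s.lx w hw).norm c, (s.ex w' hw').sq⟩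

theorem Sys.cm_mem (s : Sys Δ Q K) (hw : w ∈ Δ) (hw' : w' ∈ Δ) {a b : G} (ha : a ∈ Q w ⊓ 𝓒₁(w'))
    (hb : b ∈ Q w' ⊓ 𝓒₁(w)) : ⁅a, b⁆ ∈ Q w ⊓ Q w' := by
  rw [mem_inf] at *
  constructor
  · have := mul_mem ha.1 (conj_mem_of_mem_norm ((s.lx w hw).norm hb.2) (inv_mem ha.1))
    simpa only [commutatorElement_def, mul_assoc] using this
  · have := mul_mem (conj_mem_of_mem_norm ((s.lx w' hw').norm ha.2) hb.1) (inv_mem hb.1)
    simpa only [commutatorElement_def, mul_assoc] using this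

theorem Sys.sqD (s : Sys Δ Q K) (hw : w ∈ Δ) (hw' : w' ∈ Δ) (hne : w ≠ w') {d : G} (hd : d ∈ Q w ⊓ Q w') :
    d * d = 1 := by
  rcases (s.ex w hw).mem_iff.1 ((s.ex w hw).pow d hd.1) with a | a
  · exact a
  rcases (s.ex w' hw').mem_iff.1 ((s.ex w' hw').pow d hd.2) with b | b
  · exact b
  exact absurd (a.symm.trans b) hne

/-- A cyclic quotient of order 4 of the centralizers. -/
structure Four (Δ : Set G) (K L : G → Subgroup G) : Prop where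
  cjL : ∀ g w, L (g * w * g⁻¹) = cj g (L w)
  sq : ∀ w ∈ Δ, ∀ x ∈ 𝓒₁(w), x * x ∈ L w → x ∈ K w
  cm : ∀ w ∈ Δ, ∀ x ∈ 𝓒₁(w), ∀ y ∈ 𝓒₁(w), ⁅x, y⁆ ∈ L w

theorem st0 (s : Sys Δ Q K) (l : Four Δ K L) (hw : w ∈ Δ) (hw' : w' ∈ Δ) {b : G} (hb : b ∈ Q w' ⊓ 𝓒₁(w))
    (hK : b ∉ K w) : b * b = w' ∧ ∀ c ∈ Q w' ⊓ 𝓒₁(w), ∀ c' ∈ Q w' ⊓ 𝓒₁(w), c * c' = c' * c := by
  have x := s.ex w' hw'
  have h1 : b * b ∉ L w := fun h => hK (l.sq w hw b hb.2 h)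
  have h2 : b * b = w' := (x.mem_iff.1 (x.pow b hb.1)).resolve_left fun h => h1 (h ▸ one_mem _)
  refine ⟨h2, fun c hc c' hc' => commutatorElement_eq_one_iff_mul_comm.1 ?_⟩
  exact (x.mem_iff.1 (x.comm hc.1 hc'.1)).resolve_right fun h => h1 (h2 ▸ h ▸ l.cm w hw c hc.2 c' hc'.2)

theorem st1 (s : Sys Δ Q K) (l : Four Δ K L) (hw : w ∈ Δ) (hw' : w' ∈ Δ) {b : G} (hb : b ∈ Q w' ⊓ 𝓒₁(w))
    (hK : b ∉ K w) : w ∉ Q w' := fun hm => by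
  have x := s.ex w' hw'
  obtain ⟨h2, h3⟩ := st0 s l hw hw' hb hK
  rcases x.cent_cent hm hb.1 (mem_cent.2 fun c hc => h3 c hc b hb) with h | h
  · exact x.ne (h2 ▸ x.zsq (x.ctr ⟨hb.1, h⟩))
  · have := x.zsq (x.ctr ⟨mul_mem hb.1 hm, h⟩)
    rw [mul_assoc, ← mul_assoc w, ← mem_cent1.1 hb.2, mul_assoc, (s.ex w hw).sq, mul_one, h2] at this
    exact x.ne this

theorem four_false (s : Sys Δ Q K) (l : Four Δ K L) : False := by
  obtain ⟨U, z', z, m, r⟩ := s.exists_mx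
  obtain ⟨b, hb, hK⟩ := s.notK m r
  rw [← s.centU m r] at hb
  have hz := r.m'
  have hz' := r.m
  have x := s.ex z hz
  have x' := s.ex z' hz'
  obtain ⟨b2, ab⟩ := st0 s l hz hz' hb hK
  have zE := st1 s l hz hz' hb hK
  have c1 : z' ∈ 𝓒₁(z) := b2 ▸ mul_mem hb.2 hb.2
  have i' := s.inv hz' hz (mem_cent1_symm.1 c1)
  have i := s.inv hz hz' c1
  have sqB : ∀ c ∈ i'.A0, c ∈ 𝓒₁(z) → c * c = 1 := fun c hc h => by rw [← i'.A0_cm hc, cm_one]; exact h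
  obtain ⟨q, q1, q2⟩ := x'.exists_cent (i'.z_A0 (mem_zpowers z')) i'.A0_le hb.1
    (fun h => x'.ne (b2 ▸ sqB b h hb.2))
  have qb : q * b ≠ b * q := fun h => x'.ne (by rwa [h, mul_inv_cancel_right, left_eq_mul] at q2)
  have q3 : ⁅q, z⁆ = z' := (x'.mem_iff.1 ((i'.cent_A0 x' q1.1).1 q1.2)).resolve_left fun h =>
    qb (ab q ⟨q1.1, cm_one.1 h⟩ b hb)
  have split : ∀ e ∈ Q z', ⁅e, z⁆ ∈ zpowers z' → e ∈ 𝓒₁(z) ∨ e * q ∈ 𝓒₁(z) := fun e he h =>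
    (x'.mem_iff.1 h).imp cm_one.1 fun h => cm_one.1 (by rw [i'.cm_z q1.1 he q3, h, x'.sq])
  have B0 : ∀ c ∈ i'.A0, c ∈ 𝓒₁(z) := fun c hc => by
    refine (split c (i'.A0_le hc) (i'.A0_cm hc ▸ x'.pow c (i'.A0_le hc))).resolve_right fun h => qb ?_
    have a1 := ab _ ⟨mul_mem (i'.A0_le hc) q1.1, h⟩ b hb
    have a2 := mem_cent.1 ((i'.cent_A0 x' hb.1).2 (cm_one.2 hb.2 ▸ one_mem _)) c hc
    rwa [← mul_assoc, ← a2, mul_assoc, mul_assoc, mul_right_inj] at a1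
  have cB : ∀ c ∈ Q z', (∀ a ∈ Q z' ⊓ 𝓒₁(z), a * c = c * a) → c ∈ i'.A0 ∨ c * b ∈ i'.A0 := fun c hc H => by
    have k : ∀ c ∈ Q z', (∀ a ∈ Q z' ⊓ 𝓒₁(z), a * c = c * a) → fm q c = 0 → c ∈ i'.A0 := fun c hc H h0 =>
      i'.mem_A0_of x' hc fun e he h => (split e he h).elim (fun h => H e ⟨he, h⟩) fun h => by
        have := fm_zero.2 (H _ ⟨mul_mem he q1.1, h⟩)
        rwa [fm_mul x'.toSX he q1.1 hc, h0, add_zero, fm_zero] at this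
    refine (z2 (fm q c)).imp (k c hc H) fun h => k _ (mul_mem hc hb.1) (fun a ha => ?_) ?_
    · rw [← mul_assoc, H a ha, mul_assoc, ab a ha b hb, mul_assoc]
    · rw [fm_mul' x'.toSX hc hb.1 q1.1, h, fm_one.2 qb]; rfl
  have cB' : ∀ c ∈ Q z', (∀ a ∈ Q z' ⊓ 𝓒₁(z), a * c = c * a) → c ∈ 𝓒₁(z) := fun c hc H =>
    (cB c hc H).elim (B0 c) fun h => ((𝓒₁(z)).mul_mem_cancel_right hb.2).1 (B0 _ h)
  have D1 : ∀ d ∈ Q z ⊓ Q z', d = 1 := fun d hd => by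
    by_contra d1
    have d2 := s.sqD hz hz' r.ne'.symm hd
    have dB : d ∈ Q z' ⊓ 𝓒₁(z) := ⟨hd.2, x.cent hd.1⟩
    have d0 : d ∈ i'.A0 := (cB d hd.2 fun a ha => ab a ha d dB).resolve_right fun h => x'.ne (by
      have := sqB _ h (B0 _ h)
      rwa [mul_assoc, ← mul_assoc b, ab b hb d dB, mul_assoc, ← mul_assoc, d2, one_mul, b2] at this)
    obtain ⟨e', e1, e2⟩ := i'.A0_eq' q1.1 q3 d0
    have y1 : e' * z * e'⁻¹ = d * z := by rw [cj_eq_cm, e2]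
    obtain ⟨e, e3, e4⟩ := x.exists_conj hd.1 d2 (fun h => (x.mem_iff.1 h).elim d1 fun h => zE (h ▸ hd.2))
    have y2 : e⁻¹ * (e' * z * e'⁻¹) * e⁻¹⁻¹ = d := by rw [y1, ← e4]; group
    have hdD : d ∈ Δ := y2 ▸ s.cjD _ (s.cjD _ hz e') _
    have k1 : b ∉ K (e' * z * e'⁻¹) := fun h => by
      rw [s.cjK, mem_cj] at h
      rcases x'.conj_or (inv_mem e1) hb.1 with a | a
      · rw [a, inv_mul_cancel_right] at h; exact hK h
      · rw [inv_inv] at a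
        rw [a, ← b2] at h
        exact hK ((mul_mem_cancel_right (s.sq_mem hz hb.2)).1 h)
    have bd : b ∈ 𝓒₁(d) := mem_cent1.2 (ab b hb d dB)
    have k2 : e⁻¹ * b * e⁻¹⁻¹ ∉ K d := by rw [← y2, s.cjK, conj_mem_cj]; exact k1
    have k3 : e⁻¹ * b * e⁻¹⁻¹ ∈ 𝓒₁(d) := by
      rw [← y2, ← cj_cent1, conj_mem_cj, y1, mem_cent1, ← mul_assoc, mem_cent1.1 bd, mul_assoc, mem_cent1.1 hb.2,
        mul_assoc]
    have k4 : e⁻¹ * b * e⁻¹⁻¹ * b⁻¹ ∈ Q z := by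
      have := mul_mem (inv_mem e3) (conj_mem_of_mem_norm ((s.lx z hz).norm hb.2) e3)
      simpa only [mul_assoc, inv_inv] using this
    have k5 : e⁻¹ * b * e⁻¹⁻¹ * b⁻¹ ∈ K d := by
      by_contra h
      exact st1 s l hdD hz (mem_inf.2 ⟨k4, mul_mem k3 (inv_mem bd)⟩) h hd.1
    exact st1 s l hdD hz' ⟨hb.1, bd⟩ (fun h => k2 (by simpa using mul_mem k5 h)) hd.2
  have bA : ∀ a ∈ Q z ⊓ 𝓒₁(z'), a * b = b * a := fun a ha =>
    commutatorElement_eq_one_iff_mul_comm.1 (D1 _ (s.cm_mem hz hz' ha hb))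
  have cA : ∀ c ∈ Q z, (∀ a ∈ Q z ⊓ 𝓒₁(z'), a * c = c * a) → c ∈ 𝓒₁(z') := fun c hc H => by
    by_cases hf : ∃ f ∈ Q z, ⁅f, z'⁆ = z
    · obtain ⟨f, f1, f2⟩ := hf
      have zz := mem_cent1.1 c1
      obtain ⟨g1, g2⟩ := swap (q := f) (n := q) x.sq x'.sq zz.symm
        (by rw [mem_cent1.1 (x.cent f1), mul_inv_cancel_right]) (by rw [cj_eq_cm, f2, zz])
        (by rw [mem_cent1.1 (x'.cent q1.1), mul_inv_cancel_right]) (by rw [cj_eq_cm, q3, zz])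
      set g := f * q * f
      have := cB' (g * c * g⁻¹) (by rw [← g1, s.cjQ, conj_mem_cj]; exact hc) fun a ha => by
        have a1 : g⁻¹ * a * g ∈ Q z ⊓ 𝓒₁(z') := by
          rw [← mem_cj, cj_inf, ← s.cjQ, cj_cent1, g1, g2]; exact ha
        have := H _ a1
        rw [← fm_zero, ← fm_cj g] at this
        rw [← fm_zero, ← this]; congr 1; group
      rwa [← g2, ← cj_cent1, conj_mem_cj] at this
    · push_neg at hf
      have k : ∀ e ∈ Q z, ⁅e, z'⁆ ∈ zpowers z → e ∈ 𝓒₁(z') := fun e he h =>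
        cm_one.1 ((x.mem_iff.1 h).resolve_right (hf e he))
      have c0 := i.mem_A0_of x hc fun e he h => H e ⟨he, k e he h⟩
      exact k c hc (i.A0_cm c0 ▸ x.pow c hc)
  refine x'.ne (D1 z' ⟨(s.lx z hz).stab z' c1 fun e he => ?_, x'.mem⟩)
  have n1 := conj_mem_of_mem_norm ((s.lx z hz).norm hb.2) he
  have c2 : e⁻¹ * (b * e * b⁻¹) ∈ Q z := mul_mem (inv_mem he) n1
  have c3 := bA _ ⟨c2, cA _ c2 fun a ha => by
    rw [← fm_zero, fm_mul' x.toSX (inv_mem he) n1 ha.1, fm_symm, fm_inv, z2_eq, fm_symm, ← fm_cj b, ← bA a ha,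
      mul_inv_cancel_right]⟩
  set c := e⁻¹ * (b * e * b⁻¹) with hc
  have e1 : b * e * b⁻¹ = e * c := by rw [hc, mul_inv_cancel_left]
  have e2 : z' * e * z'⁻¹ = e * (c * c) := by
    rw [← b2, show b * b * e * (b * b)⁻¹ = b * (b * e * b⁻¹) * b⁻¹ by group, e1, ← conj_mul, e1, ← c3,
      mul_inv_cancel_right, mul_assoc]
  have e3 : ⁅e, z'⁆ = e * (c * c)⁻¹ * e⁻¹ := by
    rw [commutatorElement_def, show e * z' * e⁻¹ * z'⁻¹ = e * (z' * e * z'⁻¹)⁻¹ by group, e2]; group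
  rw [e3, x.cz (x.cent he) (inv_mem (x.pow c c2)), mul_inv_cancel_right]
  exact inv_mem (x.pow c c2)

end CA.H8Lge
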