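import Cfsg.Agent.Lib.Grp.H8Lge2

/-!
Counting lemmas and commuting pairs of conjugates of an involution that is weakly closed in its large extraspecial
subgroup.
-/

set_option autoImplicit false
set_option linter.unusedSectionVars false

namespace CA.H8Lge

open Subgroup Cfsg CA.BG CA.GW CA.H7Lge
open scoped commutatorElement

variable {G : Type*} [Group G] [Finite G] {E P B S : Subgroup G} {z t x y e f : G}

theorem card_sgo (h : P ≤ E) : Nat.card (P.subgroupOf E) = ♯P :=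
  Nat.card_congr (subgroupOfEquivOfLe h).toEquiv

theorem cnt (x : EX E z) (h1 : z ∈ P) (h2 : P ≤ E) : ♯(E ⊓ 𝓒(P)) * ♯P = 2 * ♯E := by
  obtain ⟨n, c, h3, h4⟩ := x.exists_cov
  have nd : c.orth.Nondeg := c.nondeg_iff.2 h3
  have e1 : c.pre (c.img (P.subgroupOf E)) = P.subgroupOf E := by
    ext y
    refine ⟨fun ⟨a, ha, e⟩ => ?_, fun h => ⟨y, h, rfl⟩⟩
    obtain ⟨i, hi⟩ := c.π_eq_iff.1 e.symm
    change (y : G) ∈ P
    rw [hi, c.ζ_eq, coe_mul, coe_pow, h4]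
    exact mul_mem ha (pow_mem h1 _)
  have e2 : c.pre (c.orth.perp (c.img (P.subgroupOf E))) = (E ⊓ 𝓒(P)).subgroupOf E := by
    ext y
    refine ⟨fun h => ⟨y.2, mem_cent.2 fun k hk => congrArg Subtype.val (c.b_eq_zero.1
      (c.orth.mem_perp.1 h _ ⟨⟨k, h2 hk⟩, hk, rfl⟩))⟩, fun h => c.orth.mem_perp.2 ?_⟩
    rintro _ ⟨a, ha, rfl⟩
    exact c.b_eq_zero.2 (Subtype.ext (mem_cent.1 h.2 a ha))
  rw [← card_sgo h2, ← card_sgo (inf_le_left : E ⊓ 𝓒(P) ≤ E), ← e2, ← e1, c.card_pre', e1, ← e1, c.card_pre', e1,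
    c.card_eq', ← nd.finrank_perp (c.img (P.subgroupOf E))]
  ring

theorem card_img (B : Subgroup G) (f : G) : ((fun b => ⁅b, f⁆) '' (B : Set G)).ncard * ♯(B ⊓ 𝓒₁(f)) = ♯B := by
  rw [inf_comm, ← card_inf_mul_relIndex 𝓒₁(f) B, mul_comm]
  congr 1
  rw [relIndex, index_eq_card, ← Nat.card_coe_set_eq]
  symm
  refine Nat.card_eq_of_bijective (Quotient.lift (fun b : B => (⟨⁅(b : G), f⁆, b, b.2, rfl⟩ :
    (fun b => ⁅b, f⁆) '' (B : Set G))) fun a b h => Subtype.ext ?_) ⟨fun a b => ?_, ?_⟩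
  · have := mem_cent1.1 (mem_subgroupOf.1 (QuotientGroup.leftRel_apply.1 h))
    simp only [coe_mul, coe_inv] at this
    simp only [commutatorElement_def, mul_left_inj]
    rw [show (b : G) * f * (b : G)⁻¹ = a * ((a : G)⁻¹ * b * f) * (b : G)⁻¹ by group, this]; group
  · induction a using Quotient.inductionOn with | _ a =>
    induction b using Quotient.inductionOn with | _ b =>
    intro h
    have := congrArg Subtype.val h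
    simp only [Quotient.lift_mk, commutatorElement_def, mul_left_inj] at this
    refine Quotient.sound (QuotientGroup.leftRel_apply.2 (mem_subgroupOf.2 (mem_cent1.2 ?_)))
    simp only [coe_mul, coe_inv]
    rw [show (a : G)⁻¹ * b * f = (a : G)⁻¹ * (b * f * (b : G)⁻¹) * b by group, ← this]; group
  · rintro ⟨_, b, hb, rfl⟩
    exact ⟨Quotient.mk _ ⟨b, hb⟩, rfl⟩

theorem surj (h : ∀ b ∈ B, ⁅b, f⁆ ∈ S) (hc : ♯S * ♯(B ⊓ 𝓒₁(f)) ≤ ♯B) : ∀ s ∈ S, ∃ b ∈ B, ⁅b, f⁆ = s := by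
  have e : (fun b => ⁅b, f⁆) '' (B : Set G) = S := Set.eq_of_subset_of_ncard_le (by rintro _ ⟨b, hb, rfl⟩; exact h b hb) (by
    rw [← card_img B f] at hc
    exact Nat.le_of_mul_le_mul_right hc (card_pos' _))
  intro s hs
  exact (e.ge hs : s ∈ (fun b => ⁅b, f⁆) '' (B : Set G))

theorem card_le_img (h : ∀ b ∈ B, ⁅b, f⁆ ∈ S) : ♯B ≤ ♯S * ♯(B ⊓ 𝓒₁(f)) := by
  rw [← card_img B f]
  exact Nat.mul_le_mul_right _ (Set.ncard_le_ncard (s := _ '' _) (t := (S : Set G)) (by rintro _ ⟨b, hb, rfl⟩; exact h b hb))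

theorem two_mul_le (h : P ≤ B) (hn : ¬ B ≤ P) : ♯P * 2 ≤ ♯B := by
  rw [← card_mul_relIndex h]
  refine Nat.mul_le_mul_left _ ?_
  have h1 := relIndex_ne_zero' P B
  have h2 : P.relIndex B ≠ 1 := fun e => hn (relIndex_eq_one.1 e)
  omega

theorem le_two_mul (h : ∀ a ∈ B, ∀ b ∈ B, a ∉ P → b ∉ P → a * b ∈ P) : ♯B ≤ ♯(P ⊓ B) * 2 := by
  rw [← card_inf_mul_relIndex P B]
  refine Nat.mul_le_mul_left _ ?_
  by_cases hle : B ≤ P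
  · rw [relIndex_eq_one.2 hle]; omega
  · obtain ⟨a, ha, h1⟩ := SetLike.not_le_iff_exists.1 hle
    refine (index_eq_two_iff.2 ⟨⟨a, ha⟩, fun b => ?_⟩).le
    by_cases hb : (b : G) ∈ P
    · exact Or.inr ⟨hb, fun h2 => h1 ((P.mul_mem_cancel_left hb).1 h2)⟩
    · exact Or.inl ⟨h b b.2 a ha hb h1, hb⟩

theorem card_le_two {d : G} (h : ∀ x ∈ P, x = 1 ∨ x = d) : ♯P ≤ 2 :=
  (Set.ncard_le_ncard (s := (P : Set G)) (t := {1, d}) h).trans ((Set.ncard_insert_le _ _).trans (by simp))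

theorem comm_of_sq (h : ∀ a ∈ B, a * a = 1) (hx : x ∈ B) (hy : y ∈ B) : x * y = y * x := by
  have := inv_eq (h _ (mul_mem hx hy))
  rw [mul_inv_rev, inv_eq (h x hx), inv_eq (h y hy)] at this
  exact this.symm

theorem cm_mul_left (a b c : G) : ⁅a * b, c⁆ = a * ⁅b, c⁆ * a⁻¹ * ⁅a, c⁆ := by
  simp only [commutatorElement_def]; group

theorem Inv.alt (h : Inv E z t) (he : e ∈ E) (h2 : ⁅e, t⁆ * ⁅e, t⁆ = 1) : fm e ⁅e, t⁆ = 0 := by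
  have h1 : ⁅e * e, t⁆ = 1 := cm_one.2 (mem_cent1.2 (h.cz h.tc (h.pow e he)).symm)
  rw [cm_mul_left, mul_eq_one_iff_eq_inv, inv_eq h2, mul_inv_eq_iff_eq_mul] at h1
  exact fm_zero.2 h1

theorem Inv.eq_of_cm (hx : ⁅x, t⁆ = ⁅y, t⁆) : y⁻¹ * x ∈ 𝓒₁(t) := by
  simp only [commutatorElement_def, mul_left_inj] at hx
  rw [mem_cent1, show y⁻¹ * x * t = y⁻¹ * (x * t * x⁻¹) * x by group, hx]; group

theorem Inv.cm_mul2 (h : Inv E z t) (hx : x ∈ E) (hy : y ∈ E) :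
    ⁅x * y, t⁆ = ⁅y, t⁆ * ⁅x, t⁆ ∧ fm x ⁅y, t⁆ = 0 ∨ ⁅x * y, t⁆ = ⁅y, t⁆ * ⁅x, t⁆ * z ∧ fm x ⁅y, t⁆ = 1 := by
  rw [cm_mul_left]
  by_cases hc : x * ⁅y, t⁆ = ⁅y, t⁆ * x
  · exact Or.inl ⟨by rw [hc, mul_inv_cancel_right], fm_zero.2 hc⟩
  · refine Or.inr ⟨?_, fm_one.2 hc⟩
    rw [(h.conj_or hx (h.cm hy)).resolve_left hc, mul_assoc, ← mem_cent1.1 (h.cent (h.cm hx)), mul_assoc]

/-- `z` lies in every subgroup containing the commutators `⁅e, t⁆ ≠ z`. -/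
theorem Inv.z_mem (h : Inv E z t) (x : EX E z) (l : LX E z) (ht : t ∉ E) (H : ∀ e ∈ E, ⁅e, t⁆ ≠ z → ⁅e, t⁆ ∈ P) :
    h.A0 ≤ P := by
  obtain ⟨y, hy, y1⟩ : ∃ y ∈ E, ⁅y, t⁆ ∉ zpowers z := by
    by_contra! H; exact ht (l.stab t h.tc H)
  have y2 : ⁅y, t⁆ ∈ P := H y hy fun e => y1 (e ▸ mem_zpowers z)
  have hz : z ∈ P := by
    by_cases he : ∃ f ∈ E, ⁅f, t⁆ = z
    · obtain ⟨f, f1, f2⟩ := he
      have := H _ (mul_mem hy f1) (by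
        rw [h.cm_z f1 hy f2]; exact fun e => y1 (by rw [mul_eq_right.1 e]; exact one_mem _))
      rw [h.cm_z f1 hy f2] at this
      exact (P.mul_mem_cancel_left y2).1 this
    · push_neg at he
      obtain ⟨a, ha, a1⟩ : ∃ a ∈ E, a * ⁅y, t⁆ ≠ ⁅y, t⁆ * a := by
        by_contra! H; exact y1 (x.ctr ⟨h.cm hy, mem_cent.2 H⟩)
      have := H _ (mul_mem ha hy) (he _ (mul_mem ha hy))
      rw [((h.cm_mul2 ha hy).resolve_left fun e => a1 (fm_zero.1 e.2)).1] at this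
      exact (P.mul_mem_cancel_left (mul_mem y2 (H a ha (he a ha)))).1 this
  intro c hc
  have k : ∀ e ∈ E, ⁅e, t⁆ ∈ P := fun e he => (em (⁅e, t⁆ = z)).elim (fun a => a ▸ hz) (H e he)
  obtain ⟨e, he, rfl | rfl⟩ := h.A0_eq hc
  exacts [k e he, mul_mem (k e he) hz]

/-- The weakly closed situation. -/
structure Wk (Δ : Set G) (Q K : G → Subgroup G) : Prop extends Sys Δ Q K where
  wk : ∀ w ∈ Δ, ∀ w' ∈ Δ, w' ∈ Q w → w' = w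
  qk : ∀ w ∈ Δ, Q w ≤ K w
  big : ∀ w ∈ Δ, 32 < ♯(Q w)
  ce : ∀ w ∈ Δ, ∀ w' ∈ Δ, ♯(Q w) = ♯(Q w')

/-- Distinct commuting points. -/
structure Pr (Δ : Set G) (z t : G) : Prop where
  m : z ∈ Δ
  m' : t ∈ Δ
  c : t ∈ 𝓒₁(z)
  ne : z ≠ t

variable {Δ : Set G} {Q K : G → Subgroup G} {d : G}

theorem Pr.symm (p : Pr Δ z t) : Pr Δ t z := ⟨p.m', p.m, mem_cent1_symm.1 p.c, p.ne.symm⟩

/-- `z` is not of the form `⁅e, t⁆`. -/
def E0 (Q : G → Subgroup G) (z t : G) : Prop := ∀ e ∈ Q z, ⁅e, t⁆ ≠ z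

namespace Wk

variable (s : Wk Δ Q K) (p : Pr Δ z t)
include s p

theorem i : Inv (Q z) z t := s.inv p.m p.m' p.c

theorem nm : t ∉ Q z := fun h => p.ne (s.wk z p.m t p.m' h).symm

theorem g2 (h : ⁅e, t⁆ ∈ Q t) : ⁅e, t⁆ = 1 := by
  have := s.wk t p.m' _ (s.cjD t p.m' e) (by rw [cj_eq_cm]; exact mul_mem h (s.ex t p.m').mem)
  rwa [cj_eq_cm, mul_eq_right] at this

theorem d2 (hd : d ∈ Q z ⊓ Q t) : d * d = 1 := s.sqD p.m p.m' p.ne hd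

theorem dA (hd : d ∈ Q z ⊓ Q t) : d ∈ Q z ⊓ 𝓒₁(t) := ⟨hd.1, (s.ex t p.m').cent hd.2⟩

theorem g3 (hd : d ∈ Q z ⊓ Q t) {a : G} (ha : a ∈ Q z ⊓ 𝓒₁(t)) : a * d = d * a := by
  have h1 := s.cm_mem p.m p.m' ha ⟨hd.2, (s.ex z p.m).cent hd.1⟩
  rcases (s.ex z p.m).mem_iff.1 ((s.ex z p.m).comm ha.1 hd.1) with h | h
  · exact commutatorElement_eq_one_iff_mul_comm.1 h
  · exact absurd (h ▸ h1.2) (s.nm p.symm)

theorem cmA {b : G} (he : e ∈ Q z) (hb : b ∈ 𝓒₁(z)) (h1 : b ∈ 𝓒₁(t)) (h2 : b ∈ 𝓒₁(e * t * e⁻¹)) :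
    ⁅b, e⁆ ∈ Q z ⊓ 𝓒₁(t) ∧ ⁅b, e⁻¹⁆ ∈ Q z ⊓ 𝓒₁(t) := by
  have n := (s.lx z p.m).norm hb
  have x := s.ex z p.m
  have a2 : ⁅b, e⁻¹⁆ ∈ 𝓒₁(t) := by
    rw [← cj_cent1, mem_cj] at h2
    have := mul_mem h1 (inv_mem h2)
    simpa only [commutatorElement_def, mul_inv_rev, inv_inv, mul_assoc] using this
  have q : ∀ e ∈ Q z, ⁅b, e⁆ ∈ Q z := fun e he => mul_mem (conj_mem_of_mem_norm n he) (inv_mem he)
  refine ⟨⟨q e he, ?_⟩, q _ (inv_mem he), a2⟩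
  have e1 : e = e⁻¹ * (e * e) := by group
  have e2 : ⁅b, e⁆ = ⁅b, e⁻¹⁆ := by
    have c := x.cz hb (x.pow e he)
    conv_lhs => rw [e1]
    simp only [commutatorElement_def]
    rw [← mul_assoc b, mul_assoc _ (e * e), x.cz (inv_mem hb) (x.pow e he) |>.symm]; group
  rw [e2]; exact a2

theorem cA0 (h : E0 Q z t) (he : e ∈ Q z) (h1 : ⁅e, t⁆ ∈ zpowers z) : e ∈ 𝓒₁(t) :=
  cm_one.1 (((s.ex z p.m).mem_iff.1 h1).resolve_right (h e he))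

theorem A0_of (h : E0 Q z t) {c : G} (hc : c ∈ Q z) (H : ∀ a ∈ Q z ⊓ 𝓒₁(t), a * c = c * a) : c ∈ (s.i p).A0 :=
  (s.i p).mem_A0_of (s.ex z p.m) hc fun e he h1 => H e ⟨he, s.cA0 p h he h1⟩

theorem A0_A (h : E0 Q z t) {c : G} (hc : c ∈ (s.i p).A0) : c ∈ Q z ⊓ 𝓒₁(t) :=
  ⟨(s.i p).A0_le hc, s.cA0 p h ((s.i p).A0_le hc) ((s.i p).A0_cm hc ▸ (s.ex z p.m).pow c ((s.i p).A0_le hc))⟩

theorem A0_sq {c : G} (hc : c ∈ (s.i p).A0) (h : c ∈ 𝓒₁(t)) : c * c = 1 := by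
  rw [← (s.i p).A0_cm hc, cm_one]; exact h

theorem A0_cent {c a : G} (hc : c ∈ (s.i p).A0) (ha : a ∈ Q z) (h : ⁅a, t⁆ ∈ zpowers z) : c * a = a * c :=
  mem_cent.1 (((s.i p).cent_A0 (s.ex z p.m) ha).2 h) c hc

theorem A0_cent' {c a : G} (hc : c ∈ (s.i p).A0) (ha : a ∈ Q z ⊓ 𝓒₁(t)) : c * a = a * c :=
  s.A0_cent p hc ha.1 (cm_one.2 ha.2 ▸ one_mem _)

theorem eD (h : E0 Q z t) (hd : d ∈ Q z ⊓ Q t) (d1 : d ≠ 1) : ∃ e ∈ Q z, ⁅e, t⁆ = d * z := by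
  obtain ⟨e, he, h1 | h1⟩ := (s.i p).A0_eq (s.A0_of p h hd.1 fun a ha => s.g3 p hd ha)
  · exact absurd (h1.trans (s.g2 p (h1 ▸ hd.2))) d1
  · exact ⟨e, he, by rw [h1, mul_assoc, (s.ex z p.m).sq, mul_one]⟩

theorem fm_dz (he : e ∈ Q z) (hd : d ∈ Q z) : fm e (d * z) = fm e d := by
  rw [fm_mul' (s.ex z p.m).toSX hd (s.ex z p.m).mem he, fm_symm e z, fm_z (s.ex z p.m).toSX (mem_zpowers z) he, add_zero]

theorem eD_self (hd : d ∈ Q z ⊓ Q t) (he : e ∈ Q z) (h1 : ⁅e, t⁆ = d * z) : fm e d = 0 := by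
  have x := s.ex z p.m
  rw [← s.fm_dz p he hd.1, ← h1]
  exact (s.i p).alt he (by rw [h1, x.sq_mul hd.1 (mem_zpowers z), s.d2 p hd])

theorem dzdz {d' : G} (hd' : d' ∈ Q z) : d * z * (d' * z) = d * d' := by
  rw [mul_assoc, ← mul_assoc z, ← mem_cent1.1 ((s.ex z p.m).cent hd'), mul_assoc, (s.ex z p.m).sq, mul_one]

theorem eD_ne (hd : d ∈ Q z ⊓ Q t) (he : e ∈ Q z) (h1 : ⁅e, t⁆ = d * z) {d' e' : G} (hd' : d' ∈ Q z ⊓ Q t)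
    (he' : e' ∈ Q z) (h2 : ⁅e', t⁆ = d' * z) (hne : d' ≠ d) : fm e d' = 1 ∧ ⁅e * e', t⁆ = d' * d * z := by
  rcases (s.i p).cm_mul2 he he' with ⟨a, -⟩ | ⟨a, b⟩
  · rw [h1, h2, s.dzdz p hd.1] at a
    have := s.g2 p (a ▸ mul_mem hd'.2 hd.2)
    rw [a, mul_eq_one_iff_eq_inv, inv_eq (s.d2 p hd)] at this
    exact absurd this hne
  · rw [h1, h2, s.dzdz p hd.1] at a
    rw [h2, s.fm_dz p he hd'.1] at b
    exact ⟨b, a⟩

theorem D_cases (h : E0 Q z t) (hd : d ∈ Q z ⊓ Q t) (d1 : d ≠ 1) {d' : G} (hd' : d' ∈ Q z ⊓ Q t) (d2 : d' ≠ 1)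
    (hne : d' ≠ d) {c : G} (hc : c ∈ Q z ⊓ Q t) : c = 1 ∨ c = d ∨ c = d' ∨ c = d' * d := by
  by_contra! H
  obtain ⟨e, he, h1⟩ := s.eD p h hd d1
  have k : ∀ c ∈ Q z ⊓ Q t, c ≠ 1 → c ≠ d → fm e c = 1 := fun c hc c1 c2 => by
    obtain ⟨e', he', h2⟩ := s.eD p h hc c1
    exact (s.eD_ne p hd he h1 hc he' h2 c2).1
  have := k (d' * c) (mul_mem hd' hc) (fun a => H.2.2.1 (by
    rw [mul_eq_one_iff_inv_eq, inv_eq (s.d2 p hd')] at a; exact a.symm)) (fun a => H.2.2.2 (by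
    rw [← a, ← mul_assoc, s.d2 p hd', one_mul]))
  rw [fm_mul' (s.ex z p.m).toSX hd'.1 hc.1 he, k d' hd' d2 hne, k c hc H.1 H.2.1] at this
  exact absurd this (by decide)

theorem D_alt : (∃ d, ∀ c ∈ Q z ⊓ Q t, c = 1 ∨ c = d) ∨
    ∃ d ∈ Q z ⊓ Q t, ∃ d' ∈ Q z ⊓ Q t, d ≠ 1 ∧ d' ≠ 1 ∧ d' ≠ d := by
  by_contra! H
  obtain ⟨c, hc, c1, -⟩ := H.1 1
  obtain ⟨c', hc', c2, c3⟩ := H.1 c
  exact c3 (H.2 c hc c' hc' c1 c2)

theorem D4 (h : E0 Q z t) : ♯(Q z ⊓ Q t) ≤ 4 := by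
  rcases s.D_alt p with ⟨d, H⟩ | ⟨d, hd, d', hd', h1, h2, h3⟩
  · exact (card_le_two H).trans (by norm_num)
  · refine (Set.ncard_le_ncard (s := ((Q z ⊓ Q t : Subgroup G) : Set G)) (t := {1, d, d', d' * d})
      fun c hc => s.D_cases p h hd h1 hd' h2 h3 hc).trans ?_
    exact (Set.ncard_insert_le _ _).trans (Nat.succ_le_succ ((Set.ncard_insert_le _ _).trans
      (Nat.succ_le_succ ((Set.ncard_insert_le _ _).trans (by simp)))))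

end Wk

end CA.H8Lge
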