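import Cfsg.Agent.Lib.Grp.H8Lge3

/-!
Commuting pairs in the weakly closed situation, continued.
-/

set_option autoImplicit false
set_option linter.unusedSectionVars false

namespace CA.H8Lge

open Subgroup Cfsg CA.BG CA.GW CA.H7Lge
open scoped commutatorElement

variable {G : Type*} [Group G] [Finite G] {z t x y e f d b c : G} {Δ : Set G} {Q K : G → Subgroup G}

theorem fixc {E : Subgroup G} (h : SX E z) (hb : b ∈ 𝓝(E)) (he : e ∈ E) {a : G} (ha : a ∈ E) (hc : a * b = b * a) :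
    a * ⁅b, e⁆ = ⁅b, e⁆ * a := by
  rw [← fm_zero, commutatorElement_def, fm_mul' h (conj_mem_of_mem_norm hb he) (inv_mem he) ha, fm_symm a e⁻¹, fm_inv,
    z2_eq, fm_symm e, ← fm_cj b a e, ← hc, mul_inv_cancel_right]

theorem cm_inv_of (h : f * f * b = b * (f * f)) : f * ⁅b, f⁆ * f⁻¹ = ⁅b, f⁆⁻¹ := by
  rw [commutatorElement_inv, commutatorElement_def, commutatorElement_def,
    show f * (b * f * b⁻¹ * f⁻¹) * f⁻¹ = f * b * f⁻¹ * (f * f * b⁻¹ * (f * f)⁻¹) by group,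
    show f * f * b⁻¹ * (f * f)⁻¹ = (f * f * b * (f * f)⁻¹)⁻¹ by
      simp only [mul_inv_rev, inv_inv, mul_assoc], h, mul_inv_cancel_right]

theorem cm_sq (b e : G) : ⁅b * b, e⁆ = ⁅b, ⁅b, e⁆⁆ * (⁅b, e⁆ * ⁅b, e⁆) := by
  simp only [commutatorElement_def]; group

theorem inv_mem_zp (h : ⁅t, e⁆ ∈ zpowers z) : ⁅e, t⁆ ∈ zpowers z := by
  rw [← commutatorElement_inv]; exact inv_mem h

namespace Wk

variable (s : Wk Δ Q K) (p : Pr Δ z t)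
include s p

theorem cmD {a : G} (ha : a ∈ Q z ⊓ 𝓒₁(t)) (hb : b ∈ Q t ⊓ 𝓒₁(z)) : ⁅b, a⁆ ∈ Q z ⊓ Q t := by
  rw [inf_comm]; exact s.cm_mem p.m' p.m hb ha

theorem bd (hd : d ∈ Q z ⊓ Q t) (hb : b ∈ Q t ⊓ 𝓒₁(z)) : b * d = d * b := s.g3 p.symm ⟨hd.2, hd.1⟩ hb

theorem qc (he : e ∈ Q z) (hb : b ∈ 𝓒₁(z)) : ⁅b, e⁆ ∈ Q z :=
  mul_mem (conj_mem_of_mem_norm ((s.lx z p.m).norm hb) he) (inv_mem he)

theorem fixz (he : e ∈ Q z) : e * z * e⁻¹ = z := by rw [mem_cent1.1 ((s.ex z p.m).cent he), mul_inv_cancel_right]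

theorem star (h : E0 Q z t) (hb : b ∈ Q t ⊓ 𝓒₁(z)) (hc : c ∈ (s.i p).A0) {e' : G} (he' : e' ∈ Q z)
    (h1 : ⁅e', t⁆ = ⁅b, c⁆ * z) : fm e' c = 1 := by
  have x := s.ex z p.m
  have k : ∀ e ∈ Q z, ⁅e', t⁆ = ⁅b, ⁅e, t⁆⁆ * z → fm e' ⁅e, t⁆ = 1 := fun e he h1 => by
    refine (((s.i p).cm_mul2 he' he).resolve_left fun ⟨a, _⟩ => ?_).2
    have cA := s.A0_A p h ((s.i p).cm_A0 he)
    have bt := mem_cent1.1 ((s.ex t p.m').cent hb.1)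
    have e1 : ⁅b * e * b⁻¹, t⁆ = ⁅b, ⁅e, t⁆⁆ * ⁅e, t⁆ := by
      rw [← cj_eq_cm, conjugate_commutatorElement, bt, mul_inv_cancel_right]
    have hy := conj_mem_of_mem_norm ((s.lx z p.m).norm hb.2) he
    rw [h1, ← mul_assoc, s.g3 p (s.cmD p cA hb) cA, ← e1] at a
    set y := b * e * b⁻¹
    refine h _ (mul_mem (inv_mem hy) (mul_mem he' he)) ?_
    rw [cm_mul_left, a, ← mem_cent1.1 (x.cent ((s.i p).cm hy)) |>.symm, ← mul_assoc, mem_cent1.1 (x.cent (inv_mem hy))]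
    simp only [commutatorElement_def]; group
  obtain ⟨e, he, rfl | rfl⟩ := (s.i p).A0_eq hc
  · exact k e he h1
  · rw [s.fm_dz p he' ((s.i p).cm he)]
    refine k e he (h1.trans ?_)
    congr 1
    rw [commutatorElement_def b, ← conj_mul, mem_cent1.1 hb.2, mul_inv_cancel_right, commutatorElement_def b]; group

theorem cent4 (h : E0 Q z t) (hd : d ∈ Q z ⊓ Q t) (d1 : d ≠ 1) {d' : G} (hd' : d' ∈ Q z ⊓ Q t) (d2 : d' ≠ 1)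
    (hne : d' ≠ d) (hb : b ∈ Q t ⊓ 𝓒₁(z)) (hc : c ∈ (s.i p).A0) : c * b = b * c := by
  have x := (s.ex z p.m).toSX
  obtain ⟨e, he, h1⟩ := s.eD p h hd d1
  obtain ⟨e', he', h2⟩ := s.eD p h hd' d2
  obtain ⟨a1, a2⟩ := s.eD_ne p hd he h1 hd' he' h2 hne
  have a3 := (s.eD_ne p hd' he' h2 hd he h1 hne.symm).1
  have a4 := s.eD_self p hd he h1
  have a5 := s.eD_self p hd' he' h2
  have le := (s.i p).A0_le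
  have k : ∀ c ∈ (s.i p).A0, fm e c = 0 → fm e' c = 0 → c ∈ 𝓒₁(b) := fun c hc u v => by
    rw [mem_cent1_symm, ← cm_one]
    rcases s.D_cases p h hd d1 hd' d2 hne (s.cmD p (s.A0_A p h hc) hb) with w | w | w | w
    · exact w
    · exact absurd (u.symm.trans (s.star p h hb hc he (w ▸ h1))) zero_ne_one
    · exact absurd (v.symm.trans (s.star p h hb hc he' (w ▸ h2))) zero_ne_one
    · have := s.star p h hb hc (mul_mem he he') (w ▸ a2)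
      rw [fm_mul x he he' (le hc), u, v] at this
      exact absurd this (by decide)
  have m1 := s.A0_of p h hd.1 fun a ha => s.g3 p hd ha
  have m2 := s.A0_of p h hd'.1 fun a ha => s.g3 p hd' ha
  have c1 : d ∈ 𝓒₁(b) := mem_cent1.2 (s.bd p hd hb).symm
  have c2 : d' ∈ 𝓒₁(b) := mem_cent1.2 (s.bd p hd' hb).symm
  rw [← mem_cent1]
  rcases z2 (fm e c) with u | u <;> rcases z2 (fm e' c) with v | v
  · exact k c hc u v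
  · exact (mul_mem_cancel_right c1).1 (k _ (mul_mem hc m1) (by rw [fm_mul' x (le hc) hd.1 he, u, a4]; rfl)
      (by rw [fm_mul' x (le hc) hd.1 he', v, a3]; rfl))
  · exact (mul_mem_cancel_right c2).1 (k _ (mul_mem hc m2) (by rw [fm_mul' x (le hc) hd'.1 he, u, a1]; rfl)
      (by rw [fm_mul' x (le hc) hd'.1 he', v, a5]; rfl))
  · exact (mul_mem_cancel_right (mul_mem c1 c2)).1 (k _ (mul_mem hc (mul_mem m1 m2))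
      (by rw [fm_mul' x (le hc) (mul_mem hd.1 hd'.1) he, fm_mul' x hd.1 hd'.1 he, u, a4, a1]; rfl)
      (by rw [fm_mul' x (le hc) (mul_mem hd.1 hd'.1) he', fm_mul' x hd.1 hd'.1 he', v, a3, a5]; rfl))

theorem b_dzt (hd : d ∈ Q z ⊓ Q t) (h1 : ⁅e, t⁆ = d * z) (hb : b ∈ Q t ⊓ 𝓒₁(z)) : b ∈ 𝓒₁(e * t * e⁻¹) := by
  rw [cj_eq_cm, h1, mem_cent1_symm]
  exact mul_mem (mul_mem (mem_cent1.2 (s.bd p hd hb).symm) (mem_cent1_symm.1 hb.2))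
    (mem_cent1_symm.1 ((s.ex t p.m').cent hb.1))

theorem dzt_eq {e' : G} (h1 : ⁅e, t⁆ = d * z) (h2 : ⁅e', z⁆ = d * t) : e * t * e⁻¹ = e' * z * e'⁻¹ := by
  rw [cj_eq_cm, cj_eq_cm, h1, h2, mul_assoc, mul_assoc, mem_cent1.1 p.c]

theorem five (h : E0 Q z t) (h' : E0 Q t z) (hd : d ∈ Q z ⊓ Q t) (d1 : d ≠ 1) {d' : G} (hd' : d' ∈ Q z ⊓ Q t)
    (d2 : d' ≠ 1) (hne : d' ≠ d) (k1 : z ∈ K t) (k2 : t ∈ K z) (hb : b ∈ Q t ⊓ 𝓒₁(z)) : b ∈ K z := by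
  by_contra hK
  have x := s.ex z p.m
  have x' := s.ex t p.m'
  have k : ∀ d ∈ Q z ⊓ Q t, d ≠ 1 → ∀ e ∈ Q z, ⁅e, t⁆ = d * z → ⁅b⁻¹, e⁻¹⁆ ∈ Q z ⊓ 𝓒₁(t) ∧ ⁅b⁻¹, e⁻¹⁆ ∉ K t :=
    fun d hd d1 e he h1 => by
    refine ⟨(s.cmA p he (inv_mem hb.2) (inv_mem (x'.cent hb.1)) (inv_mem (s.b_dzt p hd h1 hb))).2, fun a => hK ?_⟩
    obtain ⟨e', he', h2⟩ := s.eD p.symm h' ⟨hd.2, hd.1⟩ d1
    have a1 : b ∈ K (e * t * e⁻¹) := by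
      rw [s.cjK, mem_cj]
      have := mul_mem (s.qk t p.m' hb.1) a
      simpa only [commutatorElement_def, inv_inv, ← mul_assoc, mul_inv_cancel, one_mul] using this
    rw [s.dzt_eq p h1 h2, s.cjK, mem_cj] at a1
    rcases x'.conj_or (inv_mem he') hb.1 with u | u
    · rwa [u, inv_mul_cancel_right] at a1
    · rw [inv_inv] at u
      rw [u] at a1
      exact ((K z).mul_mem_cancel_right k2).1 a1
  obtain ⟨e, he, h1⟩ := s.eD p h hd d1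
  obtain ⟨e', he', h2⟩ := s.eD p h hd' d2
  obtain ⟨-, a2⟩ := s.eD_ne p hd he h1 hd' he' h2 hne
  obtain ⟨u1, u2⟩ := k d hd d1 e he h1
  obtain ⟨v1, v2⟩ := k d' hd' d2 e' he' h2
  refine (k _ (mul_mem hd' hd) (fun a => hne ?_) _ (mul_mem he he') a2).2 ?_
  · rw [mul_eq_one_iff_eq_inv, inv_eq (s.d2 p hd)] at a; exact a
  have e1 : ⁅b⁻¹, (e * e')⁻¹⁆ = ⁅b⁻¹, e'⁻¹⁆ * (e'⁻¹ * ⁅b⁻¹, e⁻¹⁆ * e'⁻¹⁻¹) := by
    simp only [commutatorElement_def]; group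
  have m := (s.mul_iff p.m' v1.2 u1.2).2 (iff_of_false v2 u2)
  rw [e1]
  rcases x.conj_or (inv_mem he') u1.1 with u | u
  · rwa [u, mul_inv_cancel_right]
  · rw [u, ← mul_assoc]; exact mul_mem m k1

theorem abel (hf : f ∈ Q z) (h1 : f ∉ 𝓒₁(t)) (h2 : Q t ⊓ 𝓒₁(z) ≤ 𝓒₁(f * t * f⁻¹))
    (h3 : ∀ d ∈ Q z ⊓ Q t, d ≠ 1 → ⁅f, t⁆ = d * z) (hb : b ∈ Q t ⊓ 𝓒₁(z)) (hc : c ∈ Q t ⊓ 𝓒₁(z)) :
    c * b = b * c := by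
  have x' := s.ex t p.m'
  have tB : t ∈ Q t ⊓ 𝓒₁(z) := ⟨x'.mem, p.c⟩
  have p1 : Pr Δ t (f * t * f⁻¹) := ⟨p.m', s.cjD t p.m' f, mem_cent1_symm.1 (h2 tB), fun a => h1 (mem_cent1_of_conj a.symm)⟩
  have ha : ⁅f, b⁆ ∈ Q z ⊓ 𝓒₁(t) := by
    rw [← commutatorElement_inv]; exact inv_mem (s.cmA p hf hb.2 (x'.cent hb.1) (h2 hb)).1
  have q1 : f * b * f⁻¹ ∈ Q (f * t * f⁻¹) ⊓ 𝓒₁(t) :=
    mem_inf.2 ⟨by rw [s.cjQ, conj_mem_cj]; exact hb.1, by rw [cj_eq_cm]; exact mul_mem ha.2 (x'.cent hb.1)⟩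
  have q2 := (s.cm_mem p1.m p1.m' ⟨hc.1, h2 hc⟩ q1).2
  refine commutatorElement_eq_one_iff_mul_comm.1 ((x'.mem_iff.1 (x'.comm hc.1 hb.1)).resolve_right fun u => ?_)
  have e1 : ⁅c, f * b * f⁻¹⁆ = ⁅c, ⁅f, b⁆⁆ * t := by
    rw [cj_eq_cm, show ⁅c, ⁅f, b⁆ * b⁆ = ⁅c, ⁅f, b⁆⁆ * (⁅f, b⁆ * ⁅c, b⁆ * ⁅f, b⁆⁻¹) by
      simp only [commutatorElement_def]; group, u, mem_cent1.1 ha.2, mul_inv_cancel_right]
  rw [e1] at q2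
  have hδ := s.cmD p ha hc
  by_cases d1 : ⁅c, ⁅f, b⁆⁆ = 1
  · rw [d1, one_mul] at q2; exact s.nm p1.symm q2
  · have q3 := (s.ex _ p1.m').mem
    have p2 : Pr Δ (f * t * f⁻¹) z := ⟨p1.m', p.m, by
      rw [← s.fixz p hf, ← cj_cent1, conj_mem_cj]; exact p.symm.c, fun a => by
      rw [← s.fixz p hf] at a; exact p.ne (by simpa using a.symm)⟩
    refine s.nm p2 ?_
    nth_rewrite 2 [cj_eq_cm] at q3
    rw [h3 _ hδ d1, mul_assoc _ z t, ← mem_cent1.1 p.c, ← mul_assoc] at q3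
    exact ((Q _).mul_mem_cancel_left q2).1 q3

theorem inv_cm (hf : f ∈ Q z) (hb : b ∈ 𝓒₁(z)) : f * ⁅b, f⁆ * f⁻¹ = ⁅b, f⁆⁻¹ :=
  cm_inv_of ((s.ex z p.m).cz hb ((s.ex z p.m).pow f hf)).symm

theorem two (h : E0 Q z t) (h' : E0 Q t z) (el : ∀ a ∈ Q z ⊓ 𝓒₁(t), a * a = 1)
    (sc : ∀ c ∈ Q z, (∀ a ∈ Q z ⊓ 𝓒₁(t), a * c = c * a) → c ∈ 𝓒₁(t))
    (hc : ♯(Q z ⊓ 𝓒₁(t)) = ♯(Q t ⊓ 𝓒₁(z))) (hd : d ∈ Q z ⊓ Q t) (d1 : d ≠ 1)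
    (H : ∀ c ∈ Q z ⊓ Q t, c = 1 ∨ c = d) : False := by
  have x := s.ex z p.m
  have x' := s.ex t p.m'
  obtain ⟨f, hf, h1⟩ := s.eD p h hd d1
  obtain ⟨f', hf', h2⟩ := s.eD p.symm h' ⟨hd.2, hd.1⟩ d1
  have fd := fm_zero.1 (s.eD_self p hd hf h1)
  have fd' := fm_zero.1 (s.eD_self p.symm ⟨hd.2, hd.1⟩ hf' h2)
  have D1 : ∀ c ∈ Q t, c ∈ Q (f * t * f⁻¹) → c = 1 ∨ c = d := fun c c1 c2 => by
    rw [s.dzt_eq p h1 h2, s.cjQ, mem_cj] at c2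
    refine (H _ (mem_inf.2 ⟨c2, mul_mem (mul_mem (inv_mem hf') c1) hf'⟩)).imp (fun a => by
      rwa [mul_assoc, inv_mul_eq_one, eq_comm, mul_eq_right] at a) fun a => ?_
    rw [mul_assoc, inv_mul_eq_iff_eq_mul, fd', mul_left_inj] at a; exact a
  have dQ : d ∈ Q (f * t * f⁻¹) := by
    rw [s.cjQ, mem_cj, mul_assoc, ← fd, inv_mul_cancel_left]; exact hd.2
  have c1 : ♯(Q z ⊓ 𝓒₁(t) ⊓ 𝓒₁(f)) * 2 ≤ ♯(Q z ⊓ 𝓒₁(t)) := two_mul_le inf_le_left fun a => by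
    have := cm_one.2 (sc f hf fun c hc => mem_cent1.1 (a hc).2)
    rw [h1, mul_eq_one_iff_eq_inv, inv_eq x.sq] at this
    exact s.nm p.symm (this ▸ hd.2)
  have c2 : ♯(Q t ⊓ 𝓒₁(z) ⊓ 𝓒₁(f)) ≤ 2 := card_le_two fun c hc => D1 c hc.1.1 (by
    rw [s.cjQ, mem_cj, mul_assoc, mem_cent1.1 hc.2, inv_mul_cancel_left]; exact hc.1.1)
  obtain ⟨b, hb, e1⟩ := surj (B := Q t ⊓ 𝓒₁(z)) (S := Q z ⊓ 𝓒₁(t) ⊓ 𝓒₁(f)) (f := f) (fun b hb => by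
    have a := (s.cmA p hf hb.2 (x'.cent hb.1) (s.b_dzt p hd h1 hb)).1
    refine ⟨a, mem_cent1_symm.1 (mem_cent1_of_conj ?_)⟩
    rw [s.inv_cm p hf hb.2, inv_eq (el _ a)]) ((Nat.mul_le_mul_left _ c2).trans (hc ▸ c1)) d
    ⟨s.dA p hd, mem_cent1.2 fd.symm⟩
  have q : f * b * f⁻¹ ∈ Q (f * t * f⁻¹) := by rw [s.cjQ, conj_mem_cj]; exact hb.1
  rw [cj_eq_cm f b, ← commutatorElement_inv, e1] at q
  rcases D1 b hb.1 (((Q _).mul_mem_cancel_left (inv_mem dQ)).1 q) with rfl | rfl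
  · exact d1 (by simpa using e1.symm)
  · exact d1 (e1.symm.trans (commutatorElement_eq_one_iff_mul_comm.2 fd.symm))

theorem A0_eps (hf : f ∈ Q z) (h1 : ⁅f, t⁆ = z) (hc : c ∈ Q z) (H : ∀ a ∈ Q z ⊓ 𝓒₁(t), a * c = c * a)
    (h0 : fm f c = 0) : c ∈ (s.i p).A0 := by
  have x := s.ex z p.m
  refine (s.i p).mem_A0_of x hc fun e he h => (x.mem_iff.1 h).elim (fun h => H e ⟨he, cm_one.1 h⟩) fun h => ?_
  have := fm_zero.2 (H _ ⟨mul_mem he hf, cm_one.1 (by rw [(s.i p).cm_z hf he h1, h, x.sq])⟩)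
  rwa [fm_mul x.toSX he hf hc, h0, add_zero, fm_zero] at this

theorem dA0 (hf : f ∈ Q z) (h1 : ⁅f, t⁆ = z) (hd : d ∈ Q t) (h : d ∈ (s.i p).A0) : d = 1 := by
  obtain ⟨e, -, rfl⟩ := (s.i p).A0_eq' hf h1 h
  exact s.g2 p hd

theorem fd1 (hf : f ∈ Q z) (h1 : ⁅f, t⁆ = z) (hd : d ∈ Q z ⊓ Q t) (d1 : d ≠ 1) : fm f d = 1 :=
  (z2 _).resolve_left fun h => d1 (s.dA0 p hf h1 hd.2 (s.A0_eps p hf h1 hd.1 (fun _ ha => s.g3 p hd ha) h))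

end Wk

/-- Both centralizers are elementary abelian, self-centralizing and commute. -/
structure T1 (Δ : Set G) (Q : G → Subgroup G) (z t : G) : Prop extends Pr Δ z t where
  el : ∀ a ∈ Q z ⊓ 𝓒₁(t), a * a = 1
  el' : ∀ a ∈ Q t ⊓ 𝓒₁(z), a * a = 1
  sc : ∀ c ∈ Q z, (∀ a ∈ Q z ⊓ 𝓒₁(t), a * c = c * a) → c ∈ 𝓒₁(t)
  sc' : ∀ c ∈ Q t, (∀ a ∈ Q t ⊓ 𝓒₁(z), a * c = c * a) → c ∈ 𝓒₁(z)
  cm : ∀ a ∈ Q z ⊓ 𝓒₁(t), ∀ b ∈ Q t ⊓ 𝓒₁(z), a * b = b * a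

theorem T1.symm (p : T1 Δ Q z t) : T1 Δ Q t z :=
  ⟨p.toPr.symm, p.el', p.el, p.sc', p.sc, fun a ha b hb => (p.cm b hb a ha).symm⟩

namespace Wk

variable (s : Wk Δ Q K) (p : T1 Δ Q z t)
include s p

theorem cardA : ♯(Q z ⊓ 𝓒₁(t)) * ♯(Q z ⊓ 𝓒₁(t)) = 2 * ♯(Q z) := by
  have x := s.ex z p.m
  rw [← cnt x (P := Q z ⊓ 𝓒₁(t)) ⟨x.mem, p.toPr.symm.c⟩ inf_le_left]
  have : Q z ⊓ 𝓒(Q z ⊓ 𝓒₁(t)) = Q z ⊓ 𝓒₁(t) := le_antisymm (fun c hc => ⟨hc.1, p.sc c hc.1 (mem_cent.1 hc.2)⟩)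
    fun a ha => ⟨ha.1, mem_cent.2 fun c hc => comm_of_sq p.el hc ha⟩
  rw [this]

theorem cardAB : ♯(Q z ⊓ 𝓒₁(t)) = ♯(Q t ⊓ 𝓒₁(z)) := by
  rw [← Nat.mul_self_inj, s.cardA p, s.cardA p.symm, s.ce z p.m t p.m']

theorem nrm (he : e ∈ Q t) {a : G} (ha : a ∈ Q z ⊓ 𝓒₁(t)) : ⁅a, e⁆ ∈ Q t ⊓ 𝓒₁(z) :=
  ⟨s.qc p.toPr.symm he ha.2, p.sc' _ (s.qc p.toPr.symm he ha.2) fun b hb =>
    fixc (s.ex t p.m').toSX ((s.lx t p.m').norm ha.2) he hb.1 (p.cm a ha b hb).symm⟩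

theorem nrm' (he : e ∈ Q t) {a : G} (ha : a ∈ Q z ⊓ 𝓒₁(t)) : ⁅e, a⁆ ∈ Q t ⊓ 𝓒₁(z) := by
  rw [← commutatorElement_inv]; exact inv_mem (s.nrm p he ha)

theorem cj_inv (he : e ∈ Q t) {a : G} (ha : a ∈ 𝓒₁(t)) : e⁻¹ * a * e = e * a * e⁻¹ := by
  have := (s.ex t p.m').cz ha ((s.ex t p.m').pow e he)
  rw [show e⁻¹ * a * e = e⁻¹ * (a * (e * e)) * e⁻¹ by group, this]; group

theorem cnt2 (he : e ∈ Q t) (h1 : e ∉ 𝓒₁(z)) {D : Subgroup G} (h2 : D ≤ Q z ⊓ Q t) (h3 : D ≤ 𝓒₁(e)) :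
    2 * ♯D ≤ ♯(Q z ⊓ Q (e * z * e⁻¹)) := by
  let θ : (Q z ⊓ 𝓒₁(t) : Subgroup G) →* G := MonoidHom.mk' (fun a => ⁅(a : G), e⁆) fun a a' => by
    simp only [coe_mul]
    rw [cm_mul_left, p.cm a a.2 _ (s.nrm p he a'.2), mul_inv_cancel_right,
      comm_of_sq p.el' (s.nrm p he a'.2) (s.nrm p he a.2)]
  have r1 : θ.range ≤ Q t ⊓ 𝓒₁(z) ⊓ 𝓒₁(e) := by
    rintro _ ⟨a, rfl⟩
    refine ⟨s.nrm p he a.2, mem_cent1_symm.1 (mem_cent1_of_conj ?_)⟩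
    exact (s.inv_cm p.toPr.symm he a.2.2).trans (inv_eq (p.el' _ (s.nrm p he a.2)))
  have r2 : D ≤ Q t ⊓ 𝓒₁(z) ⊓ 𝓒₁(e) := fun d hd => ⟨s.dA p.toPr.symm ⟨(h2 hd).2, (h2 hd).1⟩, h3 hd⟩
  have c1 : ♯(Q t ⊓ 𝓒₁(z) ⊓ 𝓒₁(e)) * 2 ≤ ♯(Q t ⊓ 𝓒₁(z)) :=
    two_mul_le inf_le_left fun a => h1 (p.sc' e he fun c hc => mem_cent1.1 (a hc).2)
  have c2 := card_mul_relIndex r2
  have c3 := relIndex_le_of_le_right r1 (relIndex_ne_zero' D _)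
  have c4 := card_mul_index (D.comap θ)
  rw [index_comap] at c4
  have c5 : Nat.card (D.comap θ) ≤ ♯(Q z ⊓ Q (e * z * e⁻¹)) := by
    rw [← card_map_of_injective (subtype_injective _)]
    refine card_le_of_le' ?_
    rintro _ ⟨a, ha, rfl⟩
    refine ⟨a.2.1, ?_⟩
    change (a : G) ∈ Q (e * z * e⁻¹)
    rw [s.cjQ, mem_cj, s.cj_inv p he a.2.2, cj_eq_cm, ← commutatorElement_inv]
    exact mul_mem (inv_mem (h2 ha).1) a.2.1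
  have c6 := s.cardAB p
  have c7 := card_pos' (Q t ⊓ 𝓒₁(z))
  refine Nat.le_of_mul_le_mul_right ?_ c7
  calc 2 * ♯D * ♯(Q t ⊓ 𝓒₁(z)) = 2 * ♯D * (Nat.card (D.comap θ) * D.relIndex θ.range) := by rw [c4, c6]
    _ ≤ 2 * ♯D * (♯(Q z ⊓ Q (e * z * e⁻¹)) * D.relIndex (Q t ⊓ 𝓒₁(z) ⊓ 𝓒₁(e))) := by gcongr
    _ = ♯(Q z ⊓ Q (e * z * e⁻¹)) * (♯(Q t ⊓ 𝓒₁(z) ⊓ 𝓒₁(e)) * 2) := by rw [← c2]; ring
    _ ≤ _ := by gcongr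

theorem newp (he : e ∈ Q t) (h1 : e ∉ 𝓒₁(z)) (h2 : ⁅e, z⁆ ≠ t) :
    Pr Δ z (e * z * e⁻¹) ∧ E0 Q z (e * z * e⁻¹) := by
  have x := s.ex z p.m
  have b0 := s.nrm' p he ⟨x.mem, p.toPr.symm.c⟩
  refine ⟨⟨p.m, s.cjD z p.m e, ?_, fun a => h1 (mem_cent1_of_conj a.symm)⟩, fun f hf a => h2 ?_⟩
  · rw [cj_eq_cm]; exact mul_mem b0.2 (mem_cent1_self z)
  · have := s.cjD _ (s.cjD z p.m e) f
    rw [cj_eq_cm, a, cj_eq_cm, ← mul_assoc, ← mem_cent1.1 b0.2, mul_assoc, x.sq, mul_one] at this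
    exact s.wk t p.m' _ this b0.1

theorem t0 (h : E0 Q z t) (h' : E0 Q t z) (hd : d ∈ Q z ⊓ Q t) : d = 1 := by
  by_contra d1
  rcases s.D_alt p.toPr with ⟨d', H⟩ | ⟨d, hd, d', hd', h1, h2, h3⟩
  · exact s.two p.toPr h h' p.el p.sc (s.cardAB p) hd d1 (by rwa [← (H d hd).resolve_left d1] at H)
  have x' := s.ex t p.m'
  have c1 := cnt x' (P := (Q z ⊓ Q t) ⊔ zpowers t) (mem_sup_right (mem_zpowers t)) (sup_le inf_le_right x'.le)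
  have c2 : ♯((Q z ⊓ Q t) ⊔ zpowers t) ≤ 8 := by
    have := Nat.le_of_dvd (Nat.mul_pos (card_pos' _) (card_pos' _)) (card_sup_dvd (A := Q z ⊓ Q t) (N := zpowers t)
      (inf_le_right.trans (x'.norm_of (mem_zpowers t) x'.le)))
    have := s.D4 p.toPr h
    rw [x'.card] at *
    omega
  obtain ⟨e, he, e1⟩ : ∃ e ∈ Q t ⊓ 𝓒((Q z ⊓ Q t) ⊔ zpowers t), e ∉ 𝓒₁(z) := by
    by_contra! H
    have c3 := card_le_of_le' (show Q t ⊓ 𝓒((Q z ⊓ Q t) ⊔ zpowers t) ≤ Q t ⊓ 𝓒₁(z) from fun e he => ⟨he.1, H e he⟩)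
    have c4 := s.cardA p.symm
    have c5 := s.big t p.m'
    have c6 : 2 * ♯(Q t) ≤ ♯(Q t ⊓ 𝓒₁(z)) * 8 := c1 ▸ Nat.mul_le_mul c3 c2
    nlinarith
  obtain ⟨n1, n2⟩ := s.newp p he.1 e1 (h' e he.1)
  have c3 := (s.cnt2 p he.1 e1 le_rfl (le_cent1_iff.2 (cent_anti le_sup_left he.2))).trans (s.D4 n1 n2)
  have c4 : ({1, d, d'} : Set G).ncard ≤ ♯(Q z ⊓ Q t) := Set.ncard_le_ncard (t := ((Q z ⊓ Q t : Subgroup G) : Set G)) (by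
    rintro _ (rfl | rfl | rfl)
    exacts [one_mem _, hd, hd'])
  rw [Set.ncard_eq_three.2 ⟨1, d, d', h1.symm, h2.symm, h3.symm, rfl⟩] at c4
  omega

theorem el_false (h : E0 Q t z ∨ ∃ d ∈ Q z ⊓ Q t, d ≠ 1) (hb : b ∈ Q t ⊓ 𝓒₁(z)) (hK : b ∉ K z) : False := by
  have x := s.ex z p.m
  have x' := s.ex t p.m'
  have q := p.toPr.symm
  obtain ⟨e, he, e1, e2⟩ : ∃ e ∈ Q t, ⁅e, z⁆ ≠ t ∧ ⁅e, z⁆ ∉ K z := by
    by_contra! H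
    have l := (s.i q).z_mem x' (s.lx t p.m') (s.nm q) H
    have ab : ∀ c ∈ Q t ⊓ 𝓒₁(z), ∀ a ∈ Q t ⊓ 𝓒₁(z), a * c = c * a := fun c hc a ha => comm_of_sq p.el' ha hc
    by_cases h0 : E0 Q t z
    · exact hK (l (s.A0_of q h0 hb.1 (ab b hb)))
    obtain ⟨d, hd, d1⟩ := h.resolve_left h0
    obtain ⟨f, hf, f1⟩ : ∃ f ∈ Q t, ⁅f, z⁆ = t := by
      by_contra! H; exact h0 H
    rcases z2 (fm f b) with u | u
    · exact hK (l (s.A0_eps q hf f1 hb.1 (ab b hb) u))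
    · have dB := s.dA q ⟨hd.2, hd.1⟩
      exact hK (((K z).mul_mem_cancel_right (s.qk z p.m hd.1)).1 (l (s.A0_eps q hf f1 (mul_mem hb.1 hd.2)
        (ab _ (mul_mem hb dB)) (by rw [fm_mul' x'.toSX hb.1 hd.2 hf, u, s.fd1 q hf f1 ⟨hd.2, hd.1⟩ d1]; rfl))))
  have e3 : e ∉ 𝓒₁(z) := fun a => e2 (cm_one.2 a ▸ one_mem _)
  obtain ⟨n1, n2⟩ := s.newp p he e3 e1
  have b0 := s.nrm' p he ⟨x.mem, q.c⟩
  have sw : e * (e * z * e⁻¹) * e⁻¹ = z := by rw [← s.cj_inv p he q.c]; group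
  set w := e * z * e⁻¹ with hw
  have wK : w ∉ K z := fun a => by
    rw [hw, cj_eq_cm] at a
    exact e2 (((K z).mul_mem_cancel_right (s.qk z p.m x.mem)).1 a)
  have tr : ∀ a, e * a * e⁻¹ ∈ Q w ⊓ 𝓒₁(z) ↔ a ∈ Q z ⊓ 𝓒₁(w) := fun a => by
    conv_lhs => rw [← sw, ← cj_cent1, hw, s.cjQ, ← cj_inf, conj_mem_cj]
  have l1 : ∀ a ∈ Q w ⊓ 𝓒₁(z), a * a = 1 := fun a ha =>
    ((s.ex w n1.m').mem_iff.1 ((s.ex w n1.m').pow a ha.1)).resolve_right fun u => wK (u ▸ s.sq_mem p.m ha.2)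
  have l2 : ∀ a ∈ Q z ⊓ 𝓒₁(w), a * a = 1 := fun a ha => by
    have := l1 _ ((tr a).2 ha)
    rwa [conj_mul, conj_eq_one_iff] at this
  have l3 : Q z ⊓ 𝓒₁(t) ≤ Q z ⊓ 𝓒₁(w) := fun a ha => mem_inf.2 ⟨ha.1, by
    rw [hw, cj_eq_cm, mem_cent1_symm]
    exact mul_mem (mem_cent1.2 (p.cm a ha _ b0).symm) (mem_cent1_symm.1 (x.cent ha.1))⟩
  have l4 : Q z ⊓ 𝓒₁(w) ≤ Q z ⊓ 𝓒₁(t) := fun c hc => ⟨hc.1, p.sc c hc.1 fun a ha => comm_of_sq l2 (l3 ha) hc⟩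
  have l5 : ∀ c ∈ Q z, (∀ a ∈ Q z ⊓ 𝓒₁(w), a * c = c * a) → c ∈ 𝓒₁(w) := fun c hc H =>
    (l3 ⟨hc, p.sc c hc fun a ha => H a (l3 ha)⟩).2
  have cj : ∀ c ∈ Q w, ∃ c' ∈ Q z, e * c' * e⁻¹ = c := fun c hc => by rwa [hw, s.cjQ, mem_cj'] at hc
  have T : T1 Δ Q z w := ⟨n1, l2, l1, l5, fun c hc H => by
    obtain ⟨c, c1, rfl⟩ := cj c hc
    refine ((tr c).2 ⟨c1, l5 c c1 fun a ha => ?_⟩).2
    have := H _ ((tr a).2 ha)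
    rwa [← fm_zero, fm_cj, fm_zero] at this, fun a ha c hc => by
    obtain ⟨c, c1, rfl⟩ := cj c hc.1
    have c2 := l4 ((tr c).1 hc)
    rw [cj_eq_cm, ← mul_assoc, p.cm a (l4 ha) _ (s.nrm' p he c2), mul_assoc, comm_of_sq p.el (l4 ha) c2, mul_assoc]⟩
  have n3 : E0 Q w z := fun c hc a => by
    obtain ⟨c, c1, rfl⟩ := cj c hc
    rw [← sw, ← conjugate_commutatorElement] at a
    exact n2 c c1 (mul_left_cancel (mul_right_cancel (a.trans hw)))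
  have c1 := s.cnt2 p he e3 (D := ⊥) bot_le bot_le
  have c2 : Q z ⊓ Q w = ⊥ := eq_bot_iff.2 fun d hd => s.t0 T n2 n3 hd
  rw [← hw, c2] at c1
  simp at c1

end Wk

end CA.H8Lge
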