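import Cfsg.Agent.Lib.Grp.H8Lge4

/-!
The weakly closed situation does not occur together with a subgroup of index 2 in the centralizer.
-/

set_option autoImplicit false
set_option linter.unusedSectionVars false

namespace CA.H8Lge

open Subgroup Cfsg CA.BG CA.GW CA.H7Lge
open scoped commutatorElement

variable {G : Type*} [Group G] [Finite G] {z t e f d b c g : G} {Δ : Set G} {Q K : G → Subgroup G}

/-- A commuting pair that is swapped by an element. -/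
structure Sw (Δ : Set G) (z t g : G) : Prop extends Pr Δ z t where
  g1 : g * z * g⁻¹ = t
  g2 : g * t * g⁻¹ = z

theorem Sw.symm (p : Sw Δ z t g) : Sw Δ t z g := ⟨p.toPr.symm, p.g2, p.g1⟩

namespace Wk

variable (s : Wk Δ Q K) (p : Sw Δ z t g)
include s p

theorem swQ : Q t = cj g (Q z) := by rw [← s.cjQ, p.g1]

theorem swA : Q t ⊓ 𝓒₁(z) = cj g (Q z ⊓ 𝓒₁(t)) := by rw [cj_inf, cj_cent1, p.g2, s.swQ p]

theorem swc : ♯(Q z ⊓ 𝓒₁(t)) = ♯(Q t ⊓ 𝓒₁(z)) := by rw [s.swA p, card_cj]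

theorem sw_el (h : ∀ a ∈ Q z ⊓ 𝓒₁(t), a * a = 1) : ∀ a ∈ Q t ⊓ 𝓒₁(z), a * a = 1 := fun a ha => by
  rw [s.swA p, mem_cj'] at ha
  obtain ⟨a, ha, rfl⟩ := ha
  rw [conj_mul, h a ha, mul_one, mul_inv_cancel]

theorem sw_sc (h : ∀ c ∈ Q z, (∀ a ∈ Q z ⊓ 𝓒₁(t), a * c = c * a) → c ∈ 𝓒₁(t)) :
    ∀ c ∈ Q t, (∀ a ∈ Q t ⊓ 𝓒₁(z), a * c = c * a) → c ∈ 𝓒₁(z) := fun c hc H => by
  rw [s.swQ p, mem_cj'] at hc
  obtain ⟨c, hc, rfl⟩ := hc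
  rw [← p.g2, ← cj_cent1, conj_mem_cj]
  refine h c hc fun a ha => ?_
  have := H (g * a * g⁻¹) (by rw [s.swA p, conj_mem_cj]; exact ha)
  rwa [← fm_zero, fm_cj, fm_zero] at this

theorem sw_e0 (h : E0 Q z t) : E0 Q t z := fun e he a => by
  rw [s.swQ p, mem_cj'] at he
  obtain ⟨e, he, rfl⟩ := he
  nth_rewrite 1 [← p.g2] at a
  rw [← conjugate_commutatorElement] at a
  exact h e he (mul_left_cancel (mul_right_cancel (a.trans p.g1.symm)))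

theorem bsq (hb : b ∈ Q t ⊓ 𝓒₁(z)) (h : b * b = t → ∀ e ∈ Q z, ⁅t, e⁆ ∈ zpowers z) : b * b = 1 :=
  ((s.ex t p.m').mem_iff.1 ((s.ex t p.m').pow b hb.1)).resolve_right fun u =>
    s.nm p.toPr ((s.lx z p.m).stab t p.c fun e he => inv_mem_zp (h u e he))

theorem caseB (h : E0 Q z t) (hf : f ∈ Q z) (f1 : f ∉ 𝓒₁(t)) (f2 : Q t ⊓ 𝓒₁(z) ≤ 𝓒₁(f * t * f⁻¹))
    (hb : b ∈ Q t ⊓ 𝓒₁(z)) (hK : b ∉ K z) : False := by
  have q := p.toPr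
  have h' := s.sw_e0 p h
  have x := s.ex z p.m
  have x' := s.ex t p.m'
  by_cases el' : ∀ a ∈ Q t ⊓ 𝓒₁(z), a * a = 1
  · have el := s.sw_el p.symm el'
    have sc : ∀ c ∈ Q z, (∀ a ∈ Q z ⊓ 𝓒₁(t), a * c = c * a) → c ∈ 𝓒₁(t) := fun c hc H =>
      (s.A0_A q h (s.A0_of q h hc H)).2
    refine s.el_false ⟨q, el, el', sc, s.sw_sc p sc, fun a ha c hc => ?_⟩ (Or.inl h') hb hK
    rcases s.D_alt q with ⟨d, H⟩ | ⟨d, hd, d', hd', h1, h2, h3⟩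
    · by_contra hn
      have hδ := s.cmD q ha hc
      have d1 : ⁅c, a⁆ ≠ 1 := fun u => hn (commutatorElement_eq_one_iff_mul_comm.1 u).symm
      exact s.two q h h' el sc (s.swc p) hδ d1 (by rwa [← (H _ hδ).resolve_left d1] at H)
    · exact s.cent4 q h hd h1 hd' h2 h3 hc (s.A0_of q h ha.1 fun a' ha' => comm_of_sq el ha' ha)
  have k : ∀ {z t : G} (p : Sw Δ z t g), ¬ (∀ a ∈ Q t ⊓ 𝓒₁(z), a * a = 1) → t ∈ K z := fun {z t} p H => by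
    push_neg at H
    obtain ⟨a, ha, a1⟩ := H
    exact ((s.ex t p.m').mem_iff.1 ((s.ex t p.m').pow a ha.1)).resolve_left a1 ▸ s.sq_mem p.m ha.2
  have ab : (∀ b ∈ Q t ⊓ 𝓒₁(z), ∀ c ∈ Q t ⊓ 𝓒₁(z), c * b = b * c) → False := fun H => el' fun a ha =>
    s.A0_sq q.symm (s.A0_of q.symm h' ha.1 (H a ha)) ha.2
  rcases s.D_alt q with ⟨d, H⟩ | ⟨d, hd, d', hd', h1, h2, h3⟩
  · by_cases h0 : ∃ d ∈ Q z ⊓ Q t, d ≠ 1
    · obtain ⟨d', hd', d1⟩ := h0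
      obtain ⟨e, he, e1⟩ := s.eD q h hd' d1
      refine ab fun b hb c hc => s.abel q he (fun u => ?_) (fun b hb => s.b_dzt q hd' e1 hb) (fun δ hδ δ1 => ?_) hb hc
      · have := cm_one.2 u
        rw [e1, mul_eq_one_iff_eq_inv, inv_eq x.sq] at this
        exact s.nm q.symm (this ▸ hd'.2)
      · rw [e1, (H _ hd').resolve_left d1, (H _ hδ).resolve_left δ1]
    · exact ab fun b hb c hc => s.abel q hf f1 f2 (fun δ hδ δ1 => absurd ⟨δ, hδ, δ1⟩ h0) hb hc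
  · exact hK (s.five q h h' hd h1 hd' h2 h3 (k p.symm fun H => el' (s.sw_el p H)) (k p el') hb)

theorem bf (hf : f ∈ Q z) (f1 : ⁅f, t⁆ = z) (hb : b ∈ Q t ⊓ 𝓒₁(z)) : ⁅b, f⁆ ∈ Q z ⊓ 𝓒₁(t) := by
  have bt := (s.ex t p.m').cent hb.1
  refine (s.cmA p.toPr hf hb.2 bt ?_).1
  rw [cj_eq_cm, f1, mem_cent1_symm]
  exact mul_mem (mem_cent1_symm.1 hb.2) (mem_cent1_symm.1 bt)

theorem caseA2 (hf : f ∈ Q z) (f1 : ⁅f, t⁆ = z) (hd : d ∈ Q z ⊓ Q t) (d1 : d ≠ 1)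
    (hb : b ∈ Q t ⊓ 𝓒₁(z)) (hK : b ∉ K z) : False := by
  have q := p.toPr
  have x := s.ex z p.m
  have x' := s.ex t p.m'
  have i := s.i q
  have fd := s.fd1 q hf f1 hd d1
  have dA := s.dA q hd
  have cf : ∀ c ∈ i.A0, fm c f = 0 := fun c hc => fm_zero.2 (s.A0_cent q hc hf (f1 ▸ mem_zpowers _))
  have A0A : ∀ c ∈ i.A0, c ∈ Q z ⊓ 𝓒₁(t) := fun c hc => by
    have c1 := i.A0_le hc
    refine ⟨c1, cm_one.1 ((x.mem_iff.1 (i.A0_cm hc ▸ x.pow c c1)).resolve_right fun u => ?_)⟩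
    have := fm_zero.2 (s.g3 q hd ⟨mul_mem c1 hf, cm_one.1 (by rw [i.cm_z hf c1 f1, u, x.sq])⟩)
    rw [fm_mul x.toSX c1 hf hd.1, fd, fm_zero.2 (s.A0_cent' q hc dA)] at this
    exact absurd this (by decide)
  have D0 : ∀ δ ∈ Q z ⊓ Q t, fm f δ = 0 → δ = 1 := fun δ hδ u => by
    by_contra h; exact zero_ne_one (u.symm.trans (s.fd1 q hf f1 hδ h))
  have b0 : ∀ b ∈ Q t ⊓ 𝓒₁(z), ∀ c ∈ i.A0, c * b = b * c := fun b hb c hc => by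
    have hδ := s.cmD q (A0A c hc) hb
    have ha := s.bf p hf f1 hb
    have := fm_cj b c f
    rw [cf c hc, cj_eq_cm, cj_eq_cm, fm_mul x.toSX hδ.1 (i.A0_le hc) (mul_mem ha.1 hf),
      fm_mul' x.toSX ha.1 hf hδ.1, fm_mul' x.toSX ha.1 hf (i.A0_le hc), cf c hc, fm_zero.2 (s.A0_cent' q hc ha),
      fm_zero.2 (s.g3 q hδ ha).symm, add_zero, add_zero, zero_add, fm_symm] at this
    exact (commutatorElement_eq_one_iff_mul_comm.1 (D0 _ hδ this)).symm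
  have st : ∀ y ∈ Q z, (∀ a ∈ Q z ⊓ 𝓒₁(t), a * y = y * a) → y ∈ i.A0 ∨ y * d ∈ i.A0 := fun y hy H =>
    (z2 (fm f y)).imp (s.A0_eps q hf f1 hy H) fun u => s.A0_eps q hf f1 (mul_mem hy hd.1) (fun a ha => by
      rw [← mul_assoc, H a ha, mul_assoc, s.g3 q hd ha, mul_assoc]) (by rw [fm_mul' x.toSX hy hd.1 hf, u, fd]; rfl)
  have sc : ∀ y ∈ Q z, (∀ a ∈ Q z ⊓ 𝓒₁(t), a * y = y * a) → y ∈ 𝓒₁(t) := fun y hy H =>
    (st y hy H).elim (fun u => (A0A y u).2) fun u => ((𝓒₁(t)).mul_mem_cancel_right dA.2).1 (A0A _ u).2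
  have b1 : ∀ b ∈ Q t ⊓ 𝓒₁(z), ∀ y ∈ Q z, (∀ a ∈ Q z ⊓ 𝓒₁(t), a * y = y * a) → y * b = b * y := fun b hb y hy H =>
    (st y hy H).elim (b0 b hb y) fun u => mem_cent1.1 (((𝓒₁(b)).mul_mem_cancel_right
      (mem_cent1.2 (s.bd q hd hb).symm)).1 (mem_cent1.2 (b0 b hb _ u)))
  have el' : ∀ b ∈ Q t ⊓ 𝓒₁(z), b * b = 1 := fun b hb => s.bsq p hb fun u e he => by
    have ha : ⁅b, e⁆ ∈ Q z ⊓ 𝓒₁(t) := x.cent_cent_le (K := Q z ⊓ 𝓒₁(t)) ⟨x.mem, q.symm.c⟩ inf_le_left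
      ⟨s.qc q he hb.2, mem_cent.2 fun y hy => fixc x.toSX ((s.lx z p.m).norm hb.2) he hy.1
        (b1 b hb y hy.1 (mem_cent.1 hy.2))⟩
    have e1 := cm_sq b e
    rw [u] at e1
    have e2 : ⁅t, e⁆ ∈ i.A0 := by rw [← commutatorElement_inv]; exact inv_mem (i.cm_A0 he)
    rw [e1] at e2
    have := s.dA0 q hf f1 (s.cmD q ha hb).2 ((mul_mem_cancel_right (i.z_A0 (x.pow _ ha.1))).1 e2)
    rw [e1, this, one_mul]
    exact x.pow _ ha.1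
  have el := s.sw_el p.symm el'
  exact s.el_false ⟨q, el, el', sc, s.sw_sc p sc, fun a ha c hc => b1 c hc a ha.1 fun a' ha' => comm_of_sq el ha' ha⟩
    (Or.inr ⟨d, hd, d1⟩) hb hK

theorem caseA1 (hf : f ∈ Q z) (f1 : ⁅f, t⁆ = z) {f' : G} (hf' : f' ∈ Q t) (f2 : ⁅f', z⁆ = t)
    (H : ∀ d ∈ Q z ⊓ Q t, d = 1) : False := by
  have q := p.toPr
  have x := s.ex z p.m
  have x' := s.ex t p.m'
  have i := s.i q
  have cm : ∀ a ∈ Q z ⊓ 𝓒₁(t), ∀ b ∈ Q t ⊓ 𝓒₁(z), a * b = b * a := fun a ha b hb =>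
    (commutatorElement_eq_one_iff_mul_comm.1 (H _ (s.cmD q ha hb))).symm
  have ft : f ∉ 𝓒₁(t) := fun u => x.ne (f1.symm.trans (cm_one.2 u))
  have c1 : Q t ⊓ 𝓒₁(z) ⊓ 𝓒₁(f) = ⊥ := eq_bot_iff.2 fun b hb => by
    have u : b ∈ Q (f * t * f⁻¹) := by
      rw [s.cjQ, mem_cj, mul_assoc, mem_cent1.1 hb.2, inv_mul_cancel_left]; exact hb.1.1
    rw [show f * t * f⁻¹ = f' * z * f'⁻¹ by rw [cj_eq_cm, cj_eq_cm, f1, f2, mem_cent1.1 p.c], s.cjQ, mem_cj] at u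
    have := H _ (mem_inf.2 ⟨u, mul_mem (mul_mem (inv_mem hf') hb.1.1) hf'⟩)
    rwa [mul_assoc, inv_mul_eq_one, eq_comm, mul_eq_right] at this
  have sj := surj (B := Q t ⊓ 𝓒₁(z)) (S := Q z ⊓ 𝓒₁(t)) (f := f) (fun b hb => s.bf p hf f1 hb)
    (by rw [c1, card_bot, mul_one, s.swc p])
  have iv : ∀ a ∈ Q z ⊓ 𝓒₁(t), f * a * f⁻¹ = a⁻¹ := fun a ha => by
    obtain ⟨b, hb, rfl⟩ := sj a ha
    exact s.inv_cm q hf hb.2
  have ab : ∀ a ∈ Q z ⊓ 𝓒₁(t), ∀ c ∈ Q z ⊓ 𝓒₁(t), c * a = a * c := fun a ha c hc => by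
    obtain ⟨b, hb, rfl⟩ := sj a ha
    exact fixc x.toSX ((s.lx z p.m).norm hb.2) hf hc.1 (cm c hc b hb)
  by_cases sc : ∀ y ∈ Q z, (∀ a ∈ Q z ⊓ 𝓒₁(t), a * y = y * a) → y ∈ 𝓒₁(t)
  · have el' : ∀ b ∈ Q t ⊓ 𝓒₁(z), b * b = 1 := fun b hb => s.bsq p hb fun u e he => by
      have ha : ⁅b, e⁆ ∈ Q z ⊓ 𝓒₁(t) := ⟨s.qc q he hb.2, sc _ (s.qc q he hb.2) fun a ha =>
        fixc x.toSX ((s.lx z p.m).norm hb.2) he ha.1 (cm a ha b hb)⟩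
      have e1 := cm_sq b e
      rw [u] at e1
      rw [e1, H _ (s.cmD q ha hb), one_mul]
      exact x.pow _ ha.1
    refine ft (sc f hf fun a ha => ?_)
    have := iv a ha
    rw [inv_eq (s.sw_el p.symm el' a ha), mul_inv_eq_iff_eq_mul] at this
    exact this.symm
  push_neg at sc
  obtain ⟨y, hy, y1, y2⟩ := sc
  have fA : ∀ a ∈ Q z ⊓ 𝓒₁(t), a * f = f * a := fun a ha => by
    by_cases u : ⁅y, t⁆ ∈ zpowers z
    · have v := (x.mem_iff.1 u).resolve_left fun v => y2 (cm_one.1 v)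
      have := ab _ ⟨mul_mem hy hf, cm_one.1 (by rw [i.cm_z hf hy f1, v, x.sq])⟩ a ha
      rwa [← mul_assoc, y1 a ha, mul_assoc, mul_assoc, mul_right_inj] at this
    · have v : fm f y = 1 := (z2 _).resolve_left fun v => u (by
        have := s.A0_eps q hf f1 hy y1 v
        rw [i.A0_cm this]; exact x.pow y hy)
      by_contra w
      have := s.A0_eps q hf f1 (mul_mem hy ha.1) (fun c hc => by
        rw [← mul_assoc, y1 c hc, mul_assoc, ab a ha c hc, mul_assoc])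
        (by rw [fm_mul' x.toSX hy ha.1 hf, v, fm_symm, fm_one.2 w]; rfl)
      have e1 := i.A0_cm this
      rw [cm_mul_left, cm_one.2 ha.2, mul_one, mul_inv_cancel, one_mul] at e1
      exact u (e1 ▸ x.pow _ (mul_mem hy ha.1))
  have cc : ∀ c ∈ i.A0, c ∉ 𝓒₁(t) → ⁅c, t⁆ = z := fun c hc u =>
    (x.mem_iff.1 (i.A0_cm hc ▸ x.pow c (i.A0_le hc))).resolve_left fun v => u (cm_one.1 v)
  have c2 : ∀ c ∈ i.A0, ∀ c' ∈ i.A0, c ∉ 𝓒₁(t) → c' ∉ 𝓒₁(t) → c * c' ∈ 𝓒₁(t) := fun c hc c' hc' u v =>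
    cm_one.1 (by rw [i.cm_z (i.A0_le hc') (i.A0_le hc) (cc c' hc' v), cc c hc u, x.sq])
  have V0 : ∀ e ∈ Q z, ⁅e, t⁆ ∈ 𝓒₁(t) → e ∈ 𝓒(Q z ⊓ 𝓒₁(t)) := fun e he u => mem_cent.2 fun a ha => by
    obtain ⟨b, hb, rfl⟩ := sj a ha
    have n := (s.lx z p.m).norm hb.2
    have bt := mem_cent1.1 (x'.cent (inv_mem hb.1))
    have e1 : ⁅b⁻¹ * e * b⁻¹⁻¹, t⁆ = ⁅e, t⁆ := by
      conv_rhs => rw [← mul_inv_cancel_right ⁅e, t⁆ b⁻¹, cm _ ⟨i.cm he, u⟩ _ (inv_mem hb), conjugate_commutatorElement, bt,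
        mul_inv_cancel_right]
    have m := conj_mem_of_mem_norm (inv_mem n) he
    have e2 := fm_zero.2 (fA _ (mem_inf.2 ⟨mul_mem (inv_mem he) m, Inv.eq_of_cm e1⟩))
    rw [fm_mul x.toSX (inv_mem he) m hf, fm_inv, z2_eq] at e2
    rw [← fm_zero, commutatorElement_def, fm_mul x.toSX (conj_mem_of_mem_norm n hf) (inv_mem hf) he, fm_inv, z2_eq,
      fm_symm f, e2, ← fm_cj b⁻¹, fm_symm]
    congr 1; group
  have k1 := le_two_mul (B := Q z) (P := 𝓒(Q z ⊓ 𝓒₁(t))) fun a ha c hc u v => V0 _ (mul_mem ha hc) (by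
    have := c2 _ (i.cm_A0 hc) _ (i.cm_A0 ha) (fun w => v (V0 c hc w)) fun w => u (V0 a ha w)
    rcases i.cm_mul2 ha hc with ⟨w, -⟩ | ⟨w, -⟩
    · rwa [w]
    · rw [w]; exact mul_mem this q.symm.c)
  have k2 := cnt x (P := Q z ⊓ 𝓒₁(t)) ⟨x.mem, q.symm.c⟩ inf_le_left
  have k3 := le_two_mul (B := Q z ⊓ 𝓒(Q z ⊓ 𝓒₁(t))) (P := i.A0) fun a ha c hc u v =>
    s.A0_eps q hf f1 (mul_mem ha.1 hc.1) (mem_cent.1 (mul_mem (mem_inf.1 ha).2 (mem_inf.1 hc).2)) (by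
      rw [fm_mul' x.toSX ha.1 hc.1 hf, (z2 _).resolve_left fun w => u (s.A0_eps q hf f1 ha.1 (mem_cent.1 ha.2) w),
        (z2 _).resolve_left fun w => v (s.A0_eps q hf f1 hc.1 (mem_cent.1 hc.2) w)]; rfl)
  have k4 := le_two_mul (B := i.A0) (P := 𝓒₁(t)) c2
  have k5 := card_le_of_le' (show 𝓒₁(t) ⊓ i.A0 ≤ Q z ⊓ 𝓒₁(t) from fun c hc => ⟨i.A0_le hc.2, hc.1⟩)
  have k6 := card_le_of_le' (inf_le_left : i.A0 ⊓ (Q z ⊓ 𝓒(Q z ⊓ 𝓒₁(t))) ≤ i.A0)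
  have k7 := s.big z p.m
  rw [inf_comm] at k1
  have k8 : ♯(Q z ⊓ 𝓒₁(t)) ≤ 4 := by
    refine Nat.le_of_mul_le_mul_left ?_ (card_pos' (Q z ⊓ 𝓒(Q z ⊓ 𝓒₁(t))))
    omega
  have k9 : ♯(Q z ⊓ 𝓒(Q z ⊓ 𝓒₁(t))) ≤ 16 := by omega
  have := Nat.mul_le_mul k9 k8
  omega

end Wk

theorem wk_false (s : Wk Δ Q K) : False := by
  obtain ⟨U, w, z, m, r0⟩ := s.exists_mx
  obtain ⟨g, g1, g2, g3⟩ := s.exF m r0
  have r := (s.move m r0 g1 g2 g3).2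
  set t := g * z * g⁻¹ with ht
  have p : Sw Δ z t g := ⟨⟨r.m, r.m', r.c (s.memU m r.symm), r.ne'⟩, rfl, by
    have x := s.ex w r0.m
    have := x.cz (mem_cent1_symm.1 (r0.c' (s.memU m r0))) (x.pow g g1)
    rw [ht, show g * (g * z * g⁻¹) * g⁻¹ = g * g * z * (g * g)⁻¹ by group, ← this, mul_inv_cancel_right]⟩
  obtain ⟨b, hb, hK⟩ := s.notK m r.symm
  rw [← s.centU m r.symm] at hb
  by_cases h : E0 Q z t
  · obtain ⟨f, f1, f2, f3⟩ := s.exF m r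
    refine s.caseB p h f1 (fun u => f3 ((s.centU m r).le ⟨f1, u⟩).2) ?_ hb hK
    rw [s.centU m r.symm]
    exact inf_le_right.trans (s.move m r f1 f2 f3).1.c'
  obtain ⟨f, hf, f1⟩ : ∃ f ∈ Q z, ⁅f, t⁆ = z := by
    by_contra! H; exact h H
  obtain ⟨f', hf', f2⟩ : ∃ f ∈ Q t, ⁅f, z⁆ = t := by
    by_contra! H; exact h (s.sw_e0 p.symm H)
  by_cases H : ∀ d ∈ Q z ⊓ Q t, d = 1
  · exact s.caseA1 p hf f1 hf' f2 H
  · push_neg at H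
    obtain ⟨d, hd, d1⟩ := H
    exact s.caseA2 p hf f1 hd d1 hb hK

end CA.H8Lge
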