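import Cfsg.Agent.Lib.Grp.H8PG
import Cfsg.Agent.Lib.Grp.Fpf
import Cfsg.Agent.Lib.Grp.H1SZ

/-!
A Frobenius quotient with cyclic complement produces elements of order `p` times the order of the complement.
-/

set_option autoImplicit false

namespace CA.H8Maz

open Subgroup Cfsg CA.BG CA.Frob2 CA.H8PG
open scoped commutatorElement IsMulCommutative

theorem fixed_of_norm {A V : Type*} [Group A] [Group V] [IsMulCommutative V] [MulDistribMulAction A V] [Finite A]
    {K : Subgroup A} {h : A} (hh : h ∈ 𝓝(K)) {n : ℕ} (hs : ∀ i < n, K ⊓ 𝓒₁(h ^ (i + 1)) = ⊥)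
    (hcop : (♯K).Coprime (Nat.card V)) (hN : ∀ v : V, ∏ j ∈ Finset.range (n + 1), h ^ j • v = 1) {y : A}
    (hy : y ∈ K) (v : V) : y • v = v := by
  classical
  have := Fintype.ofFinite K
  have h1 : ∏ j ∈ Finset.range (n + 1), ∏ k : K, ((k : A) * h ^ j * (k : A)⁻¹) • v = 1 := by
    rw [Finset.prod_comm]
    refine Finset.prod_eq_one fun k _ => ?_
    simp only [mul_smul]
    rw [← Finset.smul_prod', hN, smul_one]
  rw [Finset.prod_range_succ'] at h1
  simp only [pow_zero, mul_one, mul_inv_cancel, one_smul, Finset.prod_const, Finset.card_univ] at h1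
  have h3 : ∀ j ∈ Finset.range n, y • ∏ k : K, ((k : A) * h ^ (j + 1) * (k : A)⁻¹) • v =
      ∏ k : K, ((k : A) * h ^ (j + 1) * (k : A)⁻¹) • v := by
    intro j hj
    have hr := pow_mem hh (j + 1)
    have hc := hs j (Finset.mem_range.1 hj)
    generalize h ^ (j + 1) = r at *
    let f : K → K := fun k => ⟨k * (r * (k : A)⁻¹ * r⁻¹), K.mul_mem k.2 (conj_mem_of_mem_norm hr (K.inv_mem k.2))⟩
    have hf : Function.Surjective f := by
      intro k
      obtain ⟨z, hz, e⟩ := exists_commutator_eq hr hc k.2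
      exact ⟨⟨z, hz⟩, Subtype.ext (by rw [← e]; simp [f, commutatorElement_def, mul_assoc])⟩
    have h4 : ∏ k : K, ((k : A) * r * (k : A)⁻¹) • v = Act.norm K (r • v) := by
      rw [Act.norm_apply]
      refine Fintype.prod_bijective f (Finite.surjective_iff_bijective.mp hf) _ _ fun k => ?_
      simp [f, smul_smul, mul_assoc]
    rw [h4, Act.smul_norm K hy]
  refine Fpf.fixed_of_pow_fixed hcop ?_
  rw [Nat.card_eq_fintype_card, eq_inv_of_mul_eq_one_right h1, smul_inv', Finset.smul_prod',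
    Finset.prod_congr rfl h3]

variable {G : Type*} [Group G] [Finite G]

theorem comm_le_der {F W : Subgroup G} {h : G} (h1 : h ∈ 𝓝(F)) (h2 : h ∈ 𝓝(W)) (h3 : F ≤ 𝓝(W)) {n : ℕ}
    (hs : ∀ i < n, F ⊓ 𝓒₁(h ^ (i + 1)) = ⊥) (hcop : (♯F).Coprime ♯W) (hN : ∀ v ∈ W, (v * h) ^ (n + 1) = 1) :
    ⁅W, F⁆ ≤ ⁅W, W⁆ := by
  have : (⁅W, W⁆.subgroupOf W).Normal := normal_subgroupOf_of_le_normalizer (le_norm_comm_left W W)
  let := Fpf.sectAct (le_refl 𝓝(W)) (norm_der W)
  have := Fpf.isMulCommutative_quot_commutator (le_refl ⁅W, W⁆)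
  have key : ∀ (w : W) (m : ℕ), ∃ u : W, (u : G) * h ^ m = (w * h) ^ m ∧
      ∏ j ∈ Finset.range m, (⟨h, h2⟩ : 𝓝(W)) ^ j • (w : W ⧸ ⁅W, W⁆.subgroupOf W) = u := fun w m => by
    induction m with
    | zero => exact ⟨1, by simp, by simp⟩
    | succ m ih =>
      obtain ⟨u, u1, u2⟩ := ih
      refine ⟨u * ⟨h ^ m * w * (h ^ m)⁻¹, conj_mem_of_mem_norm (pow_mem h2 m) w.2⟩, ?_, ?_⟩
      · rw [pow_succ ((w : G) * h), ← u1, pow_succ, coe_mul]; group
      · rw [Finset.prod_range_succ, u2, QuotientGroup.mk_mul]; rfl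
  refine commutator_le.2 fun w hw y hy => ?_
  have := fixed_of_norm (V := W ⧸ ⁅W, W⁆.subgroupOf W) (K := F.subgroupOf 𝓝(W)) (h := ⟨h, h2⟩) (n := n)
    (by rw [← subgroupOf_normalizer_eq h3]; exact h1)
    (fun i hi => eq_bot_iff.2 fun k hk => Subtype.ext ((hs i hi).le ⟨hk.1,
      mem_cent1.2 (congrArg Subtype.val (mem_cent1.1 hk.2))⟩))
    (by rw [CA.Coprime.card_subgroupOf h3]; exact hcop.coprime_dvd_right (card_quotient_dvd_card _))
    (fun v => by
      obtain ⟨v, rfl⟩ := QuotientGroup.mk_surjective v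
      obtain ⟨u, u1, u2⟩ := key v (n + 1)
      have h4 := hN 1 (one_mem _)
      rw [one_mul] at h4
      rw [hN v v.2, h4, mul_one] at u1
      rw [u2, show u = 1 from Subtype.ext u1, QuotientGroup.mk_one])
    (y := ⟨y, h3 hy⟩) hy ((⟨w⁻¹, inv_mem hw⟩ : W) : W ⧸ ⁅W, W⁆.subgroupOf W)
  simpa [commutatorElement_def, mul_assoc] using (Fpf.sectAct_smul_mk_eq_iff _ _ _ _).1 this

theorem le_cent {F W : Subgroup G} {h : G} (h1 : h ∈ 𝓝(F)) (h2 : h ∈ 𝓝(W)) (h3 : F ≤ 𝓝(W)) {n : ℕ}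
    (hs : ∀ i < n, F ⊓ 𝓒₁(h ^ (i + 1)) = ⊥) (hcop : (♯F).Coprime ♯W) (hN : ∀ v ∈ W, (v * h) ^ (n + 1) = 1)
    (hW : Group.IsSolvable W) : W ≤ 𝓒(F) := by
  have a := comm_le_left h3
  have b := comm_le_der h1 (norm_comm (zpowers_le.2 h2) (zpowers_le.2 h1) (mem_zpowers h)) (le_norm_comm_right W F)
    hs (cop_mono hcop le_rfl a) fun v hv => hN v (a hv)
  rw [coprime_commGid h3 hcop.symm (Or.inr hW)] at b
  exact comm_eq_bot_iff.1 (by_contra fun k => (der_lt_of_solv (solv_of_le hW a) k).not_ge b)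

theorem mazurov (N : Subgroup G) [N.Normal] (Fb Hb : Subgroup (G ⧸ N)) (hHb : IsFrobeniusComplement Hb)
    (hker : frobeniusKernel Hb = (Fb : Set (G ⧸ N))) (hcyc : IsCyclic Hb) (hcop : (♯Fb).Coprime ♯N)
    (hnot : ¬ Fb ≤ 𝓒(N).map (QuotientGroup.mk' N)) : ∃ p : ℕ, p.Prime ∧ p ∣ ♯N ∧ ∃ g : G, orderOf g = p * ♯Hb := by
  by_contra! k
  obtain ⟨hn, -, -, d5⟩ := of_coe_eq_kernel hHb hker.symm
  set f := QuotientGroup.mk' N
  obtain ⟨b, rfl⟩ := exists_zpowers_of_cyc hcyc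
  rw [Nat.card_zpowers] at k
  have hA : ∀ g, f g = b → g ^ orderOf b = 1 := fun g hg => by_contra fun h1 => by
    obtain ⟨p, p1, p2⟩ := exists_prime_order h1
    have h2 : orderOf b ∣ orderOf g := hg ▸ orderOf_map_dvd f g
    refine k p p1 (p2.trans (orderOf_dvd_card_of_mem ((QuotientGroup.eq_one_iff _).1
      (by rw [← pow_orderOf_eq_one b, ← hg]; rfl)))) _ (orderOf_pow_orderOf_div (orderOf_pos g).ne' ?_)
    rw [orderOf_pow_of_dvd (orderOf_pos b).ne' h2] at p2
    exact (Nat.dvd_div_iff_mul_dvd h2).1 p2 |> fun e => mul_comm p _ ▸ e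
  have l1 : N ≤ Fb.comap f := fun x hx => by
    rw [mem_comap, show f x = 1 from (QuotientGroup.eq_one_iff _).2 hx]; exact one_mem _
  have l2 : N.relIndex (Fb.comap f) = ♯Fb := by
    have := relIndex_comap ⊥ f (Fb.comap f)
    rwa [MonoidHom.comap_bot, QuotientGroup.ker_mk',
      map_comap_eq_self_of_surjective (QuotientGroup.mk'_surjective N), relIndex_bot_left] at this
  obtain ⟨F, f1, f2, f3⟩ := H1SZ.exists_complement_le l1 (l2 ▸ hcop.symm)
  rw [l2] at f2
  rw [← f2] at hcop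
  have hf : Function.Injective (f.comp F.subtype) := (injective_iff_map_eq_one _).2 fun a ha =>
    Subtype.ext ((inf_eq_bot_of_cop hcop).le ⟨a.2, (QuotientGroup.eq_one_iff _).1 ha⟩)
  have sF : Group.IsSolvable F := by
    have := Kegel.isNilpotent_of_semireg le_normalizer_of_normal hHb.1 d5
    exact Group.isSolvable_of_isSolvable_injective (f := (f.comp F.subtype).codRestrict Fb fun x => f1 x.2)
      fun x y e => hf (congrArg Subtype.val e)
  have nF : F ≤ 𝓝(N) := le_normalizer_of_normal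
  have : N ≤ 𝓒(F) := le_of_forall_syl fun p hp _ => by
    obtain ⟨P, p1, p2⟩ := coprime_Sylow_exists hp nF hcop.symm (Or.inl sF)
    refine ⟨P, p1, ?_⟩
    obtain ⟨g, hg⟩ := QuotientGroup.mk'_surjective N b
    obtain ⟨c, c1, c2⟩ := coprime_conj_le (B := cj g F) nF hcop.symm
      (f3.symm ▸ (cj_mono g f1).trans (cj_of_mem_norm (le_normalizer_of_normal (mem_top g))).le)
      (by rw [card_cj]; exact hcop.symm) (Or.inl sF)
    rw [← cj_mul] at c2
    have c3 := mem_norm_of_cj_le c2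
    obtain ⟨d, d1, d2⟩ := coprime_Sylow_trans hp nF hcop.symm (Or.inl sF)
      (p1.cj_norm (le_normalizer_of_normal (mem_top (c * g)))) (by
        have := norm_cj (c * g) p2; rwa [cj_of_mem_norm c3] at this) p1 p2
    rw [← cj_mul, ← mem_norm_iff_cj] at d2
    have e : ∀ v ∈ N, f (v * (d * (c * g))) = b := fun v hv => by
      rw [map_mul, map_mul, map_mul, show f v = 1 from (QuotientGroup.eq_one_iff _).2 hv,
        show f d = 1 from (QuotientGroup.eq_one_iff _).2 d1.1, show f c = 1 from (QuotientGroup.eq_one_iff _).2 c1,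
        one_mul, one_mul, one_mul, hg]
    have e1 := e 1 (one_mem _)
    rw [one_mul] at e1
    obtain ⟨n, hn⟩ := Nat.exists_eq_add_one_of_ne_zero (orderOf_pos b).ne'
    refine le_cent (mul_mem (cent_le_norm _ d1.2) c3) d2 p2 (n := n) (fun i hi => eq_bot_iff.2 fun x hx => ?_)
      (cop_mono hcop le_rfl p1.le) (fun v hv => hn ▸ hA _ (e v (p1.le hv))) (p1.pi.isSolvable hp)
    have := d5.eq_one (pow_mem (mem_zpowers b) (i + 1)) (pow_ne_one_of_lt_orderOf (by omega) (by omega))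
      (f1 hx.1) (by rw [← e1, ← map_pow, ← map_mul, ← map_mul, mem_cent1.1 hx.2])
    exact congrArg Subtype.val (hf (a₁ := ⟨x, hx.1⟩) (a₂ := 1) (this.trans (map_one _).symm))
  refine hnot ?_
  rw [← map_comap_eq_self_of_surjective (QuotientGroup.mk'_surjective N) Fb, ← f3, Subgroup.map_sup,
    QuotientGroup.map_mk'_self, sup_bot_eq]
  exact map_mono (cent_symm this)

end CA.H8Maz
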