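import Cfsg.Prelude.Def_PLocal
import Cfsg.Agent.Lib.Loc.AmbCore

/-! The translation subgroup of `Qd(p)` is a self-centralizing normal `p`-subgroup. -/

set_option autoImplicit false

namespace CA.L0Qd
open Subgroup Cfsg Matrix
open scoped MatrixGroups

variable {p : ℕ}

def mx (M : SL(3, ZMod p)) : Matrix (Fin 3) (Fin 3) (ZMod p) := M.1

theorem mx_mul (M N : SL(3, ZMod p)) : mx (M * N) = mx M * mx N := rfl
theorem mx_one : mx (1 : SL(3, ZMod p)) = 1 := rfl

theorem last {M : SL(3, ZMod p)} (h : M ∈ qd p) : mx M 2 0 = 0 ∧ mx M 2 1 = 0 ∧ mx M 2 2 = 1 := by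
  induction h using closure_induction with
  | mem x hx => exact hx
  | one => simp [mx_one]
  | mul x y _ _ hx hy =>
    simp [mx_mul, Matrix.mul_apply, Fin.sum_univ_three, hx.1, hx.2.1, hx.2.2, hy]
  | inv x _ hx =>
    have h : ∀ j, mx (x * x⁻¹) 2 j = mx (x⁻¹) 2 j := fun j => by
      rw [mx_mul, Matrix.mul_apply, Fin.sum_univ_three, hx.1, hx.2.1, hx.2.2]
      simp
    rw [← h, ← h, ← h, mul_inv_cancel]
    simp [mx_one]

def blk (p : ℕ) : qd p →* Matrix (Fin 2) (Fin 2) (ZMod p) where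
  toFun M := !![mx M.1 0 0, mx M.1 0 1; mx M.1 1 0, mx M.1 1 1]
  map_one' := by ext i j; fin_cases i <;> fin_cases j <;> simp [mx_one]
  map_mul' M N := by
    have := last N.2
    ext i j
    fin_cases i <;> fin_cases j <;>
      simp [mx_mul, Matrix.mul_apply, Fin.sum_univ_three, Fin.sum_univ_two, this.1, this.2.1]

theorem mem_ker {M : qd p} : M ∈ (blk p).ker ↔
    mx M.1 0 0 = 1 ∧ mx M.1 0 1 = 0 ∧ mx M.1 1 0 = 0 ∧ mx M.1 1 1 = 1 := by
  rw [MonoidHom.mem_ker, ← Matrix.ext_iff]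
  simp [blk, Fin.forall_fin_two, and_assoc]

def tr0 (a b : ZMod p) : SL(3, ZMod p) := ⟨!![1, 0, a; 0, 1, b; 0, 0, 1], by simp [det_fin_three]⟩

theorem mx_tr0 (a b : ZMod p) : mx (tr0 a b) = !![1, 0, a; 0, 1, b; 0, 0, 1] := rfl

def tr (a b : ZMod p) : qd p := ⟨tr0 a b, subset_closure ⟨rfl, rfl, rfl⟩⟩

theorem mx_tr (a b : ZMod p) : mx (tr a b).1 = !![1, 0, a; 0, 1, b; 0, 0, 1] := rfl

theorem qd_ext {M N : qd p} (h : ∀ i j, mx M.1 i j = mx N.1 i j) : M = N :=
  Subtype.ext (Subtype.ext (Matrix.ext h))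

theorem tr_mul (a b c d : ZMod p) : tr a b * tr c d = tr (a + c) (b + d) := by
  refine qd_ext fun i j => ?_
  fin_cases i <;> fin_cases j <;> simp [mx_tr, mx_mul, Matrix.mul_apply, Fin.sum_univ_three, add_comm]

theorem tr_zero : tr (0 : ZMod p) 0 = 1 := by
  refine qd_ext fun i j => ?_
  fin_cases i <;> fin_cases j <;> simp [mx_tr, mx_one]

theorem tr_pow (a b : ZMod p) (n : ℕ) : tr a b ^ n = tr ((n : ZMod p) * a) ((n : ZMod p) * b) := by
  induction n with
  | zero => simp [tr_zero]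
  | succ n ih => rw [pow_succ, ih, tr_mul]; push_cast; congr 1 <;> ring

theorem tr_mem (a b : ZMod p) : tr a b ∈ (blk p).ker := by
  exact mem_ker.2 ⟨rfl, rfl, rfl, rfl⟩

theorem eq_tr {M : qd p} (h : M ∈ (blk p).ker) : M = tr (mx M.1 0 2) (mx M.1 1 2) := by
  have h1 := last M.2
  obtain ⟨a, b, c, d⟩ := mem_ker.1 h
  refine qd_ext fun i j => ?_
  fin_cases i <;> fin_cases j <;> simp [mx_tr, h1, a, b, c, d]

theorem isPGroup_ker : IsPGroup p (blk p).ker := fun x => ⟨1, Subtype.ext (by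
  have := tr_pow (mx x.1.1 0 2) (mx x.1.1 1 2) p
  rw [← eq_tr x.2] at this
  simpa [tr_zero] using this)⟩

theorem cent_le : centralizer ((blk p).ker : Set (qd p)) ≤ (blk p).ker := by
  intro M hM
  have h1 := last M.2
  have h2 := fun a b i => congrArg (fun X : qd p => mx X.1 i 2)
    (mem_centralizer_iff.1 hM _ (tr_mem a b))
  have a := h2 1 0 0
  have b := h2 0 1 0
  have c := h2 1 0 1
  have d := h2 0 1 1
  simp [mx_tr, mx_mul, Matrix.mul_apply, Fin.sum_univ_three, h1, add_comm] at a b c d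
  exact mem_ker.2 ⟨a.symm, b, c, d.symm⟩

end CA.L0Qd
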