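import Cfsg.Agent.Lib.Grp.MxCl2
import Cfsg.Agent.S0662

/-! A `p`-group of maximal class and order at least `p ^ (p + 1)` has a `p`-th power outside `γ_{p+1}`. -/

set_option autoImplicit false

namespace CA.MxCl

open Subgroup Cfsg CA.H7HP
open scoped commutatorElement

variable {G : Type*} [Group G] {p n m i j k : ℕ} {s g x y : G} {F F' : ℕ → Subgroup G}

theorem df_mul0 {f g : ℕ → G} (hf : Poly F 0 f) (hg : Poly F 0 g) (k : ℕ) :
    ∃ r, Poly F k r ∧ df^[k] (f * g) = df^[k] f * df^[k] g * r := by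
  induction k with
  | zero => exact ⟨1, poly_one _, by simp⟩
  | succ k ih =>
    obtain ⟨r, hr, e⟩ := ih
    have h1 := poly_df hf (k + 1)
    have h2 := poly_df hg k
    have h3 := poly_df hg (k + 1)
    have h4 := ((h2.inv _ _).conj h1).mul _ _ _ h3
    refine ⟨_, (((h3.inv _ _).conj (((h1.inv _ _).comm _ _ _ _ (h2.inv _ _)).le (k := k + 1) (by omega))).mul _ _ _
      (((h4.inv _ _).comm _ _ _ _ (hr.inv _ _)).le (by omega))).mul _ _ _ hr.diff, ?_⟩
    simp only [Function.iterate_succ_apply', e]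
    ext n
    simp only [df, sh, commutatorElement_def, Pi.mul_apply, Pi.inv_apply]
    group

theorem iter_mem_exp (hp : p.Prime) (hF : Antitone F) (hc : ∀ a b, ⁅F a, F b⁆ ≤ F (a + b)) (hF' : Antitone F')
    (hc' : ∀ a b, ⁅F' a, F' b⁆ ≤ F' (a + b)) (h : ∀ i, 2 ≤ i → i < p → F i ≤ F' i) (he : ∀ g : G, g ^ p = 1)
    (hs : s ∈ F 1) (hx : x ∈ F 1) (hx' : x ∈ F' 1) : (dl s)^[p - 1] x ∈ F' p := by
  have hp2 := hp.two_le
  have key : ∀ d i, i + d = p → 2 ≤ i → ∀ f, Poly F 0 f → (∀ j < i, f j = 1) → f p = 1 →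
      ∃ g, Poly F' 0 g ∧ (∀ j ≤ p, g j = f j) ∧ df^[p] g 0 ∈ F' p := by
    intro d
    induction d with
    | zero =>
      refine fun i hi _ f _ hv e => ⟨1, poly_one _,
        fun j hj => (hj.eq_or_lt.elim (fun h => h ▸ e) fun h => hv j (by omega)).symm, ?_⟩
      rw [Function.iterate_fixed (by ext n; simp [df, sh])]
      exact one_mem _
    | succ d ih =>
      intro i hi hs f h0 hv e
      have hg := h0.mem_of_vanish hF hc i hv i
      obtain ⟨g, b1, b2, b3⟩ := ih (i + 1) (by omega) (by omega) _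
        (((Poly.binom (F := F) 0 i (f i) hg).inv _ _).mul _ _ _ h0) (fun j hj => by
          simp only [Pi.mul_apply, Pi.inv_apply]
          rcases Nat.lt_succ_iff_lt_or_eq.1 hj with h2 | h2
          · rw [hv j h2, Nat.choose_eq_zero_of_lt h2]; simp
          · rw [h2]; simp) (by
          obtain ⟨c, hc⟩ := hp.dvd_choose_self (k := i) (by omega) (by omega)
          simp [e, hc, pow_mul, he])
      have b4 := Poly.binom (F := F') 0 i (f i) (by rw [zero_add] at hg ⊢; exact h i hs (by omega) hg)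
      obtain ⟨r, b5, b6⟩ := df_mul0 b4 b1 p
      refine ⟨_, b4.mul _ _ _ b1, fun j hj => by simp [b2 j hj], ?_⟩
      rw [b6, df_binom, if_neg (by omega), one_mul]
      exact mul_mem b3 (b5.mem hF' hc' 0)
  have hp' : ∀ y ∈ F 1, Poly F 0 (fun n => y ^ n) := fun y hy => by
    simpa using Poly.binom (F := F) 0 1 y hy
  obtain ⟨g, b1, b2, b3⟩ := key (p - 2) 2 (by omega) le_rfl _ (((hp' x hx).inv _ _).mul _ _ _
    ((hp' _ (mul_mem hx hs)).mul _ _ _ ((hp' s hs).inv _ _))) (fun j hj => by interval_cases j <;> simp) (by simp [he])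
  obtain ⟨r, b5, b6⟩ := df_mul0 (Poly.binom (F := F') 0 1 x hx') b1 p
  have e := congrFun b6 0
  rw [df_binom, if_neg (by omega), one_mul, df_congr p (g := fun m => (x * s) ^ m * (s ^ m)⁻¹)
    fun j hj => by simp [b2 j hj]] at e
  convert mul_mem b3 (b5.mem hF' hc' 0) using 1
  rw [← df_norm, ← Pi.mul_apply, ← e]
  conv_rhs => rw [show p = p - 1 + 1 by omega, Function.iterate_succ_apply]
  refine congrArg (df^[_] · 0) ?_
  ext m
  simp only [df, sh, Pi.mul_apply, Pi.inv_apply, pow_succ]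
  group

/-- Pairs of elements inverse to each other modulo the next term. -/
def AD (G : Type*) [Group G] (i : ℕ) : Subgroup (G × G) where
  carrier := {y | y.1 ∈ Gam G i ∧ q (i + 1) (y.1 * y.2) = 1}
  one_mem' := ⟨one_mem _, by simp⟩
  mul_mem' := fun {a b} ha hb => ⟨mul_mem ha.1 hb.1, by
    have h1 := ha.2
    have h2 := hb.2
    simp only [Prod.fst_mul, Prod.snd_mul, map_mul] at h1 h2 ⊢
    rw [mul_assoc, ← mul_assoc (q _ b.1), ← q_comm hb.1.1, mul_assoc, h2, mul_one, h1]⟩
  inv_mem' := fun {a} ha => ⟨inv_mem ha.1, by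
    have h1 := ha.2
    simp only [Prod.fst_inv, Prod.snd_inv, map_mul, map_inv] at h1 ⊢
    rw [← mul_inv_rev, q_comm ha.1.1, h1, inv_one]⟩

theorem mem_AD {y : G × G} : y ∈ AD G i ↔ y.1 ∈ Gam G i ∧ y.1 * y.2 ∈ gam G (i + 1) := and_congr_right' q_one

theorem gam_le_Gam (hi : 1 ≤ i) : gam G (i + 1) ≤ Gam G i :=
  le_inf (gam_anti i.le_succ) ((gam_anti (by omega)).trans (gam_le_K 2))

theorem AD_le (hi : 1 ≤ i) : AD G i ≤ (Gam G i).prod (Gam G i) := fun _ h =>
  ⟨h.1, (mul_mem_cancel_left h.1).1 (gam_le_Gam hi (q_one.1 h.2))⟩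

theorem le_AD (hi : 1 ≤ i) : (gam G (i + 1)).prod (gam G (i + 1)) ≤ AD G i := fun _ h =>
  mem_AD.2 ⟨gam_le_Gam hi h.1, mul_mem h.1 h.2⟩

theorem AD_anti (hi : 1 ≤ i) (h : i ≤ j) : AD G j ≤ AD G i := fun _ hy =>
  mem_AD.2 ⟨Gam_anti h hy.1, gam_anti (by omega) (mem_AD.1 hy).2⟩

instance (i : ℕ) : (AD G i).Normal := ⟨fun a ha g => ⟨Normal.conj_mem inferInstance _ ha.1 _, by
  have h1 := ha.2
  have h2 : a.2 ∈ gam G i := ((gam G i).mul_mem_cancel_left ha.1.1).1 (gam_anti i.le_succ (q_one.1 h1))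
  rwa [map_mul, Prod.fst_mul, Prod.fst_mul, Prod.snd_mul, Prod.snd_mul, Prod.fst_inv, Prod.snd_inv, q_conj ha.1.1,
    q_conj h2, ← map_mul]⟩⟩

theorem comm_AD {y : G × G} (hi : 1 ≤ i) (hy : y ∈ AD G i) (s : G) : ⁅y, (s, s)⁆ ∈ AD G (i + 1) := by
  have h1 := (AD_le hi hy).1.1
  have h2 := (AD_le hi hy).2.1
  refine ⟨(Gam_eq (by omega)).ge (comm_mem h1 s), ?_⟩
  change q (i + 2) (⁅y.1, s⁆ * ⁅y.2, s⁆) = 1
  rw [map_mul, ← q_conj (comm_mem h2 s) y.1, ← q_comm (comm_mem h1 s), ← map_mul, q_one]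
  convert comm_mem (mem_AD.1 hy).2 s using 1
  simp only [commutatorElement_def]
  group

theorem prod_comm_le {A B C : Subgroup G} (h : ⁅A, B⁆ ≤ C) : ⁅A.prod A, B.prod B⁆ ≤ C.prod C :=
  commutator_le.2 fun _ ha _ hb => ⟨h (commutator_mem_commutator ha.1 hb.1), h (commutator_mem_commutator ha.2 hb.2)⟩

theorem Mx.not_exp [Finite G] (h : Mx p (p + 1) G) : ¬ ∀ g : G, g ^ p = 1 := fun he => by
  rcases h.prime.eq_two_or_odd' with rfl | ⟨t, ht⟩
  · refine h.ne (eq_bot_iff.2 (commutator_le.2 fun a _ b _ => commutatorElement_eq_one_iff_mul_comm.2 ?_))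
    rw [← mul_inv_eq_one, mul_inv_rev, inv_eq_of_mul_eq_one_right ((sq a).symm.trans (he a)),
      inv_eq_of_mul_eq_one_right ((sq b).symm.trans (he b)), ← sq, he]
  have h3 : 3 ≤ p := by have := h.prime.two_le; omega
  obtain ⟨s, hs⟩ := h.exists_unif
  obtain ⟨x, hx, hx'⟩ := h.exists_one (by omega)
  have h0 := h.gam_bot le_rfl
  have c0 : ∀ a b, ⁅Gam G a, Gam G b⁆ ≤ gam G (a + b) := fun a b =>
    (commutator_mono inf_le_left inf_le_left).trans (gam_comm a b)
  have c1 : ∀ a b, 1 ≤ a → 1 ≤ b → a + b < p → ⁅AD G a, AD G b⁆ ≤ AD G (a + b) := fun a b ha hb e =>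
    (commutator_mono (AD_le ha) (AD_le hb)).trans ((prod_comm_le (h.comm_Gam (m := p - 1) (by omega)
      (fun i h1 h2 => h.le_K h1 (by omega)) ha hb (by omega))).trans (le_AD (by omega)))
  let D : ℕ → Subgroup (G × G) := fun k => (gam G k).prod (gam G k)
  let F : ℕ → Subgroup (G × G) := fun k => if k ≤ 1 then AD G 1 ⊔ zpowers (s, s) else if k < p then AD G k else D k
  let F' : ℕ → Subgroup (G × G) := fun k =>
    if k < p then AD G (max k 1) else D k ⊓ (MonoidHom.fst G G).eqLocus (MonoidHom.snd G G)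
  have d0 : Antitone D := fun a b h => prod_mono (gam_anti h) (gam_anti h)
  have d1 : ∀ a b, 1 ≤ a → a < b → D b ≤ AD G a := fun a b ha e => (d0 e).trans (le_AD ha)
  have d2 : ∀ a, 1 ≤ a → AD G a ≤ D a := fun a ha => (AD_le ha).trans (prod_mono inf_le_left inf_le_left)
  have d3 : ∀ a b, ⁅D a, D b⁆ ≤ D (a + b) := fun a b => prod_comm_le (gam_comm a b)
  have f0 : ∀ a, F a ≤ D a := fun a => by
    simp only [F]
    split_ifs
    · exact le_trans (b := D 1) (fun _ _ => ⟨mem_top _, mem_top _⟩) (d0 ‹_›)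
    · exact d2 a (by omega)
    · exact le_rfl
  have f1 : ∀ a, F' a ≤ D (max a 1) := fun a => by
    simp only [F']
    split_ifs
    · exact d2 _ (by omega)
    · exact inf_le_left.trans (d0 (by omega))
  have a1 : ∀ k j, 1 ≤ k → j ≤ 1 → k + j < p → ⁅AD G k, AD G 1 ⊔ zpowers (s, s)⁆ ≤ AD G (k + j) := fun k j hk hj hk' => by
    obtain rfl | rfl : j = 0 ∨ j = 1 := by omega
    · exact commutator_le_left _ _
    refine commutator_le.2 fun y hy g hg => ?_
    rw [← commutatorElement_inv]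
    refine inv_mem (H7Reg.comm_mem_of_closure (S := (AD G 1 : Set (G × G)) ∪ {(s, s)}) le_normalizer_of_normal ?_ ?_)
    · rintro t (ht | rfl) <;> rw [← commutatorElement_inv]
      exacts [inv_mem (c1 k 1 hk le_rfl hk' (commutator_mem_commutator hy ht)), inv_mem (comm_AD hk hy s)]
    · rwa [Subgroup.closure_union, closure_eq, ← zpowers_eq_closure]
  have f2 : Antitone F' := fun a b e => by
    simp only [F']
    split_ifs <;> first | omega | skip
    · exact AD_anti (by omega) (by omega)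
    · exact inf_le_left.trans (d1 _ b (by omega) (by omega))
    · exact inf_le_inf_right _ (d0 e)
  have := iter_mem_exp (F := F) (F' := F') (s := (s, s)) (x := (x, x⁻¹)) h.prime (fun a b e => ?_) (fun a b => ?_)
    f2 (fun a b => ?_) (fun i h1 h2 => ?_) (fun g => Prod.ext (he _) (he _))
    (mem_sup_right (mem_zpowers _)) (mem_sup_left ⟨Gam_one.ge hx, by simp⟩) ?_
  · have e1 : ∀ k, (dl (s, s))^[k] (x, x⁻¹) ∈ AD G (k + 1) ∧ ((dl (s, s))^[k] (x, x⁻¹)).1 = (dl s)^[k] x := fun k => by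
      induction k with
      | zero => exact ⟨⟨Gam_one.ge hx, by simp⟩, rfl⟩
      | succ k ih =>
        rw [Function.iterate_succ_apply', Function.iterate_succ_apply', ← ih.2]
        exact ⟨dl_eq (s, s) _ ▸ comm_AD (by omega) (inv_mem ih.1) s, rfl⟩
    obtain ⟨e2, e3⟩ := e1 (p - 1)
    simp only [F', lt_irrefl, if_false] at this
    have e4 := (mem_AD.1 e2).2
    rw [show p - 1 + 1 + 1 = p + 1 by omega, h0, ← show Prod.fst _ = Prod.snd _ from this.2, e3, ← sq] at e4
    have e5 := he ((dl s)^[p - 1] x)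
    nth_rw 2 [ht] at e5
    rw [pow_succ, pow_mul, mem_bot.1 e4, one_pow, one_mul] at e5
    exact h.iter_not_mem hs hx hx' (by omega) (k := p - 1) (by omega) (e5 ▸ one_mem _)
  · simp only [F]
    split_ifs <;> first | omega | exact le_rfl | skip
    · exact (AD_anti le_rfl (by omega)).trans le_sup_left
    · exact AD_anti (by omega) e
    · exact (d1 1 b le_rfl (by omega)).trans le_sup_left
    · exact d1 a b (by omega) (by omega)
    · exact d0 e
  · rcases le_or_gt p (a + b) with e | e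
    · refine (commutator_mono (f0 a) (f0 b)).trans ((d3 a b).trans ?_)
      simp only [F, if_neg (show ¬ a + b ≤ 1 by omega), if_neg e.not_gt, le_refl]
    have : AD G (max (a + b) 1) ≤ F (a + b) := by
      simp only [F, if_pos e]
      split_ifs
      · exact (AD_anti le_rfl (by omega)).trans le_sup_left
      · exact AD_anti (by omega) (by omega)
    refine le_trans ?_ this
    simp only [F, if_pos (show a < p by omega), if_pos (show b < p by omega)]
    split_ifs
    · exact (der_sup_le (c1 1 1 le_rfl le_rfl h3) fun y hy => comm_AD le_rfl hy s).trans (AD_anti (by omega) (by omega))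
    · rw [commutator_comm]; exact (a1 b a (by omega) ‹_› (by omega)).trans (AD_anti (by omega) (by omega))
    · exact (a1 a b (by omega) ‹_› e).trans (AD_anti (by omega) (by omega))
    · exact (c1 a b (by omega) (by omega) e).trans (AD_anti (by omega) (by omega))
  · have e0 := (commutator_mono (f1 a) (f1 b)).trans (d3 _ _)
    rcases lt_trichotomy (max a 1 + max b 1) p with e | e | e
    · simp only [F', if_pos (show a < p by omega), if_pos (show b < p by omega), if_pos (show a + b < p by omega)]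
      exact (c1 _ _ (by omega) (by omega) e).trans (AD_anti (by omega) (by omega))
    · refine le_trans ?_ (f2 (show a + b ≤ p by omega))
      rw [e] at e0
      simp only [F', if_pos (show a < p by omega), if_pos (show b < p by omega), lt_irrefl, if_false] at e0 ⊢
      refine le_inf e0 (commutator_le.2 fun y hy z hz => show ⁅y.1, z.1⁆ = ⁅y.2, z.2⁆ from ?_)
      have e1 : ∀ {i j} {u v : G}, u ∈ gam G i → v ∈ gam G j → i + j = p + 1 → u * v = v * u := fun hu hv e =>
        commutatorElement_eq_one_iff_mul_comm.1 (h0.le (e ▸ gam_comm _ _ (commutator_mem_commutator hu hv)))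
      have e2 := e1 (mem_AD.1 hy).2 (AD_le (by omega) hz).2.1 (by omega)
      have e3 := e1 (mem_AD.1 hz).2 hy.1.1 (by omega)
      have e4 := e1 (e0 (commutator_mem_commutator hy hz)).1 (mem_top (z.1 * y.1) : _ ∈ gam G 1) rfl
      calc ⁅y.1, z.1⁆ = (z.1 * y.1)⁻¹ * (⁅y.1, z.1⁆ * (z.1 * y.1)) := by rw [show ⁅y.1, z.1⁆ * _ = _ * ⁅y.1, z.1⁆ from e4]; group
        _ = y.1⁻¹ * z.1⁻¹ * (z.1 * z.2 * y.1) * z.2⁻¹ := by rw [e3, commutatorElement_def]; group
        _ = y.1⁻¹ * (y.1 * y.2 * z.2) * y.2⁻¹ * z.2⁻¹ := by rw [e2]; group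
        _ = _ := by rw [commutatorElement_def]; group
    · exact e0.trans ((prod_mono (h.gam_bot e).le (h.gam_bot e).le).trans (bot_prod_bot.le.trans bot_le))
  · simp only [F, F', if_neg (show ¬ i ≤ 1 by omega), if_pos h2, max_eq_left (show 1 ≤ i by omega), le_refl]
  · simp only [F', if_pos (show 1 < p by omega), max_self]
    exact ⟨Gam_one.ge hx, by simp⟩

theorem Mx.exists_pow [Finite G] (h : Mx p n G) (hn : p + 1 ≤ n) : ∃ x : G, x ^ p ∉ gam G (p + 1) := by
  rcases hn.eq_or_lt with rfl | hn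
  · simpa [h.gam_bot le_rfl] using h.not_exp
  have h2 := h.prime.two_le
  obtain ⟨x, hx, hx'⟩ := h.exists_one (by omega)
  refine ⟨x, h.pow_not_mem_one (by omega) (h.not_exc (by omega) fun ⟨⟨r, e⟩, h3, h4⟩ => ?_) hx hx' hn⟩
  rcases h.prime.eq_two_or_odd' with rfl | ⟨t, rfl⟩ <;> omega

theorem relIndex_pc_le [Finite G] [hp : Fact p.Prime] (hG : Nat.card G = p ^ n) (h : Group.nilpotencyClass G = n - 1)
    (H : Subgroup G) : (powerClosure p 1 H).relIndex H ≤ p ^ p := by
  rcases le_or_gt n p with hn | hn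
  · exact (Nat.le_of_dvd Nat.card_pos (relIndex_dvd_card _ H)).trans ((card_le_card_group H).trans
      (hG.trans_le (Nat.pow_le_pow_right hp.out.pos hn)))
  have h2 := hp.out.two_le
  have h1 := mx_of_class hp.out hG (by omega) h
  have h3 : ∀ x ∈ H, x ^ p ∈ powerClosure p 1 H := fun x hx => by simpa using H7Reg.pow_mem_pc (n := 1) hx
  rcases eq_or_ne H ⊤ with rfl | hH
  · obtain ⟨r, e⟩ := h1.pg.index (powerClosure p 1 ⊤)
    rw [relIndex_top_right, e]
    refine Nat.pow_le_pow_right hp.out.pos (not_lt.1 fun hr => ?_)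
    obtain ⟨x, hx⟩ := h1.exists_pow hn
    exact hx (gam_anti hr (((Cfsg.Agent.S0662.result n hG h (by omega)).1 _ r (by omega) e).le (h3 x (mem_top x))))
  · have := h1.card_le hH h3
    rw [← PGBasic.card_mul_relIndex (H7Reg.pc_le 1 H), mul_comm] at this
    exact Nat.le_of_mul_le_mul_right this Nat.card_pos

end CA.MxCl
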