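/-
Bounded presentations: groups with `d` generators and at most `r` relations; extensions by orbits of generators.
-/
import Mathlib

set_option autoImplicit false

namespace CA.Prs

open Monoid Subgroup Function
open scoped commutatorElement

/-- `G` has a presentation with `d` generators and at most `r` relators -/
def Pres (d r : ℕ) (G : Type*) [Group G] : Prop :=
  ∃ rels : Finset (FreeGroup (Fin d)), rels.card ≤ r ∧
    Nonempty (PresentedGroup (↑rels : Set (FreeGroup (Fin d))) ≃* G)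

variable {N G I : Type*} [Group N] [Group G] {d r k : ℕ}

theorem Pres.congr (h : Pres d r N) (e : N ≃* G) : Pres d r G :=
  let ⟨R, h1, ⟨f⟩⟩ := h; ⟨R, h1, ⟨f.trans e⟩⟩

theorem Pres.mono (h : Pres d r N) {s : ℕ} (hs : r ≤ s) : Pres d s N :=
  let ⟨R, h1, h2⟩ := h; ⟨R, h1.trans hs, h2⟩

theorem Pres.ext (hN : Pres d r N) (π : N →* G) (x : Fin k → G) (W : List (Coprod N (FreeGroup (Fin k))))
    (hW : ∀ w ∈ W, Coprod.lift π (FreeGroup.lift x) w = 1) (hgen : closure (Set.range π ∪ Set.range x) = ⊤)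
    (UP : ∀ (J : Type) [Group J] (ψ : N →* J) (ξ : Fin k → J), (∀ w ∈ W, Coprod.lift ψ (FreeGroup.lift ξ) w = 1) →
      ∃ σ : G →* J, σ.comp π = ψ ∧ ∀ i, σ (x i) = ξ i) : Pres (d + k) (r + W.length) G := by
  classical
  obtain ⟨R, hR, ⟨e⟩⟩ := hN
  let φ : FreeGroup (Fin d) →* N := e.toMonoidHom.comp (PresentedGroup.mk _)
  have φs : Surjective φ := e.surjective.comp (PresentedGroup.mk_surjective _)
  let Φ : FreeGroup (Fin (d + k)) →* Coprod N (FreeGroup (Fin k)) :=
    FreeGroup.lift (Fin.addCases (fun i => Coprod.inl (φ (.of i))) fun i => Coprod.inr (.of i))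
  have Φ1 : Φ.comp (FreeGroup.map (Fin.castAdd k)) = Coprod.inl.comp φ := by ext i; simp [Φ]
  have Φ2 : Φ.comp (FreeGroup.map (Fin.natAdd d)) = Coprod.inr := by ext i; simp [Φ]
  have Φs : Surjective Φ := fun w => by
    induction w using Coprod.induction_on with
    | inl n => obtain ⟨g, rfl⟩ := φs n; exact ⟨_, DFunLike.congr_fun Φ1 g⟩
    | inr g => exact ⟨_, DFunLike.congr_fun Φ2 g⟩
    | mul a b ha hb => obtain ⟨a, rfl⟩ := ha; obtain ⟨b, rfl⟩ := hb; exact ⟨a * b, map_mul _ _ _⟩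
  choose l hl using Φs
  let R' : Finset (FreeGroup (Fin (d + k))) := R.image (FreeGroup.map (Fin.castAdd k)) ∪ (W.map l).toFinset
  let J := PresentedGroup (↑R' : Set (FreeGroup (Fin (d + k))))
  let mk : FreeGroup (Fin (d + k)) →* J := PresentedGroup.mk _
  have a1 : FreeGroup.lift (fun i => mk (.of (Fin.castAdd k i))) = mk.comp (FreeGroup.map (Fin.castAdd k)) := by
    ext i; simp
  let ψ0 : PresentedGroup (↑R : Set (FreeGroup (Fin d))) →* J :=
    PresentedGroup.toGroup (f := fun i => mk (.of (Fin.castAdd k i))) fun g hg => by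
      rw [a1]
      exact PresentedGroup.one_of_mem (Finset.mem_coe.2 (Finset.mem_union_left _ (Finset.mem_image_of_mem _ hg)))
  let ψ := ψ0.comp e.symm.toMonoidHom
  have a2 : ∀ i, ψ (φ (.of i)) = mk (.of (Fin.castAdd k i)) := fun i => by
    simp only [ψ, φ, MonoidHom.comp_apply, MulEquiv.coe_toMonoidHom, MulEquiv.symm_apply_apply]
    exact PresentedGroup.toGroup.of _
  have a3 : (Coprod.lift ψ (FreeGroup.lift fun i => mk (.of (Fin.natAdd d i)))).comp Φ = mk := by
    ext i; induction i using Fin.addCases <;> simp [Φ, a2]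
  obtain ⟨σ, s1, s2⟩ := UP J ψ (fun i => mk (.of (Fin.natAdd d i))) fun w hw => by
    rw [← hl w]
    exact (DFunLike.congr_fun a3 _).trans (PresentedGroup.one_of_mem
      (Finset.mem_coe.2 (Finset.mem_union_right _ (List.mem_toFinset.2 (List.mem_map_of_mem hw)))))
  let f : Fin (d + k) → G := Fin.addCases (fun i => π (φ (.of i))) x
  have a4 : FreeGroup.lift f = (Coprod.lift π (FreeGroup.lift x)).comp Φ := by
    ext i; induction i using Fin.addCases <;> simp [Φ, f]
  let π' : J →* G := PresentedGroup.toGroup (f := f) fun g hg => by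
    rw [a4]
    rcases Finset.mem_union.1 hg with h | h
    · obtain ⟨g, hg, rfl⟩ := Finset.mem_image.1 h
      have : φ g = 1 := (congrArg e (PresentedGroup.one_of_mem (Finset.mem_coe.2 ‹g ∈ R›))).trans (map_one e)
      rw [MonoidHom.comp_apply, show Φ _ = _ from DFunLike.congr_fun Φ1 g]
      simp [this]
    · obtain ⟨w, hw, rfl⟩ := List.mem_map.1 (List.mem_toFinset.1 h)
      rw [MonoidHom.comp_apply, hl, hW w hw]
  have a5 : ∀ i, π' (mk (.of i)) = f i := fun i => PresentedGroup.toGroup.of _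
  have a6 : σ.comp π' = MonoidHom.id J := PresentedGroup.ext fun i => by
    change σ (π' (mk (.of i))) = mk (.of i)
    rw [a5]
    induction i using Fin.addCases with
    | left i => simp only [f, Fin.addCases_left, ← a2, ← s1, MonoidHom.comp_apply]
    | right i => simp only [f, Fin.addCases_right, s2]
  refine ⟨R', (Finset.card_union_le _ _).trans (add_le_add (Finset.card_image_le.trans hR)
    ((List.toFinset_card_le _).trans (by simp))), ⟨MulEquiv.ofBijective π' ⟨LeftInverse.injective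
    (g := σ) fun g => DFunLike.congr_fun a6 g, MonoidHom.range_eq_top.1 (top_unique ?_)⟩⟩⟩
  rw [← hgen, closure_le]
  have a7 : π'.comp ψ = π := MonoidHom.ext fun n => by
    obtain ⟨g, rfl⟩ := φs n
    exact DFunLike.congr_fun (show (π'.comp ψ).comp φ = π.comp φ by ext i; simp [a2, a5, f]) g
  rintro _ (⟨n, rfl⟩ | ⟨i, rfl⟩)
  · exact ⟨ψ n, DFunLike.congr_fun a7 n⟩
  · exact ⟨_, (a5 (Fin.natAdd d i)).trans (by simp [f])⟩

theorem pres_unit : Pres 0 0 Unit := by
  refine ⟨∅, le_rfl, ⟨?_⟩⟩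
  have : Subsingleton (PresentedGroup (↑(∅ : Finset (FreeGroup (Fin 0))) : Set (FreeGroup (Fin 0)))) :=
    (PresentedGroup.mk_surjective _).subsingleton
  have := uniqueOfSubsingleton (1 : PresentedGroup (↑(∅ : Finset (FreeGroup (Fin 0))) : Set (FreeGroup (Fin 0))))
  exact MulEquiv.ofUnique

theorem Pres.base (x : Fin k → G) (W : List (FreeGroup (Fin k))) (hW : ∀ w ∈ W, FreeGroup.lift x w = 1)
    (hgen : closure (Set.range x) = ⊤) (UP : ∀ (J : Type) [Group J] (ξ : Fin k → J),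
      (∀ w ∈ W, FreeGroup.lift ξ w = 1) → ∃ σ : G →* J, ∀ i, σ (x i) = ξ i) : Pres k W.length G := by
  have := pres_unit.ext (1 : Unit →* G) x (W.map Coprod.inr) (by simpa using hW)
    (top_unique (hgen.ge.trans (closure_mono Set.subset_union_right))) fun J _ ψ ξ h => by
      obtain ⟨σ, h⟩ := UP J ξ (by simpa using h)
      exact ⟨σ, MonoidHom.ext fun u => (map_one σ).trans (map_one ψ).symm, h⟩
  simpa using this

theorem Pres.quot (hN : Pres d r N) (π : N →* G) (hs : Surjective π) (W : List N) (h1 : ∀ w ∈ W, π w = 1)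
    (h2 : π.ker ≤ normalClosure {w | w ∈ W}) : Pres d (r + W.length) G := by
  have := hN.ext π (Fin.elim0 : Fin 0 → G) (W.map Coprod.inl) (by simpa using h1) (by simp [hs.range_eq])
    fun J _ ψ ξ h => ⟨π.liftOfSurjective hs ⟨ψ, h2.trans (normalClosure_le_normal fun w hw => by
      simpa using h _ (List.mem_map_of_mem hw))⟩, π.liftOfRightInverse_comp _ _ _, fun i => i.elim0⟩
  simpa using this

theorem Pres.quot_cyc (hN : Pres d r N) (Z : Subgroup N) [Z.Normal] [IsCyclic Z] : Pres d (r + 1) (N ⧸ Z) := by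
  obtain ⟨z, hz⟩ := (Subgroup.isCyclic_iff_exists_zpowers_eq_top Z).1 ‹_›
  refine hN.quot (QuotientGroup.mk' Z) (QuotientGroup.mk'_surjective Z) [z] (by simp [← hz]) ?_
  rw [QuotientGroup.ker_mk', ← hz, zpowers_le]
  exact subset_normalClosure (by simp)

theorem Pres.succ (hN : Pres d r N) : Pres (d + 1) (r + 1) N :=
  hN.ext (.id N) (fun _ : Fin 1 => 1) [Coprod.inr (.of 0)] (by simp) (by simp)
    fun J _ ψ ξ h => ⟨ψ, rfl, fun i => by simpa [Subsingleton.elim i 0, eq_comm] using h⟩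

theorem Pres.add (hN : Pres d r N) (k : ℕ) : Pres (d + k) (r + k) N := by
  induction k with
  | zero => exact hN
  | succ k ih => exact ih.succ

theorem Pres.le (hN : Pres d r N) {d' r' : ℕ} (h : d ≤ d') (h' : r + d' ≤ r' + d) : Pres d' r' N := by
  obtain ⟨k, rfl⟩ := Nat.exists_eq_add_of_le h
  exact (hN.add k).mono (by omega)

/-- change of generators -/
theorem Pres.regen (hN : Pres d r N) (x : Fin k → N) (hgen : closure (Set.range x) = ⊤) : Pres k (r + k) N := by
  classical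
  obtain ⟨R, hR, ⟨e⟩⟩ := hN
  have hs : Surjective (FreeGroup.lift x) := by rw [← MonoidHom.range_eq_top, FreeGroup.range_lift_eq_closure, hgen]
  choose v hv using fun i => hs (e (.of i))
  choose w hw using fun j => PresentedGroup.mk_surjective (↑R : Set (FreeGroup (Fin d))) (e.symm (x j))
  have a1 : (FreeGroup.lift x).comp (FreeGroup.lift v) = e.toMonoidHom.comp (PresentedGroup.mk _) := by
    ext i; simp [hv]; rfl
  refine (Pres.base x (R.toList.map (FreeGroup.lift v) ++ List.ofFn fun j => (FreeGroup.of j)⁻¹ * FreeGroup.lift v (w j))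
    (fun g hg => ?_) hgen fun J _ ξ h => ?_).mono (by simpa using hR)
  · rcases List.mem_append.1 hg with hg | hg
    · obtain ⟨g, hg', rfl⟩ := List.mem_map.1 hg
      rw [show FreeGroup.lift x _ = _ from DFunLike.congr_fun a1 g]
      simp [PresentedGroup.one_of_mem (Finset.mem_coe.2 (Finset.mem_toList.1 hg'))]
    · obtain ⟨j, rfl⟩ := List.mem_ofFn.1 hg
      rw [map_mul, show FreeGroup.lift x (FreeGroup.lift v _) = _ from DFunLike.congr_fun a1 _]
      simp [hw]
  · have a2 : FreeGroup.lift (fun i => FreeGroup.lift ξ (v i)) = (FreeGroup.lift ξ).comp (FreeGroup.lift v) := by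
      ext i; simp
    let σ : PresentedGroup (↑R : Set (FreeGroup (Fin d))) →* J :=
      PresentedGroup.toGroup (f := fun i => FreeGroup.lift ξ (v i)) fun g hg => by
        rw [a2]; exact h _ (List.mem_append_left _ (List.mem_map_of_mem (Finset.mem_toList.2 hg)))
    refine ⟨σ.comp e.symm.toMonoidHom, fun j => ?_⟩
    have a3 : σ.comp (PresentedGroup.mk _) = (FreeGroup.lift ξ).comp (FreeGroup.lift v) := by
      ext i; simp only [MonoidHom.comp_apply, FreeGroup.lift_apply_of]; exact PresentedGroup.toGroup.of _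
    have := h _ (List.mem_append_right _ (List.mem_ofFn.2 ⟨j, rfl⟩))
    rw [map_mul, map_inv, inv_mul_eq_one, FreeGroup.lift_apply_of] at this
    rw [this, MonoidHom.comp_apply, MulEquiv.coe_toMonoidHom, ← hw]
    exact DFunLike.congr_fun a3 _

theorem Pres.two (hN : Pres d r N) {a b : N} (h : closure ({a, b} : Set N) = ⊤) : Pres 2 (r + 2) N :=
  hN.regen ![a, b] (by rw [← h]; congr 1; ext; simp [eq_comm, or_comm])

/-- the conjugate of a generator attached to an index -/
def chi {J : Type*} [Group J] (lab : I → Option (Fin k)) (ν : I → Fin k → N) (ψ : N →* J) (ξ : Fin k → J) (i : I) : J :=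
  (lab i).elim 1 fun j => ψ (ν i j) * ξ j * (ψ (ν i j))⁻¹

theorem map_chi {J J' : Type*} [Group J] [Group J'] (lab : I → Option (Fin k)) (ν : I → Fin k → N) (ψ : N →* J)
    (ξ : Fin k → J) (f : J →* J') (i : I) : f (chi lab ν ψ ξ i) = chi lab ν (f.comp ψ) (fun j => f (ξ j)) i := by
  unfold chi; cases lab i <;> simp

/-- adjoining orbits of generators -/
theorem Pres.act (hN : Pres d r N) (π : N →* G) (act : N → I → I) (h1 : ∀ i, act 1 i = i)
    (hm : ∀ a b i, act (a * b) i = act a (act b i)) (x : I → G) (hx : ∀ n i, x (act n i) = π n * x i * (π n)⁻¹)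
    (i0 : Fin k → I) (lab : I → Option (Fin k)) (hl0 : ∀ j, lab (i0 j) = some j) (hl : ∀ n i, lab (act n i) = lab i)
    (ho : ∀ i j, lab i = some j → ∃ n, act n (i0 j) = i) (hx1 : ∀ i, lab i = none → x i = 1)
    (S : List (Fin k × N)) (hS : ∀ p ∈ S, act p.2 (i0 p.1) = i0 p.1)
    (hS' : ∀ j n, act n (i0 j) = i0 j → n ∈ closure {s | (j, s) ∈ S})
    (W : List (N × FreeGroup I)) (hW : ∀ w ∈ W, π w.1 = FreeGroup.lift x w.2)
    (hgen : closure (Set.range π ∪ Set.range x) = ⊤)
    (UP : ∀ (J : Type) [Group J] (ψ : N →* J) (χ : I → J), (∀ n i, χ (act n i) = ψ n * χ i * (ψ n)⁻¹) →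
      (∀ i, lab i = none → χ i = 1) → (∀ w ∈ W, ψ w.1 = FreeGroup.lift χ w.2) →
      ∃ σ : G →* J, σ.comp π = ψ ∧ ∀ i, σ (x i) = χ i) : Pres (d + k) (r + S.length + W.length) G := by
  choose! ν hν using ho
  let c : I → Coprod N (FreeGroup (Fin k)) := chi lab ν Coprod.inl fun j => Coprod.inr (.of j)
  have a1 : ∀ {J : Type} [Group J] (ψ : N →* J) (ξ : Fin k → J) (w : FreeGroup I),
      Coprod.lift ψ (FreeGroup.lift ξ) (FreeGroup.lift c w) = FreeGroup.lift (chi lab ν ψ ξ) w := fun ψ ξ w =>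
    DFunLike.congr_fun (show (Coprod.lift ψ (FreeGroup.lift ξ)).comp (FreeGroup.lift c) = _ by
      ext i; simp [c, map_chi]) w
  have a1' : ∀ (ψ : N →* G) (ξ : Fin k → G) (w : FreeGroup I),
      Coprod.lift ψ (FreeGroup.lift ξ) (FreeGroup.lift c w) = FreeGroup.lift (chi lab ν ψ ξ) w := fun ψ ξ w =>
    DFunLike.congr_fun (show (Coprod.lift ψ (FreeGroup.lift ξ)).comp (FreeGroup.lift c) = _ by
      ext i; simp [c, map_chi]) w
  have a2 : chi lab ν π (fun j => x (i0 j)) = x := funext fun i => by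
    unfold chi
    cases h : lab i with
    | none => exact (hx1 i h).symm
    | some j => exact (hx _ _).symm.trans (congrArg x (hν i j h))
  have := hN.ext π (fun j => x (i0 j))
    (S.map (fun p => ⁅(Coprod.inl p.2 : Coprod N (FreeGroup (Fin k))), Coprod.inr (FreeGroup.of p.1)⁆) ++
      W.map fun w => (Coprod.inl w.1)⁻¹ * FreeGroup.lift c w.2) (fun w hw => ?_) (top_unique ?_) fun J _ ψ ξ h => ?_
  · simpa [add_assoc] using this
  · rcases List.mem_append.1 hw with hw | hw
    · obtain ⟨p, hp, rfl⟩ := List.mem_map.1 hw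
      have := hx p.2 (i0 p.1)
      rw [hS p hp] at this
      simp only [map_commutatorElement, Coprod.lift_apply_inl, Coprod.lift_apply_inr, FreeGroup.lift_apply_of]
      rw [commutatorElement_def, ← this, mul_inv_cancel]
    · obtain ⟨w, hw', rfl⟩ := List.mem_map.1 hw
      simp [a1', a2, hW w hw']
  · rw [← hgen, closure_le]
    rintro _ (⟨n, rfl⟩ | ⟨i, rfl⟩)
    · exact subset_closure (Or.inl ⟨n, rfl⟩)
    · rw [← congrFun a2 i]; unfold chi
      cases lab i with
      | none => exact one_mem _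
      | some j =>
        exact mul_mem (mul_mem (subset_closure (Or.inl ⟨_, rfl⟩)) (subset_closure (Or.inr ⟨j, rfl⟩)))
          (inv_mem (subset_closure (Or.inl ⟨_, rfl⟩)))
  · have b1 : ∀ j n, act n (i0 j) = i0 j → ψ n * ξ j * (ψ n)⁻¹ = ξ j := fun j n hn => by
      rw [mul_inv_eq_iff_eq_mul]
      refine (show closure {s | (j, s) ∈ S} ≤ (centralizer {ξ j}).comap ψ from (closure_le _).2 fun s hs => ?_)
        (hS' j n hn) _ rfl |>.symm
      have := h _ (List.mem_append_left _ (List.mem_map_of_mem hs))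
      simp only [map_commutatorElement, Coprod.lift_apply_inl, Coprod.lift_apply_inr, FreeGroup.lift_apply_of] at this
      exact mem_centralizer_singleton_iff.2 (commutatorElement_eq_one_iff_mul_comm.1 this)
    have b2 : ∀ n i j, act n (i0 j) = i → chi lab ν ψ ξ i = ψ n * ξ j * (ψ n)⁻¹ := fun n i j e => by
      have e1 : lab i = some j := by rw [← e, hl, hl0]
      have := b1 j (n⁻¹ * ν i j) (by rw [hm, hν i j e1, ← e, ← hm, inv_mul_cancel, h1])
      unfold chi
      rw [e1, Option.elim_some]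
      conv_rhs => rw [← this]
      simp [mul_assoc]
    obtain ⟨σ, s1, s2⟩ := UP J ψ (chi lab ν ψ ξ) (fun n i => by
      cases e : lab i with
      | none => unfold chi; simp [hl, e]
      | some j => rw [b2 (n * ν i j) _ j (by rw [hm, hν i j e]), b2 _ _ j (hν i j e)]; simp [mul_assoc])
      (fun i hi => by unfold chi; rw [hi]; rfl) fun w hw => by
      simpa [a1, inv_mul_eq_one] using h _ (List.mem_append_right _ (List.mem_map_of_mem hw))
    exact ⟨σ, s1, fun j => by simp [s2, b2 1 _ j (h1 _)]⟩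

/-- the group generated by an orbit, with `N` acting through inner automorphisms -/
theorem Pres.kill (hN : Pres d r N) (π : N →* G) (act : N → I → I) (h1 : ∀ i, act 1 i = i)
    (hm : ∀ a b i, act (a * b) i = act a (act b i)) (x : I → G) (hx : ∀ n i, x (act n i) = π n * x i * (π n)⁻¹)
    (i0 : Fin k → I) (lab : I → Option (Fin k)) (hl0 : ∀ j, lab (i0 j) = some j) (hl : ∀ n i, lab (act n i) = lab i)
    (ho : ∀ i j, lab i = some j → ∃ n, act n (i0 j) = i) (hx1 : ∀ i, lab i = none → x i = 1)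
    (S : List (Fin k × N)) (hS : ∀ p ∈ S, act p.2 (i0 p.1) = i0 p.1)
    (hS' : ∀ j n, act n (i0 j) = i0 j → n ∈ closure {s | (j, s) ∈ S})
    (W : List (FreeGroup I)) (hW : ∀ w ∈ W, FreeGroup.lift x w = 1) (hgen : closure (Set.range x) = ⊤)
    (L : List N) (hL : normalClosure {n | n ∈ L} = ⊤)
    (UP : ∀ (J : Type) [Group J] (ψ : N →* J) (χ : I → J), (∀ n i, χ (act n i) = ψ n * χ i * (ψ n)⁻¹) →
      (∀ i, lab i = none → χ i = 1) → (∀ w ∈ W, FreeGroup.lift χ w = 1) → ∃ σ : G →* J, ∀ i, σ (x i) = χ i) :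
    Pres (d + k) (r + S.length + (W.length + L.length)) G := by
  have hs : Surjective (FreeGroup.lift x) := by rw [← MonoidHom.range_eq_top, FreeGroup.range_lift_eq_closure, hgen]
  choose v hv using fun n => hs (π n)
  have := hN.act π act h1 hm x hx i0 lab hl0 hl ho hx1 S hS hS' (W.map (1, ·) ++ L.map fun n => (n, v n))
    (by simp only [List.forall_mem_append, List.forall_mem_map, hv, map_one]; exact ⟨fun w h => (hW w h).symm, by simp⟩)
    (top_unique (hgen.ge.trans (closure_mono Set.subset_union_right))) fun J _ ψ χ e1 e2 e3 => ?_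
  · simpa using this
  simp only [List.forall_mem_append, List.forall_mem_map, map_one] at e3
  obtain ⟨σ, s⟩ := UP J ψ χ e1 e2 fun w h => (e3.1 w h).symm
  have a1 : σ.comp (FreeGroup.lift x) = FreeGroup.lift χ := by ext i; simp [s]
  have a2 : ∀ n g, σ (π n * g * (π n)⁻¹) = ψ n * σ g * (ψ n)⁻¹ := fun n => DFunLike.congr_fun
    (show σ.comp (MulAut.conj (π n)).toMonoidHom = (MulAut.conj (ψ n)).toMonoidHom.comp σ from
      MonoidHom.eq_of_eqOn_dense hgen (by rintro _ ⟨i, rfl⟩; simp only [MonoidHom.comp_apply,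
        MulEquiv.coe_toMonoidHom, MulAut.conj_apply, ← hx, s, e1]))
  have : ((σ.comp π).eqLocus ψ).Normal := ⟨fun n (hn : σ (π n) = ψ n) m => show σ (π _) = ψ _ by
    rw [map_mul π, map_mul π, map_inv π, a2, hn]; simp⟩
  refine ⟨σ, MonoidHom.ext fun n => (hL.ge.trans (normalClosure_le_normal (N := (σ.comp π).eqLocus ψ)
    fun n hn => ?_)) (mem_top n), s⟩
  exact (congrArg σ (hv n).symm).trans ((DFunLike.congr_fun a1 _).trans (e3.2 n hn).symm)

/-- semidirect products -/
theorem Pres.sd (hN : Pres d r N) (φ : N →* MulAut G) (act : N → I → I) (h1 : ∀ i, act 1 i = i)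
    (hm : ∀ a b i, act (a * b) i = act a (act b i)) (x : I → G) (hx : ∀ n i, x (act n i) = φ n (x i))
    (i0 : Fin k → I) (lab : I → Option (Fin k)) (hl0 : ∀ j, lab (i0 j) = some j) (hl : ∀ n i, lab (act n i) = lab i)
    (ho : ∀ i j, lab i = some j → ∃ n, act n (i0 j) = i) (hx1 : ∀ i, lab i = none → x i = 1)
    (S : List (Fin k × N)) (hS : ∀ p ∈ S, act p.2 (i0 p.1) = i0 p.1)
    (hS' : ∀ j n, act n (i0 j) = i0 j → n ∈ closure {s | (j, s) ∈ S})
    (W : List (FreeGroup I)) (hW : ∀ w ∈ W, FreeGroup.lift x w = 1) (hgen : closure (Set.range x) = ⊤)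
    (UP : ∀ (J : Type) [Group J] (ψ : N →* J) (χ : I → J), (∀ n i, χ (act n i) = ψ n * χ i * (ψ n)⁻¹) →
      (∀ i, lab i = none → χ i = 1) → (∀ w ∈ W, FreeGroup.lift χ w = 1) → ∃ σ : G →* J, ∀ i, σ (x i) = χ i) :
    Pres (d + k) (r + S.length + W.length) (G ⋊[φ] N) := by
  have a1 : (SemidirectProduct.inl : G →* G ⋊[φ] N).comp (FreeGroup.lift x) =
    FreeGroup.lift fun i => SemidirectProduct.inl (x i) := by ext i <;> simp
  have := hN.act SemidirectProduct.inr act h1 hm (fun i => (SemidirectProduct.inl (x i) : G ⋊[φ] N))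
    (fun n i => by rw [hx, SemidirectProduct.inl_aut, map_inv]) i0 lab hl0 hl ho (fun i h => by simp [hx1 i h]) S hS hS'
    (W.map (1, ·)) (by simp only [List.forall_mem_map, ← a1, MonoidHom.comp_apply]; exact fun w h => by simp [hW w h])
    (top_unique fun g _ => ?_) fun J _ ψ χ e1 e2 e3 => ?_
  · simpa using this
  · rw [← SemidirectProduct.inl_left_mul_inr_right g]
    refine mul_mem (mem_comap.1 ((hgen.ge.trans ((closure_le (comap SemidirectProduct.inl _)).2 ?_)) (mem_top g.left)))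
      (subset_closure (Or.inl ⟨_, rfl⟩))
    rintro _ ⟨i, rfl⟩
    exact subset_closure (Or.inr ⟨i, rfl⟩)
  simp only [List.forall_mem_map, map_one] at e3
  obtain ⟨σ, s⟩ := UP J ψ χ e1 e2 fun w h => (e3 w h).symm
  exact ⟨SemidirectProduct.lift σ ψ fun n => MonoidHom.eq_of_eqOn_dense hgen (by
    rintro _ ⟨i, rfl⟩; simp [← hx, s, e1]), by ext; simp, by simp [s]⟩

variable {J : Type*} [Group J]

/-- conjugates under powers -/
def cj (η ξ : J) (i : ℤ) : J := η ^ i * ξ * (η ^ i)⁻¹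

theorem cj_succ (η ξ : J) (i : ℤ) : cj η ξ (i + 1) = η * cj η ξ i * η⁻¹ := by simp only [cj]; group
theorem cj_zero (η ξ : J) : cj η ξ 0 = ξ := by simp [cj]

theorem cj_comm {η ξ : J} (h : ∀ i : ℕ, Commute ξ (cj η ξ i)) (i j : ℤ) : Commute (cj η ξ i) (cj η ξ j) := by
  wlog e : i ≤ j generalizing i j
  · exact (this j i (by omega)).symm
  obtain ⟨m, rfl⟩ := Int.le.dest e
  have := (h m).map (MulAut.conj (η ^ i)).toMonoidHom
  simp only [MulEquiv.coe_toMonoidHom, MulAut.conj_apply, cj] at this ⊢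
  convert this using 1
  group

theorem cj_comm' {η ξ : J} {d : ℕ} (h : ∀ i : ℕ, i < d → Commute ξ (cj η ξ i)) {i j : ℕ} (hi : i < d) (hj : j < d) :
    Commute (cj η ξ i) (cj η ξ j) := by
  wlog e : i ≤ j generalizing i j
  · exact (this hj hi (by omega)).symm
  obtain ⟨m, rfl⟩ := Nat.exists_eq_add_of_le e
  have := (h m (by omega)).map (MulAut.conj (η ^ (i : ℤ))).toMonoidHom
  simp only [MulEquiv.coe_toMonoidHom, MulAut.conj_apply, cj] at this ⊢
  convert this using 1
  group

theorem map_cj {J' : Type*} [Group J'] (f : J →* J') (η ξ : J) (i : ℤ) : f (cj η ξ i) = cj (f η) (f ξ) i := by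
  simp [cj]

/-- a product of conjugates -/
def wd (η ξ : J) (L : List ℕ) : J := (L.map fun i : ℕ => cj η ξ i).prod

theorem map_wd {J' : Type*} [Group J'] (f : J →* J') (η ξ : J) (L : List ℕ) : f (wd η ξ L) = wd (f η) (f ξ) L := by
  simp [wd, map_list_prod, Function.comp_def, map_cj]

theorem zero_of_add {F : Type*} [AddMonoid F] {Ψ : F → J} (h : ∀ a b, Ψ (a + b) = Ψ a * Ψ b) : Ψ 0 = 1 := by
  simpa using h 0 0

theorem neg_of_add {F : Type*} [AddGroup F] {Ψ : F → J} (h : ∀ a b, Ψ (a + b) = Ψ a * Ψ b) (a : F) :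
    Ψ (-a) = (Ψ a)⁻¹ := by rw [eq_inv_iff_mul_eq_one, ← h, neg_add_cancel, zero_of_add h]

theorem sum_of_add {F ι : Type*} [AddMonoid F] {Ψ : F → J} (h : ∀ a b, Ψ (a + b) = Ψ a * Ψ b) (f : ι → F) (L : List ι) :
    Ψ (L.map f).sum = (L.map fun i => Ψ (f i)).prod := by induction L <;> simp [*, zero_of_add h]

theorem wd_eq {F : Type*} [Field F] {γ : F} {Ψ : F → J} {η ξ : J} (h : ∀ a b, Ψ (a + b) = Ψ a * Ψ b)
    (h' : ∀ i : ℤ, Ψ (γ ^ i) = cj η ξ i) (L : List ℕ) : wd η ξ L = Ψ (L.map (γ ^ ·)).sum := by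
  simp [sum_of_add h, wd, ← h']

theorem cj_eq {F : Type*} [Field F] {γ : F} (h0 : γ ≠ 0) {Ψ : F → J} {η : J} (h : ∀ a, η * Ψ a * η⁻¹ = Ψ (γ * a))
    (a : F) (i : ℤ) : Ψ (γ ^ i * a) = cj η (Ψ a) i := by
  induction i using Int.induction_on with
  | zero => simp [cj]
  | succ i ih => rw [cj_succ, ← ih, h, zpow_add_one₀ h0, mul_comm _ γ, mul_assoc]
  | pred i ih =>
    have := cj_succ η (Ψ a) (-i - 1)
    rw [sub_add_cancel, ← ih, show γ ^ (-i : ℤ) * a = γ * (γ ^ (-i - 1 : ℤ) * a) by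
      rw [zpow_sub_one₀ h0]; field_simp, ← h] at this
    simpa using this

/-- Baumslag's trick -/
theorem baumslag {η θ ξ : J} (h1 : Commute θ η) (h2 : θ * ξ * θ⁻¹ = ξ * cj η ξ 1) (h3 : Commute ξ (cj η ξ 1)) (i : ℕ) :
    Commute ξ (cj η ξ i) := by
  have a1 : ∀ i : ℤ, θ * cj η ξ i * θ⁻¹ = cj η ξ i * cj η ξ (i + 1) := fun i => by
    have := congrArg (fun g => η ^ i * g * (η ^ i)⁻¹) h2
    have e := (h1.zpow_right i).eq
    simp only [cj] at this ⊢
    rw [← mul_assoc, ← mul_assoc, e, mul_assoc, ← mul_inv_rev, e, mul_inv_rev, ← mul_assoc]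
    simp only [← mul_assoc] at this ⊢
    rw [this]; group
  induction i using Nat.strong_induction_on with
  | _ i ih =>
  match i with
  | 0 => simp [cj]
  | 1 => exact h3
  | i + 2 =>
    have s : ∀ j : ℕ, j < i + 2 → Commute (cj η ξ 1) (cj η ξ (j + 1)) := fun j hj => by
      have := (ih j hj).map (MulAut.conj η).toMonoidHom
      rwa [MulEquiv.coe_toMonoidHom, MulAut.conj_apply, MulAut.conj_apply, ← cj_succ, ← cj_zero η ξ, ← cj_succ,
        cj_zero, zero_add] at this
    have b := (ih (i + 1) (by omega)).map (MulAut.conj θ).toMonoidHom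
    rw [MulEquiv.coe_toMonoidHom, MulAut.conj_apply, MulAut.conj_apply, h2, a1] at b
    have c1 := s i (by omega)
    have c2 := s (i + 1) (by omega)
    have c3 := ih (i + 1) (by omega)
    push_cast at b c1 c2 c3 ⊢
    have := b.mul_left (c1.mul_right c2).inv_left
    rw [mul_inv_cancel_right] at this
    simpa [add_assoc, one_add_one_eq_two] using c3.inv_right.mul_right this

theorem exists_zmod {p : ℕ} {y : J} (h : y ^ p = 1) :
    ∃ f : ZMod p →+ Additive J, f 1 = .ofMul y ∧ ∀ a, (f a).toMul ∈ zpowers y := by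
  refine ⟨ZMod.lift p ⟨zmultiplesHom _ (.ofMul y), by simp [← ofMul_pow, h]⟩, ?_, fun a => ?_⟩
  · rw [← Int.cast_one, ZMod.lift_coe]; simp
  · obtain ⟨a, rfl⟩ := ZMod.intCast_surjective a
    rw [ZMod.lift_coe]; exact ⟨a, rfl⟩

/-- two relations present the additive group of a finite field as a module -/
theorem modl {F : Type*} [Field F] [Finite F] (p : ℕ) [Fact p.Prime] [CharP F p] {γ : F} (h0 : γ ≠ 0)
    (hγ : Subring.closure {γ} = ⊤) : ∃ d : ℕ, p ^ d = Nat.card F ∧
      (∀ a : F, ∃ L : List ℕ, (∀ i ∈ L, i < d) ∧ a = (L.map (γ ^ ·)).sum) ∧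
      ∀ L : List ℕ, (∀ i ∈ L, i < d) → γ ^ d = (L.map (γ ^ ·)).sum → ∀ (J : Type) [Group J] (η ξ : J),
      (∀ i : ℕ, i < d → Commute ξ (cj η ξ i)) → ξ ^ p = 1 → cj η ξ d = wd η ξ L →
      ∃ Ψ : F → J, (∀ a b, Ψ (a + b) = Ψ a * Ψ b) ∧ (∀ i : ℤ, Ψ (γ ^ i) = cj η ξ i) ∧
        ∀ a, η * Ψ a * η⁻¹ = Ψ (γ * a) := by
  classical
  let := ZMod.algebra F p
  let B := PowerBasis.ofAdjoinEqTop (.of_finite (ZMod p) γ) (top_unique fun a _ =>
    (show Subring.closure {γ} ≤ (Algebra.adjoin (ZMod p) {γ}).toSubring from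
      Subring.closure_le.2 Algebra.subset_adjoin) (hγ.ge (Subring.mem_top a)))
  have b1 : ∀ i, B.basis i = γ ^ (i : ℕ) := fun i => B.basis_eq_pow i
  have b2 : ∀ a : F, ∃ L : List ℕ, (∀ i ∈ L, i < B.dim) ∧ a = (L.map (γ ^ ·)).sum := fun a => by
    refine ⟨(List.finRange _).flatMap fun i => List.replicate (B.basis.repr a i).val i, by simp; rintro _ x - rfl; exact x.2, ?_⟩
    conv_lhs => rw [← B.basis.sum_repr a]
    simp [List.map_flatMap, List.flatMap_def, List.sum_flatten, Function.comp_def, Fin.sum_univ_def, b1, Algebra.smul_def]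
    exact congrArg _ (List.map_congr_left fun i _ => rfl)
  refine ⟨B.dim, by rw [Nat.card_congr B.basis.equivFun.toEquiv]; simp, b2, fun L l1 l2 J _ η ξ h1 h2 h3 => ?_⟩
  choose f f1 f2 using fun i : Fin B.dim => exists_zmod (p := p) (y := cj η ξ (i : ℕ)) (by simp [cj, h2])
  have f3 : Pairwise fun i j => ∀ a b, AddCommute (f i a) (f j b) := fun i j _ a b => by
    obtain ⟨m, e⟩ := f2 i a
    obtain ⟨n, e'⟩ := f2 j b
    have := (cj_comm' h1 i.2 j.2).zpow_zpow m n
    simp only at e e'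
    rw [e, e'] at this
    exact this
  let Ψ : F →+ Additive J := (AddMonoidHom.noncommPiCoprod f f3).comp B.basis.equivFun.toAddMonoidHom
  have c1 : ∀ i < B.dim, (Ψ (γ ^ i)).toMul = cj η ξ i := fun i hi => by
    have : B.basis.equivFun (γ ^ i) = Pi.single ⟨i, hi⟩ 1 := by
      ext j; rw [← b1 ⟨i, hi⟩, Module.Basis.equivFun_self]; simp [Pi.single_apply, eq_comm]
    simp only [Ψ, AddMonoidHom.comp_apply, LinearMap.toAddMonoidHom_coe, LinearEquiv.coe_coe]
    rw [this, AddMonoidHom.noncommPiCoprod_single, f1]; rfl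
  have c2 : ∀ (c : F) (L : List ℕ), (Ψ (c * (L.map (γ ^ ·)).sum)).toMul = (L.map fun i => (Ψ (c * γ ^ i)).toMul).prod :=
    fun c L => by induction L <;> simp_all [mul_add]
  have c3 : ∀ i ≤ B.dim, (Ψ (γ ^ i)).toMul = cj η ξ i := fun i hi => by
    rcases hi.lt_or_eq with hi | rfl
    · exact c1 i hi
    · rw [h3, l2, ← one_mul (List.sum _), c2]
      exact congrArg _ (List.map_congr_left fun i hi => by rw [one_mul, c1 i (l1 i hi)])
  have c4 : ∀ a, η * (Ψ a).toMul * η⁻¹ = (Ψ (γ * a)).toMul := fun a => by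
    obtain ⟨M, m1, rfl⟩ := b2 a
    rw [c2, ← one_mul (List.sum _), c2, ← MulAut.conj_apply, map_list_prod, List.map_map]
    refine congrArg _ (List.map_congr_left fun i hi => ?_)
    simp only [Function.comp, one_mul, MulAut.conj_apply, c1 i (m1 i hi), ← cj_succ, ← pow_succ', c3 _ (m1 i hi)]
    simp
  refine ⟨fun a => (Ψ a).toMul, by simp, fun i => ?_, c4⟩
  have := c3 0 (Nat.zero_le _)
  simp only [pow_zero, Nat.cast_zero, cj_zero] at this
  simpa [this] using cj_eq (Ψ := fun a => (Ψ a).toMul) h0 c4 1 i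

/-- proper subrings of a finite field -/
theorem exists_frob {F : Type*} [Field F] [Finite F] {K : Subring F} (h : K ≠ ⊤) :
    ∃ q : ℕ, 2 ≤ q ∧ q ^ 2 ≤ Nat.card F ∧ (∀ a ∈ K, a ^ q = a) ∧ ∃ φ : F →+* F, ∀ a, φ a = a ^ q := by
  have := Fintype.ofFinite F
  have hi : ∀ a ∈ K, a⁻¹ ∈ K := fun a ha => by
    rcases eq_or_ne a 0 with rfl | h0
    · simp
    · have : a⁻¹ = a ^ (Fintype.card F - 2) := by
        have := Fintype.one_lt_card (α := F)
        rw [eq_comm, ← mul_eq_one_iff_eq_inv₀ h0, ← pow_succ, ← FiniteField.pow_card_sub_one_eq_one a h0]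
        congr 1; omega
      exact this ▸ K.pow_mem ha _
  let L : Subfield F := { K with inv_mem' := hi }
  have := Fintype.ofFinite L
  obtain ⟨p, hp⟩ := CharP.exists F
  have := Fact.mk (CharP.char_is_prime F p)
  obtain ⟨n, -, hn⟩ := FiniteField.card L p
  refine ⟨Fintype.card L, Fintype.one_lt_card, ?_, fun a ha => congrArg Subtype.val (FiniteField.pow_card (⟨a, ha⟩ : L)),
    iterateFrobenius F p n, fun a => by rw [hn, iterateFrobenius_def]⟩
  rw [Nat.card_eq_fintype_card, Module.card_eq_pow_finrank (K := L) (V := F)]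
  refine Nat.pow_le_pow_right Fintype.card_pos (by_contra fun e => h (top_unique fun a _ => ?_))
  have e1 : Module.finrank L F = 1 := by have := Module.finrank_pos (R := L) (M := F); omega
  obtain ⟨c, rfl⟩ := (finrank_eq_one_iff_of_nonzero' (1 : F) one_ne_zero).1 e1 a
  exact K.mul_mem c.2 K.one_mem

theorem exists_gen (F : Type*) [Field F] [Finite F] : ∃ ζ : F, ζ ≠ 0 ∧ (∀ a : F, a ≠ 0 → ∃ i : ℕ, ζ ^ i = a) ∧
    ∀ i : ℕ, ζ ^ i = 1 ↔ Nat.card F - 1 ∣ i := by
  obtain ⟨ζ, h⟩ := IsCyclic.exists_generator (α := Fˣ)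
  refine ⟨ζ, ζ.ne_zero, fun a ha => ?_, fun i => ?_⟩
  · obtain ⟨i, e⟩ := mem_powers_iff_mem_zpowers.2 (h (.mk0 a ha))
    exact ⟨i, congrArg Units.val e⟩
  · rw [← Nat.card_units, ← orderOf_eq_card_of_forall_mem_zpowers h, orderOf_dvd_iff_pow_eq_one, Units.ext_iff]; simp

end CA.Prs
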