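import Cfsg.Agent.Lib.Grp.SchurExt

/-! Transfer and corestriction for Schur multipliers; duality for finite abelian groups. -/

set_option autoImplicit false

namespace CA.SchurTr

open Cfsg CA.SchurHopf CA.SchurExt
open scoped commutatorElement

theorem exists_factor {A B C : Type*} [Group A] [Group B] [Group C] (ρ : A →* B)
    (hρ : Function.Surjective ρ) (N : A →* C) (h : ρ.ker ≤ N.ker) : ∃ N' : B →* C, ∀ a, N' (ρ a) = N a :=
  ⟨ρ.liftOfRightInverse _ (Function.rightInverse_surjInv hρ) ⟨N, h⟩,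
    fun a => ρ.liftOfRightInverse_comp_apply _ _ ⟨N, h⟩ a⟩

/-- a quotient of a finite abelian group embeds in it -/
theorem exists_inj_of_surj {B D : Type*} [CommGroup B] [Group D] [Finite B] (f : B →* D)
    (hf : Function.Surjective f) : ∃ g : D →* B, Function.Injective g := by
  letI : CommGroup D := { (inferInstance : Group D) with
    mul_comm := fun a b => by
      obtain ⟨a, rfl⟩ := hf a
      obtain ⟨b, rfl⟩ := hf b
      rw [← map_mul, mul_comm, map_mul] }
  haveI : Finite D := Finite.of_surjective _ hf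
  obtain ⟨e1⟩ := CommGroup.monoidHom_mulEquiv_of_hasEnoughRootsOfUnity B ℂ
  obtain ⟨e2⟩ := CommGroup.monoidHom_mulEquiv_of_hasEnoughRootsOfUnity D ℂ
  let j : (D →* ℂˣ) →* (B →* ℂˣ) := MonoidHom.mk' (fun χ => χ.comp f) fun _ _ => rfl
  have hj : Function.Injective j := fun χ ψ h => MonoidHom.ext fun d => by
    obtain ⟨b, rfl⟩ := hf d
    exact DFunLike.congr_fun h b
  exact ⟨e1.toMonoidHom.comp (j.comp e2.symm.toMonoidHom), e1.injective.comp (hj.comp e2.symm.injective)⟩

variable {G A B : Type*} [Group G] [CommGroup A] [CommGroup B]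

theorem pow_card_eq_one (hA : HasSchurMultiplier G A) (a : A) : a ^ Nat.card G = 1 := by
  obtain ⟨⟨Γ, _, _, σ, hσ, ⟨e⟩⟩, -⟩ := hA
  obtain ⟨z, rfl⟩ := e.surjective a
  have h := pow_index_mem (H := σ.ker) (hσ.2.1 z.2) (hσ.2.2 z.2)
  rw [Subgroup.index_ker, MonoidHom.range_eq_top.mpr hσ.1, Subgroup.card_top] at h
  have h2 : ⁅σ.ker, σ.ker⁆ = ⊥ := by
    rw [Subgroup.commutator_eq_bot_iff_le_centralizer]
    exact hσ.2.1.trans (Subgroup.center_le_centralizer _)
  rw [h2, Subgroup.mem_bot] at h
  rw [← map_pow, show z ^ Nat.card G = 1 from Subtype.ext h, map_one]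

section tr

variable {F : Type*} [Group F] (π : F →* G) (U : Subgroup G)

theorem conj_mem (r : π.ker) (g : F) : g⁻¹ * r * g ∈ U.comap π := by
  have : π (g⁻¹ * r * g) = 1 := by simp [show π r = 1 from r.2]
  rw [Subgroup.mem_comap, this]; exact U.one_mem

instance kerComm : CommGroup (pE (res π U)).ker :=
  { (inferInstance : Group (pE (res π U)).ker) with
    mul_comm := fun a b => Subtype.ext (Subgroup.mem_center_iff.mp (pE_central _ b.2) a.1) }

/-- class of a conjugate of a relator -/
def kap (g : F) : π.ker →* (pE (res π U)).ker :=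
  MonoidHom.mk' (fun r => ⟨((⟨g⁻¹ * r * g, conj_mem π U r g⟩ : U.comap π) : E (res π U)),
    Subtype.ext (by simp [pE_mk, res_apply, show π r = 1 from r.2])⟩) fun a b => Subtype.ext (by
      show _ = (((⟨_, _⟩ * ⟨_, _⟩ : U.comap π)) : E (res π U))
      refine congrArg (QuotientGroup.mk (s := RR (res π U))) (Subtype.ext ?_)
      show g⁻¹ * ((a : F) * b) * g = g⁻¹ * a * g * (g⁻¹ * b * g)
      group)

theorem kap_mul (g : F) (u : U.comap π) (r : π.ker) : kap π U (g * u) r = kap π U g r := by
  apply Subtype.ext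
  have h := Subgroup.mem_center_iff.mp (pE_central _ (kap π U g r).2) (u : E (res π U))
  have h2 : (kap π U (g * u) r : E (res π U)) = (u : E (res π U))⁻¹ * (kap π U g r * u) := by
    show _ = (((u⁻¹ * (⟨_, _⟩ * u) : U.comap π)) : E (res π U))
    refine congrArg (QuotientGroup.mk (s := RR (res π U))) (Subtype.ext ?_)
    show (g * u)⁻¹ * (r : F) * (g * u) = (u : F)⁻¹ * (g⁻¹ * r * g * u)
    group
  rw [h2, ← h, inv_mul_cancel_left]

theorem kap_out (g : F) (r : π.ker) : kap π U ((g : F ⧸ U.comap π).out) r = kap π U g r := by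
  obtain ⟨u, hu⟩ := QuotientGroup.mk_out_eq_mul (U.comap π) g
  rw [hu, kap_mul]

variable [Fintype (F ⧸ U.comap π)]

/-- the norm map -/
noncomputable def nrm : π.ker →* (pE (res π U)).ker := ∏ q : F ⧸ U.comap π, kap π U q.out

theorem nrm_apply (r : π.ker) : nrm π U r = ∏ q : F ⧸ U.comap π, kap π U q.out r := by
  simp [nrm]

theorem nrm_conj (r : π.ker) (f : F) (h : f⁻¹ * r * f ∈ π.ker) : nrm π U ⟨_, h⟩ = nrm π U r := by
  rw [nrm_apply, nrm_apply]
  refine Fintype.prod_equiv (MulAction.toPerm f) _ _ fun q => ?_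
  have : (MulAction.toPerm f) q = ((f * q.out : F) : F ⧸ U.comap π) := by
    conv_lhs => rw [← q.out_eq']
    rfl
  rw [this, kap_out]
  refine Subtype.ext (congrArg (QuotientGroup.mk (s := RR (res π U))) (Subtype.ext ?_))
  show q.out⁻¹ * (f⁻¹ * r * f) * q.out = (f * q.out)⁻¹ * r * (f * q.out)
  group

theorem nrm_RR (r : π.ker) (h : (r : F) ∈ RR π) : nrm π U r = 1 := by
  have : RR π ≤ (nrm π U).ker.map π.ker.subtype := by
    rw [RR, Subgroup.commutator_le]
    intro r hr f _
    have h1 : f⁻¹⁻¹ * ((⟨r, hr⟩ : π.ker)⁻¹ : π.ker) * f⁻¹ ∈ π.ker := by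
      simp [MonoidHom.mem_ker, show π r = 1 from hr]
    refine ⟨⟨r, hr⟩ * ⟨_, h1⟩, ?_, by simp [commutatorElement_def, mul_assoc]⟩
    rw [SetLike.mem_coe, MonoidHom.mem_ker, map_mul, nrm_conj, map_inv, mul_inv_cancel]
  obtain ⟨r', h1, h2⟩ := this h
  rw [← Subtype.ext h2]; exact h1

theorem out_mem (f : F) (q : F ⧸ U.comap π) : (f • q).out⁻¹ * f * q.out ∈ U.comap π := by
  rw [mul_assoc, ← QuotientGroup.eq, QuotientGroup.out_eq']
  conv_lhs => rw [← q.out_eq']
  rfl

theorem nrm_mem (r : π.ker) (h : (r : F) ∈ commutator F) :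
    (nrm π U r : E (res π U)) ∈ commutator (E (res π U)) := by
  let a : U.comap π →* Abelianization (E (res π U)) := Abelianization.of.comp (QuotientGroup.mk' _)
  let V : F →* Abelianization (E (res π U)) := MonoidHom.mk'
    (fun f => ∏ q : F ⧸ U.comap π, a ⟨_, out_mem π U f q⟩) fun f g => by
      rw [← Fintype.prod_equiv (MulAction.toPerm g) (fun q => a ⟨_, out_mem π U f (g • q)⟩)
        (fun q => a ⟨_, out_mem π U f q⟩) fun _ => rfl, ← Finset.prod_mul_distrib]
      refine Finset.prod_congr rfl fun q _ => ?_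
      rw [← map_mul]
      congr 1
      exact Subtype.ext (by simp [mul_assoc, mul_smul])
  have h1 : V r = 1 := Abelianization.commutator_subset_ker V h
  rw [← Abelianization.ker_of, MonoidHom.mem_ker, ← h1, nrm_apply]
  show (Abelianization.of.comp (pE (res π U)).ker.subtype) _ = ∏ q, _
  rw [map_prod]
  refine Finset.prod_congr rfl fun q _ => ?_
  have h2 : (r : F) • q = q := by
    conv_lhs => rw [← q.out_eq']
    conv_rhs => rw [← q.out_eq']
    show ((r * q.out : F) : F ⧸ U.comap π) = _
    rw [eq_comm, QuotientGroup.eq, ← mul_assoc]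
    exact conj_mem π U r _
  show a _ = a _
  congr 1
  exact Subtype.ext (by simp [h2])

/-- map induced by the inclusion -/
def inc : E (res π U) →* E π := QuotientGroup.map _ _ (U.comap π).subtype (by
  rw [← Subgroup.map_le_iff_le_comap, RR, Subgroup.map_commutator]
  refine Subgroup.commutator_mono ?_ le_top
  rintro _ ⟨x, hx, rfl⟩
  exact mem_ker_res.mp hx)

theorem inc_nrm (r : π.ker) : inc π U (nrm π U r) = ((r : F) : E π) ^ (U.comap π).index := by
  letI : CommGroup (pE π).ker := { (inferInstance : Group (pE π).ker) with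
    mul_comm := fun a b => Subtype.ext (Subgroup.mem_center_iff.mp (pE_central _ b.2) a.1) }
  let j : (pE (res π U)).ker →* (pE π).ker :=
    ((inc π U).comp (pE (res π U)).ker.subtype).codRestrict _ (by
      rintro ⟨x, hx⟩
      obtain ⟨x, rfl⟩ := QuotientGroup.mk_surjective x
      exact congrArg Subtype.val (show res π U x = 1 from hx))
  have h1 : ∀ g, j (kap π U g r) = ⟨((r : F) : E π), r.2⟩ := fun g => Subtype.ext (by
    show (((g⁻¹ * r * g : F)) : E π) = r
    rw [QuotientGroup.mk_mul, QuotientGroup.mk_mul,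
      Subgroup.mem_center_iff.mp (pE_central π (show ((r : F) : E π) ∈ (pE π).ker from r.2))]
    simp)
  have h2 : j (nrm π U r) = ⟨((r : F) : E π), r.2⟩ ^ (U.comap π).index := by
    rw [nrm_apply, map_prod]
    simp only [h1, Finset.prod_const, Finset.card_univ]
    rw [Subgroup.index, Nat.card_eq_fintype_card]
  exact congrArg Subtype.val h2

omit [Fintype (F ⧸ U.comap π)] in
theorem exists_tr_cor_M [(U.comap π).FiniteIndex] : ∃ (tr : M π →* M (res π U)) (cor : M (res π U) →* M π),
    ∀ a, cor (tr a) = a ^ (U.comap π).index := by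
  haveI : Fintype (F ⧸ U.comap π) := Fintype.ofFinite _
  obtain ⟨ρ, hρ, hρ2⟩ := exists_surj_of_map (K := mult π) (L := M π) (QuotientGroup.mk' (RR π)) (by
    ext x
    constructor
    · rintro ⟨f, ⟨h1, h2⟩, rfl⟩
      refine ⟨h1, ?_⟩
      have := Subgroup.mem_map_of_mem (QuotientGroup.mk' (RR π)) h2
      rw [commutator_def, Subgroup.map_commutator] at this
      exact Subgroup.commutator_mono le_top le_top this
    · rintro ⟨h1, h2⟩
      have h3 : commutator (E π) = (commutator F).map (QuotientGroup.mk' (RR π)) := by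
        rw [commutator_def F, Subgroup.map_commutator, ← MonoidHom.range_eq_map,
          MonoidHom.range_eq_top.mpr (QuotientGroup.mk'_surjective _), commutator_def]
      rw [h3] at h2
      obtain ⟨f, hf, rfl⟩ := h2
      exact ⟨f, ⟨h1, hf⟩, rfl⟩)
  let i : mult π →* π.ker := Subgroup.inclusion inf_le_left
  let N : mult π →* M (res π U) := (((pE (res π U)).ker.subtype.comp (nrm π U)).comp i).codRestrict _
    fun r => ⟨(nrm π U (i r)).2, nrm_mem π U _ r.2.2⟩
  obtain ⟨tr, htr⟩ := exists_factor ρ hρ N fun r hr => by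
    have h1 : ((r : F) : E π) = 1 := (hρ2 r).symm.trans (congrArg Subtype.val (show ρ r = 1 from hr))
    have h2 := congrArg Subtype.val (nrm_RR π U (i r) ((QuotientGroup.eq_one_iff _).mp h1))
    exact Subtype.ext h2
  refine ⟨tr, ((inc π U).comp (M (res π U)).subtype).codRestrict _ ?_, fun a => ?_⟩
  · rintro ⟨x, h1, h2⟩
    constructor
    · obtain ⟨x, rfl⟩ := QuotientGroup.mk_surjective x
      exact congrArg Subtype.val (show res π U x = 1 from h1)
    · have := Subgroup.mem_map_of_mem (inc π U) h2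
      rw [commutator_def, Subgroup.map_commutator] at this
      exact Subgroup.commutator_mono le_top le_top this
  · obtain ⟨r, rfl⟩ := hρ a
    rw [htr]
    apply Subtype.ext
    rw [Subgroup.coe_pow, hρ2]
    exact inc_nrm π U (i r)

end tr

/-- transfer and corestriction -/
theorem exists_tr_cor {U : Subgroup G} (hA : HasSchurMultiplier G A) (hB : HasSchurMultiplier U B) :
    ∃ (tr : A →* B) (cor : B →* A), ∀ a, cor (tr a) = a ^ U.index := by
  haveI := finite_left hA
  have h1 : (U.comap (can G)).index = U.index := U.index_comap_of_surjective (can_surj G)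
  haveI : (U.comap (can G)).FiniteIndex := ⟨h1 ▸ Subgroup.FiniteIndex.index_ne_zero⟩
  obtain ⟨tr, cor, h⟩ := exists_tr_cor_M (can G) U
  obtain ⟨e1⟩ := unique hA (has_can G)
  obtain ⟨e2⟩ := unique hB (has_M (res_surj (can_surj G) U))
  refine ⟨e2.symm.toMonoidHom.comp (tr.comp e1.toMonoidHom),
    e1.symm.toMonoidHom.comp (cor.comp e2.toMonoidHom), fun a => ?_⟩
  simp [h, h1]

end CA.SchurTr
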