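import Cfsg.Agent.Lib.Lie.Higman3
import Cfsg.Agent.Lib.Lin.SU3
import Cfsg.Agent.Lib.Lin.SLnCard

/-!
Special 2-groups are determined by their squaring maps; the Sylow 2-subgroups of `L₃(q)` and `U₃(q)`, `q` even.
-/

set_option autoImplicit false

namespace CA.Tcs

open Subgroup CA.HigLin CA.Higman
open scoped MatrixGroups

section
variable {S S' : Type*} [Group S] [Group S'] {V W : Type*} [AddCommGroup V] [AddCommGroup W]

/-- `S / Z` is `V`, `Z` is `W` and squaring is `N` -/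
structure QD (Z : Subgroup S) (π : S → V) (c : S → W) (N : V → W) : Prop where
  pi : Add ⊤ Z π
  ce : Add Z ⊥ c
  sq : ∀ x, c (x * x) = N (π x)

theorem QD.iso {Z : Subgroup S} {π : S → V} {c : S → W} {N : V → W} {Z' : Subgroup S'} {π' : S' → V} {c' : S' → W}
    (h : QD Z π c N) (h' : QD Z' π' c' N) (hV : ∀ v : V, v + v = 0) (hW : ∀ w : W, w + w = 0) :
    Nonempty (S ≃* S') := by
  let H : Subgroup (S × S') :=
    { carrier := {p | π p.1 = π' p.2}
      one_mem' := h.pi.one.trans h'.pi.one.symm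
      mul_mem' := fun {a b} ha hb => by
        show π (a.1 * b.1) = π' (a.2 * b.2)
        rw [h.pi.mul _ trivial _ trivial, h'.pi.mul _ trivial _ trivial, show π a.1 = π' a.2 from ha,
          show π b.1 = π' b.2 from hb]
      inv_mem' := fun {a} ha => by
        show π a.1⁻¹ = π' a.2⁻¹
        rw [h.pi.inv trivial, h'.pi.inv trivial, show π a.1 = π' a.2 from ha] }
  let K : Subgroup (S × S') :=
    { carrier := {p | p.1 ∈ Z ∧ p.2 ∈ Z' ∧ c p.1 = c' p.2}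
      one_mem' := ⟨one_mem _, one_mem _, h.ce.one.trans h'.ce.one.symm⟩
      mul_mem' := fun {a b} ha hb => ⟨mul_mem ha.1 hb.1, mul_mem ha.2.1 hb.2.1, by
        show c (a.1 * b.1) = c' (a.2 * b.2)
        rw [h.ce.mul _ ha.1 _ hb.1, h'.ce.mul _ ha.2.1 _ hb.2.1, ha.2.2, hb.2.2]⟩
      inv_mem' := fun {a} ha => ⟨inv_mem ha.1, inv_mem ha.2.1, by
        show c a.1⁻¹ = c' a.2⁻¹
        rw [h.ce.inv ha.1, h'.ce.inv ha.2.1, ha.2.2]⟩ }
  have hZH : ∀ z ∈ Z, ∀ z' ∈ Z', (z, z') ∈ H := fun z hz z' hz' =>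
    ((h.pi.zero _ trivial).2 hz).trans ((h'.pi.zero _ trivial).2 hz').symm
  have hsq : ∀ p ∈ H, p * p ∈ K := fun p hp =>
    ⟨(h.pi.zero _ trivial).1 ((h.pi.mul _ trivial _ trivial).trans (hV _)),
      (h'.pi.zero _ trivial).1 ((h'.pi.mul _ trivial _ trivial).trans (hV _)),
      (h.sq _).trans ((congrArg N hp).trans (h'.sq _).symm)⟩
  obtain ⟨U, _, ϖ, hϖ⟩ := exists_add (A := H) (B := K) (fun p hp => hZH _ hp.1 _ hp.2.1)
    fun x hx y hy => comm_mem hsq hx hy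
  have hU : ∀ u : U, u + u = 0 := fun u => by
    obtain ⟨p, hp, rfl⟩ := hϖ.surj u
    rw [← hϖ.mul p hp p hp, hϖ.zero _ (mul_mem hp hp)]
    exact hsq p hp
  obtain ⟨j, hj⟩ := h.ce.lift (fun z => ϖ (z, 1)) (fun x hx y hy => by
    rw [← hϖ.mul _ (hZH _ hx _ (one_mem _)) _ (hZH _ hy _ (one_mem _)), Prod.mk_mul_mk, mul_one])
    (fun x _ hx => by rw [mem_bot.1 hx]; exact hϖ.one)
  let _ : Module (ZMod 2) U := AddCommGroup.zmodModule (fun v => by rw [two_nsmul, hU])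
  let _ : Module (ZMod 2) W := AddCommGroup.zmodModule (fun v => by rw [two_nsmul, hW])
  obtain ⟨ψ, hψ⟩ := (j.toZModLinearMap 2).exists_leftInverse_of_injective (LinearMap.ker_eq_bot'.2 fun w hw => by
    obtain ⟨z, hz, rfl⟩ := h.ce.surj w
    have := (hϖ.zero _ (hZH _ hz _ (one_mem _))).1 ((hj z hz).symm.trans hw)
    exact this.2.2.trans h'.ce.one)
  have h1 : ∀ z ∈ Z, ψ (ϖ (z, 1)) = c z := fun z hz => by
    rw [← hj z hz]; exact DFunLike.congr_fun hψ (c z)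
  have h2 : ∀ z ∈ Z', ψ (ϖ (1, z)) = c' z := fun z' hz' => by
    obtain ⟨z, hz, e⟩ := h.ce.surj (c' z')
    have h3 := (hϖ.zero _ (hZH _ hz _ hz')).2 ⟨hz, hz', e⟩
    have h4 := hϖ.mul _ (hZH _ hz _ (one_mem _)) _ (hZH _ (one_mem _) _ hz')
    rw [Prod.mk_mul_mk, mul_one, one_mul, h3] at h4
    have h5 := congrArg ψ h4
    rw [map_zero, map_add, h1 z hz, e] at h5
    exact (add_left_cancel (h5.symm.trans (hW _).symm))
  let R : Subgroup (S × S') :=
    { carrier := {p | p ∈ H ∧ ψ (ϖ p) = 0}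
      one_mem' := ⟨one_mem _, by rw [hϖ.one, map_zero]⟩
      mul_mem' := fun {a b} ha hb => ⟨mul_mem ha.1 hb.1, by rw [hϖ.mul _ ha.1 _ hb.1, map_add, ha.2, hb.2, add_zero]⟩
      inv_mem' := fun {a} ha => ⟨inv_mem ha.1, by rw [hϖ.inv ha.1, map_neg, ha.2, neg_zero]⟩ }
  have b1 : Function.Bijective ((MonoidHom.fst S S').comp R.subtype) := by
    refine ⟨(injective_iff_map_eq_one _).2 ?_, fun x => ?_⟩
    · rintro ⟨⟨x, y⟩, h3, h4⟩ (rfl : x = 1)
      have h5 : y ∈ Z' := (h'.pi.zero _ trivial).1 ((show π 1 = π' y from h3).symm.trans h.pi.one)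
      rw [h2 y h5, h'.ce.zero y h5, mem_bot] at h4
      subst h4; rfl
    · obtain ⟨y, -, e⟩ := h'.pi.surj (π x)
      obtain ⟨z, hz, e2⟩ := h'.ce.surj (ψ (ϖ (x, y)))
      have h3 : (x, y) ∈ H := e.symm
      have h4 := hZH _ (one_mem _) _ hz
      exact ⟨⟨(x, y) * (1, z), mul_mem h3 h4, by rw [hϖ.mul _ h3 _ h4, map_add, h2 z hz, e2, hW]⟩, mul_one x⟩
  have b2 : Function.Bijective ((MonoidHom.snd S S').comp R.subtype) := by
    refine ⟨(injective_iff_map_eq_one _).2 ?_, fun y => ?_⟩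
    · rintro ⟨⟨x, y⟩, h3, h4⟩ (rfl : y = 1)
      have h5 : x ∈ Z := (h.pi.zero _ trivial).1 ((show π x = π' 1 from h3).trans h'.pi.one)
      rw [h1 x h5, h.ce.zero x h5, mem_bot] at h4
      subst h4; rfl
    · obtain ⟨x, -, e⟩ := h.pi.surj (π' y)
      obtain ⟨z, hz, e2⟩ := h.ce.surj (ψ (ϖ (x, y)))
      have h3 : (x, y) ∈ H := e
      have h4 := hZH _ hz _ (one_mem _)
      exact ⟨⟨(x, y) * (z, 1), mul_mem h3 h4, by rw [hϖ.mul _ h3 _ h4, map_add, h1 z hz, e2, hW]⟩, mul_one y⟩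
  exact ⟨(MulEquiv.ofBijective _ b1).symm.trans (MulEquiv.ofBijective _ b2)⟩

theorem QD.comp {Z : Subgroup S} {π : S → V} {c : S → W} {N : V → W} (h : QD Z π c N) {V' W' : Type*}
    [AddCommGroup V'] [AddCommGroup W'] (e : V ≃+ V') (f : W ≃+ W') {N' : V' → W'} (hN : ∀ v, f (N v) = N' (e v)) :
    QD Z (fun x => e (π x)) (fun x => f (c x)) N' :=
  ⟨h.pi.comp e, h.ce.comp f, fun x => by rw [h.sq, hN]⟩

end

section
variable {K : Type*} [Field K]

/-- upper unitriangular matrices of degree three -/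
def ut (a b c : K) : SL(3, K) := ⟨!![1, a, c; 0, 1, b; 0, 0, 1], by simp [Matrix.det_fin_three]⟩

theorem ut_mul (a b c a' b' c' : K) : ut a b c * ut a' b' c' = ut (a + a') (b + b') (c + c' + a * b') :=
  Subtype.ext (by
    rw [Matrix.SpecialLinearGroup.coe_mul]
    ext i j; fin_cases i <;> fin_cases j <;> simp [ut, Matrix.mul_apply, Fin.sum_univ_three] <;> ring)

theorem ut_inj {a b c a' b' c' : K} (h : ut a b c = ut a' b' c') : a = a' ∧ b = b' ∧ c = c' :=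
  ⟨congrArg (fun g => g.1 0 1) h, congrArg (fun g => g.1 1 2) h, congrArg (fun g => g.1 0 2) h⟩

theorem ut_zero : ut (0 : K) 0 0 = 1 := Subtype.ext (by ext i j; fin_cases i <;> fin_cases j <;> simp [ut])

theorem ut_inv (a b c : K) : (ut a b c)⁻¹ = ut (-a) (-b) (a * b - c) :=
  inv_eq_of_mul_eq_one_right (by rw [ut_mul, ← ut_zero]; congr 1 <;> ring)

/-- the group of upper unitriangular matrices of degree three -/
def UT (K : Type*) [Field K] : Subgroup SL(3, K) where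
  carrier := {g | ∃ a b c, g = ut a b c}
  one_mem' := ⟨0, 0, 0, ut_zero.symm⟩
  mul_mem' := by rintro _ _ ⟨a, b, c, rfl⟩ ⟨a', b', c', rfl⟩; exact ⟨_, _, _, ut_mul ..⟩
  inv_mem' := by rintro _ ⟨a, b, c, rfl⟩; exact ⟨_, _, _, ut_inv ..⟩

theorem qd_UT [CharP K 2] : ∃ (Z : Subgroup (UT K)) (π : UT K → K × K) (c : UT K → K),
    QD Z π c fun v => v.1 * v.2 := by
  have hm : ∀ x y : UT K, ((x * y).1.1 0 1, (x * y).1.1 1 2) = (x.1.1 0 1, x.1.1 1 2) + (y.1.1 0 1, y.1.1 1 2) := by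
    rintro ⟨_, a, b, c, rfl⟩ ⟨_, a', b', c', rfl⟩
    rw [coe_mul, ut_mul]; rfl
  let p : UT K →* Multiplicative (K × K) := MonoidHom.mk' (fun x => Multiplicative.ofAdd (x.1.1 0 1, x.1.1 1 2))
    fun x y => congrArg Multiplicative.ofAdd (hm x y)
  have hp : ∀ a b c : K, (⟨ut a b c, a, b, c, rfl⟩ : UT K) ∈ p.ker ↔ a = 0 ∧ b = 0 := fun a b c =>
    show (a, b) = (0 : K × K) ↔ _ from Prod.mk_eq_zero
  refine ⟨p.ker, fun x => (x.1.1 0 1, x.1.1 1 2), fun x => x.1.1 0 2, ⟨fun x _ y _ => hm x y, fun x _ => Iff.rfl,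
    fun v => ⟨⟨ut v.1 v.2 0, _, _, _, rfl⟩, trivial, rfl⟩⟩, ⟨?_, ?_, fun w =>
      ⟨⟨ut 0 0 w, _, _, _, rfl⟩, (hp ..).2 ⟨rfl, rfl⟩, rfl⟩⟩, ?_⟩
  · rintro ⟨_, a, b, c, rfl⟩ hx ⟨_, a', b', c', rfl⟩ -
    rw [coe_mul, ut_mul]
    show c + c' + a * b' = c + c'
    rw [((hp ..).1 hx).1, zero_mul, add_zero]
  · rintro ⟨_, a, b, c, rfl⟩ hx
    obtain ⟨rfl, rfl⟩ := (hp ..).1 hx
    rw [mem_bot, Subtype.ext_iff]
    exact ⟨fun e => (congrArg (ut 0 0) (show c = 0 from e)).trans ut_zero, fun e => (ut_inj (e.trans ut_zero.symm)).2.2⟩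
  · rintro ⟨_, a, b, c, rfl⟩
    rw [coe_mul, ut_mul]
    show c + c + a * b = a * b
    rw [CharTwo.add_self_eq_zero, zero_add]

theorem sylow_UT [Fintype K] [CharP K 2] : ∃ T : Sylow 2 (Matrix.ProjectiveSpecialLinearGroup (Fin 3) K),
    Nonempty (UT K ≃* (T : Subgroup (Matrix.ProjectiveSpecialLinearGroup (Fin 3) K))) := by
  obtain ⟨n, -, hn⟩ := FiniteField.card K 2
  have h1 : Nat.card (UT K) = Nat.card K ^ 3 := by
    rw [← Nat.card_congr (Equiv.ofBijective (fun x : K × K × K => (⟨ut x.1 x.2.1 x.2.2, _, _, _, rfl⟩ : UT K))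
      ⟨fun x y e => by simpa [Prod.ext_iff] using ut_inj (congrArg Subtype.val e),
        by rintro ⟨_, a, b, c, rfl⟩; exact ⟨(a, b, c), rfl⟩⟩)]
    simp [pow_succ, mul_assoc]
  rw [← Nat.card_eq_fintype_card] at hn
  have h2 := CA.SLnCard.card_SL (F := K) 3 (by omega)
  rw [← (UT K).card_mul_index, h1, Fin.prod_univ_three] at h2
  have h3 : ¬ 2 ∣ (UT K).index := by
    rintro ⟨k, hk⟩
    obtain ⟨r, hr⟩ : ∃ r, Nat.card K = 2 * (r + 1) :=
      ⟨2 ^ (n - 1 : ℕ) - 1, by rw [hn, Nat.sub_add_cancel Nat.one_le_two_pow, ← pow_succ', Nat.sub_add_cancel n.pos]⟩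
    rw [hk, hr] at h2
    have e1 : 1 ≤ 2 * (r + 1) := by omega
    simp only [Fin.val_zero, Fin.val_one, Fin.val_two] at h2
    zify [e1, Nat.pow_le_pow_right e1 (show 0 ≤ 3 by omega), Nat.pow_le_pow_right e1 (show 1 ≤ 3 by omega),
      Nat.pow_le_pow_right e1 (show 2 ≤ 3 by omega)] at h2
    have h4 : (2 * k : ℤ) = ((2 * (r + 1)) ^ 3 - 1) * ((2 * (r + 1)) ^ 2 - 1) :=
      mul_left_cancel₀ (a := (2 * ((r : ℤ) + 1) - 1) * (2 * (r + 1)) ^ 3)
        (mul_ne_zero (by omega) (pow_ne_zero _ (by omega))) (by linear_combination h2)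
    have h5 : (2 : ℤ) ∣ 1 := ⟨k - (16 * (r + 1) ^ 5 - 4 * (r + 1) ^ 3 - 2 * (r + 1) ^ 2), by linear_combination -h4⟩
    omega
  let T := (IsPGroup.of_card (p := 2) (n := n * 3) (by rw [h1, hn, pow_mul])).toSylow h3
  let f := QuotientGroup.mk' (center SL(3, K))
  refine ⟨T.mapSurjective (QuotientGroup.mk'_surjective (center SL(3, K))),
    ⟨MulEquiv.ofBijective (f.subgroupMap (UT K)) ⟨(injective_iff_map_eq_one _).2 ?_, f.subgroupMap_surjective _⟩⟩⟩
  rintro ⟨_, a, b, c, rfl⟩ e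
  obtain ⟨r, -, hr⟩ := Matrix.SpecialLinearGroup.mem_center_iff.1
    ((QuotientGroup.eq_one_iff (ut a b c)).1 (congrArg Subtype.val e))
  have e1 := congrFun (congrFun hr 0) 1
  have e2 := congrFun (congrFun hr 1) 2
  have e3 := congrFun (congrFun hr 0) 2
  simp [ut] at e1 e2 e3
  subst e1 e2 e3
  exact Subtype.ext ut_zero

end

section
open CA.SU3 CA.CForm QuadraticAlgebra

variable {F : Type*} [Field F] [Fintype F] [CharP F 2] {m : F} [Fact (∀ r, r ^ 2 ≠ m + 1 * r)]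

noncomputable instance fin : Fintype (QuadraticAlgebra F m 1) := Fintype.ofEquiv _ (equivProd m 1).symm

theorem card_QA : Fintype.card (QuadraticAlgebra F m 1) = Fintype.card F ^ 2 := by
  rw [Fintype.card_congr (equivProd m 1), Fintype.card_prod, pow_two]

theorem conj_star {q : ℕ} (hq : Fintype.card F = q) (hE : Fintype.card (QuadraticAlgebra F m 1) = q ^ 2)
    (x : QuadraticAlgebra F m 1) : conj hE x = star x := by
  have h1 : ∀ r : F, conj hE (algebraMap F _ r) = algebraMap F _ r := fun r => by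
    rw [conj_apply, ← map_pow, ← hq, FiniteField.pow_card]
  have h2 : ∀ x : QuadraticAlgebra F m 1, x = algebraMap F _ x.re + algebraMap F _ x.im * ω := fun x => by
    ext <;> simp
  have h3 : (ω : QuadraticAlgebra F m 1) * ω = algebraMap F _ m + ω := by ext <;> simp
  have h4 := congrArg (conj hE) h3
  rw [map_mul, map_add, h1] at h4
  have h5 : (conj hE ω - ω) * (conj hE ω - (1 - ω)) = 0 := by linear_combination h4 - h3
  rcases mul_eq_zero.1 h5 with h6 | h6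
  · refine (conj_ne_id hE (RingHom.ext fun y => ?_)).elim
    rw [h2 y, map_add, map_mul, h1, h1, sub_eq_zero.1 h6]; rfl
  · rw [h2 x, map_add, map_mul, h1, h1, sub_eq_zero.1 h6]
    ext <;> simp

theorem qd_Hs {q : ℕ} (hq : Fintype.card F = q) (hE : Fintype.card (QuadraticAlgebra F m 1) = q ^ 2) :
    QD (center (Hs hE)) (fun x => (x.a.re, x.a.im)) (fun x => x.b.re)
      fun v : F × F => v.1 * v.1 + v.1 * v.2 + m * v.2 * v.2 := by
  refine ⟨⟨fun x _ y _ => rfl, fun x _ => ?_, fun v => ⟨⟨⟨v.1, v.2⟩, ⟨0, -norm (⟨v.1, v.2⟩ : QuadraticAlgebra F m 1)⟩,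
    ?_⟩, trivial, rfl⟩⟩, ⟨fun x hx y _ => ?_, fun x hx => ?_, fun w => ⟨⟨0, ⟨w, 0⟩, ?_⟩, mem_center_Hs.2 rfl, rfl⟩⟩,
    fun x => ?_⟩
  · rw [mem_center_Hs, Prod.mk_eq_zero, QuadraticAlgebra.ext_iff]; rfl
  · rw [conj_star hq, conj_star hq, ← algebraMap_norm_eq_mul_star]
    ext <;> simp
  · rw [mul_b, mem_center_Hs.1 hx]; simp
  · have h1 := congrArg QuadraticAlgebra.re x.h
    have h0 := mem_center_Hs.1 hx
    rw [conj_star hq, h0] at h1
    simp [← add_assoc, CharTwo.add_self_eq_zero] at h1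
    rw [mem_bot]
    refine ⟨fun e => Hs.ext h0 (QuadraticAlgebra.ext e h1), fun e => by rw [e]; rfl⟩
  · rw [conj_star hq]
    ext <;> simp [CharTwo.add_self_eq_zero]
  · rw [mul_b, conj_star hq, ← algebraMap_norm_eq_mul_star, norm_def]
    simp [CharTwo.add_self_eq_zero, CharTwo.sub_eq_add]

end

/-- the two normal forms -/
theorem target {S : Type*} [Group S] {F : Type} [Field F] [Fintype F] [CharP F 2] {n : ℕ} (hF : Fintype.card F = 2 ^ n)
    {Z : Subgroup S} {π : S → F × F} {c : S → F} {m : F}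
    (h : QD Z π c fun v => v.1 * v.1 + v.1 * v.2 + m * v.2 * v.2) :
    (∃ (F : Type) (_ : Field F) (_ : Fintype F), Fintype.card F = 4 ^ n ∧
        ∃ T : Sylow 2 (Cfsg.PSU 3 F (2 ^ n)), Nonempty (S ≃* ↥(T : Subgroup (Cfsg.PSU 3 F (2 ^ n))))) ∨
      (∃ (F : Type) (_ : Field F) (_ : Fintype F), Fintype.card F = 2 ^ n ∧
        ∃ T : Sylow 2 (Matrix.ProjectiveSpecialLinearGroup (Fin 3) F),
          Nonempty (S ≃* ↥(T : Subgroup (Matrix.ProjectiveSpecialLinearGroup (Fin 3) F)))) := by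
  have hW : ∀ w : F, w + w = 0 := CharTwo.add_self_eq_zero
  have hV : ∀ v : F × F, v + v = 0 := fun v => Prod.ext (hW _) (hW _)
  by_cases hm : ∀ r, r ^ 2 ≠ m + 1 * r
  · have := Fact.mk hm
    have hE : Fintype.card (QuadraticAlgebra F m 1) = (2 ^ n) ^ 2 := hF ▸ card_QA
    obtain ⟨T⟩ : Nonempty (Sylow 2 (Cfsg.PSU 3 (QuadraticAlgebra F m 1) (2 ^ n))) := inferInstance
    obtain ⟨e⟩ := h.iso (qd_Hs hF hE) hV hW
    obtain ⟨e'⟩ := CA.SU3.sylow_equiv hE rfl T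
    exact Or.inl ⟨_, inferInstance, inferInstance, by rw [hE, ← pow_mul, mul_comm, pow_mul]; rfl, T, ⟨e.trans e'.symm⟩⟩
  · push Not at hm
    obtain ⟨r, hr⟩ := hm
    obtain ⟨Z', π', c', h'⟩ := qd_UT (K := F)
    obtain ⟨T, ⟨e'⟩⟩ := sylow_UT (K := F)
    have h2 : (2 : F) = 0 := CharTwo.two_eq_zero
    let g : F × F ≃+ F × F :=
      { toFun := fun v => (v.1 + r * v.2, v.1 + (r + 1) * v.2)
        invFun := fun v => ((r + 1) * v.1 + r * v.2, v.1 + v.2)
        left_inv := fun v => Prod.ext (by linear_combination (r * v.1 + r * (r + 1) * v.2) * h2)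
          (by linear_combination (v.1 + r * v.2) * h2)
        right_inv := fun v => Prod.ext (by linear_combination (r * v.1 + r * v.2) * h2)
          (by linear_combination ((r + 1) * v.1 + r * v.2) * h2)
        map_add' := fun v w => Prod.ext (by simp; ring) (by simp; ring) }
    obtain ⟨e⟩ := (h.comp g (AddEquiv.refl F) (N' := fun v => v.1 * v.2) fun v => by
      show v.1 * v.1 + v.1 * v.2 + m * v.2 * v.2 = (v.1 + r * v.2) * (v.1 + (r + 1) * v.2)
      linear_combination (-v.2 * v.2) * hr - (r * v.1 * v.2 + r * v.2 * v.2) * h2).iso h' hV hW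
    exact Or.inr ⟨F, inferInstance, inferInstance, hF, T, ⟨e.trans e'⟩⟩

end CA.Tcs
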