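import Cfsg.Agent.Lib.Grp.Tcs1

/-!
2-groups with an involutory automorphism `α` and a commuting automorphism `ρ` regular on the nontrivial fixed points
of `α`: the maximal invariant inverted subgroup.
-/

set_option autoImplicit false

namespace CA.Tcs

open Subgroup CA.HigLin CA.Higman CA.Higman2
open scoped commutatorElement

universe u

variable {G : Type u} [Group G]

/-- the standing hypothesis -/
structure St (α ρ : MulAut G) (C : Subgroup G) : Prop where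
  pg : IsPGroup 2 G
  inv : ∀ x, α (α x) = x
  com : ∀ x, α (ρ x) = ρ (α x)
  mem : ∀ x, x ∈ C ↔ α x = x
  sq : ∀ x ∈ C, x * x = 1
  cent : ∀ z ∈ C, ∀ x, z * x = x * z
  fpf : ∀ (n : ℕ) x, (ρ ^ n) x = x → x = 1 ∨ ρ ^ n = 1
  card : Nat.card C = orderOf ρ + 1
  two : 2 < Nat.card C

/-- an inverted subgroup `A` and an overgroup `D` -/
structure Pr (α ρ : MulAut G) (C A D : Subgroup G) : Prop extends St α ρ C where
  CA : C ≤ A
  iA : Inv ρ A
  invt : ∀ a ∈ A, α a = a⁻¹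
  lt : A < D
  iD : Inv ρ D
  nrm : ∀ x ∈ D, ∀ a ∈ A, x * a * x⁻¹ ∈ A
  del : ∀ x ∈ D, x⁻¹ * α x ∈ A

variable {α ρ : MulAut G} {C A D : Subgroup G}

theorem del_mul (x y : G) : (x * y)⁻¹ * α (x * y) = y⁻¹ * (x⁻¹ * α x) * y⁻¹⁻¹ * (y⁻¹ * α y) := by
  rw [map_mul]; group

theorem ab_of_inv (h : ∀ a ∈ A, α a = a⁻¹) : ∀ a ∈ A, ∀ b ∈ A, a * b = b * a := fun a ha b hb => by
  have := h _ (mul_mem ha hb)
  rw [map_mul, h a ha, h b hb, ← mul_inv_rev, inv_inj] at this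
  exact this.symm

theorem St.hig (h : St α ρ C) (h1 : C ≤ A) (h2 : Inv ρ A) (h3 : ∀ a ∈ A, α a = a⁻¹) : Hig ρ A C :=
  ⟨h.pg.to_subgroup A, h2, fun x => ⟨fun hx => ⟨h1 hx, h.sq x hx⟩, fun hx =>
    (h.mem x).2 ((h3 x hx.1).trans (inv_eq_of_mul_eq_one_left hx.2))⟩, fun z hz x _ => h.cent z hz x,
    fun n x _ => h.fpf n x, h.card, h.two⟩

theorem St.iC (h : St α ρ C) : Inv ρ C := fun x hx => (h.mem _).2 (by rw [h.com, (h.mem x).1 hx])

theorem St.invC (h : St α ρ C) : ∀ a ∈ C, α a = a⁻¹ := fun a ha =>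
  ((h.mem a).1 ha).trans (inv_eq_of_mul_eq_one_left (h.sq a ha)).symm

namespace Pr

variable (h : Pr α ρ C A D)
include h

theorem ab : ∀ a ∈ A, ∀ b ∈ A, a * b = b * a := ab_of_inv h.invt

theorem hig : Hig ρ A C := h.toSt.hig h.CA h.iA h.invt

theorem mem_of_del {x a : G} (ha : a ∈ A) (hx : x ∈ D) (e : a * a = x⁻¹ * α x) : x ∈ A := by
  have : x * a ∈ C := (h.mem _).2 (by
    rw [map_mul, h.invt a ha, ← mul_inv_cancel_left x (α x), ← e]; group)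
  simpa using mul_mem (h.CA this) (inv_mem ha)

variable [Finite G] {F : Type*} [Field F] [Fintype F] [CharP F 2] (hF : Fintype.card F = Nat.card C)
include hF

theorem comm_lt : ⁅A, D⁆ < A :=
  CA.PGBasic.commutator_lt (h.pg.to_subgroup D).isNilpotent le_rfl h.lt.le (le_normalizer_of h.nrm)
    fun e => h.hig.Z_ne_bot (eq_bot_iff.2 (e ▸ h.CA))

theorem comm_le : ⁅A, D⁆ ≤ Sq A := h.hig.le_Sq hF h.ab (h.iA.commutator h.iD) (h.comm_lt hF)

variable {cA : G → F} {l : F} (hA : Crd ρ A (Sq A) cA l)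
include hA

theorem crd : Crd ρ D A (fun x => cA (x⁻¹ * α x)) l := by
  obtain ⟨x0, hx0, hx0'⟩ := SetLike.exists_of_lt h.lt
  refine crd_of hA.gen h.iD (fun x hx y hy => ?_) (fun x hx => ?_) (fun x hx => ?_) hx0 hx0'
  · have h1 := h.nrm _ (inv_mem hy) _ (h.del x hx)
    rw [del_mul, hA.mul _ h1 _ (h.del y hy), add_left_inj, eq_comm, hA.eq_iff (h.del x hx) h1]
    simpa [commutatorElement_def, mul_assoc] using
      h.comm_le hF (commutator_mem_commutator (inv_mem (h.del x hx)) (inv_mem hy))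
  · rw [hA.zero _ (h.del x hx), mem_Sq_iff h.ab]
    exact ⟨fun ⟨a, ha, e⟩ => h.mem_of_del ha hx e, fun hx => ⟨x⁻¹, inv_mem hx, by rw [h.invt x hx]⟩⟩
  · rw [← hA.act _ (h.del x hx), map_mul, map_inv, h.com]

variable {cZ : G → F} (hZ : Crd ρ C ⊥ cZ l)
include hZ

theorem ab_of_cent (hc : ∀ a ∈ A, ∀ x ∈ D, a * x = x * a) : ∀ x ∈ D, ∀ y ∈ D, x * y = y * x := by
  have hψ := h.crd hF hA
  have hcm : ∀ x ∈ D, ∀ y ∈ D, ⁅x, y⁆ ∈ C := fun x hx y hy => (h.mem _).2 (by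
    rw [map_commutatorElement, ← mul_inv_cancel_left x (α x), ← mul_inv_cancel_left y (α y), comm_mul_left,
      comm_eq_one (hc _ (h.del x hx) _ (mul_mem hy (h.lt.le (h.del y hy)))), comm_mul_right,
      comm_eq_one (hc _ (h.del y hy) x hx).symm]
    group)
  obtain ⟨f, hf⟩ := hψ.lift₂ hψ.toAdd (fun x y => cZ ⁅x, y⁆)
    (fun x hx y hy z hz => by
      rw [comm_mul_left, conj_eq (h.cent _ (hcm y hy z hz) x), hZ.mul _ (hcm y hy z hz) _ (hcm x hx z hz), add_comm])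
    (fun x hx y hy z hz => by
      rw [comm_mul_right, conj_eq (h.cent _ (hcm x hx z hz) y), hZ.mul _ (hcm x hx y hy) _ (hcm x hx z hz)])
    (fun x hx hA y hy => by rw [comm_eq_one (hc x hA y hy), hZ.one])
    (fun x hx y hy hA => by rw [comm_eq_one (hc y hA x hx).symm, hZ.one])
  intro x hx y hy
  have := alt_zero f hZ.gen (fun a b => by
      obtain ⟨x, hx, rfl⟩ := hψ.surj a
      obtain ⟨y, hy, rfl⟩ := hψ.surj b
      rw [← hψ.act x hx, ← hψ.act y hy, hf _ (h.iD x hx) _ (h.iD y hy), hf x hx y hy, ← map_commutatorElement,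
        hZ.act _ (hcm x hx y hy)]) (by
      obtain ⟨x, hx, e⟩ := hψ.surj 1
      rw [← e, hf x hx x hx, commutatorElement_self, hZ.one]) (cA (x⁻¹ * α x)) (cA (y⁻¹ * α y))
  rw [hf x hx y hy, hZ.zero _ (hcm x hx y hy), mem_bot] at this
  exact commutatorElement_eq_one_iff_mul_comm.1 this

theorem nd (h1 : ⁅A, D⁆ ≠ ⊥) : ∃ (cC : G → F) (f : F →+ F →+ F), Crd ρ ⁅A, D⁆ (Sq ⁅A, D⁆) cC l ∧
    (∀ x ∈ D, ∀ y ∈ ⁅A, D⁆, cC (x * y * x⁻¹) = cC y) ∧
    (∀ x ∈ D, ∀ a ∈ A, f (cA (x⁻¹ * α x)) (cA a) = cC ⁅a, x⁆) ∧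
    ∀ x ∈ D, x ∉ A → ∀ a ∈ A, cC ⁅a, x⁆ = 0 → a ∈ Sq A := by
  have hab := h.ab
  have hCA := h.comm_lt hF
  have hCi : Inv ρ ⁅A, D⁆ := h.iA.commutator h.iD
  have hCn : D ≤ normalizer ((⁅A, D⁆ : Subgroup G) : Set G) := by
    rw [commutator_comm]; exact normalizer_commutator_ge_left D A
  have hcm : ∀ a ∈ A, ∀ x ∈ D, ⁅a, x⁆ ∈ ⁅A, D⁆ := fun a ha x hx => commutator_mem_commutator ha hx
  have hCle : ∀ Y : Subgroup G, (∀ a ∈ A, ∀ x ∈ D, ⁅a, x⁆ ∈ Y) → ⁅A, D⁆ ≤ Y := fun Y hY => commutator_le.2 hY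
  generalize ⁅A, D⁆ = B at *
  have hC := h.hig.sub hF hCA.le hCi h1
  have hCab : ∀ a ∈ B, ∀ b ∈ B, a * b = b * a := fun a ha b hb => hab a (hCA.le ha) b (hCA.le hb)
  have hCC := hC.le_Sq hF hCab (hCi.commutator h.iD)
    (CA.PGBasic.commutator_lt (h.pg.to_subgroup D).isNilpotent le_rfl (hCA.le.trans h.lt.le) hCn h1)
  obtain ⟨cC, hcC⟩ := hC.crd_ab hF hCab hZ
  have hc := h.crd hF hA
  have hcj : ∀ x ∈ D, ∀ y ∈ B, cC (x * y * x⁻¹) = cC y := fun x hx y hy => by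
    rw [eq_comm, hcC.eq_iff hy ((mem_normalizer_iff.1 (hCn hx) y).1 hy)]
    simpa [commutatorElement_def, mul_assoc] using hCC (commutator_mem_commutator (inv_mem hy) hx)
  have hadd : ∀ a ∈ A, ∀ b ∈ A, ∀ x ∈ D, ⁅a * b, x⁆ = ⁅b, x⁆ * ⁅a, x⁆ := fun a ha b hb x hx => by
    rw [comm_mul_left, conj_eq (hab _ (hCA.le (hcm b hb x hx)) a ha)]
  obtain ⟨f, hf⟩ := hc.lift₂ hA.toAdd (fun x a => cC ⁅a, x⁆)
    (fun x hx y hy a ha => by
      rw [comm_mul_right, hcC.mul _ (hcm a ha x hx) _ ((mem_normalizer_iff.1 (hCn hx) _).1 (hcm a ha y hy)),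
        hcj x hx _ (hcm a ha y hy)])
    (fun x hx a ha b hb => by rw [hadd a ha b hb x hx, hcC.mul _ (hcm b hb x hx) _ (hcm a ha x hx), add_comm])
    (fun x hx hA a ha => by rw [comm_eq_one (hab a ha x hA), hcC.one])
    (fun x hx a ha hS => by
      obtain ⟨b, hb, rfl⟩ := (mem_Sq_iff hab).1 hS
      rw [hadd b hb b hb x hx, hcC.mul _ (hcm b hb x hx) _ (hcm b hb x hx), CharTwo.add_self_eq_zero])
  refine ⟨cC, f, hcC, hcj, hf, fun x hx hxA a ha e => ?_⟩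
  by_contra haS
  have : ∃ a ∈ A, ∃ x ∈ D, cC ⁅a, x⁆ ≠ 0 := by
    by_contra! h3
    exact h1 (nak hC.pg bot_le ((hCle _ fun a ha x hx => (hcC.zero _ (hcm a ha x hx)).1 (h3 a ha x hx)).trans
      le_sup_right)).symm
  obtain ⟨a1, ha1, x1, hx1, h3⟩ := this
  refine nondeg f (hc.gen.ne_one (hF ▸ h.two)) hZ.gen (fun u v => ?_) (x0 := cA (x1⁻¹ * α x1)) (y0 := cA a1)
    (by rwa [hf x1 hx1 a1 ha1]) (fun e => hxA ((hc.zero x hx).1 e)) (fun e => haS ((hA.zero a ha).1 e))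
    (by rw [hf x hx a ha, e])
  obtain ⟨x, hx, rfl⟩ := hc.surj u
  obtain ⟨y, hy, rfl⟩ := hA.surj v
  rw [← hc.act x hx, ← hA.act y hy, hf _ (h.iD x hx) _ (h.iA y hy), hf x hx y hy, ← map_commutatorElement,
    hcC.act _ (hcm y hy x hx)]

end Pr

variable [Finite G]

theorem coset {T : Type*} [Group T] [Finite T] {τ : MulAut T} (hT : IsPGroup 2 T) (h2 : ∀ x, τ (τ x) = x)
    {H N : Subgroup T} (hH : ∀ x ∈ H, τ x ∈ H) (hN : ∀ x ∈ N, τ x ∈ N) (hne : H < N) :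
    ∃ g ∈ N, g ∉ H ∧ g⁻¹ * τ g ∈ H := by
  have := Fintype.ofFinite (N ⧸ H.subgroupOf N)
  let f : N ⧸ H.subgroupOf N → N ⧸ H.subgroupOf N := Quotient.map' (fun x => ⟨τ x, hN _ x.2⟩) fun a b h => by
    rw [QuotientGroup.leftRel_apply, mem_subgroupOf] at h ⊢
    simpa using hH _ h
  have hf : Function.Involutive f := fun q => by
    obtain ⟨a, rfl⟩ := QuotientGroup.mk_surjective q
    exact congrArg QuotientGroup.mk (Subtype.ext (h2 a))
  obtain ⟨k, hk⟩ := (hT.to_subgroup N).index (H.subgroupOf N)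
  obtain ⟨b, h3, h4⟩ := Equiv.Perm.exists_fixed_point_of_prime' (p := 2) (n := 1) (σ := hf.toPerm)
    (a := ((1 : N) : N ⧸ H.subgroupOf N)) (by
    rw [← Nat.card_eq_fintype_card, ← index_eq_card, hk]
    exact dvd_pow_self 2 fun e => hne.not_ge (subgroupOf_eq_top.1 (index_eq_one.1 (by rw [hk, e, pow_zero]))))
    (Equiv.ext fun q => hf q) (congrArg QuotientGroup.mk (Subtype.ext (map_one τ)))
  obtain ⟨g, rfl⟩ := QuotientGroup.mk_surjective b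
  exact ⟨g, g.2, fun h => h4 (QuotientGroup.eq.2 (by simpa [mem_subgroupOf] using h)), 
    mem_subgroupOf.1 ((QuotientGroup.eq (a := g) (b := ⟨τ g, hN _ g.2⟩)).1 h3.symm)⟩

theorem norm_inv {ξ : MulAut G} (h : ∀ x ∈ A, ξ x ∈ A) : ∀ x ∈ normalizer (A : Set G), ξ x ∈ normalizer (A : Set G) :=
  fun x hx => CA.SylIn.mem_normalizer_of_forall fun y hy => by
    obtain ⟨z, hz, rfl⟩ := inv_surj (ξ := ξ) h hy
    rw [← map_inv, ← map_mul, ← map_mul]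
    exact h _ ((mem_normalizer_iff.1 hx z).1 hz)

theorem St.exists_pr (h : St α ρ C) {F : Type*} [Field F] [Fintype F] [CharP F 2] (hF : Fintype.card F = Nat.card C)
    (hna : ∃ x y : G, x * y ≠ y * x) : ∃ A, Pr α ρ C A ⊤ := by
  obtain ⟨A, ⟨h1, h2, h3⟩, hmax⟩ := Set.Finite.exists_maximal
    (Set.toFinite {A : Subgroup G | C ≤ A ∧ Inv ρ A ∧ ∀ a ∈ A, α a = a⁻¹}) ⟨C, le_rfl, h.iC, h.invC⟩
  have hAα : ∀ a ∈ A, α a ∈ A := fun a ha => h3 a ha ▸ inv_mem ha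
  have hA : A < ⊤ := lt_top_iff_ne_top.2 (by
    rintro rfl
    obtain ⟨x, y, e⟩ := hna
    exact e (ab_of_inv h3 x trivial y trivial))
  have hN : A < normalizer (A : Set G) := by
    simpa using CA.SylIn.lt_inf_normalizer (h.pg.to_subgroup ⊤) hA
  let D : Subgroup G :=
    { carrier := {x | x ∈ normalizer (A : Set G) ∧ x⁻¹ * α x ∈ A}
      one_mem' := ⟨one_mem _, by simp⟩
      mul_mem' := fun {x y} hx hy => ⟨mul_mem hx.1 hy.1, by
        rw [del_mul]; exact mul_mem ((mem_normalizer_iff.1 (inv_mem hy.1) _).1 hx.2) hy.2⟩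
      inv_mem' := fun {x} hx => ⟨inv_mem hx.1, by
        simpa [mul_assoc] using (mem_normalizer_iff.1 hx.1 _).1 (inv_mem hx.2)⟩ }
  obtain ⟨x0, hx0, hx1, hx2⟩ := coset h.pg h.inv hAα (norm_inv hAα) hN
  have hP : Pr α ρ C A D := ⟨h, h1, h2, h3, lt_of_le_of_ne (fun a ha => ⟨hN.le ha, mul_mem (inv_mem ha) (hAα a ha)⟩)
    (fun e => hx1 (e ▸ (⟨hx0, hx2⟩ : x0 ∈ D))), fun x hx => ⟨norm_inv h2 x hx.1, by
      rw [h.com, ← map_inv, ← map_mul]; exact h2 _ hx.2⟩, fun x hx a ha => (mem_normalizer_iff.1 hx.1 a).1 ha,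
    fun x hx => hx.2⟩
  obtain ⟨cZ, l, hZ⟩ := hP.hig.exists_crd hF h1 h.iC (hP.hig.max_Z hF)
  obtain ⟨cA, hcA⟩ := hP.hig.crd_ab hF hP.ab hZ
  have hc := hP.crd hF hcA
  have key : ∀ u ∈ D, α u = u⁻¹ → u ∈ A := fun u hu e => by
    by_cases hB : ⁅A, D⁆ = ⊥
    · have hD := hP.ab_of_cent hF hcA hZ fun a ha x hx =>
        commutatorElement_eq_one_iff_mul_comm.1 (mem_bot.1 (hB ▸ commutator_mem_commutator ha hx))
      let I : Subgroup G :=
        { carrier := {x | x ∈ D ∧ α x = x⁻¹}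
          one_mem' := ⟨one_mem _, by simp⟩
          mul_mem' := fun {x y} hx hy => ⟨mul_mem hx.1 hy.1, by
            rw [map_mul, hx.2, hy.2, ← mul_inv_rev, hD _ hx.1 _ hy.1]⟩
          inv_mem' := fun {x} hx => ⟨inv_mem hx.1, by rw [map_inv, hx.2]⟩ }
      have hAI : A ≤ I := fun a ha => ⟨hP.lt.le ha, h3 a ha⟩
      exact hmax (y := I) ⟨h1.trans hAI, fun x hx => ⟨hP.iD x hx.1, by rw [h.com, hx.2, map_inv]⟩, fun x hx => hx.2⟩
        hAI ⟨hu, e⟩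
    · obtain ⟨cC, f, hC, -, -, hnd⟩ := hP.nd hF hcA hZ hB
      by_contra huA
      exact huA ((hc.zero u hu).1 ((hcA.zero _ hu.2).2 (hnd u hu huA _ hu.2 (by
        rw [comm_eq_one (by rw [e]; group), hC.one]))))
  have hD : D = ⊤ := by
    by_contra hne
    obtain ⟨g, -, hg, hg2⟩ := coset h.pg h.inv (N := ⊤) (fun x hx => by
      simpa using mul_mem hx (hP.lt.le (hP.del x hx))) (fun _ _ => trivial) (lt_top_iff_ne_top.2 hne)
    have h4 := key _ hg2 (by rw [map_mul, map_inv, h.inv]; group)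
    obtain ⟨d, hd, e⟩ := hc.surj (cA (g⁻¹ * α g))
    obtain ⟨b, hb, e2⟩ := (mem_Sq_iff hP.ab).1 ((hcA.eq_iff (hP.del d hd) h4).1 e)
    have h5 : g * (d * b⁻¹)⁻¹ ∈ C := (h.mem _).2 (by
      have e3 : α g = g * (d⁻¹ * α d) * (b * b) := by rw [e2]; group
      rw [map_mul, map_inv, map_mul, map_inv, h3 b hb, e3]
      have := hP.ab _ (hP.del d hd) b hb
      calc _ = g * (d⁻¹ * α d * b) * (d⁻¹ * α d)⁻¹ * d⁻¹ := by group
        _ = _ := by rw [this]; group)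
    exact hg (by simpa [mul_assoc] using mul_mem (hP.lt.le (h1 h5)) (mul_mem hd (inv_mem (hP.lt.le hb))))
  exact ⟨A, hD ▸ hP⟩

end CA.Tcs
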