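import Cfsg.Agent.Lib.Grp.Tcs2

/-!
2-groups with an involutory automorphism `α` and a commuting automorphism `ρ` regular on the nontrivial fixed points
of `α`: the squaring map.
-/

set_option autoImplicit false

namespace CA.Tcs

open Subgroup CA.HigLin CA.Higman CA.Higman2
open scoped commutatorElement

universe u

variable {G : Type u} [Group G] {α ρ : MulAut G} {C A : Subgroup G}

theorem quad {W : Type*} [AddCommGroup W] (cent : ∀ z ∈ C, ∀ x, z * x = x * z) (sq : ∀ z ∈ C, z * z = 1)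
    (hsq : ∀ x, x * x ∈ C) {V : Type*} [AddCommGroup V] {π : G → V} (hπ : Add ⊤ C π)
    {cZ : G → W} (hcZ : Add C ⊥ cZ) : ∃ (N : V → W) (f : V →+ V →+ W), (∀ x, N (π x) = cZ (x * x)) ∧
      (∀ x y, f (π x) (π y) = cZ ⁅x, y⁆) ∧ ∀ u v, N (u + v) = N u + N v + f v u := by
  have hcm : ∀ x y, ⁅x, y⁆ ∈ C := fun x y => comm_mem (fun x _ => hsq x) (mem_top x) (mem_top y)
  obtain ⟨f, hf⟩ := hπ.lift₂ hπ (fun x y => cZ ⁅x, y⁆)
    (fun x _ y _ z _ => by
      rw [comm_mul_left, conj_eq (cent _ (hcm y z) x), hcZ.mul _ (hcm y z) _ (hcm x z), add_comm])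
    (fun x _ y _ z _ => by
      rw [comm_mul_right, conj_eq (cent _ (hcm x z) y), hcZ.mul _ (hcm x y) _ (hcm x z)])
    (fun x _ hA y _ => by rw [comm_eq_one (cent x hA y), hcZ.one])
    (fun x _ y _ hA => by rw [comm_eq_one (cent y hA x).symm, hcZ.one])
  choose s hs hs' using hπ.surj
  have hN : ∀ x, s (π x) * s (π x) = x * x := fun x => by
    have h1 := (hπ.eq_iff (mem_top x) (hs _)).1 (hs' _).symm
    rw [← mul_inv_cancel_left x (s (π x)), mul_assoc x, ← mul_assoc _ x, cent _ h1 x, mul_assoc x, sq _ h1, mul_one]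
  refine ⟨fun v => cZ (s v * s v), f, fun x => by simp only [hN x], fun x y => hf x trivial y trivial, fun u v => ?_⟩
  have h1 := hN (s u * s v)
  have h2 := hf _ (hs v) _ (hs u)
  rw [hπ.mul _ (hs u) _ (hs v), hs', hs'] at h1
  rw [hs', hs'] at h2
  have h3 := hcm (s v) (s u)
  have e : s u * s v * (s u * s v) = s u * (⁅s v, s u⁆ * (s u * (s v * s v))) := by
    rw [commutatorElement_def]; group
  simp only [h1, h2]
  rw [e, cent _ h3, ← mul_assoc, ← mul_assoc (s u) (s u), hcZ.mul _ (mul_mem (hsq _) (hsq _)) _ h3,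
    hcZ.mul _ (hsq _) _ (hsq _)]

theorem lin_of_gen {F : Type*} [Field F] {l : F} (hl : Gen l) {g : F → F} (h0 : g 0 = 0)
    (h : ∀ a, g (l * a) = l * g a) (a : F) : g a = a * g 1 := by
  by_cases ha : a = 0
  · rw [ha, h0, zero_mul]
  obtain ⟨n, rfl⟩ := hl.2 a ha
  clear ha
  induction n with
  | zero => simp
  | succ n ih => rw [pow_succ', h, ih, mul_assoc]

namespace Pr

variable [Finite G] (h : Pr α ρ C A ⊤) {F : Type*} [Field F] [Fintype F] [CharP F 2] (hF : Fintype.card F = Nat.card C)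
  {cA : G → F} {l : F} (hcA : Crd ρ A (Sq A) cA l) {cZ : G → F} (hcZ : Crd ρ C ⊥ cZ l) (hna : ∃ x y : G, x * y ≠ y * x)
include h hF hcA hcZ hna

theorem spec : Sq A = C ∧ (∀ x, x * x ∈ C) ∧ ∀ x, x ∉ A → ∀ a ∈ A, a * x = x * a → a ∈ C := by
  have hab := h.ab
  have hA := h.hig
  have hC1 : ⁅A, ⊤⁆ ≠ ⊥ := fun hB => by
    obtain ⟨x, y, e⟩ := hna
    exact e (h.ab_of_cent hF hcA hcZ (fun a ha x hx =>
      commutatorElement_eq_one_iff_mul_comm.1 (mem_bot.1 (hB ▸ commutator_mem_commutator ha hx))) x trivial y trivial)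
  obtain ⟨cC, f, hcC, hcj, hf, hnd⟩ := h.nd hF hcA hcZ hC1
  have hc := h.crd hF hcA
  have hn := fun x => h.nrm x trivial
  have hCS := h.comm_le hF
  have hCA := h.comm_lt hF
  have hCi : Inv ρ ⁅A, ⊤⁆ := h.iA.commutator h.iD
  have hcm : ∀ a ∈ A, ∀ x, ⁅a, x⁆ ∈ ⁅A, ⊤⁆ := fun a ha x => commutator_mem_commutator ha trivial
  generalize ⁅A, (⊤ : Subgroup G)⁆ = B at *
  have hsq : ∀ x, x * x ∈ A := fun x => (hc.zero _ trivial).1 (by
    rw [hc.mul x trivial x trivial, CharTwo.add_self_eq_zero])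
  have hadd : ∀ a ∈ A, ∀ b ∈ A, ∀ x, ⁅a * b, x⁆ = ⁅b, x⁆ * ⁅a, x⁆ := fun a ha b hb x => by
    rw [comm_mul_left, conj_eq (hab _ (hCA.le (hcm b hb x)) a ha)]
  have hx2 : ∀ x, x * x ∈ Sq A := fun x => by
    by_cases hxA : x ∈ A
    · exact sq_mem_Sq hxA
    · exact hnd x trivial hxA _ (hsq x) (by rw [comm_eq_one (mul_assoc x x x), hcC.one])
  have hS1 : Sq A ≠ ⊥ := fun e => hC1 (eq_bot_iff.2 (e ▸ hCS))
  have hS := hA.sub hF Sq_le_self h.iA.Sq hS1
  have hSab : ∀ a ∈ Sq A, ∀ b ∈ Sq A, a * b = b * a := fun a ha b hb => hab a (Sq_le_self ha) b (Sq_le_self hb)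
  obtain ⟨x, -, y, -, hxA, hyA, hxy⟩ := exists_three (hF ▸ h.two) hc.toAdd
  have hCe : B = Sq A := by
    by_contra hne
    have h3 := hS.le_Sq hF hSab hCi (lt_of_le_of_ne hCS hne)
    have hd := h.del x trivial
    have e1 := h.invt _ (hsq x)
    rw [map_mul, ← mul_inv_cancel_left x (α x)] at e1
    have h4 := (hc.zero x trivial).not.2 hxA
    generalize x⁻¹ * α x = d at *
    have e2 : d * d = ⁅d, x⁻¹⁆ * ((x * x)⁻¹ * (x * x)⁻¹) := by
      calc d * d = ⁅d, x⁻¹⁆ * ((x * x)⁻¹ * (x * d * (x * d))) := by rw [commutatorElement_def]; group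
        _ = _ := by rw [e1]
    obtain ⟨b, hb, e3⟩ := (mem_Sq_iff hSab).1 (e2 ▸ mul_mem (h3 (hcm d hd _)) (sq_mem_Sq (inv_mem (hx2 x))) :
      d * d ∈ Sq (Sq A))
    have h5 : d * b⁻¹ ∈ C := (hA.memZ _).2 ⟨mul_mem hd (inv_mem (Sq_le_self hb)), by
      rw [mul_assoc, ← mul_assoc b⁻¹, hab _ (inv_mem (Sq_le_self hb)) d hd, ← mul_assoc, ← mul_assoc, ← e3]; group⟩
    exact h4 ((hcA.zero d hd).2 (by simpa using mul_mem (hS.Z_le h5) hb))
  subst hCe
  have hSZ : Sq A = C := by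
    by_contra hne
    have h3 := hS.le_Sq hF hSab h.iC (lt_of_le_of_ne hS.Z_le (Ne.symm hne))
    have key : ∀ x, x ∉ A → ∀ a ∈ A, cC ⁅a, x⁆ = cC (a * a) := fun x hxA a ha => by
      obtain ⟨b, hb, e⟩ := (mem_Sq_iff hab).1 (hcm a ha x)
      have h4 := comm_mul_right a x x
      rw [comm_eq_one (hab a ha _ (hsq x)), ← e] at h4
      have h5 : b * b * ⁅b, x⁆⁻¹ ∈ C := (hA.memZ _).2 ⟨mul_mem (mul_mem hb hb) (inv_mem (hCA.le (hcm b hb x))), by
        have e1 : b * b * ⁅b, x⁆⁻¹ = b * (x * b * x⁻¹) := by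
          rw [commutatorElement_inv, commutatorElement_def, mul_assoc b b, ← mul_assoc b _ b⁻¹,
            conj_eq (hab _ (hn x b hb) b hb)]
        rw [e1, mul_assoc b, ← mul_assoc _ b, hab _ (hn x b hb) b hb, h4]; group⟩
      have h6 : cC ⁅b, x⁆ = cC (b * b) := by
        have := (hcC.zero _ (hS.Z_le h5)).2 (h3 h5)
        rw [hcC.mul _ (sq_mem_Sq hb) _ (inv_mem (hcm b hb x)), hcC.inv (hcm b hb x)] at this
        exact (add_neg_eq_zero.1 this).symm
      obtain ⟨d, hd, e2⟩ := (mem_Sq_iff hab).1 (hnd x trivial hxA _ (mul_mem ha hb) (by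
        rw [hadd a ha b hb x, hcC.mul _ (hcm b hb x) _ (hcm a ha x), h6, e, CharTwo.add_self_eq_zero]))
      have h7 := (hcC.zero _ (sq_mem_Sq (mul_mem ha hb))).2 (e2 ▸ sq_mem_Sq (sq_mem_Sq hd))
      rw [mul_assoc a b, ← mul_assoc b a, hab b hb a ha, mul_assoc a b, ← mul_assoc a a,
        hcC.mul _ (sq_mem_Sq ha) _ (sq_mem_Sq hb), e] at h7
      exact (CharTwo.add_eq_zero.1 h7).symm
    obtain ⟨a, ha, e⟩ := hcA.surj 1
    have h4 := key _ hxy a ha
    have h5 := h4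
    rw [← hf _ trivial a ha, hc.mul x trivial y trivial, map_add, AddMonoidHom.add_apply, hf x trivial a ha,
      hf y trivial a ha, key x hxA a ha, key y hyA a ha, CharTwo.add_self_eq_zero] at h5
    exact one_ne_zero (e ▸ (hcA.zero a ha).2 (hnd _ trivial hxy a ha (h4.trans h5.symm)))
  exact ⟨hSZ, hSZ ▸ hx2, fun x hxA a ha e => hSZ ▸ hnd x trivial hxA a ha (by rw [comm_eq_one e, hcC.one])⟩

theorem exists_qd (ho : Odd (orderOf ρ)) : ∃ (π : G → F × F) (c : G → F) (m : F),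
    QD C π c fun v => v.1 * v.1 + v.1 * v.2 + m * v.2 * v.2 := by
  obtain ⟨hS, hsq, hnd⟩ := h.spec hF hcA hcZ hna
  have hc := h.crd hF hcA
  rw [hS] at hcA
  generalize (fun x => cA (x⁻¹ * α x)) = c at hc
  obtain ⟨V, _, π, hπ⟩ := exists_add (A := ⊤) (B := C) le_top fun x hx y hy => comm_mem (fun x _ => hsq x) hx hy
  have hm := fun x y => hπ.mul x trivial y trivial
  have hs : ∀ v, ∃ x, π x = v := fun v => (hπ.surj v).imp fun _ h => h.2
  have hV : ∀ v : V, v + v = 0 := fun v => by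
    obtain ⟨x, rfl⟩ := hs v
    rw [← hm, hπ.zero _ trivial]; exact hsq x
  obtain ⟨N, f, hN, hf, hNf⟩ := quad h.cent h.sq hsq hπ hcZ.toAdd
  obtain ⟨r, hr⟩ := hπ.lift (fun x => π (ρ x)) (fun x _ y _ => by rw [map_mul, hm])
    fun x _ hx => (hπ.zero _ trivial).2 (h.iC x hx)
  obtain ⟨p, hp⟩ := hπ.lift c hc.mul fun x _ hx => (hc.zero x trivial).2 (h.CA hx)
  obtain ⟨i, hi⟩ := hcA.lift π (fun x _ y _ => hm x y) fun x _ hx => (hπ.zero x trivial).2 hx
  replace hr := fun x => hr x trivial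
  replace hp := fun x => hp x trivial
  have hrn : ∀ (n : ℕ) x, ((show AddMonoid.End V from r) ^ n) (π x) = π ((ρ ^ n) x) := fun n x => by
    induction n with
    | zero => rfl
    | succ n ih => rw [pow_succ', pow_succ', MulAut.mul_apply, ← hr, ← ih]; rfl
  obtain ⟨s, hs1, hs2⟩ := exists_section hV p (fun a => by
      obtain ⟨x, -, e⟩ := hc.surj a
      exact ⟨π x, (hp x).trans e⟩) (show AddMonoid.End V from r) ho (AddMonoidHom.ext fun v => by
      obtain ⟨x, rfl⟩ := hs v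
      exact (hrn _ x).trans (by rw [pow_orderOf_eq_one]; rfl)) (μ := l) (by
      obtain ⟨x, -, e⟩ := hc.surj 1
      have := hc.act_pow h.iD (orderOf ρ) (mem_top x)
      rw [pow_orderOf_eq_one, MulAut.one_apply, e, mul_one] at this
      exact this.symm) fun v => by
    obtain ⟨x, rfl⟩ := hs v
    exact (congrArg p (hr x)).trans (by rw [hp, hp, hc.act x trivial])
  replace hs2 : ∀ a, r (s a) = s (l * a) := hs2
  have hri : ∀ a, r (i a) = i (l * a) := fun a => by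
    obtain ⟨x, hx, rfl⟩ := hcA.surj a
    rw [← hcA.act x hx, hi x hx, hi _ (h.iA x hx), hr]
  have hpi : ∀ a, p (i a) = 0 := fun a => by
    obtain ⟨x, hx, rfl⟩ := hcA.surj a
    rw [hi x hx, hp, hc.zero x trivial]; exact hx
  have hNr : ∀ v, N (r v) = l * N v := fun v => by
    obtain ⟨x, rfl⟩ := hs v
    rw [hr, hN, hN, ← map_mul, hcZ.act _ (hsq x)]
  have hcm : ∀ x y, ⁅x, y⁆ ∈ C := fun x y => comm_mem (fun x _ => hsq x) (mem_top x) (mem_top y)
  have hfr : ∀ u v, f (r u) (r v) = l * f u v := fun u v => by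
    obtain ⟨x, rfl⟩ := hs u
    obtain ⟨y, rfl⟩ := hs v
    rw [hr, hr, hf, hf, ← map_commutatorElement, hcZ.act _ (hcm x y)]
  have hN0 : N 0 = 0 := by rw [← hπ.one, hN, mul_one, hcZ.one]
  have h1 := lin_of_gen hcA.gen (g := fun a => N (i a)) (by simp [hN0]) fun a => by simp only [← hri, hNr]
  have h2 := lin_of_gen hcA.gen (g := fun a => N (s a)) (by simp [hN0]) fun a => by simp only [← hs2, hNr]
  let q : F →+ F := (frobeniusEquiv F 2).symm.toAddMonoidHom
  have hq : ∀ a, q (a * a) = a := fun a => (frobeniusEquiv F 2).symm_apply_eq.2 (pow_two a).symm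
  have hq' : ∀ a, q a * q a = a := fun a => (pow_two _).symm.trans (frobenius_apply_frobeniusEquiv_symm F 2 a)
  have hqm : ∀ a b, q (a * b) = q a * q b := fun a b => map_mul (frobeniusEquiv F 2).symm a b
  have h3 : ∀ a b, f (s b) (i a) = f (s 1) (i 1) * (q b * q a) := fun a b => by
    have := alt_zero ((f.compl₂ i).comp s - f (s 1) (i 1) • (AddMonoidHom.mul.compl₂ q).comp q) hcA.gen
      (fun x y => by
        show f (s (l * x)) (i (l * y)) - f (s 1) (i 1) * (q (l * x) * q (l * y)) =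
          l * (f (s x) (i y) - f (s 1) (i 1) * (q x * q y))
        rw [← hs2, ← hri, hfr, hqm, hqm]
        linear_combination (-(f (s 1) (i 1)) * q x * q y) * hq' l)
      (by
        show f (s 1) (i 1) - f (s 1) (i 1) * (q 1 * q 1) = 0
        rw [hq', mul_one, sub_self]) b a
    exact sub_eq_zero.1 this
  obtain ⟨a1, ha1, e1⟩ := hcA.surj 1
  have ha1' : a1 ∉ C := fun e => one_ne_zero (e1.symm.trans ((hcA.zero _ ha1).2 e))
  have k1 : N (i 1) ≠ 0 := by
    rw [← e1, hi _ ha1, hN, Ne, hcZ.zero _ (hsq _), mem_bot]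
    exact fun e => ha1' ((h.hig.memZ _).2 ⟨ha1, e⟩)
  have k3 : f (s 1) (i 1) ≠ 0 := by
    obtain ⟨x, e⟩ := hs (s 1)
    rw [← e, ← e1, hi _ ha1, hf, Ne, hcZ.zero _ (hcm _ _), mem_bot, commutatorElement_eq_one_iff_mul_comm]
    refine fun e2 => ha1' (hnd x (fun hx => one_ne_zero (α := F) ?_) a1 ha1 e2.symm)
    rw [← hs1 1, ← e, hp, hc.zero x trivial]; exact hx
  generalize N (i 1) = κ1 at *
  generalize N (s 1) = κ2 at *
  generalize f (s 1) (i 1) = κ3 at *
  let g : F × F →+ V := AddMonoidHom.mk' (fun v => i (v.1 * v.1) + s (κ1 / κ3 * v.2 * (κ1 / κ3 * v.2))) fun u v => by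
    rw [Prod.fst_add, Prod.snd_add, mul_add (κ1 / κ3), CharTwo.add_mul_self, CharTwo.add_mul_self, map_add, map_add,
      add_add_add_comm]
  have hg : ∀ v, g v = i (v.1 * v.1) + s (κ1 / κ3 * v.2 * (κ1 / κ3 * v.2)) := fun _ => rfl
  have hb : Function.Bijective g := by
    refine ⟨(injective_iff_map_eq_zero g).2 fun v e => ?_, fun v => ?_⟩
    · have e2 := congrArg p e
      rw [hg, map_add, hpi, hs1, zero_add, map_zero, mul_self_eq_zero] at e2
      rw [hg, e2, mul_zero, map_zero, add_zero] at e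
      have e3 := h1 (v.1 * v.1)
      simp only [e, hN0] at e3
      exact Prod.ext (mul_self_eq_zero.1 ((mul_eq_zero.1 e3.symm).resolve_right k1))
        ((mul_eq_zero.1 e2).resolve_left (div_ne_zero k1 k3))
    · obtain ⟨x, e⟩ := hs (v + s (p v))
      have hx : x ∈ A := (hc.zero x trivial).1 (by rw [← hp, e, map_add, hs1, CharTwo.add_self_eq_zero])
      refine ⟨(q (cA x), κ3 / κ1 * q (p v)), ?_⟩
      rw [hg, ← mul_assoc (κ1 / κ3), div_mul_div_cancel₀ k3, div_self k1, one_mul, hq', hq', hi x hx, e, add_assoc,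
        hV, add_zero]
  let e := AddEquiv.ofBijective g hb
  refine ⟨_, _, κ1 * κ2 / κ3 ^ 2, (⟨hπ, hcZ.toAdd, fun x => (hN x).symm⟩ : QD C π cZ N).comp e.symm
    (AddAut.mulLeft (Units.mk0 _ (inv_ne_zero k1))) fun v => ?_⟩
  obtain ⟨w, rfl⟩ := e.surjective v
  rw [e.symm_apply_apply]
  show κ1⁻¹ * N (g w) = _
  rw [hg, hNf, h1, h2, h3, hq, hq]
  field_simp
  ring

end Pr

end CA.Tcs
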